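import Cfsg.Agent.Perm.Ito1

/-! Linked symmetric designs and automorphisms of odd order of 2-transitive groups. -/

set_option autoImplicit false

open scoped Classical

namespace CF.Perm

open MulAction Subgroup Finset

theorem linked_arith {n k l k' A B : ℤ} (hk : 1 < k) (hk' : 1 < k') (h1 : k + 1 < n) (h2 : k' + 1 < n)
    (hc : IsCoprime k n) (e : k * (k - 1) = (n - 1) * l) (e1 : k * A + (n - k) * B = k' * k)
    (e2 : k * (A * A) + (n - k) * (B * B) = k' * (k + (k' - 1) * l)) : False := by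
  have e3 : k * (n - k) * ((n - 1) * (A - B) ^ 2 - k' * (n - k')) = 0 := by
    linear_combination (n - 1) * n * e2 - (n - 1) * (k * A + (n - k) * B + k' * k) * e1 - n * k' * (k' - 1) * e
  have e4 : (n - 1) * (A - B) ^ 2 = k' * (n - k') :=
    sub_eq_zero.1 ((mul_eq_zero.1 e3).resolve_left (mul_pos (by omega) (by omega)).ne')
  obtain ⟨c, hc⟩ : n ∣ k' - (A - B) := hc.symm.dvd_of_dvd_mul_left ⟨B, by linear_combination -e1⟩
  have h3 : A - B < k' := by
    by_contra! h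
    have h1 : (n - 1) * (k' * k') ≤ (n - 1) * ((A - B) * (A - B)) :=
      mul_le_mul_of_nonneg_left (mul_le_mul h h (by omega) (by omega)) (by omega)
    nlinarith [mul_pos (mul_pos (by omega : 0 < k') (by omega : 0 < n)) (by omega : 0 < k' - 1)]
  have h4 : k' - n < A - B := by
    by_contra! h
    have h' : n - k' ≤ B - A := by omega
    have h1 : (n - 1) * ((n - k') * (n - k')) ≤ (n - 1) * ((B - A) * (B - A)) :=
      mul_le_mul_of_nonneg_left (mul_le_mul h' h' (by omega) (by omega)) (by omega)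
    nlinarith [mul_pos (mul_pos (by omega : 0 < n - k') (by omega : 0 < n)) (by omega : 0 < n - k' - 1)]
  exact absurd (Int.le_of_dvd (a := n) (b := k' - (A - B)) (by omega) ⟨c, hc⟩) (by omega)

variable {G Ω : Type*} [Group G] [MulAction G Ω]

/-- `Ω` with the action twisted by an automorphism -/
def Tw (_ : MulAut G) (Ω : Type*) := Ω

instance (α : MulAut G) : MulAction G (Tw α Ω) := MulAction.compHom Ω α.symm.toMonoidHom

instance (α : MulAut G) {Ω : Type*} [h : Fintype Ω] : Fintype (Tw α Ω) := h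

instance (α : MulAut G) {Ω : Type*} [h : Nonempty Ω] : Nonempty (Tw α Ω) := h

theorem exists_perm_of_fix [Finite Ω] [IsPretransitive G Ω] {α : MulAut G} {o p : Ω}
    (h : ∀ g : G, g • o = o → α g • p = p) : ∃ σ : Equiv.Perm Ω, ∀ (g : G) x, σ (g • x) = α g • σ x := by
  choose t ht using MulAction.exists_smul_eq G o
  have h1 : ∀ g : G, α (t (g • o)) • p = α g • p := fun g => by
    rw [← inv_smul_eq_iff, ← mul_smul, ← map_inv, ← map_mul, h]
    rw [mul_smul, ht, inv_smul_smul]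
  refine ⟨Equiv.ofBijective (fun x => α (t x) • p) (Finite.surjective_iff_bijective.1 fun y => ?_), fun g x => ?_⟩
  · obtain ⟨g, rfl⟩ := MulAction.exists_smul_eq G p y
    exact ⟨α.symm g • o, by simp [h1]⟩
  · obtain ⟨k, rfl⟩ := MulAction.exists_smul_eq G o x
    simp [← mul_smul, h1]

theorem exists_fix_of_odd [Finite G] [Fintype Ω] (h2 : IsMultiplyPretransitive G Ω 2) (o : Ω) {α : MulAut G}
    (hα : Odd (orderOf α)) (ω : Ω)
    (hk : (Nat.card (orbit ((stabilizer G o).map α.toMonoidHom) ω)).Coprime (Fintype.card Ω)) :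
    ∃ p : Ω, ∀ g : G, g • o = o → α g • p = p := by
  have := isPretransitive_of_is_two_pretransitive (G := G) (α := Ω)
  by_contra! hn
  have hT : ∀ β : MulAut G, IsPretransitive G (Tw β Ω) := fun β => ⟨fun a b => by
    obtain ⟨g, hg⟩ := MulAction.exists_smul_eq G (α := Ω) a b
    exact ⟨β g, (congrArg (fun t : G => t • (show Ω from a)) (β.symm_apply_apply g)).trans hg⟩⟩
  let I : MulAut G → Ω → Ω → Ω → Prop := fun β ω p q => ∃ g : G, β g • ω = p ∧ g • o = q
  have hI : ∀ β ω (g : G) p q, I β ω (β g • p) (g • q) ↔ I β ω p q := fun β ω g p q =>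
    ⟨fun ⟨k, e1, e2⟩ => ⟨g⁻¹ * k, by rw [map_mul, map_inv, mul_smul, e1, inv_smul_smul], by
      rw [mul_smul, e2, inv_smul_smul]⟩, fun ⟨k, e1, e2⟩ => ⟨g * k, by rw [map_mul, mul_smul, e1], by
      rw [mul_smul, e2]⟩⟩
  have hI' : ∀ β ω (g : G) p (q : Tw β Ω), I β ω (g • p) (g • q : Tw β Ω) ↔ I β ω p q := fun β ω g p q => by
    rw [← hI β ω (β.symm g) p q, MulEquiv.apply_symm_apply]; rfl
  have hb : ∀ β ω, (∀ p : Ω, ∃ g : G, g • o = o ∧ β g • p ≠ p) → ∀ q, ¬ I β ω q o →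
      1 < #{p | I β ω p o} ∧ #{p | I β ω p o} + 1 < Fintype.card Ω := fun β ω hn q hq => by
    obtain ⟨g, e1, e2⟩ := hn ω
    obtain ⟨g', e3, e4⟩ := hn q
    refine ⟨one_lt_card.2 ⟨_, mem_filter.2 ⟨mem_univ _, g, rfl, e1⟩, ω,
      mem_filter.2 ⟨mem_univ _, 1, by simp, by simp⟩, e2⟩, ?_⟩
    have := card_filter_add_card_filter_not (s := univ) (I β ω · o)
    have h3 : 1 < #{p | ¬ I β ω p o} := one_lt_card.2 ⟨_, mem_filter.2 ⟨mem_univ _,
      fun e => hq ((hI β ω g' q o).1 (e3.symm ▸ e))⟩, q, mem_filter.2 ⟨mem_univ _, hq⟩, e4⟩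
    rw [card_univ] at this
    omega
  have hk1 : Nat.card (orbit ((stabilizer G o).map α.toMonoidHom) ω) = #{p | I α ω p o} := by
    rw [Nat.card_eq_fintype_card, Fintype.card_subtype]
    exact congrArg _ (filter_congr fun p _ => ⟨fun ⟨⟨_, g, hg, rfl⟩, e⟩ => ⟨g, e, hg⟩,
      fun ⟨g, e, hg⟩ => ⟨⟨_, g, hg, rfl⟩, e⟩⟩)
  have : Nontrivial Ω := let ⟨g, _, e⟩ := hn o; ⟨_, _, e⟩
  obtain ⟨q, hq⟩ : ∃ q, ¬ I α ω q o := by
    by_contra! hc
    rw [hk1, filter_true_of_mem fun p _ => hc p, card_univ, Nat.coprime_self] at hk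
    exact Fintype.one_lt_card.ne' hk
  have := hT α
  have := hT (α * α)
  obtain ⟨h3, -, ht⟩ := card_fixedBy_eq_of_inc (X := Tw α Ω) h2 rfl (hI' α ω) (b := o) (p := ω)
    ⟨1, by rw [map_one, one_smul], one_smul G o⟩ hq
  have hn' : ∀ p : Ω, ∃ g : G, g • o = o ∧ (α * α) g • p ≠ p := fun p => by
    by_contra! hc
    obtain ⟨σ, hσ⟩ := exists_perm_of_fix hc
    obtain ⟨m, hm⟩ := hα
    have h4 : ∀ j (g : G) x, (σ ^ j) (g • x) = ((α * α) ^ j) g • (σ ^ j) x := fun j => by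
      induction j with
      | zero => simp
      | succ j ih => intro g x; rw [pow_succ', pow_succ', Equiv.Perm.mul_apply, ih, hσ]; rfl
    obtain ⟨g, e1, e2⟩ := hn ((σ ^ (m + 1)) o)
    have := h4 (m + 1) g o
    rw [e1, ← sq, ← pow_mul, show 2 * (m + 1) = orderOf α + 1 by omega, pow_succ α (orderOf α),
      pow_orderOf_eq_one, one_mul] at this
    exact e2 this.symm
  obtain ⟨q', hq'⟩ : ∃ q, ¬ I (α * α) o q o := by
    by_contra! hc
    have := Fintype.ofFinite G
    have h4 : ∀ g : G, Nat.card (fixedBy (Tw (α * α) Ω) g) = Nat.card (fixedBy Ω g) := fun g =>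
      (h3 (α.symm g)).trans (h3 g)
    have h5 := CF.Char.inner_fixedBy_fixedBy (G := G) Ω (Tw (α * α) Ω)
    simp only [h4] at h5
    rw [CF.Char.inner_fixedBy_fixedBy, (CF.Char.card_orbits_prod_eq_two_iff Ω).2 h2, Nat.cast_inj, eq_comm,
      Nat.card_eq_two_iff] at h5
    obtain ⟨x, y, h6, -⟩ := h5
    have h7 : ∀ x : orbitRel.Quotient G (Ω × Tw (α * α) Ω), x = Quotient.mk'' (o, o) := fun x => by
      obtain ⟨⟨p, r⟩, rfl⟩ := Quotient.mk''_surjective x
      obtain ⟨g, rfl⟩ := MulAction.exists_smul_eq G (show Tw (α * α) Ω from o) r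
      obtain ⟨k, e1, e2⟩ := hc (g⁻¹ • p)
      refine Quotient.sound' (orbitRel_apply.2 ⟨g * (α * α) k, Prod.ext ?_ ?_⟩)
      · show (g * (α * α) k) • o = p
        rw [mul_smul, e1, smul_inv_smul]
      · show (α * α).symm (g * (α * α) k) • o = (α * α).symm g • o
        rw [map_mul, MulEquiv.symm_apply_apply, mul_smul, e2]
    exact h6 ((h7 x).trans (h7 y).symm)
  obtain ⟨k, l, e1, e2, e3, e4⟩ := exists_design (X := Tw α Ω) h2 (Fintype.card_congr (Equiv.refl _)) (hI' α ω)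
  obtain ⟨h4, h5⟩ := hb α ω hn q hq
  obtain ⟨h6, h7⟩ := hb _ o hn' q' hq'
  let J : Finset Ω := {p | I (α * α) o p o}
  let f : Ω → ℕ := fun q => #{p ∈ J | I α ω p q}
  have h8 : ∀ (g : G) q, g • o = o → f (α g • q) = f q := fun g q hg =>
    (card_equiv (toPerm ((α * α) g)) fun p => by
      simp only [J, mem_filter, mem_univ, true_and, toPerm_apply]
      rw [← hI _ o g p o, hg, ← hI α ω (α g) p q]; rfl).symm
  have h9 : ∀ r, f r = if I α ω r o then f ω else f q := fun r => by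
    split_ifs with h
    · obtain ⟨g, rfl, hg⟩ := h
      exact h8 g ω hg
    · obtain ⟨g, hg, rfl⟩ := ht q r hq h
      rw [← h8 (α.symm g) q hg, MulEquiv.apply_symm_apply]
  have hs : ∀ φ : ℕ → ℕ, ∑ r, φ (f r) = k * φ (f ω) + (Fintype.card Ω - k) * φ (f q) := fun φ => by
    rw [sum_congr rfl fun r _ => (congrArg φ (h9 r)).trans (apply_ite φ _ _ _), sum_ite, sum_const, sum_const,
      smul_eq_mul, smul_eq_mul, ← e1 o, ← card_univ, ← card_filter_add_card_filter_not (s := univ) (I α ω · o),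
      Nat.add_sub_cancel_left]
  have s1 : ∑ r, f r = #J * k := by
    simp only [f, card_filter]
    rw [sum_comm, ← smul_eq_mul, ← sum_const]
    exact sum_congr rfl fun p _ => by rw [← e2 p, card_filter]; rfl
  have s2 : ∑ r, f r * f r = #J * (k + (#J - 1) * l) := by
    simp only [f, card_filter, sum_mul_sum]
    rw [sum_comm, ← smul_eq_mul, ← sum_const]
    refine sum_congr rfl fun p hp => ?_
    rw [sum_comm, ← add_sum_erase _ _ hp, ← card_erase_of_mem hp, ← smul_eq_mul, ← sum_const, ← e2 p, card_filter]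
    refine congrArg₂ _ (sum_congr rfl fun r _ => ?_) (sum_congr rfl fun p' hp' => ?_)
    · split_ifs <;> rfl
    · rw [← e3 p p' (ne_of_mem_erase hp').symm, card_filter]
      exact sum_congr rfl fun r _ => by rw [ite_zero_mul_ite_zero]; rfl
  rw [hs fun x => x] at s1
  rw [hs fun x => x * x] at s2
  rw [hk1, show #{p | I α ω p o} = k from e1 o] at hk
  rw [show #{p | I α ω p o} = k from e1 o] at h4 h5
  zify [h4.le, show 1 ≤ #J from h6.le, (by omega : k ≤ Fintype.card Ω), (by omega : 1 ≤ Fintype.card Ω)] at s1 s2 e4 h4 h5 h6 h7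
  exact linked_arith h4 h6 h5 h7 (Nat.isCoprime_iff_coprime.2 hk) e4 s1 s2

theorem exists_conj_of_odd [Fintype Ω] (G : Subgroup (Equiv.Perm Ω)) (h2 : IsMultiplyPretransitive G Ω 2) (o : Ω)
    {α : MulAut G} (hα : Odd (orderOf α)) (ω : Ω)
    (hk : (Nat.card (orbit ((stabilizer G o).map α.toMonoidHom) ω)).Coprime (Fintype.card Ω)) :
    ∃ σ : Equiv.Perm Ω, σ ∈ normalizer (G : Set (Equiv.Perm Ω)) ∧
      ∀ g : G, ((α g : G) : Equiv.Perm Ω) = σ * (g : Equiv.Perm Ω) * σ⁻¹ := by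
  have := isPretransitive_of_is_two_pretransitive (G := G) (α := Ω)
  obtain ⟨p, hp⟩ := exists_fix_of_odd h2 o hα ω hk
  obtain ⟨σ, hσ⟩ := exists_perm_of_fix hp
  have h : ∀ g : G, ((α g : G) : Equiv.Perm Ω) = σ * (g : Equiv.Perm Ω) * σ⁻¹ := fun g =>
    eq_mul_inv_of_mul_eq (Equiv.ext fun x => (hσ g x).symm)
  refine ⟨σ, mem_normalizer_iff.2 fun x => ⟨fun hx => h ⟨x, hx⟩ ▸ (α ⟨x, hx⟩).2, fun hx => ?_⟩, h⟩
  have := h (α.symm ⟨_, hx⟩)
  rw [MulEquiv.apply_symm_apply] at this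
  exact (mul_left_cancel (mul_right_cancel this) : x = _) ▸ (α.symm ⟨_, hx⟩).2

end CF.Perm
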