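import Cfsg.Agent.Perm.TW2

/-! Primitive groups with an alternating or symmetric subconstituent. -/

namespace CF.Perm

open MulAction Subgroup Cfsg CF.BG CF.Sig CF.Recog Equiv
open scoped commutatorElement

variable {G : Type*} [Group G] {H K N D : Subgroup G} {n : ℕ}

theorem cent_alt (h : 5 ≤ n) : 𝐂 (alternatingGroup (Fin n)) = ⊥ := by
  by_contra e
  have := (nontrivial_iff_ne_bot _).2 e
  have h1 := comm_eq_bot.2 (Perm.alternatingGroup_le_of_normal (N := 𝐂 (alternatingGroup (Fin n)))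
    (by simpa) this)
  rw [commutator_alternatingGroup_eq_self (by simpa)] at h1
  have := alternatingGroup.nontrivial_of_three_le_card (α := Fin n) (by simp; omega)
  exact (nontrivial_iff_ne_bot _).1 this h1

theorem alt_le_of_norm (h : 5 ≤ n) {N : Subgroup (Perm (Fin n))}
    (h1 : alternatingGroup (Fin n) ≤ 𝐍 N) (h2 : N ≠ ⊥) : alternatingGroup (Fin n) ≤ N := by
  have := alternatingGroup.isSimpleGroup (α := Fin n) (by simpa)
  refine subgroupOf_eq_top.1 ((normalIn_inf_right h1).normal.eq_bot_or_eq_top.resolve_left fun e => h2 ?_)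
    |>.trans inf_le_left
  rw [subgroupOf_eq_bot, disjoint_iff, inf_assoc, inf_idem] at e
  exact eq_bot_mono (cent_alt h) (comm_eq_bot.1 (eq_bot_mono e
    (le_inf (comm_le_left h1) (commutator_le_right _ _))))

/-- `φ` maps `H` onto the alternating or symmetric group, with kernel `K` -/
structure IsBig (φ : H →* Perm (Fin n)) (K : Subgroup G) : Prop where
  le : K ≤ H
  ker : φ.ker = K.subgroupOf H
  alt : alternatingGroup (Fin n) ≤ φ.range

/-- `H / K` is the alternating or symmetric group of degree `n` -/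
def Big (n : ℕ) (H K : Subgroup G) : Prop := ∃ φ : H →* Perm (Fin n), IsBig φ K

namespace IsBig
variable {φ : H →* Perm (Fin n)} (h : IsBig φ K)
include h

theorem map_eq_bot (hN : N ≤ H) : (N.subgroupOf H).map φ = ⊥ ↔ N ≤ K := by
  rw [Subgroup.map_eq_bot_iff, h.ker]
  exact ⟨fun e g hg => e (show (⟨g, hN hg⟩ : H) ∈ _ from hg), subgroupOf_mono _⟩

theorem alt_le (h5 : 5 ≤ n) (hN : N ⊴ H) (e : ¬ N ≤ K) :
    alternatingGroup (Fin n) ≤ (N.subgroupOf H).map φ := by
  have := hN.normal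
  refine alt_le_of_norm h5 (h.alt.trans ?_) (mt (h.map_eq_bot hN.le).1 e)
  simpa [normalizer_eq_top, ← MonoidHom.range_eq_map] using le_normalizer_map (H := N.subgroupOf H) φ

theorem relIndex (hD : D ≤ H) : K.relIndex D = Nat.card ((D.subgroupOf H).map φ) := by
  rw [← relIndex_ker, h.ker, relIndex_subgroupOf hD]

end IsBig

theorem big_of {α : Type*} [Finite α] (φ : H →* Perm α) (h1 : Nat.card α = n) (h2 : K ≤ H)
    (h3 : ∀ g, φ g = 1 ↔ g.1 ∈ K) (h4 : n.factorial ≤ 2 * K.relIndex H) :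
    IsBig ((Finite.equivFinOfCardEq h1).permCongrHom.toMonoidHom.comp φ) K := by
  have h5 : ((Finite.equivFinOfCardEq h1).permCongrHom.toMonoidHom.comp φ).ker = K.subgroupOf H := by
    rw [MonoidHom.ker_comp_of_injective _ _ (MulEquiv.injective _)]; exact Subgroup.ext h3
  generalize (Finite.equivFinOfCardEq h1).permCongrHom.toMonoidHom.comp φ = ψ at *
  refine ⟨h2, h5, Perm.alternatingGroup_le_of_index_le_two (Nat.le_of_mul_le_mul_left ?_
    (Nat.card_pos (α := ψ.range)))⟩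
  rw [card_mul_index, ← index_ker, h5, Nat.card_perm, Nat.card_fin, mul_comm]
  exact h4

namespace Big
variable (h : Big n H K)
include h

theorem le : K ≤ H := h.choose_spec.le

theorem card_le (hD : D ≤ H) : K.relIndex D ≤ n.factorial := by
  obtain ⟨φ, h⟩ := h
  rw [h.relIndex hD]
  simpa [Fintype.card_perm] using card_le_card_group ((D.subgroupOf H).map φ)

variable (h5 : 5 ≤ n)
include h5

theorem le_card : n.factorial ≤ 2 * K.relIndex H := by
  obtain ⟨φ, h⟩ := h
  have := Fin.nontrivial_iff_two_le.2 (show 2 ≤ n by omega)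
  have h1 := two_mul_nat_card_alternatingGroup (α := Fin n)
  rw [Nat.card_perm, Nat.card_fin] at h1
  rw [h.relIndex le_rfl, subgroupOf_self, ← MonoidHom.range_eq_map, ← h1]
  exact Nat.mul_le_mul_left 2 (card_le_of_le h.alt)

theorem sub (hN : N ⊴ H) (e : ¬ N ≤ K) : Big n N (N ⊓ K) := by
  obtain ⟨φ, h⟩ := h
  refine ⟨φ.comp (inclusion hN.le), inf_le_left, ?_, (h.alt_le h5 hN e).trans ?_⟩
  · ext g; simp [← MonoidHom.comap_ker, h.ker, mem_subgroupOf]
  · rintro _ ⟨g, hg, rfl⟩; exact ⟨⟨g, hg⟩, rfl⟩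

theorem cent_le (hN : N ⊴ H) (e : ¬ N ≤ K) : H ⊓ 𝐂 N ≤ K := by
  obtain ⟨φ, h⟩ := h
  refine (h.map_eq_bot inf_le_left).1 (eq_bot_mono (cent_alt h5) (le_trans ?_
    (cent_anti (h.alt_le h5 hN e))))
  rintro _ ⟨g, hg, rfl⟩ _ ⟨k, hk, rfl⟩
  rw [← map_mul, ← map_mul]
  exact congrArg φ (Subtype.ext (hg.2 _ hk))

theorem der_le (hN : N ⊴ H) (e : ¬ N ≤ K) : ⁅H, H⁆ ≤ N ⊔ K := by
  obtain ⟨φ, h⟩ := h
  rw [← map_subtype_commutator, map_le_iff_le_comap, comap_subtype, subgroupOf_sup hN.le h.le,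
    ← h.ker, ← comap_map_eq, ← map_le_iff_le_comap]
  refine le_trans ?_ (alternatingGroup.commutator_perm_le.trans (h.alt_le h5 hN e))
  rw [commutator_def, map_commutator]
  exact commutator_mono le_top le_top

theorem le_of_sol (hN : N ⊴ H) (s : Sol N) : N ≤ K := by
  obtain ⟨φ, h⟩ := h
  by_contra e
  have h1 := ((s.subgroupOf H).map φ).mono (h.alt_le h5 hN e)
  have := alternatingGroup.nontrivial_of_three_le_card (α := Fin n) (by simp; omega)
  exact (nontrivial_iff_ne_bot _).1 this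
    (Sol.eq_bot_of_le_der h1 (commutator_alternatingGroup_eq_self (by simpa)).ge)

end Big

variable {Ω : Type*} [MulAction G Ω] [Finite Ω] [Finite G] {r : Ω → Ω → Prop} {x y : Ω} {d : ℕ}

/-- an orbital of valency `d` whose subconstituent contains the alternating group -/
structure OB (G : Type*) {Ω : Type*} [Group G] [MulAction G Ω] (r : Ω → Ω → Prop) (d : ℕ) : Prop where
  orb : Orb G r
  card : ∀ x, {z | r x z}.ncard = d
  big : ∀ x, d.factorial ≤ 2 * (Kr G r x).relIndex (stabilizer G x)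
  six : 6 ≤ d
  ne : Nonempty Ω

omit [Finite G] [Finite Ω] in
theorem ob_of (h : Orb G r) (h1 : {z | r x z}.ncard = d)
    (h2 : d.factorial ≤ 2 * (Kr G r x).relIndex (stabilizer G x)) (h6 : 6 ≤ d) : OB G r d := by
  refine ⟨h, fun y => ?_, fun y => ?_, h6, ⟨x⟩⟩ <;> obtain ⟨g, rfl⟩ := h.exists_smul x y
  · rw [← h1, ← Set.ncard_smul_set g {z | r x z}]
    congr 1; ext z
    rw [Set.mem_smul_set_iff_inv_smul_mem, Set.mem_ofPred, Set.mem_ofPred, ← h.iff g⁻¹, inv_smul_smul]
  · rwa [← h.cj_Kr, ← cj_stab, relIndex_cj]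

namespace OB
variable (h : OB G r d)
include h

omit [Finite G] in
theorem exists_big (x : Ω) : ∃ φ : stabilizer G x →* Perm (Fin d), IsBig φ (Kr G r x) ∧
    ∀ y, r x y → ∃ i, ∀ g, φ g i = i → g.1 • y = y :=
  have h1 := (Nat.card_coe_set_eq _).trans (h.card x)
  ⟨_, big_of (restrHom (stabilizer G x) {z | r x z} fun g hg y hy => by
      simpa [show g • x = x from hg] using h.orb.inv g hy) h1
    Kr_le (fun g => by rw [restrHom_eq_one, mem_Kr]; exact (and_iff_right g.2).symm) (h.big x),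
    fun y hy => ⟨Finite.equivFinOfCardEq h1 ⟨y, hy⟩, fun g e => by
      have := congrArg (Finite.equivFinOfCardEq h1).symm e
      simp only [MonoidHom.comp_apply, MulEquiv.coe_toMonoidHom, permCongrHom_coe, permCongr_apply,
        symm_apply_apply] at this
      exact congrArg Subtype.val this⟩⟩

omit [Finite G] in
theorem big1 (x : Ω) : Big d (stabilizer G x) (Kr G r x) := (h.exists_big x).imp fun _ h => h.1

omit [Finite G] in
theorem le_sup (hxy : r x y) (hN : N ⊴ stabilizer G x) (e : ¬ N ≤ Kr G r x) :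
    stabilizer G x ≤ N ⊔ (stabilizer G x ⊓ stabilizer G y) := fun g hg => by
  obtain ⟨φ, h1, h2⟩ := h.exists_big x
  obtain ⟨i, hi⟩ := h2 y hxy
  have := h.six
  have := alternatingGroup.isPretransitive_of_three_le_card (Fin d) (by simp; omega)
  obtain ⟨⟨s, hs⟩, e1⟩ := exists_smul_eq (alternatingGroup (Fin d)) i (φ ⟨g, hg⟩ i)
  obtain ⟨k, hk, rfl⟩ := h1.alt_le (by omega) hN e hs
  simpa using mul_mem (mem_sup_left (S := N) hk) (mem_sup_right (S := N) (mem_inf.2 ⟨(k⁻¹ * ⟨g, hg⟩).2,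
    hi (k⁻¹ * ⟨g, hg⟩) (by rw [map_mul, map_inv, Perm.mul_apply, Perm.inv_eq_iff_eq]; exact e1.symm)⟩))

omit [Finite G] in
theorem relIndex (hxy : r x y) : (stabilizer G x ⊓ stabilizer G y).relIndex (stabilizer G x) = d := by
  rw [inf_relIndex_left, ← h.orb.ncard_eq hxy, h.card]

omit [Finite G] in
theorem big2 (hxy : r x y) : Big (d - 1) (stabilizer G x ⊓ stabilizer G y) (Kr G r x) := by
  have h1 := le_inf Kr_le (Kr_le' (G := G) hxy)
  refine ⟨_, big_of (restrHom (stabilizer G x ⊓ stabilizer G y) ({z | r x z} \ {y}) fun g hg z hz => ⟨by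
      simpa [show g • x = x from (mem_inf.1 hg).1] using h.orb.inv g hz.1, fun e => hz.2
        (smul_left_cancel g (e.trans (show g • y = y from (mem_inf.1 hg).2).symm))⟩)
    (by rw [Nat.card_coe_set_eq, Set.ncard_sdiff_singleton_of_mem (by exact hxy), h.card]) h1
    (fun g => ?_) ?_⟩
  · refine restrHom_eq_one.trans (.trans ?_ mem_Kr.symm)
    refine ⟨fun e => ⟨g.2.1, fun z hz => ?_⟩, fun e z hz => e.2 z hz.1⟩
    by_cases e' : z = y
    exacts [e' ▸ g.2.2, e z ⟨hz, e'⟩]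
  · have h2 := h.big x
    have := h.six
    rw [← relIndex_mul_relIndex _ _ _ h1 inf_le_left, h.relIndex hxy, ← mul_assoc,
      ← Nat.mul_factorial_pred (by omega), mul_comm] at h2
    exact Nat.le_of_mul_le_mul_right h2 (by omega)

variable [FaithfulSMul G Ω] (hp : IsPreprimitive G Ω)
include hp

theorem flip : OB G (flip r) d := by
  obtain ⟨x⟩ := h.ne
  have := h.six
  obtain ⟨U, -, ⟨h1, h2⟩, h3⟩ := exists_minimal (P := fun U => U ≤ stabilizer G x ∧
    Big d U (U ⊓ Kr G r x)) ⟨le_rfl, by simpa [inf_eq_right.2 Kr_le] using h.big1 x⟩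
  by_cases e : ∃ y, U ≤ stabilizer G y ∧ U ⊓ Kr G (_root_.flip r) y ≤ U ⊓ Kr G r x
  · obtain ⟨y, e1, e2⟩ := e
    obtain ⟨z, hz⟩ := h.orb.inn y
    refine ob_of h.orb.flip ((h.orb.ncard_flip hz).trans (h.card z)) ((h2.le_card (by omega)).trans
      (Nat.mul_le_mul_left 2 ((relIndex_le_of_le_left e2 (relIndex_ne_zero' _ _)).trans ?_))) h.six
    rw [inf_relIndex_left]
    exact relIndex_le_of_le_right e1 (relIndex_ne_zero' _ _)
  push Not at e
  obtain ⟨c, hc⟩ := h.orb.inn x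
  obtain ⟨g, rfl⟩ := h.orb.exists_smul x c
  have : Nontrivial Ω := ⟨_, _, h.orb.ne hc⟩
  have h4 : ∀ k ∈ closure ((stabilizer G x : Set G) ∪ {g}), U ≤ stabilizer G (k • x) := fun k hk => by
    rw [← mem_toSubmonoid, closure_toSubmonoid_of_finite] at hk
    induction hk using Submonoid.closure_induction_right with
    | one => rwa [one_smul]
    | mul_right k _ l hl ih =>
      rcases hl with hl | rfl
      · rwa [mul_smul, show l • x = x from hl]
      have h5 := ((h.orb.flip.Kr_normal (k • x)).inf_left ih)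
      have h6 := h2.sub (by omega) h5 (e _ ih)
      rw [← inf_assoc, inf_eq_left.2 h5.le] at h6
      exact ((h3 _ ⟨h5.le.trans h1, h6⟩ h5.le).ge.trans inf_le_right).trans
        (Kr_le' (r := _root_.flip r) (mul_smul k l x ▸ h.orb.inv k hc))
  rw [Subgroup.closure_union, closure_eq, (IsPreprimitive.isCoatom_stabilizer_of_isPreprimitive G x).2 _
    (lt_of_le_of_ne le_sup_left fun e => h.orb.ne hc
      (e.ge (mem_sup_right (Subgroup.subset_closure (Set.mem_singleton g)))))] at h4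
  refine (e x h1 (inf_le_left.trans (le_trans (fun u hu => eq_of_smul_eq_smul (α := Ω) fun y => ?_ :
    U ≤ ⊥) bot_le))).elim
  obtain ⟨k, rfl⟩ := h.orb.exists_smul x y
  exact (h4 k trivial hu).trans (one_smul G _).symm

theorem eq_bot (hxy : r x y) (h1 : N ⊴ stabilizer G x) (h2 : stabilizer G y ≤ 𝐍 N) : N = ⊥ :=
  by_contra fun e => h.orb.ne hxy (eq_of_norm hp e h1 h2)

theorem big2' (hxy : r x y) :
    Big (d - 1) (stabilizer G x ⊓ stabilizer G y) (Kr G (_root_.flip r) y) :=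
  inf_comm (stabilizer G x) _ ▸ (h.flip hp).big2 hxy

theorem F_inf (hxy : r x y) : 𝐅 (stabilizer G x ⊓ stabilizer G y) = ⊥ := by
  have := h.six
  have h1 : ∀ {K L : Subgroup G}, Big (d - 1) L K → K ⊴ L → 𝐅 L = 𝐅 K := fun h1 h2 =>
    le_antisymm (subN_le_F ((F_normal _).of_le (h1.le_of_sol (by omega) (F_normal _) (F_nil _).sol)
      h2.le).subN (F_nil _)) (subN_F_le h2.subN)
  refine h.eq_bot hp hxy ?_ ?_
  · rw [h1 (h.big2 hxy) ((h.orb.Kr_normal x).of_le (h.big2 hxy).le inf_le_left)]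
    exact (h.orb.Kr_normal x).F
  · rw [h1 (h.big2' hp hxy) ((h.orb.flip.Kr_normal y).of_le (h.big2' hp hxy).le inf_le_right)]
    exact (h.orb.flip.Kr_normal y).F.norm

theorem F_eq (x : Ω) : 𝐅 (stabilizer G x) = ⊥ := by
  obtain ⟨y, hxy⟩ := h.orb.out x
  have := h.six
  exact eq_bot_mono (h.F_inf hp hxy) (subN_le_F ((F_normal _).of_le (((h.big1 x).le_of_sol (by omega)
    (F_normal _) (F_nil _).sol).trans (h.big2 hxy).le) inf_le_left).subN (F_nil _))

theorem eq_bot_of_Lay (h1 : SubN N (stabilizer G x)) (h2 : Lay N = ⊥) : N = ⊥ := by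
  have := cent_F_le_of_Lay h2
  rwa [eq_bot_mono (h.F_eq hp x) (subN_F_le h1), cent_bot, inf_top_eq, le_bot_iff] at this

theorem cent_inf (x : Ω) : (stabilizer G x ⊓ 𝐂 (Kr G r x)) ⊓ Kr G r x = ⊥ :=
  eq_bot_mono (h.F_eq hp x) ((le_inf inf_le_right (inf_le_left.trans inf_le_right)).trans
    (subN_le_F ((center_normal _).subN.trans (h.orb.Kr_normal x).subN) (center_abel _).nil))

theorem card_stab (x y : Ω) : ♯(stabilizer G x) = ♯(stabilizer G y) := by
  obtain ⟨g, rfl⟩ := h.orb.exists_smul x y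
  rw [← cj_stab, card_cj]

theorem eq_bot_of_le (hxy : r x y) (e : Kr G r x ≤ Kr G (_root_.flip r) y) :
    Kr G (_root_.flip r) y = ⊥ := by
  have := h.six
  have h1 := h.orb.flip.Kr_normal y
  refine h.eq_bot hp hxy (le_antisymm e (by_contra fun e' => ?_) ▸ h.orb.Kr_normal x) h1.norm
  have h2 := ((h.big2 hxy).sub (by omega) (h1.of_le (h.big2' hp hxy).le inf_le_right) e').le_card
    (by omega)
  have h3 := h.card_stab hp x y
  rw [← card_mul_relIndex h1.le, ← card_mul_relIndex e, ← card_mul_relIndex (Kr_le (r := r)),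
    mul_assoc, Nat.mul_right_inj Nat.card_pos.ne'] at h3
  have h4 := ((h3.ge.trans ((h.big1 x).card_le le_rfl)).trans ((h.flip hp).big y))
  have h5 := Nat.le_of_mul_le_mul_right h4 (Nat.pos_of_ne_zero (relIndex_ne_zero' _ _))
  have h6 := Nat.factorial_le (show 3 ≤ d - 1 by omega)
  rw [inf_eq_right.2 e] at h2
  simp only [Nat.factorial] at h6
  omega

theorem Lay_le_Kr (hxy : r x y) (h1 : Lay (stabilizer G y) ≤ Kr G (_root_.flip r) y) :
    Lay (stabilizer G x) ≤ Kr G r x := by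
  by_contra e
  have := h.six
  have h2 : ¬ Lay (stabilizer G y) ≤ Kr G r y := by
    obtain ⟨g, rfl⟩ := h.orb.exists_smul x y
    rwa [← cj_stab, ← cj_Lay, ← h.orb.cj_Kr, cj_le_cj]
  have h3 := normalIn_inf_cent (h.orb.Kr_normal y).norm
  have h4 := h3.char (Lay_le _) (norm_Lay _)
  have h5 := (h.big1 y).sub (by omega) h4 fun e => h2 (Lay_le_iff.2 fun J hJ =>
    (hJ.le_or_cent_subN (h.orb.Kr_normal y).subN).elim id fun c =>
      (hJ.of_le (le_inf hJ.le c) inf_le_left).le_Lay.trans e)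
  rw [eq_bot_mono (h.cent_inf hp y) (inf_le_inf_right _ (Lay_le _))] at h5
  have h6 := ((Lay_le_of_subN h3.subN).trans h1).trans (h.big2' hp hxy).le
  have h7 := (h.orb.Kr_normal x).inf_left (h6.trans inf_le_left)
  by_cases e' : Lay (stabilizer G y ⊓ 𝐂 (Kr G r y)) ⊓ Kr G r x ≤ ⊥
  · have h8 := h5.le_card (by omega)
    have h9 := (h.big2 hxy).card_le h6
    rw [← inf_relIndex_left, le_bot_iff.1 e'] at h9
    rw [← Nat.mul_factorial_pred (by omega)] at h8
    have := Nat.le_of_mul_le_mul_right (h8.trans (Nat.mul_le_mul_left 2 h9)) (Nat.factorial_pos _)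
    omega
  have h8 := h5.der_le (by omega) h7 e'
  rw [Lay_perfect, sup_bot_eq] at h8
  exact e (h.orb.le_Kr (Lay_normal _) hxy ((Lay_norm_subN ((h4.of_le (h8.trans inf_le_right)
    (Kr_le' hxy)).subN.trans (h.orb.Kr_normal x).subN)).trans
    (norm_le_stab hp (fun e => e' (inf_le_left.trans e.le)) h4)))

theorem inf_eq_bot (hxy : r x y) : Kr G r x ⊓ Kr G (_root_.flip r) y = ⊥ := by
  have h1 := h.orb.Kr_normal x
  have h2 := h.orb.flip.Kr_normal y
  have h3 := (h1.of_le (h.big2 hxy).le inf_le_left).inf (h2.of_le (h.big2' hp hxy).le inf_le_right)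
  have h4 := (h3.of_le inf_le_left (h.big2 hxy).le).subN.trans h1.subN
  have h5 := (h3.of_le inf_le_right (h.big2' hp hxy).le).subN.trans h2.subN
  have h6 := h3.norm.trans (norm_Lay _)
  have h7 : ∀ {H : Subgroup G}, SubN (Kr G r x ⊓ Kr G (_root_.flip r) y) H →
      Lay H ≤ 𝐍 (Lay (Kr G r x ⊓ Kr G (_root_.flip r) y)) := fun s =>
    Lay_norm_subN ((Lay_normal _).subN.trans s)
  by_cases e : Lay (stabilizer G x) ≤ Kr G r x
  · have l1 := e.trans (Kr_le' hxy)
    have l2 := ((h.flip hp).Lay_le_Kr hp hxy e).trans (Kr_le' (r := _root_.flip r) hxy)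
    refine eq_bot_mono (h.eq_bot_of_Lay hp .refl (Lay_eq_bot_of_le hp (h.orb.ne hxy)
      (Lay_le_iff.2 fun L hL => ?_))) h4.le
    have hLy := hL.le_Lay.trans l1
    refine (hL.le_or_cent l2 (hLy.trans (Lay_normal _).norm)).resolve_right fun hc => hL.ne_bot ?_
    refine eq_bot_mono (h.F_eq hp y) (le_trans (le_inf hLy ?_) (cent_Fst_le _))
    rwa [Fst_eq, h.F_eq hp, sup_bot_eq]
  · exact h.eq_bot_of_Lay hp h4 (h.eq_bot hp hxy ⟨(Lay_le _).trans h4.le, (h.le_sup hxy (Lay_normal _)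
      e).trans (sup_le (h7 h4) h6)⟩ (((h.flip hp).le_sup hxy (Lay_normal _)
      (mt (h.Lay_le_Kr hp hxy) e)).trans (sup_le (h7 h5) (inf_comm (stabilizer G x) _ ▸ h6))))

end OB

theorem exists_ext {C L : Subgroup G} {M : Type*} [Group M] (hC : C ⊴ H) (hL : L ≤ H) (h : H ≤ C ⊔ L)
    (φ : L →* M) (hφ : ∀ l : L, l.1 ∈ C → φ l = 1) :
    ∃ ψ : H →* M, (∀ l, ψ (inclusion hL l) = φ l) ∧ ∀ c : H, c.1 ∈ C → ψ c = 1 := by
  have := hC.normal
  have h1 : Function.Surjective ((QuotientGroup.mk' (C.subgroupOf H)).comp (inclusion hL)) := fun q => by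
    obtain ⟨⟨g, hg⟩, rfl⟩ := QuotientGroup.mk'_surjective _ q
    obtain ⟨l, hl, c, hc, rfl⟩ := (mem_sup_of_le_normalizer (hL.trans hC.norm)).1 (sup_comm C L ▸ h hg)
    exact ⟨⟨l, hl⟩, QuotientGroup.eq.2 (by simpa [mem_subgroupOf] using hc)⟩
  refine ⟨(MonoidHom.liftOfSurjective _ h1 ⟨φ, fun l hl => hφ l
    ((QuotientGroup.eq_one_iff (inclusion hL l)).1 hl)⟩).comp (QuotientGroup.mk' _), fun l => ?_, fun c hc => ?_⟩
  · exact MonoidHom.liftOfRightInverse_comp_apply _ _ (Function.rightInverse_surjInv h1) _ l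
  · rw [MonoidHom.comp_apply, show QuotientGroup.mk' _ c = 1 from (QuotientGroup.eq_one_iff _).2 hc, map_one]

end CF.Perm
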