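import Cfsg.Agent.BlockB.Slice
import Cfsg.Agent.Char.Klein
import Cfsg.Agent.Char.BSBig
import Cfsg.Agent.Char.PermLemma
import Cfsg.Agent.Transfer.Tate

/-! Abelian Sylow subgroups with automizer of order two: two characters of consecutive degrees. -/

set_option autoImplicit false
set_option linter.unusedSectionVars false

namespace CF.Cs
open Cfsg Subgroup CF.Char CF.BlockB CF.Transfer
open scoped ComplexConjugate

variable {G : Type*} [Group G] [Finite G] {q : ℕ} [hq : Fact q.Prime]

structure PM (R : Sylow q G) : Prop where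
  odd : q ≠ 2
  comm : ∀ x ∈ R, ∀ y ∈ R, x * y = y * x
  act : ∀ n ∈ normalizer ((R : Subgroup G) : Set G),
    n ∈ centralizer ((R : Subgroup G) : Set G) ∨ ∀ x ∈ R, n * x * n⁻¹ = x⁻¹
  inv : ∃ t : G, ∀ x ∈ R, t * x * t⁻¹ = x⁻¹
  ne : ∃ y ∈ R, y ≠ 1

open Classical in
noncomputable def rep (R : Subgroup G) (u : G) : R :=
  if h : ∃ y : R, IsConj (y : G) u then h.choose else 1

theorem rep_conj {R : Subgroup G} {u : G} (h : ∃ y : R, IsConj (y : G) u) : IsConj (rep R u : G) u := by
  rw [rep, dif_pos h]; exact h.choose_spec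

theorem exists_conj (R : Sylow q G) {u : G} (hu : ∃ k, orderOf u = q ^ k) :
    ∃ y : (R : Subgroup G), IsConj (y : G) u := by
  obtain ⟨c, -, hc⟩ := (isSylowIn_top R).exists_cj_le (isPGroup_zpowers_of_orderOf hu) le_top
  exact ⟨⟨_, hc (conj_mem_cj (mem_zpowers u))⟩, (isConj_iff.2 ⟨c, rfl⟩).symm⟩

theorem ord_mem (R : Sylow q G) {y : G} (hy : y ∈ R) : ∃ k, orderOf y = q ^ k := by
  obtain ⟨k, hk⟩ := IsPGroup.iff_orderOf.1 R.isPGroup' ⟨y, hy⟩
  exact ⟨k, by rwa [orderOf_mk] at hk⟩

namespace PM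
variable {R : Sylow q G} (h : PM R)
include h

theorem le : (R : Subgroup G) ≤ centralizer ((R : Subgroup G) : Set G) :=
  fun x hx y hy => h.comm y hy x hx

theorem odd_card : Odd (Nat.card (R : Subgroup G)) := by
  obtain ⟨k, hk⟩ := IsPGroup.iff_card.1 R.isPGroup'
  rw [hk]; exact (hq.out.odd_of_ne_two h.odd).pow

theorem eq_one {y : G} (hy : y ∈ R) (e : y = y⁻¹) : y = 1 := by
  obtain ⟨k, hk⟩ := ord_mem R hy
  exact orderOf_eq_one_iff.1 (Nat.eq_one_of_dvd_coprimes ((Nat.coprime_primes hq.out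
    Nat.prime_two).2 h.odd |>.pow_left k) hk.dvd
    (orderOf_dvd_of_pow_eq_one (by rw [sq, mul_eq_one_iff_eq_inv, ← e])))

theorem fusion {y y' : G} (hy : y ∈ R) (hy' : y' ∈ R) (c : IsConj y y') : y' = y ∨ y' = y⁻¹ := by
  obtain ⟨g, rfl⟩ := isConj_iff.1 c
  obtain ⟨n, hn, e⟩ := exists_normalizer_conj_of_centralizer R (A := {y}) (g := g)
    (by simpa using h.le hy) (by simpa using h.le hy')
  rw [← e y rfl]
  refine (h.act n hn).imp (fun c => ?_) fun c => c y hy
  rw [← c y hy, mul_inv_cancel_right]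

theorem lift_eq {F : ↥(R : Subgroup G) → ℂ} (hF : ∀ y, F y⁻¹ = F y) {u : G} {y : (R : Subgroup G)}
    (c : IsConj (y : G) u) : F (rep _ u) = F y := by
  rcases h.fusion y.2 (rep (R : Subgroup G) u).2 (c.trans (rep_conj ⟨y, c⟩).symm) with e | e
  · rw [Subtype.ext e]
  · rw [← hF y]; exact congrArg F (Subtype.ext e)

theorem lift_class {F : ↥(R : Subgroup G) → ℂ} (hF : ∀ y, F y⁻¹ = F y) :
    IsClassFunction G fun u => F (rep _ u) := isClassFunction_iff_isConj.2 fun a b c => by
  by_cases e : ∃ y : (R : Subgroup G), IsConj (y : G) a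
  · obtain ⟨y, e⟩ := e
    rw [h.lift_eq hF e, h.lift_eq hF (e.trans c)]
  · have e' : ¬ ∃ y : (R : Subgroup G), IsConj (y : G) b := fun ⟨y, e'⟩ => e ⟨y, e'.trans c.symm⟩
    simp only [rep, dif_neg e, dif_neg e']

theorem gen_lift {F : ↥(R : Subgroup G) → ℂ} (hF : ∀ y, F y⁻¹ = F y)
    (g : IsGeneralizedCharacter (R : Subgroup G) F) :
    IsGeneralizedCharacter G fun x => F (rep _ (pPart q x)) := by
  refine gen_comp_pPart hq.out (θ := fun u => F (rep _ u)) (h.lift_class hF) fun Q hQ => ?_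
  obtain ⟨c, -, hc⟩ := (isSylowIn_top R).exists_cj_le hQ le_top
  let f : Q →* (R : Subgroup G) := ((MulAut.conj c).toMonoidHom.comp Q.subtype).codRestrict _
    fun u => hc (conj_mem_cj u.2)
  convert gen_comp g f using 2 with u
  exact h.lift_eq hF (isConj_iff.2 ⟨c, rfl⟩).symm

theorem card_fiber {y : G} (hy : y ∈ R) (h1 : y ≠ 1) :
    Nat.card {x : G // pPart q x = y} * Nat.card (R : Subgroup G) = Nat.card (centralizer ({y} : Set G)) := by
  obtain ⟨N, hN, h2, h3⟩ := exists_npc_centralizer R (u := y)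
    (fun x hx => mem_centralizer_singleton_iff.2 (h.comm x hx y hy)) fun n hn =>
      (h.act n hn.2).resolve_right fun e => h1 (h.eq_one hy ((mem_centralizer_singleton.1 hn.1).symm.trans (e y hy)))
  obtain ⟨k, hk⟩ := IsPGroup.iff_card.1 R.isPGroup'
  rw [← N.card_mul_index, h3]
  congr 1
  refine Nat.card_congr
    { toFun := fun x => ⟨⟨pReg q x.1, mem_centralizer_singleton_iff.2 (by
          have := (commute_pPart_pReg (p := q) x.1).symm.eq
          rwa [x.2] at this)⟩,
        mem_of_not_dvd_orderOf_of_index hq.out (h3.trans hk) (by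
          rw [orderOf_mk]; exact pReg_pRegular hq.out x.1)⟩
      invFun := fun n => ⟨y * n.1, pPart_mul_of_commute hq.out (mem_centralizer_singleton_iff.1 n.1.2).symm
        (ord_mem R hy) fun e => h2 ((e.trans (by rw [← orderOf_coe])).trans (orderOf_dvd_natCard N n.2))⟩
      left_inv := fun x => Subtype.ext (by
        change y * pReg q x.1 = x.1
        have := pPart_mul_pReg (p := q) x.1
        rwa [x.2] at this)
      right_inv := fun n => Subtype.ext (Subtype.ext (pReg_mul_of_commute hq.out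
        (mem_centralizer_singleton_iff.1 n.1.2).symm (ord_mem R hy)
        fun e => h2 ((e.trans (by rw [← orderOf_coe])).trans (orderOf_dvd_natCard N n.2)))) }

theorem card_fiber' {y : G} (hy : y ∈ R) (h1 : y ≠ 1) {u : G} (c : IsConj y u) :
    Nat.card {x : G // pPart q x = u} * Nat.card (R : Subgroup G) = Nat.card (centralizer ({u} : Set G)) := by
  rw [← card_centralizer_eq_of_isConj c, ← h.card_fiber hy h1]
  obtain ⟨g, rfl⟩ := isConj_iff.1 c
  congr 1
  exact Nat.card_congr ((MulAut.conj g).toEquiv.subtypeEquiv fun x => by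
    change _ ↔ pPart q (g * x * g⁻¹) = _
    rw [pPart_conj]; simp).symm

theorem sum_lift [Fintype G] [Fintype (R : Subgroup G)] {F : ↥(R : Subgroup G) → ℂ} (hF : ∀ y, F y⁻¹ = F y) (h1 : F 1 = 0) :
    2 * Nat.card (R : Subgroup G) * ∑ x : G, F (rep _ (pPart q x)) = Nat.card G * ∑ y, F y := by
  classical
  have e1 : ∑ x : G, F (rep _ (pPart q x)) = ∑ u : G, Nat.card {x : G // pPart q x = u} * F (rep _ u) := by
    rw [← Finset.sum_fiberwise (s := Finset.univ) (g := pPart q)]
    refine Finset.sum_congr rfl fun u _ => ?_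
    rw [Finset.sum_congr rfl (g := fun _ => F (rep _ u)) fun x hx => by rw [(Finset.mem_filter.1 hx).2]]
    simp [Nat.card_eq_fintype_card, Fintype.card_subtype]
  have e2 : (Nat.card G : ℂ) * ∑ y, F y = ∑ u : G, (∑ y : (R : Subgroup G), if IsConj (y : G) u then
      (Nat.card (centralizer ({u} : Set G)) : ℂ) else 0) * F (rep _ u) := by
    simp only [Finset.sum_mul, Finset.mul_sum]
    rw [Finset.sum_comm]
    refine Finset.sum_congr rfl fun y _ => ?_
    rw [Finset.sum_congr rfl (g := fun u => if IsConj (y : G) u then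
      (Nat.card (centralizer ({(y : G)} : Set G)) : ℂ) * F y else 0) fun u _ => by
        split_ifs with c
        · rw [h.lift_eq hF c, card_centralizer_eq_of_isConj c]
        · simp]
    rw [← Finset.sum_filter, Finset.sum_const, card_filter_isConj, nsmul_eq_mul, ← mul_assoc,
      ← Nat.cast_mul, index_mul_card]
  rw [e1, e2, Finset.mul_sum]
  refine Finset.sum_congr rfl fun u _ => ?_
  by_cases e : ∃ y : (R : Subgroup G), IsConj (y : G) u
  · obtain ⟨y, c⟩ := e
    by_cases y1 : y = 1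
    · rw [h.lift_eq hF c, y1, h1]; simp
    have y1' : (y : G) ≠ 1 := fun e => y1 (Subtype.ext e)
    have ne : y ≠ y⁻¹ := fun e => y1' (h.eq_one y.2 (congrArg Subtype.val e))
    obtain ⟨t, ht⟩ := h.inv
    have : (Finset.univ.filter fun z : (R : Subgroup G) => IsConj (z : G) u) = {y, y⁻¹} := by
      ext z
      simp only [Finset.mem_filter, Finset.mem_univ, true_and, Finset.mem_insert, Finset.mem_singleton]
      refine ⟨fun c' => (h.fusion y.2 z.2 (c.trans c'.symm)).imp Subtype.ext Subtype.ext, ?_⟩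
      rintro (rfl | rfl)
      · exact c
      · exact (isConj_iff.2 ⟨t, ht y y.2⟩).symm.trans c
    rw [← Finset.sum_filter, this, Finset.sum_const, Finset.card_pair ne, ← h.card_fiber' y.2 y1' c]
    push_cast; ring
  · have : IsEmpty {x : G // pPart q x = u} := ⟨fun x => e (exists_conj R (x.2 ▸ pPart_pElement hq.out x.1))⟩
    rw [Finset.sum_eq_zero fun y _ => if_neg fun c => e ⟨y, c⟩]
    simp

theorem inner_lift [Fintype G] [Fintype (R : Subgroup G)] {F F' : ↥(R : Subgroup G) → ℂ} (hF : ∀ y, F y⁻¹ = F y)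
    (hF' : ∀ y, F' y⁻¹ = F' y) (h1 : F 1 = 0) :
    2 * classInner (fun x : G => F (rep _ (pPart q x))) (fun x : G => F' (rep _ (pPart q x))) = classInner F F' := by
  have := h.sum_lift (F := fun y => F y * conj (F' y)) (fun y => by rw [hF, hF']) (by simp [h1])
  rw [Char.inner_def, Char.inner_def]
  have c1 := card_ne_zero_complex (G := G)
  have c2 := card_ne_zero_complex (G := (R : Subgroup G))
  field_simp
  linear_combination this

end PM

def bar {H : Type*} [Group H] [Finite H] (l : IrrCharacter H) : IrrCharacter H :=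
  ⟨fun g => conj ((l : H → ℂ) g), irr_conj l.2⟩

theorem bar_bar {H : Type*} [Group H] [Finite H] (l : IrrCharacter H) : bar (bar l) = l :=
  Subtype.ext (funext fun g => Complex.conj_conj _)

theorem bar_one {H : Type*} [Group H] [Finite H] : bar (oneIrr H) = oneIrr H :=
  Subtype.ext (funext fun g => by simp [bar])

theorem bar_inj {H : Type*} [Group H] [Finite H] {l m : IrrCharacter H} : bar l = bar m ↔ l = m :=
  ⟨fun e => by rw [← bar_bar l, e, bar_bar], congrArg _⟩

noncomputable def ff {H : Type*} [Group H] [Finite H] (l : IrrCharacter H) : H → ℂ :=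
  (2 : ℂ) • (oneIrr H : H → ℂ) - l - bar l

theorem ff_apply {H : Type*} [Group H] [Finite H] (l : IrrCharacter H) (y : H) :
    ff l y = 2 - (l : H → ℂ) y - conj ((l : H → ℂ) y) := by simp [ff, bar]

theorem ff_inv {H : Type*} [Group H] [Finite H] (l : IrrCharacter H) (y : H) : ff l y⁻¹ = ff l y := by
  rw [ff_apply, ff_apply, irr_inv l.2, Complex.conj_conj]; ring

theorem gen_ff {H : Type*} [Group H] [Finite H] (l : IrrCharacter H) : IsGeneralizedCharacter H (ff l) :=
  gen_sub (gen_sub (by simpa using gen_intCast_smul (gen_of_irr (oneIrr H).2) 2) (gen_of_irr l.2))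
    (gen_of_irr (bar l).2)

theorem comb {ι κ : Type*} [Fintype ι] [DecidableEq ι] [DecidableEq κ] (b : ι → ι) (s : Finset ι) (α β : ι → κ)
    (h1 : ∀ l ∈ s, ∀ m ∈ s, l = m ∨ l = b m → α l = α m ∧ β l = β m)
    (h2 : ∀ l ∈ s, ∀ m ∈ s, ¬ (l = m ∨ l = b m) → (α l = α m ↔ β l ≠ β m))
    {o : ι} (ho : o ∈ s) (hb : b o ∈ s) (hn : o ≠ b o) :
    (s.filter fun l => α l = α o).card = 2 ∨ (s.filter fun l => α l = α o).card = s.card := by
  by_cases e : ∀ l ∈ s, α l = α o
  · exact .inr (by rw [Finset.filter_true_of_mem e])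
  push Not at e
  obtain ⟨m, hm, e⟩ := e
  have bm : β m = β o := by
    by_contra c
    exact e ((h2 m hm o ho fun c' => e (h1 m hm o ho c').1).2 c)
  left
  rw [← Finset.card_pair hn]
  congr 1
  ext l
  simp only [Finset.mem_filter, Finset.mem_insert, Finset.mem_singleton]
  refine ⟨fun ⟨hl, c⟩ => ?_, ?_⟩
  · by_contra c'
    have k := (h2 l hl o ho c').1 c
    have k' : ¬ (l = m ∨ l = b m) := fun c'' => k ((h1 l hl m hm c'').2.trans bm)
    exact e (((h2 l hl m hm k').2 (bm ▸ k)).symm.trans c)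
  · rintro (rfl | rfl)
    · exact ⟨ho, rfl⟩
    · exact ⟨hb, (h1 _ hb o ho (.inr rfl)).1⟩

namespace PM
variable {R : Sylow q G} (h : PM R)
include h

theorem deg_one (l : IrrCharacter (R : Subgroup G)) : (l : ↥(R : Subgroup G) → ℂ) 1 = 1 :=
  irr_one_eq_one_of_comm (fun a b => Subtype.ext (h.comm a a.2 b b.2)) l.2

theorem ff_one (l : IrrCharacter (R : Subgroup G)) : ff l 1 = 0 := by
  rw [ff_apply, h.deg_one]; norm_num

theorem ne_bar {l : IrrCharacter (R : Subgroup G)} (hl : l ≠ oneIrr _) : l ≠ bar l := fun e =>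
  hl (Subtype.ext (irr_eq_one_of_real_of_odd h.odd_card l.2 fun g =>
    Complex.conj_eq_iff_im.1 (congrFun (congrArg Subtype.val e) g).symm))

theorem dvd_of_dvd [Fintype G] [Fintype (R : Subgroup G)]
    {ξ : IrrCharacter G} (h1 : ξ ≠ oneIrr G) {a : ℕ} (ha : (ξ : G → ℂ) 1 = a) {c : ℤ}
    (hc : ∑ l : IrrCharacter (R : Subgroup G), classInner (ξ : G → ℂ) (fun x => ff l (rep _ (pPart q x))) = c)
    (hd : q ∣ a) : (q : ℤ) ∣ c := by
  classical
  have cI : (Fintype.card (IrrCharacter (R : Subgroup G)) : ℂ) = Nat.card (R : Subgroup G) := by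
    rw [← sum_irr_one_sq]; simp [h.deg_one]
  have e1 : ∀ x : G, ∑ l : IrrCharacter (R : Subgroup G), ff l (rep _ (pPart q x)) =
      2 * Nat.card (R : Subgroup G) * (1 - if q ∣ orderOf x then 0 else 1) := fun x => by
    split_ifs with hx
    · have n1 : rep (R : Subgroup G) (pPart q x) ≠ 1 := fun e => by
        have := rep_conj (exists_conj R (pPart_pElement hq.out x))
        rw [e, coe_one, isConj_one_right, pPart_eq_one_iff hq.out] at this
        exact this hx
      have := sum_irr_one_mul_of_ne n1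
      simp only [h.deg_one, one_mul] at this
      simp only [ff_apply, Finset.sum_sub_distrib, ← map_sum, this, Finset.sum_const, Finset.card_univ,
        nsmul_eq_mul, cI, map_zero]
      ring
    · rw [(pPart_eq_one_iff hq.out).2 hx, Finset.sum_eq_zero fun l _ => by
        rw [h.lift_eq (ff_inv l) (y := 1) (u := 1) (IsConj.refl _), h.ff_one]]
      simp
  have i1 := isIntegral_sum_div (f := fun x : G => if q ∣ orderOf x then 0 else 1) (χ := ξ)
    (fun g t => by
      have : orderOf (t * g * t⁻¹) = orderOf g := (MulAut.conj t).orderOf_eq g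
      simp only [this]) (fun g => by
      split_ifs
      exacts [isIntegral_zero, isIntegral_one]) ξ.2
  have z := sum_irr_eq_zero ξ.2 fun e => h1 (Subtype.ext e)
  rw [← Char.inner_sum_right, Char.inner_def] at hc
  simp only [Finset.sum_apply, e1, map_mul, map_sub, map_one, map_natCast, map_ofNat, apply_ite conj,
    map_zero] at hc
  have c1 := card_ne_zero_complex (G := G)
  have c2 := card_ne_zero_complex (G := (R : Subgroup G))
  have c3 : (Nat.card G : ℂ) = Nat.card (R : Subgroup G) * (R : Subgroup G).index := by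
    exact_mod_cast (card_mul_index _).symm
  obtain ⟨n, hn0, hn⟩ := irr_one_eq_nat ξ.2
  obtain rfl : n = a := by exact_mod_cast hn.symm.trans ha
  have e2 : (2 : ℂ) * ∑ g, (if q ∣ orderOf g then 0 else 1) * (ξ : G → ℂ) g = ((-(c * (R : Subgroup G).index) : ℤ) : ℂ) := by
    have : ∑ g, (ξ : G → ℂ) g * (2 * Nat.card (R : Subgroup G) * (1 - if q ∣ orderOf g then 0 else 1)) =
        2 * Nat.card (R : Subgroup G) * (∑ g, (ξ : G → ℂ) g - ∑ g, (if q ∣ orderOf g then 0 else 1) * (ξ : G → ℂ) g) := by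
      rw [← Finset.sum_sub_distrib, Finset.mul_sum]
      exact Finset.sum_congr rfl fun g _ => by ring
    rw [this, z, inv_mul_eq_iff_eq_mul₀ c1, c3] at hc
    push_cast
    apply mul_left_cancel₀ c2
    linear_combination -hc
  have i2 : IsIntegral ℤ (((-(c * (R : Subgroup G).index) : ℤ) : ℂ) / ((n : ℤ) : ℂ)) := by
    rw [← e2, mul_div_assoc, Int.cast_natCast, ← hn]
    exact (isIntegral_algebraMap (x := (2 : ℤ))).mul i1
  have := (Int.natCast_dvd_natCast.2 hd).trans (int_dvd_of_isIntegral_div (by exact_mod_cast hn0.ne') i2)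
  rw [Int.dvd_neg] at this
  exact ((Nat.prime_iff_prime_int.1 hq.out).dvd_or_dvd this).resolve_right fun e =>
    R.not_dvd_index (Int.natCast_dvd_natCast.1 e)

theorem exc : ∃ α β : IrrCharacter G, α ≠ oneIrr G ∧ β ≠ oneIrr G ∧ ∃ a : ℕ, (α : G → ℂ) 1 = a ∧
    (β : G → ℂ) 1 = (a + 1 : ℕ) ∧ ¬ q ∣ a ∧ ¬ q ∣ a + 1 := by
  classical
  have := Fintype.ofFinite G
  have := Fintype.ofFinite (R : Subgroup G)
  set Θ : IrrCharacter (R : Subgroup G) → G → ℂ := fun l x => ff l (rep _ (pPart q x)) with hΘ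
  have b1 : ∀ {l : IrrCharacter (R : Subgroup G)}, l ≠ oneIrr _ → bar l ≠ oneIrr _ := fun hl e =>
    hl (bar_inj.1 (e.trans bar_one.symm))
  have i1 : ∀ l, l ≠ oneIrr _ → classInner (Θ l) (oneIrr G) = 1 := fun l hl => by
    have := h.inner_lift (F' := (oneIrr (R : Subgroup G) : _ → ℂ)) (ff_inv l) (fun _ => rfl) (h.ff_one l)
    rw [ff, Char.inner_sub_left, Char.inner_sub_left, Char.inner_smul_left, inner_irr', inner_irr', inner_irr', if_pos rfl,
      if_neg hl, if_neg (b1 hl)] at this
    apply mul_left_cancel₀ (two_ne_zero (α := ℂ))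
    exact this.trans (by ring)
  have gΘ : ∀ l, IsGeneralizedCharacter G (Θ l) := fun l => h.gen_lift (ff_inv l) (gen_ff l)
  have i2 : ∀ l, l ≠ oneIrr _ → ∀ m, m ≠ oneIrr _ → classInner ((oneIrr G : G → ℂ) - Θ l) ((oneIrr G : G → ℂ) - Θ m) =
      if l = m ∨ l = bar m then 2 else 1 := fun l hl m hm => by
    have := h.inner_lift (ff_inv l) (ff_inv m) (h.ff_one l)
    rw [Char.inner_sub_left, Char.inner_sub_right, Char.inner_sub_right, inner_irr', if_pos rfl, i1 l hl,
      inner_gen_comm (gen_of_irr (oneIrr G).2) (gen_lift h (ff_inv m) (gen_ff m)), i1 m hm]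
    conv at this => rhs; rw [ff, ff]
    have k : bar l = m ↔ l = bar m := by rw [← bar_inj, bar_bar]
    simp only [Char.inner_sub_left, Char.inner_sub_right, Char.inner_smul_left, Char.inner_smul_right, inner_irr', if_neg hl,
      if_neg hl.symm, if_neg (b1 hl), if_neg hm.symm, if_neg (b1 hm).symm, bar_inj, k, map_ofNat, if_true] at this
    apply mul_left_cancel₀ (two_ne_zero (α := ℂ))
    have nb := h.ne_bar hm
    by_cases c1 : l = m
    · subst c1
      simp only [if_true, if_neg nb, true_or] at this ⊢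
      linear_combination this
    · by_cases c2 : l = bar m
      · simp only [if_neg c1, if_pos c2, if_pos (Or.inr c2 : l = m ∨ _)] at this ⊢
        linear_combination this
      · simp only [if_neg c1, if_neg c2, if_neg (not_or.2 ⟨c1, c2⟩)] at this ⊢
        linear_combination this
  have ex : ∀ l : IrrCharacter (R : Subgroup G), ∃ β α : IrrCharacter G, l ≠ oneIrr _ → β ≠ α ∧
      (oneIrr G : G → ℂ) - Θ l = (β : G → ℂ) - α := fun l => by
    by_cases hl : l = oneIrr _
    · exact ⟨oneIrr G, oneIrr G, fun e => absurd hl e⟩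
    obtain ⟨β, α, k⟩ := exists_of_inner_self_eq_two_of_one (gen_sub (gen_of_irr (oneIrr G).2) (gΘ l))
      (by rw [i2 l hl l hl, if_pos (.inl rfl)]) (by
        simp only [Pi.sub_apply, hΘ]
        rw [(pPart_eq_one_iff hq.out).2 (by simpa using hq.out.one_lt.ne'),
          h.lift_eq (ff_inv l) (y := 1) (u := 1) (IsConj.refl _), h.ff_one]
        simp)
    exact ⟨β, α, fun _ => k⟩
  choose β α hαβ using ex
  have i3 : ∀ l, l ≠ oneIrr _ → ∀ m, m ≠ oneIrr _ → ((if β l = β m then 1 else 0) - (if β l = α m then 1 else 0) -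
      ((if α l = β m then 1 else 0) - (if α l = α m then 1 else 0)) : ℤ) = if l = m ∨ l = bar m then 2 else 1 :=
    fun l hl m hm => by
      have := i2 l hl m hm
      rw [(hαβ l hl).2, (hαβ m hm).2] at this
      simp only [Char.inner_sub_left, Char.inner_sub_right, inner_irr'] at this
      have e : ∀ (P : Prop) [Decidable P] (x y : ℤ), ((if P then x else y : ℤ) : ℂ) = if P then (x : ℂ) else y :=
        fun P _ x y => by split_ifs <;> rfl
      apply Int.cast_injective (α := ℂ)
      push_cast [e]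
      linear_combination this
  set s : Finset (IrrCharacter (R : Subgroup G)) := Finset.univ.erase (oneIrr _) with hs
  have ms : ∀ {l}, l ∈ s ↔ l ≠ oneIrr _ := by simp [hs]
  have k1 : ∀ l ∈ s, ∀ m ∈ s, l = m ∨ l = bar m → α l = α m ∧ β l = β m := fun l hl m hm c => by
    have := i3 l (ms.1 hl) m (ms.1 hm)
    rw [if_pos c] at this
    split_ifs at this <;> first | omega | exact ⟨‹_›, ‹_›⟩
  have k2 : ∀ l ∈ s, ∀ m ∈ s, ¬ (l = m ∨ l = bar m) → (α l = α m ↔ β l ≠ β m) := fun l hl m hm c => by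
    have := i3 l (ms.1 hl) m (ms.1 hm)
    have n1 := (hαβ l (ms.1 hl)).1
    have n2 := (hαβ m (ms.1 hm)).1
    rw [if_neg c] at this
    split_ifs at this <;> first | omega | simp_all
  have k3 : ∀ l ∈ s, ∀ m ∈ s, α l ≠ β m := fun l hl m hm c => by
    have := i3 l (ms.1 hl) m (ms.1 hm)
    have n1 := (hαβ l (ms.1 hl)).1
    have n2 := (hαβ m (ms.1 hm)).1
    rw [if_pos c, if_neg fun e => n1 (e.trans c.symm), if_neg fun e : α l = α m => n2 (c.symm.trans e)] at this
    split_ifs at this <;> omega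
  have cI : Fintype.card (IrrCharacter (R : Subgroup G)) = Nat.card (R : Subgroup G) := by
    have : (Fintype.card (IrrCharacter (R : Subgroup G)) : ℂ) = Nat.card (R : Subgroup G) := by
      rw [← sum_irr_one_sq]; simp [h.deg_one]
    exact_mod_cast this
  have cs : s.card + 1 = Nat.card (R : Subgroup G) := by
    rw [hs, Finset.card_erase_add_one (Finset.mem_univ _), Finset.card_univ, cI]
  have qR : q ∣ Nat.card (R : Subgroup G) := by
    obtain ⟨y, hy, h1⟩ := h.ne
    obtain ⟨k, hk⟩ := ord_mem R hy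
    refine (dvd_pow_self q fun e => h1 ?_).trans (hk ▸ orderOf_dvd_natCard _ hy)
    rw [← orderOf_eq_one_iff, hk, e, pow_zero]
  have q2 := hq.out.two_le
  obtain ⟨o, ho⟩ : s.Nonempty := Finset.card_pos.1 (by have := Nat.le_of_dvd Nat.card_pos qR; omega)
  have nd : ∀ n, n = 2 ∨ n = s.card → ¬ q ∣ n := by
    rintro n (rfl | rfl) e
    · exact h.odd ((Nat.prime_dvd_prime_iff_eq hq.out Nat.prime_two).1 e)
    · exact hq.out.one_lt.ne' (Nat.dvd_one.1 ((Nat.dvd_add_right e).1 (cs ▸ qR)))
  have z := i1 o (ms.1 ho)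
  have eΘ : ∀ l ∈ s, Θ l = (oneIrr G : G → ℂ) - β l + α l := fun l hl => by
    rw [sub_add, ← (hαβ l (ms.1 hl)).2, sub_sub_cancel]
  rw [eΘ o ho, Char.inner_add_left, Char.inner_sub_left, inner_irr', inner_irr', inner_irr', if_pos rfl] at z
  have n1 := (hαβ o (ms.1 ho)).1
  have a1 : α o ≠ oneIrr G := fun e => by
    rw [if_pos e, if_neg fun e' => n1 (e'.trans e.symm)] at z; norm_num at z
  have a2 : β o ≠ oneIrr G := fun e => by
    rw [if_pos e, if_neg a1] at z; norm_num at z
  have Θ1 : Θ (oneIrr _) = 0 := funext fun x => by simp only [hΘ, ff_apply]; norm_num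
  have sm : ∀ ξ : IrrCharacter G, ξ ≠ oneIrr G → ∑ l, classInner (ξ : G → ℂ) (Θ l) =
      ((s.filter fun l => α l = ξ).card : ℂ) - (s.filter fun l => β l = ξ).card := fun ξ hξ => by
    rw [← Finset.sum_erase (a := oneIrr _) _ (by rw [Θ1, Char.inner_zero_right]), Finset.card_filter,
      Finset.card_filter]
    push_cast
    rw [← Finset.sum_sub_distrib]
    refine Finset.sum_congr rfl fun l hl => ?_
    rw [eΘ l hl, Char.inner_add_right, Char.inner_sub_right, inner_irr', inner_irr', inner_irr', if_neg hξ]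
    simp only [eq_comm (a := ξ)]
    ring
  obtain ⟨a, -, ha⟩ := irr_one_eq_nat (α o).2
  have hb : (β o : G → ℂ) 1 = (a + 1 : ℕ) := by
    have := congrFun (eΘ o ho) 1
    simp only [hΘ, Pi.add_apply, Pi.sub_apply] at this
    rw [(pPart_eq_one_iff hq.out).2 (by simpa using hq.out.one_lt.ne'),
      h.lift_eq (ff_inv o) (y := 1) (u := 1) (IsConj.refl _), h.ff_one, ha] at this
    simp only [coe_oneIrr] at this
    push_cast; linear_combination this
  have bo := ms.2 (b1 (ms.1 ho))
  refine ⟨α o, β o, a1, a2, a, ha, hb, fun e => ?_, fun e => ?_⟩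
  · refine nd _ (comb bar s α β k1 k2 ho bo (h.ne_bar (ms.1 ho))) (Int.natCast_dvd_natCast.1
      (h.dvd_of_dvd a1 ha ?_ e))
    rw [sm _ a1, Finset.filter_false_of_mem (p := fun l => β l = α o) fun l hl c => k3 o ho l hl c.symm]
    simp
  · refine nd _ (comb bar s β α (fun l hl m hm c => (k1 l hl m hm c).symm)
      (fun l hl m hm c => by rw [ne_eq, k2 l hl m hm c, not_not]) ho bo (h.ne_bar (ms.1 ho)))
      (Int.natCast_dvd_natCast.1 (Int.dvd_neg.1 (h.dvd_of_dvd a2 hb ?_ e)))
    rw [sm _ a2, Finset.filter_false_of_mem (p := fun l => α l = β o) fun l hl c => k3 l hl o ho c]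
    simp

end PM

end CF.Cs
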