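import Cfsg.Agent.Perm.Dg5
import Cfsg.Agent.Perm.PrimeDegree

/-!
# The derangement subgroup, VI: the affine case without constants
-/

namespace CF.Dg

open MulAction Subgroup CF.Transfer CF.Perm Finset

universe u

variable {H : Type*} [Group H] {V : Type*} [CommGroup V] [MulDistribMulAction H V]
  {A B D E S Γ : Subgroup H} {s : ℕ} [Finite H] [Finite V]

theorem dcount [E.Normal] (hD : ∀ g ∉ D, ∀ v : V, g • v = v → v = 1) (hE : E ≤ D) {v : V}
    (hv : v ≠ 1) (T : Finset H) (hT : ∀ x ∈ E, x ≠ 1 → ∀ w : V, w ≠ 1 → x • w = w → x ∈ T) :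
    D.index * Nat.card E * (Nat.card ↥(E ⊓ stabilizer H v) - 1) ≤
      Nat.card ↥(E ⊓ stabilizer H v) * ∑ x ∈ T, (Nat.card (Fx V {x}) - 1) := by
  classical
  have h2 : stabilizer H v ≤ D := fun g hg => by_contra fun h => hv (hD g h v hg)
  set O := (Set.toFinite (orbit H v)).toFinset
  have h3 : D.index * Nat.card E ≤ Nat.card ↥(E ⊓ stabilizer H v) * #O := by
    rw [← Set.ncard_eq_toFinset_card, ← index_stabilizer, ← relIndex_mul_index h2,
      ← CF.Transfer.card_mul_relIndex (inf_le_left (a := E) (b := stabilizer H v)), inf_relIndex_left,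
      mul_comm, mul_assoc]
    exact Nat.mul_le_mul_left _ (Nat.mul_le_mul_right _
      (relIndex_le_of_le_right hE (relIndex_ne_zero' _ _)))
  have h4 : ∀ u ∈ O, u ≠ 1 := fun u hu e => by
    obtain ⟨g, rfl⟩ := (Set.Finite.mem_toFinset _).1 hu
    exact hv ((smul_eq_iff_eq_inv_smul _).1 e |>.trans (smul_one _))
  refine (Nat.mul_le_mul_right _ h3).trans ((mul_assoc _ _ _).trans_le (Nat.mul_le_mul_left _ ?_))
  rw [← smul_eq_mul, ← sum_const]
  refine (sum_le_sum fun u hu => ?_).trans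
    ((sum_card_bipartiteAbove_eq_sum_card_bipartiteBelow (fun u x => x • u = u)).trans_le
      (sum_le_sum fun x _ => ?_))
  · obtain ⟨g, rfl⟩ := (Set.Finite.mem_toFinset _).1 hu
    rw [← SetLike.coe_sort_coe, Nat.card_coe_set_eq, ← Set.ncard_sdiff_singleton_of_mem (one_mem _),
      ← Set.ncard_coe_finset]
    refine Set.ncard_le_ncard_of_injOn (fun x => g * x * g⁻¹) (fun x hx => ?_) (fun x _ y _ e => by
      simpa using e)
    have k : (g * x * g⁻¹) • g • v = g • v := by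
      rw [mul_smul, inv_smul_smul, mul_smul, show x • v = v from hx.1.2]
    exact mem_coe.2 (mem_filter.2 ⟨hT _ (Normal.conj_mem ‹_› x hx.1.1 g)
      (by simpa [mul_inv_eq_one] using hx.2) _ (h4 _ hu) k, k⟩)
  · rw [← SetLike.coe_sort_coe, Nat.card_coe_set_eq, ← Set.ncard_sdiff_singleton_of_mem (one_mem _),
      ← Set.ncard_coe_finset]
    refine Set.ncard_le_ncard fun u hu => ?_
    have := mem_filter.1 (mem_coe.1 hu)
    exact ⟨by rintro _ rfl; exact this.2, h4 u this.1⟩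

namespace Crit

variable [hs : Fact s.Prime] {z : H} (h : Crit V s S E A z)
include h

theorem fx_pow [A.Normal] {x : H} (hx : x ∈ E) (h1 : x ≠ 1) {w : V} (hw : w ≠ 1) (h2 : x • w = w) :
    Nat.card (Fx V {x}) ^ s ≤ Nat.card V := by
  have k0 : ∀ {u : V}, x • u = u → ∀ b ∈ zpowers x, b • u = u := fun hu b hb =>
    (zpowers_le_of_mem (H := stabilizer H _) hu) hb
  have k1 : Fx V {x} = Fx V (zpowers x : Set H) := by
    ext u
    exact ⟨fun hu => k0 (hu x rfl), fun hu => by rintro _ rfl; exact hu _ (mem_zpowers _)⟩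
  have hBE := zpowers_le_of_mem hx
  have k2 := pow_le (V := V) (B := zpowers x) (E := zpowers x ⊔ A) (Γ := E) le_sup_left
    (fun g hg => mem_normalizer_of_cj_le (cj_le_iff_forall.2 fun y hy => by
      rw [← inv_mul_cancel_right (g * y * g⁻¹) y]
      exact mul_mem (mem_sup_right (h.comm y (sup_le hBE h.leE hy) g (h.le hg))) hy))
    (fun u hu h3 e he h4 => by
      obtain ⟨b, hb, a, ha, rfl⟩ := mem_sup_of_normal_right.1 he
      obtain rfl : a = 1 := by_contra fun k => h3 (h.sr a ha k u (by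
        rwa [mul_smul, smul_eq_iff_eq_inv_smul, hu _ (inv_mem hb)] at h4))
      rwa [mul_one])
    fun g hg b hb b' hb' => by
      rw [← inv_mul_cancel_right (g * b * g⁻¹) b]
      exact (h.cA (h.comm b (hBE hb) g (h.le hg)) (hBE hb')).mul_left
        (by obtain ⟨i, rfl⟩ := hb; obtain ⟨i', rfl⟩ := hb'; exact zpow_mul_comm x i i')
  obtain ⟨j, hj⟩ := isPGroup_relIndex (h.pS.to_le h.le) (normalizer (zpowers x : Set H))
  refine k1 ▸ (Nat.pow_le_pow_right Nat.card_pos (hj ▸ Nat.le_self_pow ?_ s)).trans k2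
  rintro rfl
  refine hw (h.sr x (h.eqA.ge ⟨hx, fun g hg => by_contra fun k => hw (h.sr _ (h.comm x hx g (h.le hg))
    (by rwa [Ne, mul_inv_eq_one, mul_inv_eq_iff_eq_mul]) w (k0 h2 _ (mul_mem
      (conj_mem_of_mem_normalizer (relIndex_eq_one.1 hj hg) (mem_zpowers x))
        (inv_mem (mem_zpowers x)))))⟩) h1 w h2)

omit [Finite V] in
theorem inv_le [Nontrivial V] {T : Set H} (h2 : B ≠ ⊥) (hBE : B ≤ E) (k0 : ∀ a ∈ A, a ∈ B → a = 1)
    (hT : ∀ x ∈ T, x ∈ E ∧ x ^ 2 = 1) (s2 : s = 2 := by rfl) : 4 * T.ncard ≤ 3 * Nat.card E := by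
  obtain ⟨u, hu, h3⟩ : ∃ u ∈ E, u ^ 2 ≠ 1 := by
    by_contra! k
    obtain ⟨y, hy, h4⟩ := (bot_or_exists_ne_one B).resolve_left h2
    have k' : ∀ u ∈ E, u⁻¹ = u := fun u hu => inv_eq_of_mul_eq_one_right (sq u ▸ k u hu)
    exact h4 (k0 y (h.eqA.ge ⟨hBE hy, fun g hg => by
      rw [← k' _ (mul_mem hg (hBE hy)), mul_inv_rev, k' g hg, k' y (hBE hy)]⟩) hy)
  set C := centralizer {u} ⊓ E
  have h4 := h.cj_le h.leC u hu
  rw [← inf_relIndex_right, s2] at h4
  have h5 := (CF.Transfer.card_mul_relIndex (inf_le_right : C ≤ E)).ge.trans (Nat.mul_le_mul_left _ h4)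
  have h6 := Set.ncard_le_ncard (t := E) (s := T ∪ (· * u) '' (T ∩ C)) (by
    rintro x (hx | ⟨y, hy, rfl⟩)
    exacts [(hT x hx).1, E.mul_mem hy.2.2 hu])
  have h7 := Set.ncard_le_ncard (t := T ∩ C ∪ (E \ C)) (s := T) fun x hx =>
    (em (x ∈ C)).imp (⟨hx, ·⟩) (⟨(hT x hx).1, ·⟩)
  have h8 := Set.ncard_union_le (T ∩ C) (E \ C)
  have h9 := Set.ncard_sdiff_add_ncard_of_subset (s := (C : Set H)) (t := E) inf_le_right
  rw [Set.ncard_union_eq (Set.disjoint_left.2 (by
    rintro _ hx ⟨y, hy, rfl⟩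
    have := (hT _ hx).2
    rw [Commute.mul_pow (mem_centralizer_singleton_iff.1 hy.2.1), (hT y hy.1).2, one_mul] at this
    exact h3 this)), Set.ncard_image_of_injective _ (mul_left_injective u)] at h6
  rw [← SetLike.coe_sort_coe, ← SetLike.coe_sort_coe C, Nat.card_coe_set_eq,
    Nat.card_coe_set_eq] at h5
  rw [← SetLike.coe_sort_coe, Nat.card_coe_set_eq]
  omega

variable [D.Normal] (hD : ∀ g ∉ D, ∀ v : V, g • v = v → v = 1) (hn : Nat.card V < (D.index + 1) ^ 2)

include hD hn in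
theorem case3' [E.Normal] [A.Normal] (hS : S ≤ D) {e : H}
    (he : e ∈ E) (h1 : e ≠ 1) {v : V} (hv : e • v = v) : v = 1 := by
  by_contra h2
  have : Nontrivial V := ⟨v, 1, h2⟩
  obtain ⟨v, hv, h2, h3⟩ := max_stab he h1 h2 hv
  set B := E ⊓ stabilizer H v with hB'
  have hBE : B ≤ E := inf_le_left
  have hB : v ∈ Fx V (B : Set H) := fun b hb => hb.2
  have hm : 1 < Nat.card (Fx V (B : Set H)) :=
    (one_lt_card_iff_ne_bot _).2 fun e => hv (mem_bot.1 (e.le hB))
  have k0 : ∀ a ∈ A, a ∈ B → a = 1 := fun a ha hb => by_contra fun e => hv (h.sr a ha e v hb.2)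
  have k1 : normalizer (B : Set H) ⊓ E ≤ centralizer (B : Set H) := fun g hg b hb => by
    have := k0 _ (h.comm b (hBE hb) g (h.le hg.2))
      (B.mul_mem (conj_mem_of_mem_normalizer hg.1 hb) (B.inv_mem hb))
    rwa [mul_inv_eq_one, mul_inv_eq_iff_eq_mul, eq_comm] at this
  have k2 : B ≤ centralizer (B : Set H) := (le_inf le_normalizer hBE).trans k1
  have k3 := pow_le hBE le_normalizer h3 fun g hg b hb b' hb' => by
    rw [← inv_mul_cancel_right (g * b * g⁻¹) b]
    exact (h.cA (h.comm b (hBE hb) g (h.le hg)) (hBE hb')).mul_left (k2 hb' b hb)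
  rw [← inf_relIndex_right] at k3
  replace k3 := (Nat.pow_le_pow_right hm.le
    (relIndex_le_of_le_left k1 (relIndex_ne_zero' _ _))).trans k3
  have k4 := cent_le' (Γ := B) (A := centralizer (B : Set H) ⊓ E) (le_centralizer_iff.1 inf_le_left)
    (h.pS.to_le h.le) inf_le_right (h.cj_le (hBE.trans h.leC))
  rw [inf_relIndex_right, ← inf_relIndex_right, (eq_bot_iff (a := _ ⊓ B)).2 fun g hg =>
    k0 g (h.eqA.ge ⟨hBE hg.2, hg.1⟩) hg.2, relIndex_bot_left] at k4
  set t := (centralizer (B : Set H)).relIndex E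
  have pB := h.pS.to_le (hBE.trans h.le)
  obtain ⟨j, hj⟩ := IsPGroup.iff_card.1 pB
  have k5 : s ≤ Nat.card B := hj ▸ Nat.le_self_pow (by
    rintro rfl; exact h2 (card_eq_one.1 hj)) s
  have k6 : ∀ f ∈ E, f ∈ centralizer (B : Set H) → f ^ s = 1 → ∃ j : ℕ, z ^ j * f ∈ B :=
    fun f hf h4 h5 => by
      obtain ⟨j, w, h6, h7, h8⟩ := h.fix hBE hv hB hf h4 h5
      exact ⟨j, h3 w h6 h7 _ (E.mul_mem (E.pow_mem (h.leE h.zA) j) hf) h8⟩
  have k7 : ∀ b ∈ B, b ^ s = 1 := fun b hb => k0 _ (h.pow b (hBE hb)) (B.pow_mem hb s)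
  have s2 := hs.out.two_le
  by_cases ht : Nat.card B ≠ 2
  · have r0 : 0 < D.index := Nat.pos_of_ne_zero FiniteIndex.index_ne_zero
    have e0 : 0 < Nat.card E := Nat.card_pos
    have k8 := dcount hD (h.le.trans hS) hv (Set.toFinite {x | x ∈ E ∧ x ≠ 1 ∧ ∃ w : V, w ≠ 1 ∧
      x • w = w}).toFinset fun x a b w c d => (Set.Finite.mem_toFinset _).2 ⟨a, b, w, c, d⟩
    rw [← hB'] at k8
    have k9 : ∀ x ∈ (Set.toFinite {x | x ∈ E ∧ x ≠ 1 ∧ ∃ w : V, w ≠ 1 ∧ x • w = w}).toFinset,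
      Nat.card (Fx V {x}) ^ s < (D.index + 1) ^ 2 := fun x hx => by
        obtain ⟨a, b, w, c, d⟩ := (Set.Finite.mem_toFinset _).1 hx
        exact (h.fx_pow a b c d).trans_lt hn
    obtain ⟨b, hb⟩ : ∃ b, Nat.card B = b + 1 := ⟨_, (Nat.succ_pred_eq_of_pos Nat.card_pos).symm⟩
    rw [hb, Nat.add_sub_cancel] at k8
    rcases s2.eq_or_lt with rfl | s3
    · have k10 := sum_le_card_nsmul _ (fun x => Nat.card (Fx V {x}) - 1) (D.index - 1) fun x hx => by
        have := lt_of_pow_lt_pow_left₀ 2 (Nat.zero_le _) (k9 x hx)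
        omega
      have k11 := h.inv_le (T := {x | x ∈ E ∧ x ≠ 1 ∧ ∃ w : V, w ≠ 1 ∧ x • w = w}) h2 hBE k0
        fun x ⟨a, _, w, c, d⟩ => ⟨a, by_contra fun e => c (h.sr _ (h.pow x a) e w
          ((stabilizer H w).pow_mem d 2))⟩
      have k12 : 3 ≤ b := by
        rcases j with _ | _ | j
        · omega
        · omega
        · have := Nat.pos_of_ne_zero (pow_ne_zero j (two_ne_zero (α := ℕ)))
          rw [pow_add, pow_add] at hj
          omega
      rw [Set.ncard_eq_toFinset_card _] at k11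
      obtain ⟨r, hr⟩ : ∃ r, D.index = r + 1 := ⟨_, (Nat.succ_pred_eq_of_pos r0).symm⟩
      rw [hr, Nat.add_sub_cancel, smul_eq_mul] at k10
      rw [hr] at k8
      have k13 := (Nat.mul_le_mul_left 4 (k8.trans (Nat.mul_le_mul_left _ k10))).trans
        ((show _ = (b + 1) * r * (4 * _) by ring).trans_le (Nat.mul_le_mul_left _ k11))
      nlinarith [Nat.mul_le_mul_left (r * Nat.card E) k12, Nat.mul_pos e0 (show 0 < b by omega)]
    · have k10 := sum_le_card_nsmul _ (fun x => 3 * (Nat.card (Fx V {x}) - 1)) (2 * D.index - 1)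
        fun x hx => by
          have := (Nat.pow_le_pow_right Nat.card_pos s3).trans_lt (k9 x hx)
          obtain ⟨c, hc⟩ : ∃ c, Nat.card (Fx V {x}) = c + 1 :=
            ⟨_, (Nat.succ_pred_eq_of_pos Nat.card_pos).symm⟩
          rw [hc] at this
          rw [hc, Nat.add_sub_cancel]
          by_contra k
          have k' := Nat.pow_le_pow_left (show 2 * (D.index + 1) ≤ 3 * c + 2 by omega) 2
          have : 1 ≤ c := by omega
          nlinarith [Nat.zero_le (c ^ 3), Nat.mul_le_mul this this]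
      have k11 : #(Set.toFinite {x | x ∈ E ∧ x ≠ 1 ∧ ∃ w : V, w ≠ 1 ∧ x • w = w}).toFinset ≤
          Nat.card E := by
        rw [← Set.ncard_eq_toFinset_card, ← SetLike.coe_sort_coe, Nat.card_coe_set_eq]
        exact Set.ncard_le_ncard fun x hx => hx.1
      obtain ⟨r, hr⟩ : ∃ r, D.index = r + 1 := ⟨_, (Nat.succ_pred_eq_of_pos r0).symm⟩
      rw [← mul_sum, hr, show 2 * (r + 1) - 1 = 2 * r + 1 by omega, smul_eq_mul] at k10
      rw [hr] at k8
      have k13 := (Nat.mul_le_mul_left 3 k8).trans ((mul_left_comm _ _ _).trans_le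
        (Nat.mul_le_mul_left _ (k10.trans (Nat.mul_le_mul_right _ k11))))
      have k12 : 2 ≤ b := by omega
      nlinarith [Nat.mul_le_mul_left (r * Nat.card E) k12, Nat.mul_le_mul_left (Nat.card E) k12]
  obtain rfl : s = 2 := by omega
  obtain ⟨y, hy, h4⟩ := (bot_or_exists_ne_one B).resolve_left h2
  have k8 : ∀ b ∈ B, b ≠ 1 → b = y := fun b hb h5 => by
    obtain ⟨u, -, hu⟩ := (Nat.card_eq_two_iff' (1 : B)).1 (by omega)
    exact congrArg Subtype.val ((hu ⟨b, hb⟩ fun e => h5 (congrArg Subtype.val e)).trans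
      (hu ⟨y, hy⟩ fun e => h4 (congrArg Subtype.val e)).symm)
  have k9 : centralizer {y} ≤ centralizer (B : Set H) := fun g hg b hb => by
    by_cases h5 : b = 1
    · simp [h5]
    · exact hg b (k8 b hb h5)
  have k10 := orb_le hD (h.le.trans hS) (fun g hg => Fx_cent (k9 hg)) hB hv
  have k11 := conj_le (Γ := ⊤) (x := y) (T := Set.range fun g => g * y * g⁻¹) fun g _ => ⟨g, rfl⟩
  have k12 : ∀ g, (g * y * g⁻¹) ^ 2 = 1 := fun g => by
    rw [conj_pow, k7 y hy, mul_one, mul_inv_cancel]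
  have k13 : ∀ g, g * y * g⁻¹ ∉ A := fun g e =>
    h4 (k0 y (by simpa [mul_assoc] using Normal.conj_mem' ‹_› _ e g) hy)
  have k14 := Set.ncard_le_ncard (t := E) (s := (Set.range fun g => g * y * g⁻¹) ∪
      (· * y) '' Set.range fun g => g * y * g⁻¹) (by
    rintro _ (⟨g, rfl⟩ | ⟨_, ⟨g, rfl⟩, rfl⟩)
    exacts [Normal.conj_mem ‹_› y (hBE hy) g, E.mul_mem (Normal.conj_mem ‹_› y (hBE hy) g) (hBE hy)])
  rw [Set.ncard_union_eq (Set.disjoint_left.2 (by
    rintro _ ⟨g', rfl⟩ ⟨_, ⟨g, rfl⟩, e⟩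
    have h5 := k12 g'
    have h6 := k12 g
    have h7 := k7 y hy
    have h8 := k13 g'
    have h9 := k13 g
    have h10 := Normal.conj_mem ‹E.Normal› y (hBE hy) g
    simp only at e
    rw [← e] at h5 h8
    generalize g * y * g⁻¹ = x at *
    obtain ⟨i, hi⟩ := k6 x h10 (k9 (mem_centralizer_singleton_iff.2 (by
      rw [sq, mul_eq_one_iff_eq_inv] at h5 h6 h7
      rw [h5, mul_inv_rev, ← h6, ← h7]))) h6
    have h11 := A.pow_mem h.zA i
    have := k8 _ hi fun e => h9 (eq_inv_of_mul_eq_one_right e ▸ A.inv_mem h11)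
    apply h8
    rw [← this, ← mul_assoc, ← (h.cA h11 h10).eq, mul_assoc, ← sq, h6, mul_one]
    exact h11)), Set.ncard_image_of_injective _ (mul_left_injective y), ← Nat.card_coe_set_eq (E : Set H),
    SetLike.coe_sort_coe, ← CF.Transfer.card_mul_relIndex hBE, hB', inf_relIndex_left, ← hB',
    show Nat.card B = 2 by omega] at k14
  rw [relIndex_top_right] at k11
  have k15 := Nat.le_of_mul_le_mul_left (k10.trans ((Nat.mul_le_mul_left _
    (show _ ≤ (stabilizer H v).relIndex E by omega)).trans_eq (mul_comm _ _)))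
      (Nat.pos_of_ne_zero (relIndex_ne_zero' _ _))
  exact hn.not_ge (((Nat.pow_le_pow_left (by omega) 2).trans
    (Nat.pow_le_pow_right hm.le (by omega))).trans k3)

end Crit

theorem aff' (V : Type*) [CommGroup V] [Finite V] (n : ℕ) : ∀ (H : Type u) [Group H]
    [Finite H] [MulDistribMulAction H V] [FaithfulSMul H V] (D : Subgroup H) [D.Normal],
    Nat.card H = n → (∀ g ∉ D, ∀ v : V, g • v = v → v = 1) → Nat.card V < (D.index + 1) ^ 2 →
      ∀ g : H, g ≠ 1 → ∀ v : V, g • v = v → v = 1 := by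
  induction n using Nat.strong_induction_on with | _ n ih
  intro H _ _ _ _ D _ hH hD hn g hg v hv
  by_contra h0
  obtain ⟨s, hs, h1⟩ := Nat.exists_prime_and_dvd (mt orderOf_eq_one_iff.1 hg)
  have := Fact.mk hs
  have h2 := orderOf_pow_orderOf_div (orderOf_pos g).ne' h1
  have h3 : g ^ (orderOf g / s) • v = v := (stabilizer H v).pow_mem hv _
  generalize g ^ (orderOf g / s) = y at h2 h3
  have h4 : y ≠ 1 := fun e => hs.one_lt.ne' (by rw [← h2, e, orderOf_one])
  obtain ⟨S, h5, hS⟩ := exists_isSylowIn_ge (isPGroup_zpowers (h2.trans (pow_one s).symm))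
    (zpowers_le_of_mem (by_contra fun e => h0 (hD y e v h3)))
  have hy := h5 (mem_zpowers y)
  have h6 := frat (top_sup_eq D) le_rfl (normalizer_eq_top D).ge hS le_rfl le_top
  rw [inf_top_eq] at h6
  have : S.Normal := normalizer_eq_top_iff.1 (by_contra fun e => h0
    (ih _ ((card_lt_of_lt (lt_top_iff_ne_top.2 e)).trans_eq (card_top.trans hH)) (normalizer (S : Set H))
      (D.subgroupOf _) rfl (fun g hg => hD g hg) (by rwa [← relIndex, relIndex_sp h6])
      ⟨y, le_normalizer hy⟩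
      (fun e => h4 (congrArg Subtype.val e)) v h3))
  obtain ⟨E, e1, -, e2, e3, e4, e5⟩ := exists_critical_subgroup hS.2
  have : E.Normal := normalizer_eq_top_iff.1 (eq_top_iff.2 ((normalizer_eq_top S).ge.trans e2))
  set A := E ⊓ centralizer (E : Set H) with hA
  have h7 : A ≠ ⊥ := fun e => by
    have : S ≤ centralizer (E : Set H) :=
      le_centralizer_iff.1 (commutator_eq_bot_iff_le_centralizer.1 (eq_bot_iff.2 (e ▸ e4)))
    exact h4 (mem_bot.1 (e.le ⟨e5 ⟨hy, this hy⟩, this hy⟩))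
  obtain ⟨k, hk⟩ := IsPGroup.iff_card.1 (hS.2.to_le (inf_le_left.trans e1 : A ≤ S))
  obtain ⟨z, hz⟩ := exists_prime_orderOf_dvd_card' (G := A) s (hk ▸ dvd_pow_self s (by
    rintro rfl; exact h7 (card_eq_one.1 hk)))
  have h8 := hS.2.card_modEq_card_fixedPoints V
  rw [show Nat.card (fixedPoints S V) = 1 from Nat.card_eq_one_iff_exists.2 ⟨⟨1, fun g => smul_one g⟩,
    fun w => Subtype.ext (mem_bot.1 ((irr hD hn S fun e => h4 (mem_bot.1 (e.le hy))).le
      fun b hb => w.2 ⟨b, hb⟩))⟩] at h8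
  have h : Crit V s S E A z := ⟨hS.2, e1, hA, e3, fun x hx u hu => by
      simpa [mul_assoc, commutatorElement_def] using A.inv_mem (e4 (commutator_mem_commutator hx hu)), e5,
    fun a ha h9 v => case1 (A := A) hD hn (fun a ha b hb => hb.2 a ha.1) (inf_le_left.trans (e1.trans hS.1))
      ha h9, by rw [Nat.Coprime, h8.gcd_eq, Nat.gcd_one_left], z.2, by rw [← hz, orderOf_coe]⟩
  exact h0 (h.case2 hD hn hS.1 (fun e he h9 v => h.case3' hD hn hS.1 he h9) hy h4 h3)

variable {G : Type u} [Group G] [Finite G] {Ω : Type*} [MulAction G Ω] [Finite Ω] [FaithfulSMul G Ω]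
  [IsPretransitive G Ω] [Nontrivial Ω]

theorem ab_big {D : Subgroup G} [D.Normal] (h : U1 D Ω) (hn : Nat.card Ω < (D.index + 1) ^ 2)
    (hd : 3 ≤ D.index) : ∃ N : Subgroup G, N.Normal ∧ IsMulCommutative N ∧ N ≠ ⊥ := by
  obtain ⟨r, e, hr, he⟩ := prime_pow h (fun k => by rw [k, index_top] at hd; omega) hn
  have := Fact.mk hr
  let R : Sylow r G := default
  obtain ⟨h1, h2, h3⟩ := regular h hn he R
  have hR := sylow_isPretransitive he R
  have hR' := (isPretransitive_subgroup_iff _).1 hR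
  obtain ⟨a⟩ : Nonempty Ω := inferInstance
  set M := normalizer ((R : Subgroup G) : Set G)
  have h4 : M ⊓ stabilizer G a ⊔ D = ⊤ := eq_top_iff.2 ((R.normalizer_sup_eq_top' h1).ge.trans
    (sup_le (sup_of_trans (fun g _ b => (hR' b (g • b)).imp fun n hn =>
      ⟨⟨h1 hn.1, le_normalizer hn.1⟩, hn.2⟩) a) le_sup_right))
  have h5 : ∀ g : G, g • a = a → ∀ u : G, g * u * g⁻¹ = u → g • u • a = u • a := fun g hg u k => by
    rw [← mul_smul, mul_inv_eq_iff_eq_mul.1 k, mul_smul, hg]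
  letI : CommGroup R := { (inferInstance : Group R) with
    mul_comm := fun u v => Subtype.ext (h2 _ u.2 _ v.2) }
  letI := MulDistribMulAction.compHom (R : Subgroup G) (inclusion (inf_le_left (b := stabilizer G a)) :
    (M ⊓ stabilizer G a : Subgroup G) →* M)
  have : FaithfulSMul (M ⊓ stabilizer G a : Subgroup G) R := ⟨fun {g g'} k => Subtype.ext
    (eq_of_smul_eq_smul fun b : Ω => by
      obtain ⟨u, hu, rfl⟩ := hR' a b
      have k1 : (g : G) * u * (g : G)⁻¹ = g' * u * (g' : G)⁻¹ := congrArg Subtype.val (k ⟨u, hu⟩)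
      rw [← mul_smul, mul_inv_eq_iff_eq_mul.1 k1, mul_smul, g.2.2, mul_smul, mul_smul,
        inv_smul_eq_iff.2 g'.2.2.symm])⟩
  have h6 := aff' R _ (M ⊓ stabilizer G a : Subgroup G) (D.subgroupOf _) rfl
    (fun g hg u k => Subtype.ext (h3 _ u.2 a ((h g hg).unique
      (h5 g g.2.2 u (congrArg Subtype.val k)) g.2.2)))
    (by rwa [← relIndex, relIndex_sp h4, ← card_mul_card_stabilizer a,
      (stabilizer_subgroup_eq_bot_iff _ a).2 fun u hu => h3 u hu a, card_bot, mul_one])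
  have h7 : ∀ u ∈ R, u ≠ 1 → centralizer {u} ≤ (R : Subgroup G) := fun u hu k =>
    le_of_burnside he R hR h2 (fun v hv => mem_centralizer_singleton_iff.2 (h2 v hv u hu))
      fun g hg => by
        obtain ⟨w, hw, k1⟩ := hR' a (g • a)
        by_contra k2
        refine k (congrArg Subtype.val (h6 ⟨w⁻¹ * g, M.mul_mem (M.inv_mem (le_normalizer hw)) hg.1, by
          change (_ * _) • a = a
          rw [mul_smul, ← k1, inv_smul_smul]⟩ (fun e => k2 (inv_mul_eq_one.1
            (congrArg Subtype.val e) ▸ hw)) ⟨u, hu⟩ (Subtype.ext ?_)))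
        change w⁻¹ * g * u * (w⁻¹ * g)⁻¹ = u
        rw [mul_assoc w⁻¹, ← hg.2 u rfl, ← mul_assoc, h2 _ (inv_mem hw) u hu, mul_assoc u,
          mul_inv_cancel_right]
  have h8 := normal_of he h hn hd R h7
  obtain ⟨b, hb⟩ := exists_ne a
  obtain ⟨u, hu, rfl⟩ := hR' a b
  exact ⟨R, h8, ⟨⟨fun u v => Subtype.ext (h2 _ u.2 _ v.2)⟩⟩, fun k =>
    hb (by rw [mem_bot.1 (k.le hu), one_smul])⟩

theorem ab_small {D : Subgroup G} [D.Normal] (h0 : ∀ g ∉ D, ∃ a : Ω, g • a = a)
    (hn : Nat.card Ω < (D.index + 1) ^ 2) (hd : D.index ≤ 2) :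
    ∃ N : Subgroup G, N.Normal ∧ IsMulCommutative N ∧ N ≠ ⊥ := by
  classical
  obtain ⟨h, tr⟩ := u1_of h0
  have := Fintype.ofFinite Ω
  have n2 : 1 < Nat.card Ω := Finite.one_lt_card
  have r0 : 0 < D.index := Nat.pos_of_ne_zero FiniteIndex.index_ne_zero
  have hp : Fact (Nat.card Ω).Prime := ⟨by
    have h1 := dvd_card h
    obtain k | k : D.index = 1 ∨ D.index = 2 := by omega
    all_goals
      rw [k] at hn h1
      generalize Nat.card Ω = n at *
      interval_cases n <;> first | omega | norm_num⟩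
  obtain ⟨b, a, hab⟩ := exists_pair_ne Ω
  have hs : Group.IsSolvable D := (solvable_or_twoTrans (G := D) (α := Ω)
    Nat.card_eq_fintype_card.symm).elim id fun k => by
      obtain rfl : D = ⊤ := eq_top_iff.2 fun g _ => by
        obtain ⟨d, h1, h2⟩ := is_two_pretransitive_iff.1 k hab.symm
          (fun e => hab (smul_left_cancel g e).symm : g • a ≠ g • b)
        have : (d : G)⁻¹ * g ∈ D := h.le hab ⟨by
          change (_ * _) • a = a; rw [mul_smul, inv_smul_eq_iff]; exact h1.symm, by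
          change (_ * _) • b = b; rw [mul_smul, inv_smul_eq_iff]; exact h2.symm⟩
        simpa using D.mul_mem d.2 this
      refine CF.Char.isSolvable_of_card_dvd Nat.prime_two Nat.prime_three _ (a := 1) (b := 1)
        (card_top.dvd.trans ((card_dvd_of_injective (toPermHom G Ω) toPerm_injective).trans ?_))
      rw [index_top] at hn
      rw [Nat.card_perm]
      generalize Nat.card Ω = n at *
      interval_cases n <;> decide
  obtain ⟨N, ⟨h1, h2, h3⟩, h4⟩ := exists_minimal_of_wellFoundedLT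
    (fun N : Subgroup G => N.Normal ∧ N ≠ ⊥ ∧ N ≤ D) ⟨D, ‹_›, fun e => by
      obtain ⟨d, hd⟩ := tr.exists_smul_eq a b
      exact hab (by rw [← hd, show d = 1 from Subtype.ext (mem_bot.1 (e.le d.2)), one_smul]), le_rfl⟩
  have := Group.isSolvable_of_isSolvable_injective (inclusion_injective h3)
  have := (nontrivial_iff_ne_bot N).2 h2
  have h5 : ⁅N, N⁆ = ⊥ := by_contra fun k => (Group.IsSolvable.commutator_lt_top_of_nontrivial N).not_ge
    fun x _ => by
      obtain ⟨y, hy, e⟩ := (map_subtype_commutator N).ge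
        (h4 ⟨inferInstance, k, (commutator_le_left N N).trans h3⟩ (commutator_le_left N N) x.2)
      rwa [← Subtype.ext e]
  exact ⟨N, h1, ⟨⟨fun u v => Subtype.ext
    (commutator_eq_bot_iff_le_centralizer.1 h5 v.2 u u.2)⟩⟩, h2⟩

theorem nonaff (hna : ∀ N : Subgroup G, N.Normal → IsMulCommutative N → N = ⊥) :
    ((closure {g : G | ∀ ω : Ω, g • ω ≠ ω}).index : ℝ) ≤ Real.sqrt (Nat.card Ω) - 1 := by
  set D := closure {g : G | ∀ ω : Ω, g • ω ≠ ω} with hD
  have : D.Normal := by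
    rw [show D = normalClosure _ from congrArg Subgroup.closure (Group.subset_conjugatesOfSet.antisymm
      fun y hy => ?_)]
    · infer_instance
    obtain ⟨u, hu, k⟩ := Group.mem_conjugatesOfSet_iff.1 hy
    obtain ⟨g, rfl⟩ := isConj_iff.1 k
    exact fun a e => hu (g⁻¹ • a) (by rwa [mul_smul, mul_smul, ← eq_inv_smul_iff] at e)
  by_contra h
  have hn : Nat.card Ω < (D.index + 1) ^ 2 := lt_of_not_ge fun k => h (by
    rw [le_sub_iff_add_le]
    exact Real.le_sqrt_of_sq_le (by exact_mod_cast k))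
  have h1 : ∀ g ∉ D, ∃ a : Ω, g • a = a := fun g hg => by_contra fun k =>
    hg (subset_closure (not_exists.1 k))
  obtain ⟨N, h2, h3, h4⟩ := (le_or_gt 3 D.index).elim (ab_big (u1_of h1).1 hn)
    fun k => ab_small h1 hn (by omega)
  exact h4 (hna N h2 h3)

end CF.Dg
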