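import Cfsg.Agent.Perm.Count
import Cfsg.Agent.Perm.PrimeDegree3
import Cfsg.Agent.Coprime.Basic

/-!
# Fixed points of Sylow subgroups of transitive groups, I: set-up
-/

namespace CF.Fr

open MulAction Subgroup

universe u

variable {p : ℕ} {G : Type*} [Group G] {Ω : Type*} [MulAction G Ω] {x g : G}

/-- `g` is a `p`-element. -/
def PE (p : ℕ) (g : G) : Prop := ∃ k, g ^ p ^ k = 1

/-- `G` is generated by its `p`-elements. -/
def Gen (p : ℕ) (G : Type*) [Group G] : Prop := closure {g : G | PE p g} = ⊤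

/-- Every `p`-subgroup acts semiregularly on the points that it moves. -/
def SR (p : ℕ) (G Ω : Type*) [Group G] [MulAction G Ω] : Prop :=
  ∀ R : Subgroup G, IsPGroup p R → ∀ u ∈ R, u ≠ 1 → ∀ v ∈ R, ∀ a : Ω, u • a = a → v • a = a

/-- The subgroup generated by the `p`-elements of `S`. -/
def Kp (p : ℕ) (S : Subgroup G) : Subgroup G := closure {g | PE p g ∧ g ∈ S}

/-- The number of fixed points of `x` in `T`. -/
noncomputable def ff (x : G) (T : Set Ω) : ℕ := (T ∩ fixedBy Ω x).ncard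

/-- The number of points of `T` moved by `x`. -/
noncomputable def mm (x : G) (T : Set Ω) : ℕ := (T \ fixedBy Ω x).ncard

theorem PE.conj (h : PE p g) (a : G) : PE p (a * g * a⁻¹) :=
  let ⟨k, hk⟩ := h; ⟨k, by rw [conj_pow, hk, mul_one, mul_inv_cancel]⟩

theorem PE.isPGroup (h : PE p g) : IsPGroup p (zpowers g) := by
  obtain ⟨k, hk⟩ := h
  rintro ⟨_, i, rfl⟩
  exact ⟨k, Subtype.ext (by
    change (g ^ i) ^ p ^ k = 1
    rw [← zpow_natCast, ← zpow_mul, mul_comm, zpow_mul, zpow_natCast, hk, one_zpow])⟩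

theorem pe_of_mem {R : Subgroup G} (hR : IsPGroup p R) (h : g ∈ R) : PE p g :=
  let ⟨k, hk⟩ := hR ⟨g, h⟩; ⟨k, congrArg Subtype.val hk⟩

theorem pe_of_orderOf (h : orderOf x = p) : PE p x := ⟨1, by rw [pow_one, ← h, pow_orderOf_eq_one]⟩

theorem pe_coe {K : Subgroup G} {g : K} : PE p (g : G) ↔ PE p g :=
  exists_congr fun _ => ⟨fun h => Subtype.ext h, fun h => congrArg Subtype.val h⟩

theorem mem_Kp {S : Subgroup G} (h : PE p g) (hg : g ∈ S) : g ∈ Kp p S := subset_closure ⟨h, hg⟩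

theorem Kp_le (S : Subgroup G) : Kp p S ≤ S := (closure_le _).2 fun _ h => h.2

theorem gen_Kp (S : Subgroup G) : Gen p (Kp p S) :=
  eq_top_iff.2 (closure_closure_coe_preimage.ge.trans (closure_mono fun _ h => pe_coe.1 h.1))

theorem Gen.eq_top (h : Gen p G) {H : Subgroup G} (h1 : ∀ g, PE p g → g ∈ H) : H = ⊤ :=
  eq_top_iff.2 (h.ge.trans ((closure_le _).2 h1))

theorem SR.sub (h : SR p G Ω) (K : Subgroup G) : SR p K Ω := fun R hR u hu h1 v hv =>
  h _ (hR.map K.subtype) u (mem_map_of_mem _ hu) (fun h2 => h1 (Subtype.ext h2)) v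
    (mem_map_of_mem _ hv)

theorem SR.orb (h : SR p G Ω) (a : Ω) : SR p G (orbit G a) := fun R hR u hu h1 v hv b hb =>
  Subtype.ext (h R hR u hu h1 v hv b (congrArg Subtype.val hb))

theorem ff_orb (a : Ω) : ff x (Set.univ : Set (orbit G a)) = ff x (orbit G a) := by
  rw [ff, ff, ← Set.ncard_image_of_injective _ Subtype.val_injective]
  congr 1
  ext b
  simp only [Set.univ_inter, Set.mem_image, mem_fixedBy, Set.mem_inter_iff]
  exact ⟨fun ⟨c, h1, h2⟩ => h2 ▸ ⟨c.2, congrArg Subtype.val h1⟩,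
    fun h => ⟨⟨b, h.1⟩, Subtype.ext h.2, rfl⟩⟩

theorem mm_orb (a : Ω) : mm x (Set.univ : Set (orbit G a)) = mm x (orbit G a) := by
  rw [mm, mm, ← Set.ncard_image_of_injective _ Subtype.val_injective]
  congr 1
  ext b
  simp only [Set.mem_image, mem_fixedBy, Set.mem_sdiff, Set.mem_univ, true_and]
  exact ⟨fun ⟨c, h1, h2⟩ => h2 ▸ ⟨c.2, fun h => h1 (Subtype.ext h)⟩,
    fun h => ⟨⟨b, h.1⟩, fun h1 => h.2 (congrArg Subtype.val h1), rfl⟩⟩

section Fin

variable [Finite Ω]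

theorem ff_add_mm (x : G) (T : Set Ω) : ff x T + mm x T = T.ncard :=
  Set.ncard_inter_add_ncard_sdiff_eq_ncard _ _

theorem ff_add_mm_univ (x : G) : ff x (Set.univ : Set Ω) + mm x (Set.univ : Set Ω) = Nat.card Ω :=
  (ff_add_mm x _).trans (Set.ncard_univ Ω)

theorem ff_split {O T : Set Ω} (h : O ⊆ T) : ff x T = ff x O + ff x (T \ O) := by
  rw [ff, ff, ff, ← Set.ncard_union_eq (Set.disjoint_left.2 fun _ h1 h2 => h2.1.2 h1.1),
    ← Set.union_inter_distrib_right, Set.union_sdiff_cancel h]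

theorem mm_split {O T : Set Ω} (h : O ⊆ T) : mm x T = mm x O + mm x (T \ O) := by
  rw [mm, mm, mm, ← Set.ncard_union_eq (Set.disjoint_left.2 fun _ h1 h2 => h2.1.2 h1.1),
    ← Set.union_sdiff_distrib, Set.union_sdiff_cancel h]

theorem mm_pos {T : Set Ω} {a : Ω} (ha : a ∈ T) (h : x • a ≠ a) : 0 < mm x T :=
  (Set.ncard_pos (Set.toFinite _)).2 ⟨a, ha, h⟩

theorem exists_of_ff {T : Set Ω} (h : ff x T ≠ 0) : ∃ a ∈ T, x • a = a :=
  Set.nonempty_of_ncard_ne_zero h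

omit [Finite Ω] in
theorem inv_diff {T : Set Ω} (hT : ∀ g : G, ∀ a ∈ T, g • a ∈ T) (b : Ω) (g : G) (a : Ω)
    (ha : a ∈ T \ orbit G b) : g • a ∈ T \ orbit G b :=
  ⟨hT g a ha.1, fun h => ha.2 (by simpa using mapsTo_smul_orbit g⁻¹ b h)⟩

omit [Finite Ω] in
theorem orb_sub {T : Set Ω} (hT : ∀ g : G, ∀ a ∈ T, g • a ∈ T) {b : Ω} (hb : b ∈ T) :
    orbit G b ⊆ T := by
  rintro _ ⟨g, rfl⟩; exact hT g b hb

theorem orb_ind (Pr : ℕ → ℕ → Prop) (h0 : Pr 0 0)
    (ha : ∀ a b c d, Pr a b → Pr c d → Pr (a + c) (b + d)) (T : Set Ω)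
    (hT : ∀ g : G, ∀ a ∈ T, g • a ∈ T)
    (h : ∀ a ∈ T, Pr (mm x (orbit G a)) (ff x (orbit G a))) : Pr (mm x T) (ff x T) := by
  induction hn : T.ncard using Nat.strong_induction_on generalizing T with | _ n ih
  rcases T.eq_empty_or_nonempty with rfl | ⟨b, hb⟩
  · simpa [mm, ff] using h0
  rw [ff_split (orb_sub hT hb), mm_split (orb_sub hT hb)]
  exact ha _ _ _ _ (h b hb) (ih _ (hn ▸ Set.ncard_lt_ncard ⟨Set.sdiff_subset, fun h1 =>
    (h1 hb).2 (mem_orbit_self b)⟩) _ (inv_diff hT b) (fun a ha => h a ha.1) rfl)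

theorem SR.dvd (h : SR p G Ω) {R : Subgroup G} (hR : IsPGroup p R) (hx : x ∈ R) (h1 : x ≠ 1) :
    Nat.card R ∣ mm x (Set.univ : Set Ω) := by
  refine orb_ind (G := R) (x := ⟨x, hx⟩) (fun a _ => Nat.card R ∣ a) (dvd_zero _)
    (fun _ _ _ _ => dvd_add) _ (fun _ _ _ => trivial) fun a _ => ?_
  by_cases h2 : x • a = a
  · rw [mm, Set.sdiff_eq_empty.2, Set.ncard_empty]
    · exact dvd_zero _
    rintro _ ⟨g, rfl⟩
    change x • (g : G) • a = (g : G) • a
    rw [h R hR x hx h1 g g.2 a h2, h2]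
  rw [mm, Disjoint.sdiff_eq_left, ← Nat.card_coe_set_eq, 
    ← CF.Perm.card_orbit_mul_card_stabilizer a, (eq_bot_iff (a := stabilizer R a)).2 fun g hg =>
      by_contra fun h3 => h2 (h R hR g g.2 (fun h4 => h3 (Subtype.ext h4)) x hx a hg), card_bot,
    mul_one]
  refine Set.disjoint_left.2 ?_
  rintro _ ⟨g, rfl⟩ h3
  have h4 := h R hR x hx h1 g⁻¹ (inv_mem g.2) _ h3
  rw [show ((g : G)⁻¹ • g • a) = a from inv_smul_smul (g : G) a] at h4
  exact h2 (by rwa [mem_fixedBy, ← h4] at h3)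

end Fin

variable [Finite G] [hp : Fact p.Prime]

theorem exists_conj_mem (hx : PE p x) (hg : PE p g) :
    ∃ (a : G) (R : Sylow p G), x ∈ R ∧ a * g * a⁻¹ ∈ R := by
  obtain ⟨R, hR⟩ := hx.isPGroup.exists_le_sylow
  obtain ⟨Q, hQ⟩ := hg.isPGroup.exists_le_sylow
  obtain ⟨a, rfl⟩ := exists_smul_eq G Q R
  exact ⟨a, _, hR (mem_zpowers x), smul_mem_pointwise_smul _ (MulAut.conj a) _ (hQ (mem_zpowers g))⟩

theorem zp_of_not_sq (h : ¬ p ^ 2 ∣ Nat.card G) {R : Subgroup G} (hR : IsPGroup p R) {u : G}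
    (hu : u ∈ R) (h1 : u ≠ 1) : zpowers u = R := by
  obtain ⟨k, hk⟩ := hR.exists_card_eq
  have h2 : k < 2 := not_le.1 fun h2 => h ((pow_dvd_pow p h2).trans (hk ▸ card_subgroup_dvd_card R))
  obtain ⟨j, h3, h4⟩ := (Nat.dvd_prime_pow hp.out).1 (hk ▸ card_dvd_of_le (zpowers_le_of_mem hu))
  have : j ≠ 0 := fun h5 => h1 (by rwa [h5, pow_zero, Nat.card_zpowers, orderOf_eq_one_iff] at h4)
  exact eq_of_le_of_card_ge (zpowers_le_of_mem hu)
    (by rw [hk, h4]; exact Nat.pow_le_pow_right hp.out.pos (by omega))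

theorem sr_of_not_sq (h : ¬ p ^ 2 ∣ Nat.card G) : SR p G Ω := fun _ hR _ hu h1 _ hv _ ha =>
  zpowers_le_of_mem (mem_stabilizer_iff.2 ha) (zp_of_not_sq h hR hu h1 ▸ hv)

theorem ne_one (hx : orderOf x = p) : x ≠ 1 := fun h =>
  hp.out.one_lt.ne' (by rw [← hx, h, orderOf_one])

theorem exists_conj_zp (h : ¬ p ^ 2 ∣ Nat.card G) (hx : orderOf x = p) {H : Subgroup G}
    (hxH : x ∈ H) (hgH : g ∈ H) (hg : PE p g) : ∃ a ∈ H, a * g * a⁻¹ ∈ zpowers x := by
  obtain ⟨a, R, h1, h2⟩ := exists_conj_mem (x := (⟨x, hxH⟩ : H)) (g := ⟨g, hgH⟩)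
    (pe_coe.1 (pe_of_orderOf hx)) (pe_coe.1 hg)
  exact ⟨a, a.2, zp_of_not_sq h (R.2.map H.subtype) (mem_map_of_mem _ h1) (ne_one hx) ▸
    mem_map_of_mem H.subtype h2⟩

theorem SR.exists_conj (h : SR p G Ω) (hx : orderOf x = p) (hg : PE p g) :
    ∃ a : G, ∀ b : Ω, x • b = b → g • a⁻¹ • b = a⁻¹ • b := by
  obtain ⟨a, R, h1, h2⟩ := exists_conj_mem (pe_of_orderOf hx) hg
  exact ⟨a, fun b hb => by
    rw [eq_inv_smul_iff, ← mul_smul, ← mul_smul]; exact h R R.2 x h1 (ne_one hx) _ h2 b hb⟩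

theorem exists_moved [IsPretransitive G Ω] [Nontrivial Ω] (hG : Gen p G) (h : SR p G Ω)
    (hx : orderOf x = p) : ∃ a : Ω, x • a ≠ a := by
  by_contra! h1
  obtain ⟨a, b, hab⟩ := exists_pair_ne Ω
  obtain ⟨c, rfl⟩ := exists_smul_eq G a b
  refine hab ((hG.eq_top (H := stabilizer G a) fun g hg => ?_).ge (mem_top c)).symm
  obtain ⟨d, hd⟩ := h.exists_conj hx hg
  simpa using hd (d • a) (h1 _)

theorem SR.p_dvd [Finite Ω] (h : SR p G Ω) (hx : orderOf x = p) : p ∣ mm x (Set.univ : Set Ω) := by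
  have := h.dvd (pe_of_orderOf hx).isPGroup (mem_zpowers x) (ne_one hx)
  rwa [Nat.card_zpowers, hx] at this

theorem SR.exists_sylow (h : SR p G Ω) (hx : orderOf x = p) {a : Ω} (ha : x • a = a) :
    ∃ R : Sylow p G, x ∈ R ∧ (R : Subgroup G) ≤ stabilizer G a :=
  let ⟨R, hR⟩ := (pe_of_orderOf hx).isPGroup.exists_le_sylow
  ⟨R, hR (mem_zpowers x), fun v hv => h R R.2 x (hR (mem_zpowers x)) (ne_one hx) v hv a ha⟩

theorem SR.not_dvd [IsPretransitive G Ω] (h : SR p G Ω) (hx : orderOf x = p) {a : Ω}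
    (ha : x • a = a) : ¬ p ∣ Nat.card Ω := fun h1 =>
  let ⟨R, _, hR⟩ := h.exists_sylow hx ha
  R.not_dvd_index ((h1.trans (index_stabilizer_of_transitive G a).symm.dvd).trans
    (index_dvd_of_le hR))

theorem SR.not_dvd_ff [IsPretransitive G Ω] [Finite Ω] (h : SR p G Ω) (hx : orderOf x = p) {a : Ω}
    (ha : x • a = a) : ¬ p ∣ ff x (Set.univ : Set Ω) := fun h1 =>
  h.not_dvd hx ha (ff_add_mm_univ (Ω := Ω) x ▸ dvd_add h1 (h.p_dvd hx))

theorem SR.sq_dvd_Kp (h : SR p G Ω) (hx : orderOf x = p) {a : Ω} (ha : x • a = a)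
    (h2 : p ^ 2 ∣ Nat.card G) : p ^ 2 ∣ Nat.card (Kp p (stabilizer G a)) :=
  let ⟨R, _, hR⟩ := h.exists_sylow hx ha
  (R.pow_dvd_card_of_pow_dvd_card h2).trans
    (card_dvd_of_le fun _ hg => mem_Kp (pe_of_mem R.2 hg) (hR hg))

theorem nontrivial_orb [Finite Ω] [IsPreprimitive G Ω] [Nontrivial Ω] (hG : Gen p G) (h : SR p G Ω)
    (hx : orderOf x = p) {a b : Ω} (ha : x • a = a) (hb : b ≠ a) :
    Nontrivial (orbit (Kp p (stabilizer G a)) b) := by
  rcases CF.Perm.rel_trivial (G := G) (fun a b : Ω => ∀ g : G, PE p g → g • a = a → g • b = b)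
    (fun _ _ _ h => h) (fun _ _ _ h1 h2 g hg h => h2 g hg (h1 g hg h)) (fun c a b h1 g hg h2 => by
      have := h1 _ (hg.conj c⁻¹) (by rw [inv_inv, mul_smul, mul_smul, h2, inv_smul_smul])
      rwa [inv_inv, mul_smul, mul_smul, inv_smul_eq_iff] at this) with h1 | h1
  · obtain ⟨g, hg, h2, h3⟩ : ∃ g : G, PE p g ∧ g • a = a ∧ g • b ≠ b := by
      by_contra! h2
      exact hb (h1 a b h2).symm
    exact ⟨⟨⟨_, mem_orbit b ⟨g, mem_Kp hg h2⟩⟩, ⟨b, mem_orbit_self b⟩,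
      fun h4 => h3 (congrArg Subtype.val h4)⟩⟩
  · obtain ⟨c, hc⟩ := exists_moved hG h hx
    exact absurd (h1 a c x (pe_of_orderOf hx) ha) hc

omit hp in
theorem card_Kp_lt [IsPretransitive G Ω] [Nontrivial Ω] (a : Ω) :
    Nat.card (Kp p (stabilizer G a)) < Nat.card G := by
  obtain ⟨b, hb⟩ := exists_ne a
  obtain ⟨c, rfl⟩ := exists_smul_eq G a b
  exact lt_of_le_of_ne (card_le_card_group _) fun h =>
    hb (Kp_le _ ((eq_top_of_card_eq _ h).ge (mem_top c)))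

omit [Finite G] hp in
theorem inv_compl (a : Ω) (g : Kp p (stabilizer G a)) (b : Ω) (hb : b ∈ Set.univ \ {a}) :
    g • b ∈ Set.univ \ {a} :=
  ⟨trivial, fun h => hb.2 (smul_left_cancel (g : G) (h.trans (Kp_le _ g.2).symm))⟩

omit [Finite G] hp in
theorem split_pt [Finite Ω] {a : Ω} (ha : x • a = a) :
    ff x (Set.univ : Set Ω) = 1 + ff x (Set.univ \ {a}) ∧
      mm x (Set.univ : Set Ω) = mm x (Set.univ \ {a}) := by
  replace ha : a ∈ fixedBy Ω x := ha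
  rw [ff_split (Set.subset_univ {a}), mm_split (Set.subset_univ {a}), ff, mm,
    Set.singleton_inter_of_mem ha, Set.sdiff_eq_empty.2 (Set.singleton_subset_iff.2 ha)]
  simp

omit hp in
theorem exists_quot {G : Type u} [Group G] [Finite G] [MulAction G Ω] [IsPretransitive G Ω]
    [Nontrivial Ω] [Finite Ω] : ∃ (Y : Type u) (_ : MulAction G Y) (_ : Finite Y) (_ : Nontrivial Y)
    (_ : IsPreprimitive G Y) (φ : Ω → Y) (s : ℕ), 0 < s ∧ (∀ (g : G) a, φ (g • a) = g • φ a) ∧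
      ∀ T : Set Y, (φ ⁻¹' T).ncard = s * T.ncard := by
  obtain ⟨a, b, hab⟩ := exists_pair_ne Ω
  obtain ⟨M, hM, h1⟩ := (eq_top_or_exists_le_coatom (stabilizer G a)).resolve_left fun h => by
    obtain ⟨c, rfl⟩ := exists_smul_eq G a b
    exact hab (h.ge (mem_top c)).symm
  have : Nontrivial (G ⧸ M) := (QuotientGroup.subsingleton_iff.not.2 hM.1) |> not_subsingleton_iff_nontrivial.1
  choose c hc using exists_smul_eq G a
  have h2 : ∀ (g : G) b, ((c (g • b) : G) : G ⧸ M) = g • (c b : G ⧸ M) := fun g b =>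
    QuotientGroup.eq.2 (h1 (by
      change ((c (g • b))⁻¹ * (g * c b)) • a = a
      rw [mul_smul, mul_smul, hc, inv_smul_eq_iff, hc]))
  refine ⟨G ⧸ M, inferInstance, inferInstance, this, (isCoatom_stabilizer_iff_preprimitive G
    ((1 : G) : G ⧸ M)).1 (by rwa [stabilizer_quotient]), fun b => c b,
    ((fun b => (c b : G ⧸ M)) ⁻¹' {(c a : G ⧸ M)}).ncard,
    (Set.ncard_pos (Set.toFinite _)).2 ⟨a, rfl⟩, h2, fun T => ?_⟩
  induction T, T.toFinite using Set.Finite.induction_on with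
  | empty => simp
  | @insert y T hy _ ih =>
    obtain ⟨g, rfl⟩ := exists_smul_eq G (c a : G ⧸ M) y
    rw [Set.ncard_insert_of_notMem hy, mul_add_one, ← ih, Set.insert_eq, Set.preimage_union,
      Set.ncard_union_eq ((Set.disjoint_singleton_left.2 hy).preimage _), add_comm,
      ← Set.ncard_smul_set g (_ ⁻¹' {(c a : G ⧸ M)})]
    congr 2
    ext b
    rw [Set.mem_smul_set_iff_inv_smul_mem, Set.mem_preimage, Set.mem_preimage, h2,
      Set.mem_singleton_iff, Set.mem_singleton_iff, inv_smul_eq_iff]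

end CF.Fr
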