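import Cfsg.Agent.Perm.Fr1

/-!
# Fixed points of Sylow subgroups of transitive groups, II: easy cases
-/

namespace CF.Fr

open MulAction Subgroup CF.Coprime

universe u

variable {p : ℕ} {G : Type*} [Group G] {Ω Y : Type*} [MulAction G Ω] [MulAction G Y] {x g : G}
  [Finite Ω] [Finite Y]

local notation "U" => Set.univ

section Quot

variable {φ : Ω → Y} {s : ℕ} (hφ : ∀ (g : G) a, φ (g • a) = g • φ a)
  (hs : ∀ T : Set Y, (φ ⁻¹' T).ncard = s * T.ncard)
include hφ hs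

omit [Finite Y] hs [Finite Ω] in
theorem quot_sub : U ∩ fixedBy Ω x ⊆ φ ⁻¹' (U ∩ fixedBy Y x) := fun a ha =>
  ⟨trivial, (hφ x a).symm.trans (congrArg φ ha.2)⟩

omit [Finite Y] in
theorem quot_le : ff x (U : Set Ω) ≤ s * ff x (U : Set Y) :=
  (Set.ncard_le_ncard (quot_sub hφ)).trans_eq (hs _)

omit hφ in
theorem quot_add : ff x (U : Set Ω) + mm x (U : Set Ω) =
    s * ff x (U : Set Y) + s * mm x (U : Set Y) := by
  rw [← mul_add, ff_add_mm, ff_add_mm, ← hs, Set.preimage_univ]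

omit [Finite Y] in
theorem quot_eq (h : ff x (U : Set Ω) = s * ff x (U : Set Y)) {a : Ω} (ha : x • φ a = φ a) :
    x • a = a :=
  ((Set.eq_of_subset_of_ncard_le (quot_sub hφ) ((hs _).trans h.symm).le).ge ⟨trivial, ha⟩).2

omit [Finite Y] in
theorem SR.quot [Fact p.Prime] (h : SR p G Ω) (h1 : ¬ p ∣ s) : SR p G Y :=
  fun R hR u hu h2 v hv y hy => by
    let T : SubMulAction (zpowers u) Ω := ⟨φ ⁻¹' {y}, fun c a (ha : φ a = y) => by
      change φ ((c : G) • a) = y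
      rw [hφ, ha]
      exact zpowers_le_of_mem (mem_stabilizer_iff.2 hy) c.2⟩
    obtain ⟨⟨a, ha⟩, h3⟩ := (hR.to_le (zpowers_le_of_mem hu)).nonempty_fixed_point_of_prime_not_dvd_card
      T (by rwa [show Nat.card T = (φ ⁻¹' {y}).ncard from rfl, hs, Set.ncard_singleton, mul_one])
    rw [← (ha : φ a = y), ← hφ, h R hR u hu h2 v hv a
      (congrArg Subtype.val (h3 ⟨u, mem_zpowers u⟩))]

end Quot

theorem hp_bound [hp : Fact p.Prime] (n : ℕ) : ∀ (G Ω : Type u) [Group G] [Finite G] [MulAction G Ω]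
    [Finite Ω] [IsPretransitive G Ω] [Nontrivial Ω] (x : G), Nat.card G = n → Gen p G → SR p G Ω →
    orderOf x = p → p ^ 2 ∣ Nat.card G → p * (ff x (U : Set Ω) + 1) ≤ mm x (U : Set Ω) := by
  induction n using Nat.strong_induction_on with | _ n ih
  intro G Ω _ _ _ _ _ _ x hn hG hS hx h2
  have key : ∀ (Ω : Type u) [MulAction G Ω] [Finite Ω] [IsPretransitive G Ω] [Nontrivial Ω],
      SR p G Ω → p ^ 2 ∣ mm x (U : Set Ω) ∧
        (ff x (U : Set Ω) = 0 → p * (ff x (U : Set Ω) + 1) ≤ mm x (U : Set Ω)) := by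
    intro Ω _ _ _ _ hS
    obtain ⟨R, hR⟩ := (pe_of_orderOf hx).isPGroup.exists_le_sylow
    have h1 := (R.pow_dvd_card_of_pow_dvd_card h2).trans
      (hS.dvd R.2 (hR (mem_zpowers x)) (ne_one hx))
    obtain ⟨a, ha⟩ := exists_moved hG hS hx
    exact ⟨h1, fun h => by
      rw [h, zero_add, mul_one]
      exact Nat.le_of_dvd (mm_pos trivial ha) ((dvd_pow_self p two_ne_zero).trans h1)⟩
  by_cases h0 : ff x (U : Set Ω) = 0
  · exact (key Ω hS).2 h0
  obtain ⟨a, -, ha⟩ := exists_of_ff h0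
  obtain ⟨Y, _, _, _, _, φ, s, h3, hφ, hs⟩ := exists_quot (G := G) (Ω := Ω)
  have h4 := quot_add (x := x) hs
  have h5 := quot_le (x := x) hφ hs
  have hY := hS.quot hφ hs fun h => hS.not_dvd hx ha (by
    rw [← ff_add_mm_univ x, h4, ← mul_add]; exact h.mul_right _)
  suffices p * (ff x (U : Set Y) + 1) ≤ mm x (U : Set Y) by nlinarith
  have hb : x • φ a = φ a := by rw [← hφ, ha]
  have hxK := mem_Kp (pe_of_orderOf hx) (mem_stabilizer_iff.2 hb)
  obtain ⟨h6, h7⟩ := split_pt hb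
  have h8 := orb_ind (x := (⟨x, hxK⟩ : Kp p _)) (fun m f => (m = 0 ∧ f = 0) ∨ p * (f + 1) ≤ m)
    (Or.inl ⟨rfl, rfl⟩) (by
      rintro a b c d (⟨rfl, rfl⟩ | h1) (⟨rfl, rfl⟩ | h2)
      exacts [Or.inl ⟨rfl, rfl⟩, Or.inr (by simpa using h2), Or.inr h1, Or.inr (by nlinarith)])
    _ (inv_compl (φ a)) fun b hb' => by
      have := nontrivial_orb hG hY hx hb hb'.2
      rw [← mm_orb, ← ff_orb]
      exact Or.inr (ih _ (hn ▸ card_Kp_lt (φ a)) _ _ _ rfl (gen_Kp _) ((hY.sub _).orb b)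
        ((orderOf_mk ..).trans hx) (hY.sq_dvd_Kp hx hb h2))
  change (mm x (U \ {φ a}) = 0 ∧ _) ∨ p * (ff x (U \ {φ a}) + 1) ≤ mm x (U \ {φ a}) at h8
  obtain ⟨c, hc⟩ := exists_moved hG hY hx
  rw [← h7, add_comm, ← h6] at h8
  replace h8 := h8.resolve_left fun h => (mm_pos (Set.mem_univ c) hc).ne' h.1
  obtain ⟨t, ht⟩ := (key Y hY).1
  rw [ht, pow_two, mul_assoc] at h8 ⊢
  exact Nat.mul_le_mul_left _ (lt_of_le_of_ne (Nat.le_of_mul_le_mul_left h8 hp.out.pos) fun h =>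
    hY.not_dvd_ff hx hb ⟨t, h⟩)

omit [Finite Y] in
theorem card_inf_mul (A B : Subgroup G) : Nat.card (B ⊓ A : Subgroup G) * A.relIndex B =
    Nat.card B := by
  rw [← relIndex_bot_left, ← relIndex_bot_left, ← inf_relIndex_left B A,
    relIndex_mul_relIndex _ _ _ bot_le inf_le_left]

variable [Finite G] [hp : Fact p.Prime]

theorem cop_bound (hS : SR p G Y) (hx : orderOf x = p) (L : Subgroup G) [L.Normal]
    (hL : ¬ p ∣ Nat.card L) [IsPretransitive L Y] {b : Y} (hb : x • b ≠ b) :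
    p * ff x (U : Set Y) ≤ mm x (U : Set Y) := by
  by_cases h0 : ff x (U : Set Y) = 0
  · rw [h0]; exact Nat.zero_le _
  obtain ⟨a, -, ha⟩ := exists_of_ff h0
  have hc : ∀ {H : Subgroup G}, H ≤ L → (Nat.card (zpowers x)).Coprime (Nat.card H) := fun h => by
    rw [Nat.card_zpowers, hx]
    exact hp.out.coprime_iff_not_dvd.2 fun h1 => hL (h1.trans (card_dvd_of_le h))
  have hs : ∀ {H : Subgroup G}, Group.IsSolvable (zpowers x) ∨ Group.IsSolvable H :=
    Or.inl inferInstance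
  have hn : zpowers x ≤ normalizer (L : Set G) := normalizer_eq_top L ▸ le_top
  have ha' : zpowers x ≤ stabilizer G a := zpowers_le_of_mem ha
  set C := centralizer (zpowers x : Set G) with hC
  have h1 := CF.Perm.card_orbit_mul_card_stabilizer (G := L) a
  have h2 := CF.Perm.card_orbit_mul_card_stabilizer (G := (L ⊓ C : Subgroup G)) a
  rw [CF.Perm.card_stabilizer_subgroup] at h1 h2
  rw [orbit_eq_univ, Nat.card_coe_set_eq, ← ff_add_mm x] at h1
  have h3 : orbit (L ⊓ C : Subgroup G) a = U ∩ fixedBy Y x := by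
    ext c
    rw [CF.Perm.mem_orbit_subgroup_iff]
    constructor
    · rintro ⟨g, hg, rfl⟩
      exact ⟨trivial, by rw [mem_fixedBy, ← mul_smul, hg.2 x (mem_zpowers x), mul_smul, ha]⟩
    · rintro ⟨-, h3⟩
      obtain ⟨k, rfl⟩ := exists_smul_eq L a c
      exact exists_centralizer_smul_eq _ L hn (hc le_rfl) hs a k k.2 ha'
        (zpowers_le_of_mem (mem_stabilizer_iff.2 h3))
  rw [h3, Nat.card_coe_set_eq, ← inf_assoc] at h2
  change ff x U * _ = _ at h2
  have h4 : ff x (U : Set Y) ∣ ff x (U : Set Y) + mm x (U : Set Y) := by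
    refine (Nat.factorization_prime_le_iff_dvd h0 (by omega)).1 fun q hq => ?_
    have := Fact.mk hq
    have hW := le_normalizer_inf (ha'.trans le_normalizer) hn
    obtain ⟨Q, h4, h5⟩ := exists_invariant_isSylowOf _ _ hW (hc inf_le_right) hs q
    obtain ⟨R, h6, h7, h8⟩ := exists_invariant_isSylowOf_ge _ L hn (hc le_rfl) hs q
      (h4.le.trans inf_le_right) h4.isPGroup h5
    have h9 := relIndex_le_of_le_right (H := C) h7 FiniteIndex.index_ne_zero
    have h10 : Nat.card Q * Nat.card (R ⊓ C : Subgroup G) ≤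
        Nat.card R * Nat.card (Q ⊓ C : Subgroup G) := by
      rw [← card_inf_mul C Q, ← card_inf_mul C R, mul_right_comm, mul_right_comm _ _ (Nat.card _),
        mul_comm (Nat.card (Q ⊓ C : Subgroup G))]
      exact Nat.mul_le_mul_left _ h9
    rw [h4.card_eq, h6.card_eq, (h4.inf_centralizer _ _ hW (hc inf_le_right) hs q h5).card_eq,
      (h6.inf_centralizer _ _ hn (hc le_rfl) hs q h8).card_eq, ← pow_add, ← pow_add,
      Nat.pow_le_pow_iff_right hq.one_lt, ← hC, ← h1, ← h2, Nat.factorization_mul h0 Nat.card_pos.ne',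
      Nat.factorization_mul (by omega) Nat.card_pos.ne'] at h10
    simp only [Finsupp.add_apply] at h10
    omega
  obtain ⟨r, hr⟩ := (Nat.dvd_add_right dvd_rfl).1 h4
  have h5 := mm_pos (x := x) (T := U) trivial hb
  have h6 := (hp.out.dvd_mul.1 (hr ▸ hS.p_dvd hx)).resolve_left fun h =>
    hL (h.trans ((Dvd.intro _ h2).trans (card_dvd_of_le inf_le_left)))
  rw [hr, mul_comm]
  exact Nat.mul_le_mul_left _ (Nat.le_of_dvd (Nat.pos_of_mul_pos_left (hr ▸ h5)) h6)

theorem two_bound [IsPretransitive G Y] (h4 : ¬ 2 ^ 2 ∣ Nat.card G) (hx : orderOf x = 2) {b : Y}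
    (hb : x • b ≠ b) : 2 * ff x (U : Set Y) ≤ mm x (U : Set Y) := by
  by_cases h0 : ff x (U : Set Y) = 0
  · rw [h0]; exact Nat.zero_le _
  obtain ⟨a, -, ha⟩ := exists_of_ff h0
  obtain ⟨R, h1, h2⟩ := (sr_of_not_sq h4).exists_sylow hx ha
  have h3 : 2 ∣ Nat.card G := hx ▸ orderOf_dvd_natCard x
  have h5 : Nat.card R = 2 := by
    obtain ⟨k, hk⟩ := R.2.exists_card_eq
    have h5 : k < 2 := not_le.1 fun h => h4 ((pow_dvd_pow 2 h).trans (hk ▸ card_subgroup_dvd_card _))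
    have h6 := R.dvd_card_of_dvd_card h3
    interval_cases k <;> simp_all
  have h6 := (isCyclic_of_prime_card h5).isComplement' ((Nat.minFac_eq_two_iff _).2 h3)
  have : IsPretransitive (MonoidHom.transferSylow R _).ker Y := ⟨fun c d => by
    obtain ⟨g, rfl⟩ := exists_smul_eq G a c
    obtain ⟨g', rfl⟩ := exists_smul_eq G a d
    obtain ⟨⟨l, r⟩, rfl⟩ := h6.2 g
    obtain ⟨⟨l', r'⟩, rfl⟩ := h6.2 g'
    exact ⟨l' * l⁻¹, by simp [Subgroup.smul_def, mul_smul, mem_stabilizer_iff.1 (h2 r.2),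
      mem_stabilizer_iff.1 (h2 r'.2)]⟩⟩
  exact cop_bound (sr_of_not_sq h4) hx _ (h6.index_eq_card ▸ R.not_dvd_index) hb

end CF.Fr
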