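import Cfsg.Agent.Perm.Fr2

/-!
# Fixed points of Sylow subgroups of transitive groups, III: groups containing a `p`-cycle
-/

namespace CF.Fr

open MulAction Subgroup

variable {p : ℕ} {G : Type*} [Group G] {I Y : Type*} [MulAction G I] [MulAction G Y] {x g : G}
  [Finite I] [Finite Y] [Finite G] [hp : Fact p.Prime]

local notation "U" => Set.univ
local notation "ker(" I ")" => MonoidHom.ker (toPermHom G I)

omit [Finite I] [Finite G] in
theorem mem_ker : g ∈ ker(I) ↔ ∀ a : I, g • a = a := Equiv.ext_iff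

omit hp [Finite G] in
theorem card_support [Fintype I] [DecidableEq I] :
    (toPerm x : Equiv.Perm I).support.card = mm x (U : Set I) := by
  rw [mm, ← Set.ncard_coe_finset]
  congr 1
  ext a
  simp

omit [Finite G] in
theorem alt_le [Fintype I] [DecidableEq I] [IsPreprimitive G I] (hx : orderOf x = p)
    (hm : mm x (U : Set I) = p) (hJ : 3 ≤ ff x (U : Set I) ∨ p = 3) :
    alternatingGroup I ≤ (toPermHom G I).range := by
  have h1 : IsPreprimitive (toPermHom G I).range I := IsPreprimitive.of_surjective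
    (φ := (toPermHom G I).rangeRestrict) (f := ⟨id, fun _ _ => rfl⟩) Function.surjective_id
  rw [← card_support] at hm
  have h2 : (toPerm x : Equiv.Perm I) ≠ 1 := fun h => hp.out.ne_zero (by rw [← hm, h]; simp)
  rcases hJ with h | h
  · have h3 : orderOf (toPerm x : Equiv.Perm I) = p := orderOf_eq_prime (by
      rw [← toPermHom_apply, ← map_pow, ← hx, pow_orderOf_eq_one, map_one]) h2
    have h4 := ff_add_mm_univ (Ω := I) x
    rw [← card_support, Nat.card_eq_fintype_card] at h4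
    exact CF.Perm.alternatingGroup_le_of_prime_cycle _ h1 hp.out (by omega)
      (Equiv.Perm.isCycle_of_prime_order (h3 ▸ hp.out) (by have := hp.out.pos; omega)) hm ⟨x, rfl⟩
  · exact CF.Perm.alternatingGroup_le_of_card_support_le h1 ⟨x, rfl⟩ h2 (hm.trans h).le

omit hp [Finite G] [Finite I] in
theorem mt [Fintype I] [DecidableEq I] (h : alternatingGroup I ≤ (toPermHom G I).range)
    (s : Finset I) (hs : s.card + 2 ≤ Nat.card I) (f : I → I) (hf : Set.InjOn f s) :
    ∃ g : G, ∀ a ∈ s, g • a = f a := by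
  obtain ⟨g, hg⟩ := CF.Perm.multTrans_finset (alternatingGroup.isMultiplyPretransitive I)
    (Nat.sub_le _ _) s (by omega) f hf
  obtain ⟨c, hc⟩ := h g.2
  exact ⟨c, fun a ha => (congrArg (fun σ : Equiv.Perm I => σ a) hc).trans (hg a ha)⟩

theorem le_choose_add (f i : ℕ) : ∀ n, f.choose (i + 1) + n * f.choose i ≤ (f + n).choose (i + 1)
  | 0 => by simp
  | n + 1 => by
    have := le_choose_add f i n
    have := Nat.choose_le_choose i (Nat.le_add_right f n)
    rw [← add_assoc, Nat.choose_succ_succ', add_one_mul]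
    omega

variable (h2 : ¬ p ^ 2 ∣ Nat.card G) (hx : orderOf x = p)
include h2 hx

theorem orb_eq (hm : mm x (U : Set I) = p) {a b : I} (ha : x • a ≠ a) (hb : x • b ≠ b) :
    ∃ u ∈ zpowers x, u • a = b := by
  have h1 := (((sr_of_not_sq h2).sub (zpowers x)).orb a).p_dvd (x := ⟨x, mem_zpowers x⟩)
    ((orderOf_mk x (mem_zpowers x)).trans hx)
  rw [mm_orb] at h1
  have h3 := Set.eq_of_subset_of_ncard_le (Set.sdiff_subset_sdiff_left (Set.subset_univ _))
    (hm.trans_le (Nat.le_of_dvd (mm_pos (mem_orbit_self a) ha) h1))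
  exact (CF.Perm.mem_orbit_subgroup_iff _ a b).1 (h3.ge ⟨trivial, hb⟩).1

theorem nj_bound [IsPretransitive G Y] (hm : mm x (U : Set I) = p) (hL : ker(I) ≤ ker(Y)) :
    ff x (U : Set Y) ≤ (p - 1) * (ff x (U : Set I)).factorial := by
  by_cases h0 : ff x (U : Set Y) = 0
  · rw [h0]; exact Nat.zero_le _
  obtain ⟨y, -, hy⟩ := exists_of_ff h0
  set N := normalizer (zpowers x : Set G)
  let T : SubMulAction N I := ⟨U ∩ fixedBy I x, fun n a ha => ⟨trivial, by
    have := zpowers_le_of_mem (mem_stabilizer_iff.2 ha.2)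
      ((mem_normalizer_iff''.1 n.2 x).1 (mem_zpowers x))
    rwa [mem_stabilizer_iff, mul_smul, mul_smul, inv_smul_eq_iff] at this⟩⟩
  let ψ := (zpowers x).normalizerMonoidHom.prod (toPermHom N T)
  have h1 : ψ.ker ≤ stabilizer N y := fun n hn => by
    have h3 : (n : G) * x * (n : G)⁻¹ = x :=
      congrArg (fun σ : MulAut (zpowers x) => (σ ⟨x, mem_zpowers x⟩ : G)) (congrArg Prod.fst hn)
    have h4 : ∀ a : I, x • a = a → (n : G) • a = a := fun a ha =>
      congrArg (fun σ : Equiv.Perm T => (σ ⟨a, trivial, ha⟩ : I)) (congrArg Prod.snd hn)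
    obtain ⟨a, -, ha⟩ := Set.nonempty_of_ncard_ne_zero (hm ▸ hp.out.ne_zero)
    have h5 : Commute (n : G) x := mul_inv_eq_iff_eq_mul.1 h3
    obtain ⟨u, hu, h6⟩ := orb_eq h2 hx hm ha (b := (n : G) • a) fun h => ha (by
      rwa [← mul_smul, ← h5.eq, mul_smul, smul_left_cancel_iff] at h)
    have h7 : zpowers x ≤ stabilizer G y := zpowers_le_of_mem hy
    have h8 := mem_ker.1 (hL (mem_ker.2 fun b => show (u⁻¹ * n) • b = b from ?_)) y
    · rwa [mul_smul, inv_smul_eq_iff, h7 hu] at h8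
    rw [mul_smul, inv_smul_eq_iff]
    by_cases hb : x • b = b
    · rw [h4 b hb, zpowers_le_of_mem (mem_stabilizer_iff.2 hb) hu]
    obtain ⟨_, ⟨i, rfl⟩, rfl⟩ := orb_eq h2 hx hm ha hb
    obtain ⟨j, rfl⟩ := hu
    rw [← mul_smul, (h5.zpow_right i).eq, mul_smul, ← h6, ← mul_smul, ← mul_smul,
      ((Commute.refl x).zpow_zpow i j).eq]
  have h3 : U ∩ fixedBy Y x ⊆ orbit N y := fun z hz => by
    obtain ⟨g, rfl⟩ := exists_smul_eq G y z
    obtain ⟨a, ha, h3⟩ := exists_conj_zp h2 hx (H := stabilizer G y) hy (g := g⁻¹ * x * g⁻¹⁻¹)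
      (by rw [mem_stabilizer_iff, inv_inv, mul_smul, mul_smul, hz.2, inv_smul_smul])
      ((pe_of_orderOf hx).conj _)
    have h4 : a * g⁻¹ ∈ N := mem_normalizer_fintype (by
      rintro _ ⟨i, rfl⟩
      rw [← conj_zpow]
      exact zpow_mem (by simpa [mul_assoc] using h3) i)
    exact ⟨⟨_, inv_mem h4⟩, by
      change (a * g⁻¹)⁻¹ • y = _
      rw [mul_inv_rev, inv_inv, mul_smul, inv_mem ha]⟩
  refine (Set.ncard_le_ncard h3).trans ?_
  rw [← Nat.card_coe_set_eq, CF.Perm.card_orbit_eq_index]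
  refine (index_antitone h1).trans ?_
  rw [index_ker]
  refine (card_le_card_group _).trans_eq ?_
  rw [Nat.card_prod, IsCyclic.card_mulAut, Nat.card_zpowers, hx, Nat.totient_prime hp.out,
    Nat.card_perm]
  rfl

variable (hG : Gen p G)
include hG

omit [Finite I] in
theorem dich (I : Type*) [MulAction G I] [IsPretransitive G I] [Nontrivial I] [IsPreprimitive G Y]
    [Nontrivial Y] : p * ff x (U : Set Y) ≤ mm x (U : Set Y) ∨ ker(I) ≤ ker(Y) := by
  refine or_iff_not_imp_right.2 fun h => ?_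
  have := IsQuasiPreprimitive.isPretransitive_of_normal (X := Y) (N := ker(I)) fun h1 =>
    h fun g hg => mem_ker.2 fun a => h1.ge (Set.mem_univ a) ⟨g, hg⟩
  obtain ⟨b, hb⟩ := exists_moved (Ω := Y) hG (sr_of_not_sq h2) hx
  refine cop_bound (sr_of_not_sq h2) hx ker(I) (fun h1 => ?_) hb
  obtain ⟨y, hy⟩ := exists_prime_orderOf_dvd_card' p h1
  obtain ⟨a, ha⟩ := exists_moved (Ω := I) hG (sr_of_not_sq h2) ((orderOf_coe y).trans hy)
  exact ha (mem_ker.1 y.2 a)

variable (hp2 : p ≠ 2) [IsPreprimitive G I] [Nontrivial I] [IsPreprimitive G Y] [Nontrivial Y]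
  (hm : mm x (U : Set I) = p) (hJ : 3 ≤ ff x (U : Set I) ∨ (p = 3 ∧ ff x (U : Set I) = 2))
include hm hJ

theorem not_small (hf : ff x (U : Set I) < p)
    (hd : (p - 1) * mm x (U : Set Y) < p * ff x (U : Set Y) + p * p) :
    ¬ p * ff x (U : Set Y) ≤ mm x (U : Set Y) := fun h => by
  classical
  have := Fintype.ofFinite I
  have := Fintype.ofFinite Y
  have hA := alt_le hx hm (hJ.imp_right And.left)
  have h0 := hp.out.pos
  have hL := (dich h2 hx hG Y (Y := I)).resolve_left (by
    rw [hm]; nlinarith [show 2 ≤ ff x (U : Set I) by omega])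
  have h1 := index_dvd_of_le hL
  rw [index_ker, index_ker] at h1
  obtain ⟨k, hk⟩ := (sr_of_not_sq (Ω := Y) h2).p_dvd hx
  obtain ⟨b, hb⟩ := exists_moved (Ω := Y) hG (sr_of_not_sq h2) hx
  have h3 := mm_pos (Set.mem_univ b) hb
  have h4 := ff_add_mm_univ (Ω := Y) x
  have h5 := ff_add_mm_univ (Ω := I) x
  rw [hk] at h hd h3 h4
  replace h := Nat.le_of_mul_le_mul_left h h0
  rw [mul_left_comm, ← mul_add] at hd
  replace hd := Nat.lt_of_mul_lt_mul_left hd
  obtain rfl | hk2 : k = 1 ∨ 2 ≤ k := by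
    have := Nat.pos_of_mul_pos_left h3
    omega
  · have h6 := (card_le_of_le hA).trans ((Nat.le_of_dvd Nat.card_pos h1).trans (card_le_card_group _))
    have h7 := two_mul_nat_card_alternatingGroup (α := I)
    rw [Nat.card_perm] at h6 h7
    have h8 := Nat.factorial_le (show p + 1 + 1 ≤ Nat.card I by omega)
    have h9 := Nat.factorial_le (show Nat.card Y ≤ p + 1 by omega)
    rw [Nat.factorial_succ] at h8
    nlinarith [Nat.factorial_pos (p + 1)]
  obtain ⟨c, rfl⟩ : ∃ c, p = c + 3 := ⟨p - 3, by omega⟩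
  obtain rfl : c = 0 := by
    by_contra h6
    have : c ≠ 1 := by rintro rfl; exact absurd hp.out (by decide)
    have : 2 * k ≤ c * k := Nat.mul_le_mul_right _ (by omega)
    have : c * 2 ≤ c * k := Nat.mul_le_mul_left _ hk2
    rw [show c + 3 - 1 = c + 2 from rfl, add_mul] at hd
    omega
  have h6 : 5 ∣ Nat.card (toPermHom G Y).range := by
    refine dvd_trans ?_ h1
    rw [← index_ker]
    obtain ⟨i⟩ := (inferInstance : Nonempty I)
    rw [show 5 = Nat.card I by omega, ← index_stabilizer_of_transitive G i]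
    exact index_dvd_of_le fun g hg => mem_ker.1 hg i
  have := Fact.mk Nat.prime_five
  obtain ⟨σ, hσ⟩ := exists_prime_orderOf_dvd_card' 5 h6
  rw [← orderOf_coe] at hσ
  have h7 : Fintype.card Y = 8 := by rw [← Nat.card_eq_fintype_card]; omega
  have h8 := Equiv.Perm.isCycle_of_prime_order' (hσ ▸ Nat.prime_five) (by omega)
  have h9 := card_dvd_of_le (CF.Perm.alternatingGroup_le_of_prime_cycle _
    (IsPreprimitive.of_surjective (φ := (toPermHom G Y).rangeRestrict) (f := ⟨id, fun _ _ => rfl⟩)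
      Function.surjective_id) Nat.prime_five (by omega) h8 (h8.orderOf.symm.trans hσ) σ.2)
  rw [nat_card_alternatingGroup, Nat.card_eq_fintype_card, h7] at h9
  exact h2 ((dvd_trans (by decide) h9).trans (card_range_dvd _))

include hp2 in
theorem exists_fixed (hf : ff x (U : Set I) < p) (hL : ker(I) ≤ ker(Y)) {y : Y} (hy : x • y = y) :
    ∃ i : I, ∀ g : G, PE p g → g • y = y → g • i = i := by
  classical
  have := Fintype.ofFinite I
  by_contra! h
  have hxH : x ∈ stabilizer G y := hy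
  obtain ⟨a, -, ha⟩ := Set.nonempty_of_ncard_ne_zero (hm ▸ hp.out.ne_zero)
  have h1 : ∀ i : I, ∃ c ∈ stabilizer G y, c • i = a := fun i => by
    obtain ⟨g, h1, h3, h4⟩ := h i
    obtain ⟨c, hc, h5⟩ := exists_conj_zp h2 hx hxH h3 h1
    obtain ⟨u, hu, h6⟩ := orb_eq h2 hx hm (a := c • i) (fun h6 => h4 (by
      have := zpowers_le_of_mem (mem_stabilizer_iff.2 h6) h5
      rwa [mem_stabilizer_iff, mul_smul, mul_smul, inv_smul_smul, smul_left_cancel_iff] at this)) ha
    exact ⟨u * c, mul_mem (zpowers_le_of_mem hxH hu) hc, by rw [mul_smul, h6]⟩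
  have : IsPretransitive (stabilizer G y) I := (CF.Perm.isPretransitive_subgroup_iff _).2 fun i j => by
    obtain ⟨c, hc, h3⟩ := h1 i
    obtain ⟨d, hd, h4⟩ := h1 j
    exact ⟨d⁻¹ * c, mul_mem (inv_mem hd) hc, by rw [mul_smul, h3, ← h4, inv_smul_smul]⟩
  have h3 : orbit (zpowers x) a = U \ fixedBy I x := by
    ext b
    rw [CF.Perm.mem_orbit_subgroup_iff]
    refine ⟨?_, fun h => orb_eq h2 hx hm ha h.2⟩
    rintro ⟨_, ⟨i, rfl⟩, rfl⟩
    refine ⟨trivial, fun h => ha ?_⟩
    rwa [mem_fixedBy, ← mul_smul, ((Commute.refl x).zpow_right i).eq, mul_smul,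
      smul_left_cancel_iff] at h
  have : IsPreprimitive (zpowers x) (orbit (zpowers x) a) := IsPreprimitive.of_prime_card (by
    rw [h3, Nat.card_coe_set_eq]; exact (congrArg Nat.Prime hm).mpr hp.out)
  have : IsPreprimitive (stabilizer G y) I := IsPreprimitive.of_card_lt
    (φ := inclusion (zpowers_le_of_mem hxH)) (f := ⟨(Subtype.val : orbit (zpowers x) a → I),
      fun _ _ => rfl⟩) (by
      change _ < 2 * (Set.range Subtype.val).ncard
      rw [Subtype.range_coe, h3, ← ff_add_mm_univ x]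
      change _ < 2 * mm x U
      omega)
  have h4 := alt_le (G := stabilizer G y) (I := I) (x := ⟨x, hxH⟩) ((orderOf_mk x hxH).trans hx) hm
    (hJ.imp_right And.left)
  have h5 := hG.eq_top (H := (alternatingGroup I).comap (toPermHom G I)) fun g ⟨k, hk⟩ => by
    rw [mem_comap, Equiv.Perm.mem_alternatingGroup]
    refine (Int.units_eq_one_or _).resolve_right fun h5 => ?_
    have h6 := congrArg (fun g => Equiv.Perm.sign (toPermHom G I g)) hk
    simp only [map_pow, h5, map_one, ((hp.out.odd_of_ne_two hp2).pow).neg_one_pow] at h6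
    exact absurd h6 (by decide)
  obtain ⟨z, hz⟩ := exists_ne y
  obtain ⟨g, rfl⟩ := exists_smul_eq G y z
  obtain ⟨c, hc⟩ := h4 (h5.ge (mem_top g))
  have h6 := mem_ker.1 (hL (mem_ker.2 fun i => show ((c : G)⁻¹ * g) • i = i by
    rw [mul_smul, inv_smul_eq_iff]; exact (congrArg (fun σ : Equiv.Perm I => σ i) hc).symm)) y
  rw [mul_smul, inv_smul_eq_iff] at h6
  exact hz (h6.trans c.2)

include hp2 in
theorem nat_of_J (hf : ff x (U : Set I) < p)
    (hd : (p - 1) * mm x (U : Set Y) < p * ff x (U : Set Y) + p * p) (y : Y) :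
    ∃ i : I, ∀ g : G, PE p g → (g • y = y ↔ g • i = i) := by
  classical
  have := Fintype.ofFinite I
  have := Fintype.ofFinite Y
  have h0 := not_small h2 hx hG hm hJ hf hd
  have hL := (dich h2 hx hG I).resolve_left h0
  obtain ⟨y₀, -, hy⟩ := exists_of_ff (x := x) (T := (U : Set Y)) fun h => h0 (by simp [h])
  obtain ⟨i₀, hi⟩ := exists_fixed h2 hx hG hp2 hm hJ hf hL hy
  let Z : Y → Finset I := fun y => Finset.univ.filter fun i => ∀ g : G, PE p g → g • y = y → g • i = i
  have hZ : ∀ {y i}, i ∈ Z y ↔ ∀ g : G, PE p g → g • y = y → g • i = i := by simp [Z]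
  have h1 : ∀ (c : G) y i, c • i ∈ Z (c • y) ↔ i ∈ Z y := by
    suffices ∀ (c : G) y i, i ∈ Z y → c • i ∈ Z (c • y) from fun c y i =>
      ⟨fun h => by simpa using this c⁻¹ _ _ h, this c y i⟩
    intro c y i h
    refine hZ.2 fun g hg h1 => ?_
    have := hZ.1 h _ (hg.conj c⁻¹) (by rw [inv_inv, mul_smul, mul_smul, h1, inv_smul_smul])
    rwa [inv_inv, mul_smul, mul_smul, inv_smul_eq_iff] at this
  have h3 : ∀ (c : G) y, Z (c • y) = (Z y).image (c • ·) := fun c y => by
    ext i
    rw [Finset.mem_image]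
    exact ⟨fun h => ⟨c⁻¹ • i, (h1 c _ _).1 (by simpa using h), by simp⟩,
      fun ⟨j, h3, h4⟩ => h4 ▸ (h1 c y j).2 h3⟩
  have h4 : ∀ y, (Z y).card = (Z y₀).card := fun y => by
    obtain ⟨c, rfl⟩ := exists_smul_eq G y₀ y
    rw [h3, Finset.card_image_of_injective _ (MulAction.injective c)]
  obtain ⟨a, -, ha⟩ := Set.nonempty_of_ncard_ne_zero (hm ▸ hp.out.ne_zero)
  have h5 : Function.Injective Z := (CF.Perm.rel_trivial (G := G) (fun a b => Z a = Z b)
    (fun _ => rfl) (fun _ _ _ => Eq.trans) fun g a b h => by rw [h3, h3, h]).resolve_right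
    (fun h => by
      obtain ⟨c, rfl⟩ := exists_smul_eq G i₀ a
      exact ha (hZ.1 (h _ _ ▸ (h1 c y₀ i₀).2 (hZ.2 hi)) x (pe_of_orderOf hx) hy))
  obtain ⟨r, hr⟩ := Nat.exists_eq_succ_of_ne_zero (Finset.card_ne_zero.2 ⟨i₀, hZ.2 hi⟩)
  obtain rfl | hr0 := r.eq_zero_or_pos
  · obtain ⟨i, h6⟩ := Finset.card_eq_one.1 ((h4 y).trans hr)
    exact ⟨i, fun g hg => ⟨hZ.1 (h6 ▸ Finset.mem_singleton_self i) g hg, fun h =>
      h5 (by rw [h3, h6, Finset.image_singleton, h])⟩⟩
  exfalso
  set F := (U ∩ fixedBy I x).toFinset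
  have hF : F.card = ff x (U : Set I) := (Set.ncard_eq_toFinset_card' _).symm
  have h6 : ∀ y, x • y = y → Z y ⊆ F := fun y hy i h =>
    Set.mem_toFinset.2 ⟨trivial, hZ.1 h x (pe_of_orderOf hx) hy⟩
  have h7 := Finset.card_le_card (h6 y₀ hy)
  have h8 := ff_add_mm_univ (Ω := I) x
  have h9 : (Nat.card I).choose (r + 1) ≤ Nat.card Y := by
    rw [Nat.card_eq_fintype_card, Nat.card_eq_fintype_card, ← Finset.card_univ,
      ← Finset.card_powersetCard]
    refine (Finset.card_le_card fun t ht => ?_).trans (Finset.card_image_le (f := Z))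
    have e := Finset.equivOfCardEq (hr.trans (Finset.mem_powersetCard.1 ht).2.symm)
    obtain ⟨c, hc⟩ := mt (alt_le hx hm (hJ.imp_right And.left)) (Z y₀)
      (by have := hp.out.two_le; omega) (fun i => if h : i ∈ Z y₀ then e ⟨i, h⟩ else i)
      fun i hi j hj h => by
        simp only [dif_pos (Finset.mem_coe.1 hi), dif_pos (Finset.mem_coe.1 hj)] at h
        exact congrArg Subtype.val (e.injective (Subtype.ext h))
    refine Finset.mem_image.2 ⟨c • y₀, Finset.mem_univ _, Finset.eq_of_subset_of_card_le ?_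
      ((Finset.mem_powersetCard.1 ht).2.trans ((h4 _).trans hr).symm).le⟩
    rw [h3, Finset.image_subset_iff]
    intro i hi
    rw [hc i hi, dif_pos hi]
    exact (e _).2
  have h10 : ff x (U : Set Y) ≤ (ff x (U : Set I)).choose (r + 1) := by
    rw [← hF, ← Finset.card_powersetCard, ff, Set.ncard_eq_toFinset_card']
    exact Finset.card_le_card_of_injOn Z (fun y hy => Finset.mem_coe.2 (Finset.mem_powersetCard.2
      ⟨h6 y (Set.mem_toFinset.1 hy).2, (h4 y).trans hr⟩)) h5.injOn
  rw [← h8, hm, ← ff_add_mm_univ x] at h9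
  have h11 := le_choose_add (ff x (U : Set I)) r p
  have h12 := Nat.choose_succ_right_eq (ff x (U : Set I)) r
  have h13 : 2 ≤ (ff x (U : Set I)).choose r := by
    have := Nat.choose_pos (show r ≤ ff x (U : Set I) by omega)
    have := (Nat.choose_eq_one_iff (n := ff x (U : Set I)) (k := r)).not.2 (by omega)
    omega
  generalize (ff x (U : Set I)).choose r = c₁ at *
  generalize (ff x (U : Set I)).choose (r + 1) = c₂ at *
  obtain ⟨c, rfl⟩ : ∃ c, p = c + 2 := ⟨p - 2, by have := hp.out.two_le; omega⟩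
  have h14 : c₂ * 2 ≤ c₁ * c := (Nat.mul_le_mul_left _ (by omega)).trans
    (h12.trans_le (Nat.mul_le_mul_left _ (by omega)))
  have h15 : (c + 2) * c₁ ≤ mm x (U : Set Y) := by omega
  have h16 := (Nat.mul_le_mul_left (c + 1) h15).trans_lt
    (hd.trans_le (Nat.add_le_add_right (Nat.mul_le_mul_left _ h10) _))
  rw [mul_left_comm, ← mul_add] at h16
  have h17 := Nat.lt_of_mul_lt_mul_left h16
  nlinarith

end CF.Fr
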