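import Cfsg.Agent.Perm.Fr3

/-!
# Fixed points of Sylow subgroups of transitive groups, IV: Sylow subgroups of prime order
-/

namespace CF.Fr

open MulAction Subgroup

universe u

variable {p : ℕ} {G : Type*} [Group G] {Ω I : Type*} [MulAction G Ω] {x g : G}

local notation "U" => Set.univ

/-- Every `p`-element fixing `a` and `b` fixes `c`. -/
def Col (p : ℕ) (G : Type*) [Group G] [MulAction G Ω] (a b c : Ω) : Prop :=
  ∀ g : G, PE p g → g • a = a → g • b = b → g • c = c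

theorem Col.smul {a b c : Ω} (h : Col p G a b c) (d : G) : Col p G (d • a) (d • b) (d • c) :=
  fun g hg h1 h2 => by
    have := h _ (hg.conj d⁻¹) (by rw [inv_inv, mul_smul, mul_smul, h1, inv_smul_smul])
      (by rw [inv_inv, mul_smul, mul_smul, h2, inv_smul_smul])
    rwa [inv_inv, mul_smul, mul_smul, inv_smul_eq_iff] at this

theorem geo [IsPretransitive G Ω] {a : Ω}
    (hE : ∀ b c, b ≠ a → c ≠ a → Col p G a b c → Col p G a c b)
    (hL : ∀ b, b ≠ a → ∃ d, d ≠ a ∧ d ≠ b ∧ Col p G a b d)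
    (hP : ∀ b c d, b ≠ a → c ≠ a → d ≠ a → (∀ g : G, PE p g → g • a = a → g • b = b → g • c = c →
      g • d = d) → Col p G a b d ∨ Col p G a c d)
    {b c : Ω} (hb : b ≠ a) (hc : c ≠ a) : Col p G a b c := by
  by_contra h
  have hE' : ∀ a b c : Ω, b ≠ a → c ≠ a → Col p G a b c → Col p G a c b := fun a' b c h1 h2 h3 => by
    obtain ⟨g, rfl⟩ := exists_smul_eq G a a'
    simpa using (hE _ _ (fun h => h1 (inv_smul_eq_iff.1 h)) (fun h => h2 (inv_smul_eq_iff.1 h))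
      (by simpa using h3.smul g⁻¹)).smul g
  have hbc : c ≠ b := fun h1 => h (h1 ▸ fun _ _ _ h => h)
  obtain ⟨d, h1, h2, h3⟩ : ∃ d, d ≠ b ∧ d ≠ c ∧ Col p G b c d := by
    obtain ⟨g, rfl⟩ := exists_smul_eq G a b
    obtain ⟨d, h1, h2, h3⟩ := hL (g⁻¹ • c) fun h => hbc (inv_smul_eq_iff.1 h)
    exact ⟨g • d, by simpa using h1, fun h => h2 (eq_inv_smul_iff.2 h), by simpa using h3.smul g⟩
  have h4 : d ≠ a := fun h4 => h fun g hg h5 h6 => hE' b c a hbc hb.symm (h4 ▸ h3) g hg h6 h5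
  rcases hP b c d hb hc h4 (fun g hg _ => h3 g hg) with h5 | h5
  · exact h fun g hg h6 h7 => hE' b c d hbc h1 h3 g hg h7 (h5 g hg h6 h7)
  · exact h (hE c b hc hb fun g hg h6 h7 => hE' c b d hbc.symm h2 (fun g hg h8 h9 => h3 g hg h9 h8)
      g hg h7 (h5 g hg h6 h7))

variable [Finite G] [hp : Fact p.Prime] [Finite Ω]

theorem not_J [IsPretransitive G Ω] (hp2 : p ≠ 2) (hx : orderOf x = p) {a : Ω}
    (hxK : x ∈ Kp p (stabilizer G a)) [MulAction (Kp p (stabilizer G a)) I] [Finite I]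
    [IsPreprimitive (Kp p (stabilizer G a)) I] [Nontrivial I]
    (hm : mm (⟨x, hxK⟩ : Kp p _) (U : Set I) = p)
    (hJ : 3 ≤ ff (⟨x, hxK⟩ : Kp p _) (U : Set I) ∨ (p = 3 ∧ ff (⟨x, hxK⟩ : Kp p _) (U : Set I) = 2))
    (h : ∀ b, b ≠ a → ∃ i : I, ∀ g : Kp p (stabilizer G a), PE p g → (g • b = b ↔ g • i = i)) :
    mm x (U : Set Ω) ≤ p := by
  classical
  have := Fintype.ofFinite I
  set y : Kp p (stabilizer G a) := ⟨x, hxK⟩
  have hy : orderOf y = p := (orderOf_mk x hxK).trans hx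
  have sep : ∀ i i' j : I, j ≠ i → j ≠ i' → ∃ g : Kp p (stabilizer G a), PE p g ∧ g • i = i ∧
      g • i' = i' ∧ g • j ≠ j := fun i i' j h1 h2 => by
    obtain ⟨u, hu, v, hv, huv⟩ := (Set.one_lt_ncard (Set.toFinite _)).1
      (show 1 < ff y (U : Set I) by omega)
    obtain ⟨w, -, hw⟩ := Set.nonempty_of_ncard_ne_zero (hm ▸ hp.out.ne_zero)
    have h3 : u ≠ w := fun h => hw (h ▸ hu.2)
    have h4 : v ≠ w := fun h => hw (h ▸ hv.2)
    obtain ⟨c, hc⟩ := mt (alt_le hy hm (hJ.imp_right And.left)) {i, i', j} (by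
        have := Finset.card_le_three (a := i) (b := i') (c := j)
        have := ff_add_mm_univ (Ω := I) y
        have := hp.out.two_le
        omega) (fun l => if l = j then w else if l = i then u else v) (by
      intro l hl l' hl' h
      simp only [Finset.coe_insert, Finset.coe_singleton, Set.mem_insert_iff,
        Set.mem_singleton_iff] at hl hl' h
      split_ifs at h <;> simp_all)
    have h5 : ∀ l : I, (c⁻¹ * y * c⁻¹⁻¹) • l = l ↔ y • c • l = c • l := fun l => by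
      rw [inv_inv, mul_smul, mul_smul, inv_smul_eq_iff]
    refine ⟨_, (pe_of_orderOf hy).conj c⁻¹, (h5 _).2 ?_, (h5 _).2 ?_, (h5 _).not.2 ?_⟩
    · rw [hc i (by simp), if_neg h1.symm, if_pos rfl]; exact hu.2
    · rw [hc i' (by simp), if_neg h2.symm]
      split_ifs
      exacts [hu.2, hv.2]
    · rw [hc j (by simp), if_pos rfl]; exact hw
  choose! ψ hψ using h
  have h1 : ∀ b c, b ≠ a → c ≠ a → (Col p G a b c ↔ ψ c = ψ b) := fun b c hb hc =>
    ⟨fun h => by_contra fun h1 => by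
      obtain ⟨g, h2, h3, -, h4⟩ := sep _ _ _ h1 h1
      exact h4 ((hψ c hc g h2).1 (h g (pe_coe.2 h2) (Kp_le _ g.2) ((hψ b hb g h2).2 h3))),
    fun h g hg h2 h3 => (hψ c hc ⟨g, mem_Kp hg h2⟩ (pe_coe.1 hg)).2
      (h ▸ (hψ b hb ⟨g, mem_Kp hg h2⟩ (pe_coe.1 hg)).1 h3)⟩
  have h2 : ∀ (g : Kp p (stabilizer G a)) b, b ≠ a → ψ (g • b) = g • ψ b := fun g b hb => by
    by_contra h2
    obtain ⟨l, h3, h4, -, h5⟩ := sep _ _ _ h2 h2
    refine h5 ((hψ _ (inv_compl a g b ⟨trivial, hb⟩).2 l h3).1 ?_)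
    have := (hψ b hb _ (h3.conj g⁻¹)).2 (by rw [inv_inv, mul_smul, mul_smul, h4, inv_smul_smul])
    rwa [inv_inv, mul_smul, mul_smul, inv_smul_eq_iff] at this
  by_contra h3
  have hax : x • a = a := Kp_le _ hxK
  have hL : ∀ b, b ≠ a → ∃ d, d ≠ a ∧ d ≠ b ∧ Col p G a b d := fun b hb => by
    by_contra! h4
    have h5 : ∀ c, c ≠ a → ∀ g : Kp p (stabilizer G a), g • ψ c = ψ b → g • c = b := fun c hc g h =>
      have h5 := (inv_compl a g c ⟨trivial, hc⟩).2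
      by_contra fun h6 => h4 _ h5 h6 ((h1 _ _ hb h5).2 ((h2 g c hc).trans h))
    refine h3 ((Set.ncard_le_ncard_of_injOn (t := U \ fixedBy I y) ψ (fun c hc => ⟨trivial, fun h =>
      hc.2 ((hψ c (by rintro rfl; exact hc.2 hax) y (pe_of_orderOf hy)).2 h)⟩)
      fun c hc d hd h => ?_).trans_eq hm)
    obtain ⟨g, hg⟩ := exists_smul_eq (Kp p (stabilizer G a)) (ψ c) (ψ b)
    exact smul_left_cancel g ((h5 c (by rintro rfl; exact hc.2 hax) g hg).trans
      (h5 d (by rintro rfl; exact hd.2 hax) g (h ▸ hg)).symm)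
  obtain ⟨b, -, hb⟩ := Set.nonempty_of_ncard_ne_zero (show mm x (U : Set Ω) ≠ 0 by omega)
  replace hb : b ≠ a := by rintro rfl; exact hb hax
  obtain ⟨j, hj⟩ := exists_ne (ψ b)
  obtain ⟨g, rfl⟩ := exists_smul_eq (Kp p (stabilizer G a)) (ψ b) j
  have h4 := (inv_compl a g b ⟨trivial, hb⟩).2
  refine hj ((h2 g b hb).symm.trans ((h1 _ _ hb h4).1 (geo (fun b c hb hc h => (h1 _ _ hc hb).2
    ((h1 _ _ hb hc).1 h).symm) hL (fun b c d hb hc hd h => ?_) hb h4)))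
  rw [h1 _ _ hb hd, h1 _ _ hc hd]
  by_contra! h5
  obtain ⟨g, h6, h7, h8, h9⟩ := sep _ _ _ h5.1 h5.2
  exact h9 ((hψ d hd g h6).1 (h g (pe_coe.2 h6) (Kp_le _ g.2) ((hψ b hb g h6).2 h7)
    ((hψ c hc g h6).2 h8)))

/-- The bound for primitive groups, with `k` cycles and `f` fixed points. -/
def SB (p k f : ℕ) : Prop := (k = 1 ∧ f < p) ∨ (2 ≤ k ∧ p * (f / p + 1) ≤ (p - 1) * k)

omit [Finite G] [Finite Ω] in
theorem SB.le {k f : ℕ} (h : SB p k f) : f ≤ (p - 1) * k := by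
  rcases h with ⟨rfl, h⟩ | ⟨-, h⟩
  · omega
  · exact (Nat.lt_mul_div_succ f hp.out.pos).le.trans h

theorem data {G : Type u} [Group G] [Finite G] [MulAction G Ω] [IsPretransitive G Ω] [Nontrivial Ω]
    {x : G} (h2 : ¬ p ^ 2 ∣ Nat.card G) (hx : orderOf x = p)
    (ih : ∀ (Y : Type u) [MulAction G Y] [Finite Y] [IsPreprimitive G Y] [Nontrivial Y] k,
      mm x (U : Set Y) = p * k → SB p k (ff x (U : Set Y))) :
    ∃ (Y : Type u) (_ : MulAction G Y) (_ : Finite Y) (_ : Nontrivial Y) (_ : IsPreprimitive G Y)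
      (φ : Ω → Y) (s k e : ℕ), 0 < s ∧ mm x (U : Set Y) = p * k ∧ SB p k (ff x (U : Set Y)) ∧
      mm x (U : Set Ω) = p * (s * k + e) ∧ ff x (U : Set Ω) + p * e = s * ff x (U : Set Y) ∧
      (e = 0 → ∀ g : G, PE p g → ∀ b, g • b = b ↔ g • φ b = φ b) := by
  obtain ⟨Y, _, _, _, _, φ, s, h3, hφ, hs⟩ := exists_quot (G := G) (Ω := Ω)
  obtain ⟨k, hk⟩ := (sr_of_not_sq (Ω := Y) h2).p_dvd hx
  obtain ⟨l, hl⟩ := (sr_of_not_sq (Ω := Ω) h2).p_dvd hx
  have h4 := quot_add (x := x) hs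
  have h5 := quot_le (x := x) hφ hs
  rw [hk, hl, mul_left_comm] at h4
  obtain ⟨e, rfl⟩ := Nat.exists_eq_add_of_le (Nat.le_of_mul_le_mul_left
    (show p * (s * k) ≤ p * l by omega) hp.out.pos)
  rw [mul_add] at h4
  refine ⟨Y, _, ‹_›, ‹_›, ‹_›, φ, s, k, e, h3, hk, ih Y k hk, hl, by omega, fun h g hg b =>
    ⟨fun h6 => by rw [← hφ, h6], fun h6 => ?_⟩⟩
  by_cases h7 : g = 1
  · rw [h7, one_smul]
  obtain ⟨c, -, hc⟩ := exists_conj_zp h2 hx (mem_top x) (mem_top g) hg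
  have h8 := zp_of_not_sq h2 (pe_of_orderOf hx).isPGroup hc (by simpa using h7)
  have h9 := zpowers_le_of_mem (mem_stabilizer_iff.2 (quot_eq hφ hs (by subst h; omega)
    (zpowers_le_of_mem (H := stabilizer G (φ (c • b))) (by
      rw [mem_stabilizer_iff, hφ, mul_smul, mul_smul, inv_smul_smul, h6])
      (h8.ge (mem_zpowers x))))) hc
  rwa [mem_stabilizer_iff, mul_smul, mul_smul, inv_smul_smul, smul_left_cancel_iff] at h9

theorem nj_lt {G I Y : Type*} [Group G] [Finite G] [MulAction G I] [MulAction G Y] [Finite I]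
    [Finite Y] [IsPretransitive G I] [Nontrivial I] [IsPreprimitive G Y] [Nontrivial Y] {x : G}
    (h2 : ¬ p ^ 2 ∣ Nat.card G) (hx : orderOf x = p) (hG : Gen p G) (hm : mm x (U : Set I) = p)
    (h1 : ff x (U : Set I) ≤ 2) (h3 : 2 * ff x (U : Set I) < p) (hp2 : p ≠ 2) {k : ℕ}
    (hk : mm x (U : Set Y) = p * k) (h4 : 2 ≤ k) (h5 : p * (ff x (U : Set Y) / p + 1) ≤ (p - 1) * k) :
    ff x (U : Set Y) + ff x (U : Set I) < (p - 1) * k := by
  obtain ⟨c, rfl⟩ : ∃ c, p = c + 3 := ⟨p - 3, by have := hp.out.two_le; omega⟩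
  rw [show c + 3 - 1 = c + 2 from rfl] at h5 ⊢
  have h6 := Nat.mul_le_mul_left c h4
  rcases dich (Y := Y) h2 hx hG I with h | h
  · have := Nat.le_of_mul_le_mul_left (hk ▸ h) hp.out.pos
    rw [add_mul]
    omega
  have h7 := nj_bound h2 hx hm h
  rw [show c + 3 - 1 = c + 2 from rfl] at h7
  rw [add_mul]
  obtain h8 | h8 | h8 : ff x (U : Set I) = 0 ∨ ff x (U : Set I) = 1 ∨ ff x (U : Set I) = 2 := by omega
  all_goals simp only [h8, Nat.factorial_zero, Nat.factorial_one, Nat.factorial_two] at h3 h7 ⊢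
  · omega
  · omega
  obtain rfl | h9 : k = 2 ∨ 3 ≤ k := by omega
  · have : ff x (U : Set Y) / (c + 3) = 0 := by
      by_contra h9
      nlinarith [Nat.pos_of_ne_zero h9]
    have := (Nat.div_eq_zero_iff_lt hp.out.pos).1 this
    omega
  · have := Nat.mul_le_mul_left c h9
    omega

section Step

variable {K : Type u} [Group K] [Finite K] [MulAction K Ω] {y : K} (hK : ¬ p ^ 2 ∣ Nat.card K)
  (hy : orderOf y = p) (ih : ∀ (Y : Type u) [MulAction K Y] [Finite Y] [IsPreprimitive K Y]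
    [Nontrivial Y] k, mm y (U : Set Y) = p * k → SB p k (ff y (U : Set Y)))
  {T : Set Ω} (hT : ∀ g : K, ∀ b ∈ T, g • b ∈ T) (hN : ∀ b ∈ T, Nontrivial (orbit K b))
include hK hy ih hT hN

theorem p0 : ∃ l, mm y T = p * l ∧ ff y T ≤ (p - 1) * l :=
  orb_ind (fun m f => ∃ l, m = p * l ∧ f ≤ (p - 1) * l) ⟨0, by simp⟩ (by
    rintro _ _ _ _ ⟨l, rfl, h5⟩ ⟨l', rfl, h6⟩
    exact ⟨l + l', by ring, by rw [mul_add]; omega⟩) T hT fun b hb => by
    have := hN b hb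
    obtain ⟨Y, _, _, _, _, φ, s, l, e, -, -, h5, h6, h7, -⟩ := data (Ω := orbit K b) hK hy ih
    rw [← mm_orb, ← ff_orb]
    exact ⟨_, h6, by nlinarith [Nat.mul_le_mul_left s h5.le]⟩

variable {k : ℕ} (hk : mm y T = p * k) (h7 : (p - 1) * k < ff y T + p)
include hk h7

theorem data' {b : Ω} (hb : b ∈ T) : ∃ (Y : Type u) (_ : MulAction K Y) (_ : Finite Y)
    (_ : Nontrivial Y) (_ : IsPreprimitive K Y) (φ : orbit K b → Y) (s l : ℕ), 0 < s ∧
    mm y (U : Set Y) = p * l ∧ SB p l (ff y (U : Set Y)) ∧ mm y (orbit K b) = p * (s * l) ∧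
    ff y (orbit K b) = s * ff y (U : Set Y) ∧ (p - 1) * l < ff y (U : Set Y) + p ∧
    ∀ g : K, PE p g → ∀ b, g • b = b ↔ g • φ b = φ b := by
  have := hN b hb
  obtain ⟨Y, _, _, _, _, φ, s, l, e, h8, h9, h10, h11, h12, h13⟩ := data (Ω := orbit K b) hK hy ih
  rw [mm_orb] at h11
  rw [ff_orb] at h12
  obtain ⟨l', h14, h15⟩ := p0 hK hy ih (inv_diff hT b) fun c hc => hN c hc.1
  rw [mm_split (orb_sub hT hb), h11, h14, ← mul_add] at hk
  obtain rfl := Nat.eq_of_mul_eq_mul_left hp.out.pos hk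
  obtain ⟨d, hd⟩ := Nat.exists_eq_add_of_le h10.le
  rw [mul_add, mul_add, mul_left_comm, hd, mul_add, ff_split (orb_sub hT hb)] at h7
  obtain rfl : e = 0 := by
    by_contra h17
    have := Nat.le_mul_of_pos_right p (Nat.pos_of_ne_zero h17)
    omega
  have := Nat.le_mul_of_pos_left d h8
  exact ⟨Y, _, ‹_›, ‹_›, ‹_›, φ, s, l, h8, h9, h10, h11, h12, by omega, h13 rfl⟩

omit hK hy ih hT hN hk h7 in
theorem exists_w {f s l : ℕ} (h8 : 0 < s) (h10 : p * (f / p + 1) ≤ (p - 1) * l) :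
    ∃ w, s * f < p * w ∧ p * w ≤ (p - 1) * (s * l) :=
  ⟨s * (f / p + 1), by
    rw [mul_left_comm]; exact Nat.mul_lt_mul_of_pos_left (Nat.lt_mul_div_succ _ hp.out.pos) h8, by
    rw [mul_left_comm, mul_left_comm _ s]; exact Nat.mul_le_mul_left _ h10⟩

theorem not_J' (hG : Gen p K) (hp2 : p ≠ 2) (hk2 : 2 ≤ k) (h6 : (p - 1) * k < p * (ff y T / p + 1))
    (hJ : ∀ (I : Type u) [MulAction K I] [Finite I] [Nontrivial I] [IsPreprimitive K I],
      mm y (U : Set I) = p * 1 → ff y (U : Set I) < p →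
      ff y (U : Set I) ≤ 2 ∧ 2 * ff y (U : Set I) < p) : False := by
  have h0 := hp.out.pos
  have hD := @data' _ _ _ _ _ _ _ _ _ hK hy ih _ hT hN _ hk h7
  have e0 : ∀ s f, 2 * f < p → p * s + s * f ≤ 2 * ((p - 1) * s) := fun s f h => by
    obtain ⟨c, rfl⟩ : ∃ c, p = c + 3 := ⟨p - 3, by have := hp.out.two_le; omega⟩
    rw [show c + 3 - 1 = c + 2 from rfl]
    nlinarith [Nat.mul_le_mul_left s (show f ≤ c + 1 by omega)]
  have hB : ∀ T' ⊆ T, (∀ g : K, ∀ b ∈ T', g • b ∈ T') → ∃ l w, mm y T' = p * l ∧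
      ff y T' ≤ p * w ∧ p * w + ff y T' ≤ 2 * ((p - 1) * l) := fun T' h3 h4 =>
    orb_ind (fun m f => ∃ l w, m = p * l ∧ f ≤ p * w ∧ p * w + f ≤ 2 * ((p - 1) * l))
      ⟨0, 0, by simp⟩ (by
      rintro _ _ _ _ ⟨l, w, rfl, h5, h6⟩ ⟨l', w', rfl, h7, h8⟩
      exact ⟨l + l', w + w', by ring, by rw [mul_add]; omega, by rw [mul_add, mul_add]; omega⟩)
      T' h4 fun b hb => by
      obtain ⟨Y, _, _, _, _, φ, s, l, h8, h9, ⟨rfl, h10⟩ | ⟨h10, h11⟩, h12, h13, -⟩ := hD (h3 hb)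
      · rw [h13]
        exact ⟨_, s, h12, mul_comm p s ▸ Nat.mul_le_mul_left s h10.le,
          by rw [mul_one]; exact e0 s _ (hJ Y h9 h10).2⟩
      · obtain ⟨w, h14, h15⟩ := exists_w h8 h11
        exact ⟨_, w, h12, by omega, by omega⟩
  have hA : ∀ w, p * w + ff y T ≤ 2 * ((p - 1) * k) → p * w ≤ ff y T + p := fun w h => by
    have h8 : w ≤ ff y T / p + 1 := Nat.le_of_lt_succ (Nat.lt_of_mul_lt_mul_left (a := p) (by
      rw [Nat.succ_eq_add_one, mul_add]; omega))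
    have h9 := Nat.mul_le_mul_left p h8
    have := Nat.mul_div_le (ff y T) p
    rw [mul_add] at h9
    omega
  by_cases h8 : ∀ b ∈ T, ∃ l w, mm y (orbit K b) = p * l ∧ ff y (orbit K b) < p * w ∧
      p * w ≤ (p - 1) * l
  · obtain ⟨l, w, h9, h10, h11⟩ := orb_ind (x := y) (fun m f => ∃ l w, m = p * l ∧
      (l = 0 ∨ f < p * w) ∧ f ≤ p * w ∧ p * w ≤ (p - 1) * l) ⟨0, 0, by simp⟩ (by
      rintro _ _ _ _ ⟨l, w, rfl, h5, h6⟩ ⟨l', w', rfl, h7, h8⟩
      exact ⟨l + l', w + w', by ring, by rw [mul_add]; omega, by rw [mul_add]; omega,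
        by rw [mul_add, mul_add]; omega⟩) _ hT fun b hb =>
      let ⟨l, w, h9, h10, h11⟩ := h8 b hb; ⟨l, w, h9, Or.inr h10, h10.le, h11⟩
    obtain rfl := Nat.eq_of_mul_eq_mul_left h0 (hk.symm.trans h9)
    have := Nat.mul_le_mul_left p (Nat.succ_le_of_lt ((Nat.div_lt_iff_lt_mul h0).2
      ((h10.resolve_left (by omega)).trans_eq (mul_comm _ _))))
    exact (h11.2.trans_lt h6).not_ge this
  push Not at h8
  obtain ⟨b, hb, h8⟩ := h8
  obtain ⟨I, _, _, _, _, -, s, l, h9, h10, ⟨rfl, h11⟩ | ⟨h11, h12⟩, h13, h14, -⟩ := hD hb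
  swap
  · obtain ⟨w, h15, h16⟩ := exists_w h9 h12
    exact (h8 _ w h13 (h14 ▸ h15)).not_ge h16
  obtain ⟨h15, h16⟩ := hJ I h10 h11
  have hT' := inv_diff hT b
  rw [mm_split (orb_sub hT hb), h13, mul_one] at hk
  rw [ff_split (orb_sub hT hb), h14] at hA h7
  clear h6 h8
  obtain rfl : s = 1 := by
    obtain ⟨l, w, h17, h18, h19⟩ := hB _ Set.sdiff_subset hT'
    obtain rfl := Nat.eq_of_mul_eq_mul_left h0 (hk.symm.trans (by rw [h17, ← mul_add]))
    have h20 := hA (s + w) (by have := e0 s _ h16; rw [mul_add, mul_add]; omega)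
    by_contra h21
    obtain ⟨t, rfl⟩ : ∃ t, s = t + 2 := ⟨s - 2, by omega⟩
    have := Nat.mul_le_mul_left t h11.le
    rw [mul_add, mul_add, add_mul, mul_comm p t] at h20
    omega
  obtain ⟨b', hb', -⟩ := Set.nonempty_of_ncard_ne_zero
    (show mm y (T \ orbit K b) ≠ 0 from fun h => by
      have := Nat.mul_le_mul_left p hk2
      omega)
  obtain ⟨l, w, h17, h18, h19⟩ := hB _ (Set.sdiff_subset.trans Set.sdiff_subset) (inv_diff hT' b')
  obtain ⟨l', h20, h21⟩ := p0 hK hy ih (inv_diff hT' b') fun c hc => hN c hc.1.1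
  obtain rfl := Nat.eq_of_mul_eq_mul_left h0 (h17.symm.trans h20)
  obtain ⟨Y, _, _, _, _, -, s, l', h22, h23, h24, h25, h26, -⟩ := hD hb'.1
  rw [mm_split (orb_sub hT' hb'), h25, h17, ← mul_add, ← mul_add] at hk
  rw [ff_split (orb_sub hT' hb'), h26, one_mul] at hA h7
  obtain rfl := Nat.eq_of_mul_eq_mul_left h0 hk
  obtain ⟨t, rfl⟩ : ∃ t, s = t + 1 := ⟨s - 1, by omega⟩
  rcases h24 with ⟨rfl, h24⟩ | ⟨h24, h27⟩
  · obtain ⟨h27, h28⟩ := hJ Y h23 h24
    have h29 := hA (1 + (t + 1) + w) (by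
      have := e0 1 _ h16
      have := e0 (t + 1) _ h28
      rw [mul_one (t + 1), mul_add, mul_add, mul_add (p - 1), mul_add (p - 1)]
      omega)
    have := Nat.mul_le_mul_left t h24.le
    rw [mul_add, mul_add, mul_add, add_mul, mul_comm p t] at h29
    omega
  · have h28 := nj_lt hK hy hG (h10.trans (mul_one p)) h15 h16 hp2 h23 h24 h27
    have h29 := Nat.mul_le_mul_left t (Nat.le_of_lt (Nat.lt_of_le_of_lt (Nat.le_add_right _ _) h28))
    rw [mul_add, mul_add, mul_left_comm, add_mul, add_mul] at h7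
    omega

end Step

theorem main (hp2 : p ≠ 2) (n : ℕ) : ∀ (G Ω : Type u) [Group G] [Finite G] [MulAction G Ω]
    [Finite Ω] [IsPreprimitive G Ω] [Nontrivial Ω] (x : G), Nat.card G = n → Gen p G →
    ¬ p ^ 2 ∣ Nat.card G → orderOf x = p → ∀ k, mm x (U : Set Ω) = p * k →
    SB p k (ff x (U : Set Ω)) := by
  induction n using Nat.strong_induction_on with | _ n ih
  intro G Ω _ _ _ _ _ _ x hn hG h2 hx k hk
  have hS := sr_of_not_sq (Ω := Ω) h2
  have h0 := hp.out.pos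
  have hk0 : 0 < k := by
    obtain ⟨a, ha⟩ := exists_moved hG hS hx
    exact Nat.pos_of_mul_pos_left (hk ▸ mm_pos (Set.mem_univ a) ha)
  by_cases h1 : ff x (U : Set Ω) = 0
  · obtain ⟨c, hc⟩ : ∃ c, p = c + 3 := ⟨p - 3, by have := hp.out.two_le; omega⟩
    rw [h1, SB, Nat.zero_div, hc, show c + 3 - 1 = c + 2 from rfl]
    obtain rfl | h3 : k = 1 ∨ 2 ≤ k := by omega
    exacts [Or.inl ⟨rfl, by omega⟩, Or.inr ⟨h3, by nlinarith⟩]
  obtain ⟨a, -, ha⟩ := exists_of_ff h1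
  have hxK := mem_Kp (pe_of_orderOf hx) (mem_stabilizer_iff.2 ha)
  have hy : orderOf (⟨x, hxK⟩ : Kp p _) = p := (orderOf_mk x hxK).trans hx
  have hK : ¬ p ^ 2 ∣ Nat.card (Kp p (stabilizer G a)) := fun h =>
    h2 (h.trans (card_subgroup_dvd_card _))
  have ih' := fun (Y : Type u) [MulAction (Kp p (stabilizer G a)) Y] [Finite Y]
    [IsPreprimitive (Kp p (stabilizer G a)) Y] [Nontrivial Y] =>
      ih _ (hn ▸ card_Kp_lt a) _ Y _ rfl (gen_Kp _) hK hy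
  have hN := fun (b : Ω) (hb : b ∈ U \ {a}) => nontrivial_orb hG hS hx ha hb.2
  have hT := inv_compl (p := p) (G := G) a
  obtain ⟨h3, h4⟩ := split_pt ha
  have h5 := hS.not_dvd_ff hx ha
  change _ = 1 + ff (⟨x, hxK⟩ : Kp p _) _ at h3
  change _ = mm (⟨x, hxK⟩ : Kp p _) _ at h4
  rw [h3, add_comm] at h5 ⊢
  rw [hk] at h4
  obtain rfl | hk2 : k = 1 ∨ 2 ≤ k := by omega
  · obtain ⟨l, h6, h7⟩ := p0 hK hy ih' hT hN
    obtain rfl := Nat.eq_of_mul_eq_mul_left h0 (h4.trans h6)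
    exact Or.inl ⟨rfl, lt_of_le_of_ne (by omega) fun h => h5 h.symm.dvd⟩
  refine Or.inr ⟨hk2, not_lt.1 fun h6 => ?_⟩
  rw [Nat.succ_div_of_not_dvd h5] at h6
  have h7 := h6.trans_le (mul_add_one p _ ▸ Nat.add_le_add_right (Nat.mul_div_le _ p) p)
  refine not_J' hK hy ih' hT hN h4.symm h7 (gen_Kp _) hp2 hk2 h6 fun I _ _ _ _ h8 h9 => ?_
  have h10 : ¬ (3 ≤ ff (⟨x, hxK⟩ : Kp p _) (U : Set I) ∨
      (p = 3 ∧ ff (⟨x, hxK⟩ : Kp p _) (U : Set I) = 2)) := fun h10 => by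
    rw [mul_one] at h8
    have := not_J hp2 hx hxK h8 h10 fun b hb => by
      obtain ⟨Y, _, _, _, _, φ, s, l, -, h11, -, -, -, h12, h13⟩ :=
        data' hK hy ih' hT hN h4.symm h7 (b := b) ⟨trivial, hb⟩
      obtain ⟨i, hi⟩ := nat_of_J hK hy (gen_Kp _) hp2 h8 h10 h9 (by
        rw [h11, mul_left_comm, ← mul_add]; exact Nat.mul_lt_mul_of_pos_left h12 h0)
        (φ ⟨b, mem_orbit_self b⟩)
      exact ⟨i, fun g hg => Subtype.ext_iff.symm.trans ((h13 g hg ⟨b, mem_orbit_self b⟩).trans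
        (hi g hg))⟩
    have := Nat.mul_le_mul_left p hk2
    omega
  have : p ≠ 4 := by rintro rfl; exact absurd hp.out (by decide)
  have := hp.out.two_le
  omega

end CF.Fr
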