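import Cfsg.Agent.Perm.Fr4
import Cfsg.Agent.Transfer.SylowIn

/-!
# Fixed points of Sylow subgroups of transitive groups, V: the general bound

A Sylow `p`-subgroup acting nontrivially fixes at most `(p - 1) / (2 p - 1)` of the points.
-/

namespace CF.Fr

open MulAction Subgroup CF.Coprime

universe u

variable {p : ℕ} [hp : Fact p.Prime]

local notation "U" => Set.univ

theorem gen_bound {G Ω : Type u} [Group G] [Finite G] [MulAction G Ω] [Finite Ω]
    [IsPretransitive G Ω] [Nontrivial Ω] {x : G} (hG : Gen p G) (hS : SR p G Ω)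
    (hx : orderOf x = p) : p * ff x (U : Set Ω) ≤ (p - 1) * mm x (U : Set Ω) := by
  by_cases h2 : p ^ 2 ∣ Nat.card G
  · have := hp_bound _ G Ω x rfl hG hS hx h2
    have := Nat.le_mul_of_pos_left (mm x (U : Set Ω))
      (show 0 < p - 1 by have := hp.out.two_le; omega)
    rw [mul_add] at *
    omega
  by_cases hp2 : p = 2
  · subst hp2
    obtain ⟨b, hb⟩ := exists_moved hG hS hx
    simpa using two_bound h2 hx hb
  obtain ⟨Y, _, _, _, _, φ, s, l, e, -, -, h5, h6, h7, -⟩ := data (Ω := Ω) h2 hx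
    fun Y _ _ _ _ => main hp2 _ G Y x rfl hG h2 hx
  rw [h6, mul_left_comm]
  exact Nat.mul_le_mul_left _ (by nlinarith [Nat.mul_le_mul_left s h5.le])

theorem sr_bound {G Ω : Type u} [Group G] [Finite G] [MulAction G Ω] [Finite Ω]
    [IsPretransitive G Ω] {t : G} (hS : SR p G Ω) (ht : PE p t) {c : Ω} (hc : t • c ≠ c) :
    p * ff t (U : Set Ω) ≤ (p - 1) * mm t (U : Set Ω) := by
  have h1 : t ≠ 1 := by rintro rfl; exact hc (one_smul _ _)
  obtain ⟨⟨x, h2⟩, hx⟩ := exists_prime_orderOf_dvd_card' (G := zpowers t) p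
    (ht.isPGroup.card_eq_or_dvd.resolve_left (by rwa [Nat.card_zpowers, orderOf_eq_one_iff]))
  rw [orderOf_mk] at hx
  have h3 : fixedBy Ω t = fixedBy Ω x := Set.ext fun a =>
    ⟨hS _ ht.isPGroup t (mem_zpowers t) h1 x h2 a,
      hS _ ht.isPGroup x h2 (ne_one hx) t (mem_zpowers t) a⟩
  have hxK := mem_Kp (pe_of_orderOf hx) (mem_top x)
  rw [ff, mm, h3]
  refine orb_ind (x := (⟨x, hxK⟩ : Kp p ⊤)) (fun m f => p * f ≤ (p - 1) * m) le_rfl
    (fun _ _ _ _ h4 h5 => by rw [mul_add, mul_add]; omega) U (fun _ _ _ => trivial) fun b _ => ?_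
  obtain ⟨g, rfl⟩ := exists_smul_eq G b c
  have : Nontrivial (orbit (Kp p (⊤ : Subgroup G)) b) := ⟨⟨⟨_, mem_orbit b ⟨_, mem_Kp (ht.conj g⁻¹)
    (mem_top _)⟩⟩, ⟨b, mem_orbit_self b⟩, fun h => hc (by
      have : (g⁻¹ * t * g⁻¹⁻¹) • b = b := congrArg Subtype.val h
      rwa [inv_inv, mul_smul, mul_smul, inv_smul_eq_iff] at this)⟩⟩
  rw [← mm_orb, ← ff_orb]
  exact gen_bound (gen_Kp _) ((hS.sub _).orb b) ((orderOf_mk x hxK).trans hx)

variable {G : Type*} [Group G] [Finite G] {Ω : Type*} [MulAction G Ω] [Finite Ω]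

omit hp in
theorem card_lt_of_lt {A B : Subgroup G} (h : A < B) : Nat.card A < Nat.card B :=
  lt_of_le_of_ne (card_le_of_le h.le) fun h1 => h.ne (eq_of_le_of_card_ge h.le h1.ge)

omit hp in
theorem card_le_of_conj {A B : Subgroup G} {g : G} (h : ∀ u ∈ A, g * u * g⁻¹ ∈ B) :
    Nat.card A ≤ Nat.card B :=
  Nat.card_le_card_of_injective (fun u : A => (⟨_, h u u.2⟩ : B)) fun _ _ h1 =>
    Subtype.ext (by simpa using h1)

theorem exists_conj_both {H T T' : Subgroup G} (h1 : T ≤ H) (h2 : T' ≤ H) (hT : IsPGroup p T)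
    (hT' : IsPGroup p T') : ∃ n ∈ H, ∃ S : Subgroup G, IsPGroup p S ∧ T ≤ S ∧
      ∀ u ∈ T', n * u * n⁻¹ ∈ S := by
  obtain ⟨S, h3, h4⟩ := exists_isSylowOf_ge h1 hT
  obtain ⟨S', h5, h6⟩ := exists_isSylowOf_ge h2 hT'
  obtain ⟨n, hn, rfl⟩ := h5.conj h3
  exact ⟨n, hn, _, h3.isPGroup, h4, fun u hu => smul_mem_pointwise_smul _ (MulAut.conj n) _ (h6 hu)⟩

omit hp [Finite G] [Finite Ω] in
theorem le_stab_of_orb {D : Subgroup G} {c a : Ω} (h : D ≤ stabilizer G c)
    (ha : a ∈ orbit (normalizer (D : Set G)) c) : D ≤ stabilizer G a := fun d hd => by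
  obtain ⟨n, rfl⟩ := ha
  have := h ((mem_normalizer_iff''.1 n.2 d).1 hd)
  rwa [mem_stabilizer_iff, mul_smul, mul_smul, inv_smul_eq_iff] at this

theorem local_bound {μ : ℕ} (hM : ∀ R : Subgroup G, IsPGroup p R → ∀ a : Ω,
    μ < Nat.card (R ⊓ stabilizer G a : Subgroup G) → R ≤ stabilizer G a) {P : Subgroup G}
    (hP : IsPGroup p P) {c : Ω} (hc : ¬ P ≤ stabilizer G c)
    (h : Nat.card (P ⊓ stabilizer G c : Subgroup G) = μ) :
    p * (orbit (normalizer ((P ⊓ stabilizer G c : Subgroup G) : Set G)) c ∩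
      {a | P ≤ stabilizer G a}).ncard ≤ (p - 1) *
      (orbit (normalizer ((P ⊓ stabilizer G c : Subgroup G) : Set G)) c \
      {a | P ≤ stabilizer G a}).ncard := by
  set D := P ⊓ stabilizer G c
  set N := normalizer (D : Set G)
  have hM' : ∀ R : Subgroup G, IsPGroup p R → D ≤ R → ∀ u ∈ R, u ∉ D → ∀ a ∈ orbit N c,
      u • a = a → R ≤ stabilizer G a := fun R hR h1 u hu h2 a ha h3 =>
    hM R hR a (h ▸ card_lt_of_lt (lt_of_le_of_ne (le_inf h1 (le_stab_of_orb inf_le_right ha))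
      fun h4 => h2 (h4 ▸ ⟨hu, h3⟩)))
  let π := (toPermHom N (orbit N c)).rangeRestrict
  have hπ : Function.Surjective π := MonoidHom.rangeRestrict_surjective _
  have : IsPretransitive (toPermHom N (orbit N c)).range (orbit N c) := ⟨fun a b =>
    let ⟨g, hg⟩ := exists_smul_eq N a b; ⟨π g, hg⟩⟩
  have hS : SR p (toPermHom N (orbit N c)).range (orbit N c) := fun R hR u hu h1 v hv a ha => by
    obtain ⟨S, hS⟩ := hR.exists_le_sylow
    obtain ⟨S, rfl⟩ := Sylow.mapSurjective_surjective hπ p S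
    obtain ⟨u, h2, rfl⟩ := hS hu
    obtain ⟨v, h3, rfl⟩ := hS hv
    have : (D.comap N.subtype).Normal := normal_in_normalizer
    exact Subtype.ext (hM' _ (S.2.map N.subtype) (fun d hd => ⟨⟨d, le_normalizer hd⟩,
      ((hP.to_le inf_le_left).comap_subtype (K := N)).le_sylow_of_normal S hd, rfl⟩) u
      (mem_map_of_mem _ h2) (fun h4 => h1 (Subtype.ext (Equiv.ext fun b => Subtype.ext
        (le_stab_of_orb inf_le_right b.2 h4)))) a a.2 (congrArg Subtype.val ha)
      (mem_map_of_mem N.subtype h3))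
  obtain ⟨t, ht, h1⟩ := SetLike.exists_of_lt (Transfer.lt_inf_normalizer_of_lt hP
    (lt_of_le_of_ne inf_le_left fun h => hc (inf_eq_left.1 h)))
  obtain ⟨k, hk⟩ := pe_of_mem hP ht.1
  have h2 := sr_bound (t := π ⟨t, ht.2⟩) hS ⟨k, by
    rw [← map_pow, show (⟨t, ht.2⟩ : N) ^ p ^ k = 1 from Subtype.ext hk, map_one]⟩
    (c := ⟨c, mem_orbit_self c⟩) fun h => h1 ⟨ht.1, congrArg Subtype.val h⟩
  change p * ff (⟨t, ht.2⟩ : N) U ≤ _ * mm (⟨t, ht.2⟩ : N) U at h2
  have h3 : ∀ a ∈ orbit N c, a ∈ fixedBy Ω (⟨t, ht.2⟩ : N) ↔ P ≤ stabilizer G a := fun a ha =>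
    ⟨hM' P hP inf_le_left t ht.1 h1 a ha, fun h => h ht.1⟩
  rw [ff_orb, mm_orb, ff, mm] at h2
  convert h2 using 3
  · exact Set.ext fun a => and_congr_right fun ha => (h3 a ha).symm
  · exact Set.ext fun a => and_congr_right fun ha => (h3 a ha).symm.not

theorem sylow_bound [IsPretransitive G Ω] (P : Sylow p G) {b : Ω}
    (hb : ¬ (P : Subgroup G) ≤ stabilizer G b) :
    p * {a : Ω | (P : Subgroup G) ≤ stabilizer G a}.ncard ≤
      (p - 1) * {a : Ω | (P : Subgroup G) ≤ stabilizer G a}ᶜ.ncard := by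
  set F := {a : Ω | (P : Subgroup G) ≤ stabilizer G a}
  obtain ⟨b, hb, h1⟩ := Set.exists_max_image Fᶜ
    (fun a => Nat.card (P ⊓ stabilizer G a : Subgroup G)) (Set.toFinite _) ⟨b, hb⟩
  set μ := Nat.card (P ⊓ stabilizer G b : Subgroup G) with hμ
  have hP : ∀ {H T : Subgroup G}, ↑P ≤ H → T ≤ H → IsPGroup p T →
      ∃ n ∈ H, ∀ u ∈ T, n * u * n⁻¹ ∈ P := fun h2 h3 h4 =>
    let ⟨n, hn, _, h5, h6, h7⟩ := exists_conj_both h2 h3 P.2 h4
    ⟨n, hn, fun u hu => (P.3 h5 h6).le (h7 u hu)⟩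
  have hM : ∀ R : Subgroup G, IsPGroup p R → ∀ a : Ω,
      μ < Nat.card (R ⊓ stabilizer G a : Subgroup G) → R ≤ stabilizer G a := fun R hR a h2 => by
    obtain ⟨n, -, hn⟩ := hP le_top le_top hR
    have h3 : n • a ∈ F := by_contra fun h3 => h2.not_ge (le_trans (card_le_of_conj (g := n)
      fun u hu => mem_inf.2 ⟨hn u hu.1, by
        rw [mem_stabilizer_iff, mul_smul, mul_smul, inv_smul_smul, hu.2]⟩) (h1 _ h3))
    intro u hu
    have := h3 (hn u hu)
    rwa [mem_stabilizer_iff, mul_smul, mul_smul, inv_smul_smul, smul_left_cancel_iff] at this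
  let O : Ω → Set Ω := fun c => orbit (normalizer ((P ⊓ stabilizer G c : Subgroup G) : Set G)) c
  let M := {c ∈ Fᶜ | Nat.card (P ⊓ stabilizer G c : Subgroup G) = μ}
  have h2 : ∀ c ∈ M, ∀ d ∈ O c \ F, O d = O c := fun c hc d hd => by
    have h2 := eq_of_le_of_card_ge (le_inf inf_le_left (le_stab_of_orb inf_le_right hd.1))
      (hc.2 ▸ h1 d hd.2)
    change orbit (normalizer ((P ⊓ stabilizer G d : Subgroup G) : Set G)) d = _
    rw [← h2]
    exact orbit_eq_iff.2 hd.1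
  have h3 : ∀ s ⊆ M, p * ((⋃ c ∈ s, O c) ∩ F).ncard ≤ (p - 1) * ((⋃ c ∈ s, O c) \ F).ncard := by
    intro s hs
    induction s, s.toFinite using Set.Finite.induction_on with
    | empty => simp
    | @insert c s _ _ ih =>
      have hc := hs (Set.mem_insert c s)
      replace hs := (Set.subset_insert c s).trans hs
      rw [Set.biUnion_insert]
      by_cases h3 : Disjoint (O c \ F) ((⋃ c ∈ s, O c) \ F)
      · rw [Set.union_inter_distrib_right, Set.union_sdiff_distrib, Set.ncard_union_eq h3, mul_add]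
        exact (Nat.mul_le_mul_left _ (Set.ncard_union_le _ _)).trans
          (mul_add p _ _ ▸ add_le_add (local_bound hM P.2 hc.1 hc.2) (ih hs))
      obtain ⟨d, h4, h5, h6⟩ := Set.not_disjoint_iff.1 h3
      obtain ⟨e, he, h5⟩ := Set.mem_iUnion₂.1 h5
      rw [Set.union_eq_self_of_subset_left (((h2 c hc d h4).symm.trans
        (h2 e (hs he) d ⟨h5, h6⟩)).le.trans (Set.subset_biUnion_of_mem he))]
      exact ih hs
  refine le_trans (Nat.mul_le_mul_left _ (Set.ncard_le_ncard fun a ha => Set.mem_inter ?_ ha))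
    ((h3 M subset_rfl).trans (Nat.mul_le_mul_left _ (Set.ncard_le_ncard fun a ha => ha.2)))
  obtain ⟨g, hg, h4⟩ : ∃ g : G, g • b = a ∧
      ∀ u ∈ (P ⊓ stabilizer G b : Subgroup G), g * u * g⁻¹ ∈ P := by
    obtain ⟨g, rfl⟩ := exists_smul_eq G b a
    obtain ⟨n, hn, h4⟩ := hP ha (T := Transfer.cj g (P ⊓ stabilizer G b)) (by
      rintro _ ⟨u, hu, rfl⟩
      change (g * u * g⁻¹) • g • b = g • b
      rw [mul_smul, inv_smul_smul, mul_smul, hu.2]) ((P.2.to_le inf_le_left).map _)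
    exact ⟨n * g, by rw [mul_smul, hn], fun u hu => by
      simpa [mul_assoc] using h4 _ ⟨u, hu, rfl⟩⟩
  set D := Transfer.cj g (P ⊓ stabilizer G b)
  have hD : Nat.card D = μ := Transfer.card_cj _ _
  have h5 : D ≤ P := by rintro _ ⟨u, hu, rfl⟩; exact h4 u hu
  have h6 : D ≤ stabilizer G a := by
    rintro _ ⟨u, hu, rfl⟩
    change (g * u * g⁻¹) • a = a
    rw [← hg, mul_smul, inv_smul_smul, mul_smul, hu.2]
  obtain ⟨t, ht, h7⟩ := SetLike.exists_of_lt (Transfer.lt_inf_normalizer_of_lt P.2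
    (lt_of_le_of_ne inf_le_left fun h => hb (inf_eq_left.1 h)))
  have h8 : D < ↑P ⊓ normalizer (D : Set G) := Transfer.lt_inf_normalizer_of_lt P.2
    (lt_of_le_of_ne h5 fun h => (card_lt_of_lt (lt_of_le_of_ne inf_le_left fun h =>
      hb (inf_eq_left.1 h))).ne (hμ.symm.trans (hD.symm.trans (by rw [h]))))
  obtain ⟨n, hn, S, h9, h10, h11⟩ := exists_conj_both (H := normalizer (D : Set G)) inf_le_right
    (T' := zpowers (g * t * g⁻¹)) (zpowers_le_of_mem (mem_normalizer_fintype (by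
      rintro _ ⟨u, hu, rfl⟩
      exact ⟨_, (mem_normalizer_iff.1 ht.2 u).1 hu, by simp [mul_assoc]⟩)))
    (P.2.to_le inf_le_left) ((pe_of_mem P.2 ht.1).conj g).isPGroup
  have h12 : n • a ∉ F := fun h => h7 ⟨ht.1, by
    have := hM S h9 _ (hD ▸ (card_lt_of_lt h8).trans_le (card_le_of_le
      (le_inf h10 (inf_le_left.trans h)))) (h11 _ (mem_zpowers _))
    rwa [mem_stabilizer_iff, ← hg, mul_smul, inv_smul_smul, mul_smul, smul_left_cancel_iff, mul_smul,
      inv_smul_smul, mul_smul, smul_left_cancel_iff] at this⟩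
  have h13 : D = ↑P ⊓ stabilizer G (n • a) := eq_of_le_of_card_ge
    (le_inf h5 (le_stab_of_orb h6 (mem_orbit a (⟨n, hn⟩ : normalizer (D : Set G))))) (hD ▸ h1 _ h12)
  refine Set.mem_iUnion₂.2 ⟨n • a, ⟨h12, (congrArg (fun H : Subgroup G => Nat.card H) h13).symm.trans
    hD⟩, ?_⟩
  exact ⟨⟨n⁻¹, h13 ▸ inv_mem hn⟩, inv_smul_smul n a⟩

theorem sylow_bound' [IsPretransitive G Ω] (P : Sylow p G) {b : Ω}
    (hb : ¬ (P : Subgroup G) ≤ stabilizer G b) :
    (2 * p - 1) * {a : Ω | (P : Subgroup G) ≤ stabilizer G a}.ncard ≤ (p - 1) * Nat.card Ω := by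
  have := sylow_bound P hb
  rw [← Set.ncard_add_ncard_compl {a : Ω | (P : Subgroup G) ≤ stabilizer G a}, mul_add,
    show 2 * p - 1 = p - 1 + p by have := hp.out.pos; omega, add_mul]
  omega

theorem card_sylow_le (hgen : closure {g : G | ∃ k : ℕ, orderOf g = p ^ k} = ⊤) {H : Subgroup G}
    (hH : H ≠ ⊤) (P : Sylow p G) (hP : (P : Subgroup G) ≤ H) :
    (2 * p - 1) * Nat.card (Sylow p H) ≤ (p - 1) * Nat.card (Sylow p G) := by
  obtain ⟨b, hb⟩ : ∃ b : G ⧸ H, ¬ (P : Subgroup G) ≤ stabilizer G b := by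
    by_contra! h
    refine hH (eq_top_iff.2 (hgen.ge.trans ((closure_le _).2 fun g ⟨k, hk⟩ => ?_)))
    obtain ⟨n, -, S, h1, h2, h3⟩ := exists_conj_both le_top le_top P.2
      (PE.isPGroup ⟨k, hk ▸ pow_orderOf_eq_one g⟩)
    have := QuotientGroup.eq.1 (h (n : G ⧸ H) ((P.3 h1 h2).le (h3 g (mem_zpowers g))))
    simpa using this
  have h1 := sylow_bound' P hb
  set N := normalizer ((P : Subgroup G) : Set G)
  have h2 : H.relIndex N ≤ {a : G ⧸ H | (P : Subgroup G) ≤ stabilizer G a}.ncard := by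
    have h2 := CF.Perm.card_orbit_subgroup N ((1 : G) : G ⧸ H)
    rw [stabilizer_quotient] at h2
    exact h2 ▸ Set.ncard_le_ncard fun a ha => le_stab_of_orb (by rwa [stabilizer_quotient]) ha
  have h3 : Nat.card (Sylow p H) = N.relIndex H := by
    rw [(P.subtype hP).card_eq_index_normalizer]
    exact congrArg index (subgroupOf_normalizer_eq hP).symm
  have h4 : N.relIndex H * H.index = H.relIndex N * N.index := by
    rw [← inf_relIndex_right, relIndex_mul_index inf_le_right, ← inf_relIndex_left N,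
      relIndex_mul_index inf_le_left]
  rw [h3, P.card_eq_index_normalizer]
  refine Nat.le_of_mul_le_mul_right ?_ (Nat.pos_of_ne_zero (FiniteIndex.index_ne_zero (H := H)))
  rw [mul_assoc, h4, ← mul_assoc, mul_right_comm (p - 1)]
  exact Nat.mul_le_mul_right _ ((Nat.mul_le_mul_left _ h2).trans h1)

theorem card_orbits_le [FaithfulSMul G Ω] [IsPretransitive G Ω] (hp2 : p ≠ 2) (hG : p ∣ Nat.card G)
    (P : Sylow p G) : (2 * p - 1) * Nat.card (orbitRel.Quotient (P : Subgroup G) Ω) ≤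
      p * Nat.card Ω := by
  classical
  have := Fintype.ofFinite Ω
  obtain ⟨b, hb⟩ : ∃ b : Ω, ¬ (P : Subgroup G) ≤ stabilizer G b := by
    by_contra! h
    exact P.ne_bot_of_dvd_card hG (eq_bot_iff.2 fun g hg =>
      eq_of_smul_eq_smul fun a : Ω => (h a hg).trans (one_smul G a).symm)
  have h1 := sylow_bound P hb
  set F := {a : Ω | (P : Subgroup G) ≤ stabilizer G a}
  let π : Ω → orbitRel.Quotient (P : Subgroup G) Ω := Quotient.mk _
  have h2 := Finset.mul_card_image_le_card (f := π) Fᶜ.toFinset p fun q hq => by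
    obtain ⟨a, ha, rfl⟩ := Finset.mem_image.1 hq
    obtain ⟨k, hk⟩ := P.2.card_orbit a
    have h2 : k ≠ 0 := by
      rintro rfl
      rw [CF.Perm.card_orbit_subgroup, pow_zero, relIndex_eq_one] at hk
      exact Set.mem_toFinset.1 ha hk
    refine (Nat.le_self_pow h2 p).trans (hk.symm.trans_le ?_)
    rw [Nat.card_coe_set_eq, ← Set.ncard_coe_finset]
    refine Set.ncard_le_ncard fun c hc => Finset.mem_coe.2 (Finset.mem_filter.2
      ⟨Set.mem_toFinset.2 fun h => Set.mem_toFinset.1 ha ?_, Quotient.sound hc⟩)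
    obtain ⟨g, rfl⟩ := hc
    have h3 : (g : G)⁻¹ • g • a = g • a := h (inv_mem g.2)
    change g • a ∈ F at h
    rwa [← h3, show (g : G)⁻¹ • g • a = a from inv_smul_smul (g : G) a] at h
  have h3 : Nat.card (orbitRel.Quotient (P : Subgroup G) Ω) ≤
      F.toFinset.card + (Fᶜ.toFinset.image π).card := by
    refine le_trans ?_ (Nat.add_le_add_right (Finset.card_image_le (f := π)) _)
    refine le_trans ?_ (Finset.card_union_le _ _)
    rw [← Finset.image_union, ← Set.toFinset_union, ← Set.ncard_coe_finset, Finset.coe_image,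
      Set.coe_toFinset, Set.union_compl_self, Set.image_univ, Quotient.mk_surjective.range_eq,
      Set.ncard_univ]
  rw [← Set.ncard_eq_toFinset_card'] at h2 h3
  rw [← Set.ncard_add_ncard_compl F]
  obtain ⟨c, rfl⟩ : ∃ c, p = c + 3 := ⟨p - 3, by have := hp.out.two_le; omega⟩
  rw [show c + 3 - 1 = c + 2 from rfl] at h1
  rw [show 2 * (c + 3) - 1 = 2 * c + 5 from rfl]
  refine Nat.le_of_mul_le_mul_left ?_ (show 0 < (c + 3) * (c + 3) by positivity)
  nlinarith [Nat.mul_le_mul_left ((c + 3) * (c + 3) * (2 * c + 5)) h3,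
    Nat.mul_le_mul_left ((c + 3) * (2 * c + 5)) h2, Nat.mul_le_mul_left ((c + 3) * (c + 2)) h1]

end CF.Fr
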