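import Cfsg.Agent.Char.More
import Cfsg.Agent.Char.FrobSchur

/-! Isotypic projections of a complex representation. -/

set_option autoImplicit false

namespace CF.Perm

open Cfsg CF.Char Module
open scoped ComplexConjugate

variable {G V : Type*} [Group G] [Fintype G] [AddCommGroup V] [Module ℂ V]
  (ρ : Representation ℂ G V) {χ ψ : G → ℂ}

/-- the projection onto the `χ`-isotypic component -/
noncomputable def iso (χ : G → ℂ) : End ℂ V := ∑ g, (χ 1 / Nat.card G * χ g⁻¹) • ρ g

theorem iso_comm {T : End ℂ V} (hT : ∀ g, Commute T (ρ g)) (χ : G → ℂ) : Commute T (iso ρ χ) :=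
  Commute.sum_right _ _ _ fun g _ => (hT g).smul_right _

theorem iso_comm_rho (hχ : IsClassFunction G χ) (g : G) : Commute (iso ρ χ) (ρ g) :=
  sum_classFun_smul_comm ρ (fun a b => by simp only [mul_inv_rev, inv_inv, ← mul_assoc, hχ a⁻¹ b]) g

theorem iso_mul_iso (hχ : IsIrrCharacter G χ) : iso ρ χ * iso ρ χ = iso ρ χ := by
  have h1 := card_ne_zero_complex (G := G)
  have h2 := irr_one_ne_zero hχ
  conv_lhs => rw [iso, Finset.sum_mul_sum]
  rw [Finset.sum_congr rfl fun g _ => (Equiv.sum_comp (Equiv.mulLeft g⁻¹) _).symm, Finset.sum_comm]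
  refine Finset.sum_congr rfl fun x _ => ?_
  have h3 := sum_irr_mul_irr_inv hχ hχ x⁻¹
  rw [if_pos rfl, ← Equiv.sum_comp (Equiv.inv G)] at h3
  simp only [smul_mul_smul_comm, ← map_mul, Equiv.coe_mulLeft, mul_inv_cancel_left,
    ← Finset.sum_smul, mul_inv_rev, inv_inv, mul_mul_mul_comm (χ 1 / _) (χ _) (χ 1 / _), ← Finset.mul_sum,
    classFun_mul_comm (irr_isClassFunction hχ) x⁻¹]
  simp only [Equiv.inv_apply, inv_inv] at h3
  rw [h3]
  congr 1
  field_simp

theorem sum_iso : ∑ χ : IrrCharacter G, iso ρ χ = 1 := by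
  simp only [iso]
  rw [Finset.sum_comm, Finset.sum_eq_single 1 (fun g _ hg => ?_) (by simp)] <;>
    simp only [← Finset.sum_smul, div_mul_eq_mul_div, ← Finset.sum_div, sum_irr_one_mul]
  · simp [regChar_one, card_ne_zero_complex, -Nat.card_eq_fintype_card]
  · simp [regChar_of_ne (inv_ne_one.2 hg)]

variable [FiniteDimensional ℂ V]

theorem trace_iso_mul (hχ : IsIrrCharacter G χ) (x : G) :
    LinearMap.trace ℂ V (iso ρ χ * ρ x) = classInner ρ.character χ * χ x := by
  have h1 := card_ne_zero_complex (G := G)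
  have h2 := irr_one_ne_zero hχ
  have h3 := sum_classFun_mul_irr_inv (char_isClassFunction (isCharacter_character ρ)) hχ x
  rw [← Equiv.sum_comp (Equiv.mulRight x)] at h3
  simp only [iso, Finset.sum_mul, map_sum, smul_mul_assoc, ← map_mul, map_smul, smul_eq_mul,
    mul_assoc, ← Finset.mul_sum]
  simp only [Equiv.coe_mulRight, mul_inv_rev, classFun_conj' (irr_isClassFunction hχ),
    mul_comm (ρ.character _)] at h3
  rw [show ∑ g, χ g⁻¹ * LinearMap.trace ℂ V (ρ (g * x)) = _ from h3]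
  field_simp

theorem character_iso (hχ : IsIrrCharacter G χ) : (idemSubrep ρ (iso ρ χ)
    (iso_comm_rho ρ (irr_isClassFunction hχ))).toRepresentation.character =
      classInner ρ.character χ • χ :=
  funext fun g => (character_idemSubrep ρ _ (iso_mul_iso ρ hχ) _ g).trans (trace_iso_mul ρ hχ g)

theorem iso_eq_zero (hχ : IsIrrCharacter G χ) (h : classInner ρ.character χ = 0) :
    iso ρ χ = 0 := by
  have h1 := congrFun (character_iso ρ hχ) 1
  rw [h, zero_smul, Representation.char_one, Pi.zero_apply, Nat.cast_eq_zero,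
    Submodule.finrank_eq_zero] at h1
  exact LinearMap.range_eq_bot.1 h1

theorem exists_mul_iso (hχ : IsIrrCharacter G χ) (h : classInner ρ.character χ = 1)
    {T : End ℂ V} (hT : ∀ g, Commute T (ρ g)) : ∃ θ : ℂ, T * iso ρ χ = θ • iso ρ χ := by
  have := isIrreducible_of_irr _ (by rwa [character_iso ρ hχ, h, one_smul])
  obtain ⟨c, hc⟩ := schur (idemSubrep ρ (iso ρ χ) (iso_comm_rho ρ
    (irr_isClassFunction hχ))).toRepresentation (T.restrict (p := LinearMap.range (iso ρ χ))
    (by rintro _ ⟨v, rfl⟩; exact ⟨T v, (DFunLike.congr_fun (iso_comm ρ hT χ) v).symm⟩))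
    fun g => LinearMap.ext fun v => Subtype.ext (DFunLike.congr_fun (hT g) v.1)
  exact ⟨c, LinearMap.ext fun v => congrArg Subtype.val (DFunLike.congr_fun hc
    (⟨_, v, rfl⟩ : LinearMap.range (iso ρ χ)))⟩

theorem comm_of_multFree (h : ∀ χ, IsIrrCharacter G χ → classInner ρ.character χ = 0 ∨
    classInner ρ.character χ = 1) {S T : End ℂ V} (hS : ∀ g, Commute S (ρ g))
    (hT : ∀ g, Commute T (ρ g)) : S * T = T * S := by
  rw [← mul_one (S * T), ← mul_one (T * S), ← sum_iso ρ, Finset.mul_sum, Finset.mul_sum]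
  refine Finset.sum_congr rfl fun χ _ => (h _ χ.2).elim (fun h => by simp [iso_eq_zero ρ χ.2 h])
    fun h => ?_
  obtain ⟨a, ha⟩ := exists_mul_iso ρ χ.2 h hS
  obtain ⟨b, hb⟩ := exists_mul_iso ρ χ.2 h hT
  simp only [mul_assoc, ha, hb, mul_smul_comm]
  exact smul_comm _ _ _

theorem multFree_of_comm (h : ∀ S T : End ℂ V, (∀ g, Commute S (ρ g)) → (∀ g, Commute T (ρ g)) →
    S * T = T * S) (hχ : IsIrrCharacter G χ) :
    classInner ρ.character χ = 0 ∨ classInner ρ.character χ = 1 := by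
  obtain ⟨n, σ, _, rfl⟩ := hχ
  rw [inner_character_eq_finrank, Nat.cast_eq_zero, Nat.cast_eq_one, ← Nat.le_one_iff_eq_zero_or_eq_one]
  rcases subsingleton_or_nontrivial (σ.IntertwiningMap ρ) with _ | _
  · simp [finrank_zero_of_subsingleton]
  obtain ⟨φ, hφ⟩ := exists_ne (0 : σ.IntertwiningMap ρ)
  have : NeZero (Nat.card G : ℂ) := ⟨card_ne_zero_complex⟩
  obtain ⟨L, hL⟩ := MonoidAlgebra.exists_leftInverse_of_injective
    (Representation.IntertwiningMap.equivLinearMapAsModule σ ρ φ) (LinearMap.ker_eq_bot.2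
    ((Representation.IsIrreducible.injective_or_eq_zero φ).resolve_right hφ))
  obtain ⟨L, rfl⟩ := (Representation.IntertwiningMap.equivLinearMapAsModule ρ σ).surjective L
  have h1 : ∀ u, L (φ u) = u := DFunLike.congr_fun hL
  refine finrank_le_one φ fun φ' => ?_
  obtain ⟨c, hc⟩ := schur σ (L.comp φ').toLinearMap (L.comp φ').isIntertwining'
  have h2 : ∀ u, L (φ' u) = c • u := DFunLike.congr_fun hc
  refine ⟨c, DFunLike.ext _ _ fun u => ?_⟩
  simpa [h1, h2] using DFunLike.congr_fun (h _ _ (φ.comp L).isIntertwining'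
    (φ'.comp L).isIntertwining') (φ u)

theorem dvd_finrank {f : ℕ} (hf : ∀ χ, IsIrrCharacter G χ → χ ≠ (fun _ => 1) →
    classInner ρ.character χ ≠ 0 → ∃ m : ℕ, χ 1 = f * m) (W : Subrepresentation ρ)
    (hW : ∀ v ∈ W, (∀ g, ρ g v = v) → v = 0) : f ∣ finrank ℂ W.toSubmodule := by
  have : NeZero (Nat.card G : ℂ) := ⟨card_ne_zero_complex⟩
  obtain ⟨W', hW'⟩ := exists_isCompl W
  have h1 := character_eq_add_of_isCompl ρ W W' (isCompl_toSubmodule hW')
  have h2 := classFun_apply_eq_sum (char_isClassFunction (isCharacter_character W.toRepresentation)) 1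
  have h3 : ∀ χ : IrrCharacter G, ∃ m : ℕ, classInner W.toRepresentation.character χ * χ.1 1 =
      (f * m : ℕ) := fun χ => by
    obtain ⟨a, ha⟩ := inner_char_eq_nat (isCharacter_character W.toRepresentation) (irr_isCharacter χ.2)
    obtain ⟨b, hb⟩ := inner_char_eq_nat (isCharacter_character W'.toRepresentation) (irr_isCharacter χ.2)
    by_cases h3 : a = 0
    · exact ⟨0, by simp [ha, h3]⟩
    obtain ⟨m, hm⟩ := hf _ χ.2 (fun e => h3 (by
      rw [e, inner_character_one_eq_finrank, Nat.cast_inj] at ha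
      rw [← ha, Submodule.finrank_eq_zero, eq_bot_iff]
      exact fun v hv => Subtype.ext (hW v v.2 fun g => congrArg Subtype.val (hv g))))
      (by rw [h1, Char.inner_add_left, ha, hb]; norm_cast; omega)
    exact ⟨a * m, by rw [ha, hm]; push_cast; ring⟩
  choose m hm using h3
  simp only [hm, Representation.char_one] at h2
  norm_cast at h2
  exact h2 ▸ Finset.dvd_sum fun _ _ => Dvd.intro _ rfl

theorem exists_trace_eq {f : ℕ} {T : End ℂ V} (h : ∀ μ ≠ 0, T.HasEigenvalue μ →
    IsIntegral ℤ μ ∧ f ∣ finrank ℂ (T.maxGenEigenspace μ)) :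
    ∃ c : ℂ, IsIntegral ℤ c ∧ LinearMap.trace ℂ V T = f * c := by
  classical
  have h1 : ∀ μ : T.charpoly.roots.toFinset, ∃ c : ℂ, IsIntegral ℤ c ∧
      T.charpoly.roots.count μ.1 • μ.1 = f * c := fun μ => by
    by_cases h0 : μ.1 = 0
    · exact ⟨0, isIntegral_zero, by simp [h0]⟩
    obtain ⟨h1, m, hm⟩ := h μ h0 ((End.hasEigenvalue_iff_isRoot_charpoly _ _).2
      (Polynomial.isRoot_of_mem_roots (Multiset.mem_toFinset.1 μ.2)))
    exact ⟨m * μ, (isIntegral_natCast m).mul h1, by
      rw [Polynomial.count_roots, ← LinearMap.finrank_maxGenEigenspace_eq, hm]; simp [mul_assoc]⟩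
  choose c h1 h2 using h1
  refine ⟨_, IsIntegral.sum c fun μ (_ : μ ∈ Finset.univ) => h1 μ, ?_⟩
  rw [End.trace_eq_sum_roots_charpoly_of_splits (IsAlgClosed.splits _), Finset.sum_multiset_count, Finset.mul_sum,
    ← Finset.sum_coe_sort]
  exact Finset.sum_congr rfl fun μ _ => h2 μ

end CF.Perm
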