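import Cfsg.Agent.Perm.ONan1
import Cfsg.Agent.Char.More
import Cfsg.Agent.Invol.Count

/-! Two-transitive symmetric designs: counting. -/

set_option autoImplicit false

namespace CF.Perm

open MulAction Subgroup Finset Cfsg CF.Char

theorem partition_exp {N : Type*} [Group N] [Finite N] [Nontrivial N] (M : N → Subgroup N)
    (h1 : ∀ g, g ∈ M g) (h2 : ∀ g h, g ≠ 1 → h ≠ 1 → h ∈ M g → M h = M g) (h3 : ∀ g, g ≠ 1 → M g ≠ ⊤)
    (h4 : ∀ g h : N, ∃ t, t ≠ 1 ∧ Commute t g ∧ Commute t h) :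
    ∃ p : ℕ, p.Prime ∧ ∃ M₀ : Subgroup N, M₀ ≠ ⊤ ∧ ∀ y ∉ M₀, y ^ p = 1 := by
  have K : ∀ {x y : N} (m : ℕ), Commute x y → y ≠ 1 → x ∉ M y → x ^ m = 1 → y ^ m = 1 :=
    fun {x y} m hc hy hx e => by_contra fun e' => by
      have e1 : x * y ≠ 1 := fun e1 => hx (eq_inv_of_mul_eq_one_left e1 ▸ inv_mem (h1 y))
      have e2 := h2 _ _ e1 e' (by simpa [hc.mul_pow, e] using pow_mem (h1 (x * y)) m)
      rw [h2 _ _ hy e' (pow_mem (h1 y) m)] at e2
      exact hx ((mul_mem_cancel_right (h1 y)).1 (e2 ▸ h1 _))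
  have P : ∀ y : N, y ≠ 1 → ¬ (∀ x, Commute x y → x ∈ M y) → ∃ l : ℕ, l.Prime ∧ y ^ l = 1 := fun y hy hc => by
    push Not at hc
    obtain ⟨x, hc, hx⟩ := hc
    obtain ⟨l, hl, m, hm⟩ := Nat.exists_prime_and_dvd (mt orderOf_eq_one_iff.1 hy)
    have e1 : y ^ m ≠ 1 := pow_ne_one_of_lt_orderOf (by rintro rfl; exact (orderOf_pos y).ne' hm) (by
      rw [hm]; exact lt_mul_of_one_lt_left (Nat.pos_of_mul_pos_left (hm ▸ orderOf_pos y)) hl.one_lt)
    have e2 := h2 _ _ hy e1 (pow_mem (h1 y) m)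
    have hx1 : x ≠ 1 := fun e => hx (e ▸ one_mem _)
    refine ⟨l, hl, K l hc hy hx (K l (hc.pow_right m).symm hx1 (fun e => hx ?_) ?_)⟩
    · rw [← e2, h2 _ _ hx1 e1 e]; exact h1 x
    · rw [← pow_mul, mul_comm, ← hm, pow_orderOf_eq_one]
  obtain ⟨M₀, hM, hY⟩ : ∃ M₀ : Subgroup N, M₀ ≠ ⊤ ∧
      ∀ y, y ≠ 1 → (∀ x, Commute x y → x ∈ M y) → M y = M₀ := by
    by_cases hc : ∃ y, y ≠ 1 ∧ ∀ x, Commute x y → x ∈ M y
    · obtain ⟨y₀, hy₀, hc⟩ := hc
      refine ⟨M y₀, h3 _ hy₀, fun y hy hc' => ?_⟩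
      obtain ⟨t, ht, e1, e2⟩ := h4 y y₀
      rw [← h2 _ _ hy ht (hc' t e1), h2 _ _ hy₀ ht (hc t e2)]
    · exact ⟨⊥, bot_ne_top, fun y hy hc' => (hc ⟨y, hy, hc'⟩).elim⟩
  have Q : ∀ z ∉ M₀, ∃ l : ℕ, l.Prime ∧ ∀ c, Commute c z → c ^ l = 1 := fun z hz => by
    have hz1 : z ≠ 1 := fun e => hz (e ▸ one_mem _)
    have R : ∀ c ∈ M z, c ≠ 1 → ∃ l : ℕ, l.Prime ∧ c ^ l = 1 := fun c hc h => P c h fun e =>
      hz (by rw [← hY c h e, h2 _ _ hz1 h hc]; exact h1 z)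
    obtain ⟨l, hl, e⟩ := R z (h1 z) hz1
    refine ⟨l, hl, fun c hc => by_contra fun e1 => ?_⟩
    have hc1 : c ≠ 1 := fun e => e1 (by rw [e, one_pow])
    have e2 : c ∈ M z := by_contra fun e2 => e1 (K l hc.symm hc1 (fun e3 => e2 (h2 _ _ hc1 hz1 e3 ▸ h1 c)) e)
    obtain ⟨q, hq, e3⟩ := R c e2 hc1
    have := Fact.mk hl
    have := Fact.mk hq
    have o1 := orderOf_eq_prime e hz1
    have o2 := orderOf_eq_prime e3 hc1
    have e4 : q ≠ l := fun e4 => e1 (e4 ▸ e3)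
    have o3 := hc.orderOf_mul_eq_mul_orderOf_of_coprime (by rw [o1, o2]; exact (Nat.coprime_primes hq hl).2 e4)
    rw [o1, o2] at o3
    obtain ⟨r, hr, e5⟩ := R (c * z) (mul_mem e2 (h1 z)) fun e => hq.ne_one
      (Nat.eq_one_of_mul_eq_one_right (by rw [← o3, e, orderOf_one]))
    have := Fact.mk hr
    have e6 := orderOf_dvd_of_pow_eq_one e5
    rw [o3] at e6
    exact e4 (((Nat.prime_dvd_prime_iff_eq hq hr).1 (Dvd.dvd.trans ⟨_, rfl⟩ e6)).trans
      ((Nat.prime_dvd_prime_iff_eq hl hr).1 (Dvd.dvd.trans ⟨_, mul_comm _ _⟩ e6)).symm)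
  obtain ⟨z₀, -, hz₀⟩ := SetLike.exists_of_lt (lt_top_iff_ne_top.2 hM)
  obtain ⟨p, hp, e⟩ := Q z₀ hz₀
  refine ⟨p, hp, M₀, hM, fun z hz => ?_⟩
  obtain ⟨l, hl, e'⟩ := Q z hz
  obtain ⟨t, ht, e1, e2⟩ := h4 z z₀
  have := Fact.mk hl
  have := Fact.mk hp
  rw [← orderOf_eq_prime (e t e2) ht, orderOf_eq_prime (e' t e1) ht]
  exact e' z (Commute.refl z)

theorem ito_arith {a r s m t : ℕ} (ha : 1 < a) (hr : 1 < r) (hs : s ∣ a * r) (hm : 0 < m)
    (h1 : s * m ≤ a * r - 1) (h2 : t * (a * r - 1) = s * m * (a - 1)) : s * s < a * r := by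
  obtain ⟨a, rfl⟩ : ∃ b, a = b + 1 := ⟨a - 1, by omega⟩
  obtain ⟨r, rfl⟩ : ∃ b, r = b + 1 := ⟨r - 1, by omega⟩
  have e : (a + 1) * (r + 1) - 1 = r + a * (r + 1) := by rw [add_mul]; omega
  rw [e] at h1 h2
  rw [Nat.add_sub_cancel] at h2
  set n := r + a * (r + 1)
  have h3 : n ∣ s * (m * Nat.gcd n a) := by
    rw [← mul_assoc, ← Nat.gcd_mul_left]
    exact Nat.dvd_gcd (Dvd.intro_left _ rfl) ⟨t, by rw [← h2, mul_comm]⟩
  have h4 : Nat.Coprime n s := Nat.Coprime.coprime_dvd_right hs (by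
    rw [show (a + 1) * (r + 1) = n + 1 by simp only [n]; ring]; simp)
  have h5 := Nat.le_of_dvd (Nat.mul_pos hm (Nat.gcd_pos_of_pos_right _ (by omega))) (h4.dvd_of_dvd_mul_left h3)
  have h6 : s ≤ Nat.gcd n a := Nat.le_of_mul_le_mul_left (by rw [mul_comm]; omega) hm
  have h7 := Nat.le_of_dvd (by omega) (Nat.gcd_dvd_right n a)
  have h8 : Nat.gcd n a ≤ r := Nat.le_of_dvd (by omega)
    ((Nat.dvd_add_left ((Nat.gcd_dvd_right n a).mul_right _)).1 (Nat.gcd_dvd_left n a))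
  nlinarith

theorem dvd_card_of_index {N : Type*} [Group N] [Fintype N] (s : ℕ) (K : Finset N)
    (hK : ∀ g ∈ K, ∀ h, IsConj g h → h ∈ K) (hs : ∀ g ∈ K, (centralizer ({g} : Set N)).index = s) : s ∣ #K := by
  classical
  rw [card_eq_sum_card_image ConjClasses.mk K]
  refine dvd_sum fun c hc => ?_
  obtain ⟨g, hg, rfl⟩ := mem_image.1 hc
  rw [← hs g hg, ← CF.Invol.card_isConj_eq_index, Nat.card_eq_fintype_card, Fintype.card_subtype]
  refine dvd_of_eq (congrArg _ (Finset.ext fun h => ?_))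
  simp only [mem_filter, mem_univ, true_and, ConjClasses.mk_eq_mk_iff_isConj]
  exact ⟨fun e => ⟨hK g hg h e, e.symm⟩, fun e => e.2.symm⟩

variable {G Ω X : Type*} [Group G] [MulAction G Ω] [MulAction G X]

theorem card_fixedBy_eq_of_inc [Finite G] [Finite Ω] [Finite X] (h2 : IsMultiplyPretransitive G Ω 2)
    [IsPretransitive G X] (hc : Nat.card X = Nat.card Ω) {I : Ω → X → Prop}
    (hI : ∀ (g : G) p b, I (g • p) (g • b) ↔ I p b) {p q : Ω} {b : X} (hp : I p b) (hq : ¬ I q b) :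
    (∀ g : G, Nat.card (fixedBy X g) = Nat.card (fixedBy Ω g)) ∧ IsMultiplyPretransitive G X 2 ∧
      ∀ w w', ¬ I w b → ¬ I w' b → ∃ g : G, g • b = b ∧ g • w = w' := by
  have := Fintype.ofFinite G
  have : Nontrivial Ω := ⟨p, q, fun e => hq (e ▸ hp)⟩
  have : Nontrivial X := Finite.one_lt_card_iff_nontrivial.1 (hc ▸ Finite.one_lt_card)
  have := isPretransitive_of_is_two_pretransitive (G := G) (α := Ω)
  have hne : ∀ {q}, ¬ I q b → (Quotient.mk'' (q, b) : orbitRel.Quotient G (Ω × X)) ≠ Quotient.mk'' (p, b) :=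
    fun {q} hq e => by
      obtain ⟨g, hg⟩ := orbitRel_apply.1 (Quotient.exact' e)
      have := (hI g p b).2 hp
      simp only [Prod.smul_mk, Prod.mk.injEq] at hg
      rw [hg.1, hg.2] at this
      exact hq this
  have h1 := (irr_fixedBy_sub_one_iff Ω).2 h2
  have h3 := eq_of_inner_ne_zero_of_one_eq (char_fixedBy_sub_one X) h1 (by
    have e : ∀ (Y : Type _) [MulAction G Y], (fun g : G => (Nat.card (fixedBy Y g) : ℂ) - 1) =
      (fun g : G => (Nat.card (fixedBy Y g) : ℂ)) - fun _ => 1 := fun _ _ => rfl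
    have e' : (fun g : G => (Nat.card (fixedBy X g) : ℂ) - 1) =
      (fun g : G => (Nat.card (fixedBy X g) : ℂ)) - fun _ => 1 := rfl
    rw [e Ω, e', inner_char_comm (e' ▸ char_fixedBy_sub_one X) (e Ω ▸ char_fixedBy_sub_one Ω), Char.inner_sub_left,
      Char.inner_sub_right, Char.inner_sub_right, inner_fixedBy_fixedBy, inner_char_comm char_const_one (char_fixedBy X),
      inner_fixedBy_one_of_pretransitive, inner_fixedBy_one_of_pretransitive, inner_one_one, sub_self, sub_zero,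
      sub_ne_zero, Ne, Nat.cast_eq_one, Nat.card_eq_one_iff_unique]
    exact fun e => hne hq (e.1.elim _ _)) (by simp [hc])
  have h4 : ∀ g : G, Nat.card (fixedBy X g) = Nat.card (fixedBy Ω g) := fun g => by
    simpa using congrFun h3 g
  refine ⟨h4, (irr_fixedBy_sub_one_iff X).1 (h3 ▸ h1), fun w w' hw hw' => ?_⟩
  have h5 := inner_fixedBy_fixedBy (G := G) Ω X
  simp only [h4] at h5
  rw [inner_fixedBy_fixedBy, (card_orbits_prod_eq_two_iff Ω).2 h2, eq_comm, Nat.cast_inj,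
    Nat.card_eq_two_iff' (Quotient.mk'' (p, b))] at h5
  obtain ⟨g, hg⟩ := orbitRel_apply.1 (Quotient.exact' (h5.unique (hne hw') (hne hw)))
  simp only [Prod.smul_mk, Prod.mk.injEq] at hg
  exact ⟨g, hg.2, hg.1⟩

open Classical in
theorem exists_design [Fintype Ω] [Fintype X] [Nontrivial Ω] [Nonempty X] (h2 : IsMultiplyPretransitive G Ω 2)
    [IsPretransitive G X] (hc : Fintype.card X = Fintype.card Ω) {I : Ω → X → Prop}
    (hI : ∀ (g : G) p b, I (g • p) (g • b) ↔ I p b) : ∃ k l : ℕ, (∀ b, #{p | I p b} = k) ∧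
      (∀ p, #{b | I p b} = k) ∧ (∀ p q, p ≠ q → #{b | I p b ∧ I q b} = l) ∧
      k * (k - 1) = (Fintype.card Ω - 1) * l := by
  have := isPretransitive_of_is_two_pretransitive (G := G) (α := Ω)
  obtain ⟨p₀, q₀, h0⟩ := exists_pair_ne Ω
  obtain ⟨b₀⟩ := ‹Nonempty X›
  have h1 : ∀ b, #{p | I p b} = #{p | I p b₀} := fun b => by
    obtain ⟨g, rfl⟩ := exists_smul_eq G b b₀
    exact card_equiv (toPerm g) fun p => by simp [hI]
  have h3 : ∀ p, #{b | I p b} = #{b | I p₀ b} := fun p => by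
    obtain ⟨g, rfl⟩ := exists_smul_eq G p p₀
    exact card_equiv (toPerm g) fun p => by simp [hI]
  have h4 : ∀ p q, p ≠ q → #{b | I p b ∧ I q b} = #{b | I p₀ b ∧ I q₀ b} := fun p q h => by
    obtain ⟨g, rfl, rfl⟩ := twoTrans_iff.1 h2 p q p₀ q₀ h h0
    exact card_equiv (toPerm g) fun p => by simp [hI]
  have h5 := card_mul_eq_card_mul (s := univ) (t := univ) I (fun p _ => h3 p) fun b _ => h1 b
  rw [card_univ, card_univ, hc] at h5
  have h6 := Nat.eq_of_mul_eq_mul_left Fintype.card_pos h5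
  refine ⟨_, _, h1, fun p => (h3 p).trans h6, h4, ?_⟩
  have h7 := card_mul_eq_card_mul (s := univ.erase p₀) (t := {b | I p₀ b}) I (m := #{b | I p₀ b ∧ I q₀ b})
    (n := #{p | I p b₀} - 1) (fun p hp => by
      rw [← h4 p₀ p (ne_of_mem_erase hp).symm]
      exact congrArg _ (Finset.ext fun b => by simp)) fun b hb => by
      rw [← h1 b, ← card_erase_of_mem (a := p₀) (by simpa using hb)]
      exact congrArg _ (Finset.ext fun p => by simp)
  rw [card_erase_of_mem (mem_univ _), card_univ, h6] at h7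
  exact h7.symm

end CF.Perm
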