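import Mathlib

/-!
# A permutation group of degree `n` has at most `2 ^ (n - 1)` conjugacy classes

The elements of the group are built cycle by cycle; at each step the number `r` of choices for the
image of the next point is paid for by `r - 1` new orbits of the pointwise stabilizer.
-/

namespace CF.KC

open Finset MulAction

theorem img_le {A B C : Type*} [DecidableEq B] [DecidableEq C] {s : Finset A} (f : A → B)
    (g : A → C) (h : ∀ a ∈ s, ∀ b ∈ s, f a = f b → g a = g b) :
    (s.image g).card ≤ (s.image f).card := by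
  rcases s.eq_empty_or_nonempty with rfl | ⟨a, -⟩
  · simp
  have : Nonempty A := ⟨a⟩
  refine (card_le_card fun c hc => ?_).trans (card_image_le (f := g ∘ Function.invFunOn f s))
  obtain ⟨b, hb, rfl⟩ := mem_image.1 hc
  exact mem_image.2 ⟨f b, mem_image_of_mem f hb, h _ (Function.invFunOn_apply_mem hb) _ hb
    (Function.invFunOn_apply_eq hb)⟩

theorem img_add_le {A B C : Type*} [Fintype A] [DecidableEq B] [DecidableEq C] (f : A → B)
    (g : A → C) (h : ∀ a b, f a = f b → g a = g b) (c : C) :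
    (univ.image g).card + ((univ.filter (g · = c)).image f).card ≤ (univ.image f).card + 1 := by
  classical
  have h1 : (univ.image g).card ≤ ((univ.filter (¬ g · = c)).image g).card + 1 :=
    (card_le_card fun x hx => by
      obtain ⟨a, -, rfl⟩ := mem_image.1 hx
      by_cases h1 : g a = c
      · simp [h1]
      · exact mem_insert_of_mem (mem_image_of_mem g (by simpa using h1))).trans (card_insert_le c _)
  have h2 := img_le (s := univ.filter (¬ g · = c)) f g fun a _ b _ => h a b
  have h3 := card_union_of_disjoint (s := (univ.filter (g · = c)).image f)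
    (t := (univ.filter (¬ g · = c)).image f) (disjoint_left.2 fun x h3 h4 => by
      obtain ⟨a, ha, rfl⟩ := mem_image.1 h3
      obtain ⟨b, hb, h4⟩ := mem_image.1 h4
      exact (mem_filter.1 hb).2 ((h b a h4).trans (mem_filter.1 ha).2))
  rw [← image_union, filter_union_filter_not_eq] at h3
  omega

variable {G Ω : Type*} [Group G] [MulAction G Ω]

/-- The class of `x` under conjugation by `L`. -/
def cl (L : Subgroup G) (x : G) : Set G := {y | ∃ l ∈ L, l * x * l⁻¹ = y}

theorem cl_eq_iff {L : Subgroup G} {x y : G} : cl L x = cl L y ↔ ∃ l ∈ L, l * x * l⁻¹ = y := by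
  refine ⟨fun h => show y ∈ cl L x from h ▸ ⟨1, one_mem _, by simp⟩, ?_⟩
  rintro ⟨l, hl, rfl⟩
  ext z
  constructor <;> rintro ⟨m, hm, rfl⟩
  exacts [⟨m * l⁻¹, mul_mem hm (inv_mem hl), by group⟩, ⟨m * l, mul_mem hm hl, by group⟩]

theorem ob_eq_iff {L : Subgroup G} {a b : Ω} : orbit L a = orbit L b ↔ ∃ l ∈ L, l • b = a :=
  orbit_eq_iff.trans ⟨fun ⟨l, h⟩ => ⟨l, l.2, h⟩, fun ⟨l, hl, h⟩ => ⟨⟨l, hl⟩, h⟩⟩

variable [Fintype G] [Fintype Ω] [FaithfulSMul G Ω]

open Classical in
theorem main (n : ℕ) : ∀ (A : Finset Ω) (g : G) (β : Ω), Aᶜ.card = n →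
    (∀ a ∈ A, g • a ∈ insert β A) →
    ((univ.filter fun x : G => ∀ a ∈ A, x • a = g • a).image
      (cl (fixingSubgroup G ((insert β A : Finset Ω) : Set Ω)))).card *
      2 ^ (univ.image fun a : Ω => orbit (fixingSubgroup G (A : Set Ω)) a).card ≤
      2 ^ Fintype.card Ω := by
  induction n with
  | zero =>
    intro A g β hA _
    obtain rfl : A = univ := by simpa using hA
    refine (Nat.mul_le_mul (card_image_le.trans (card_le_one_iff_subset_singleton.2
      ⟨g, fun x hx => ?_⟩)) (Nat.pow_le_pow_right two_pos card_image_le)).trans_eq (one_mul _)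
    exact mem_singleton.2 (eq_of_smul_eq_smul fun a : Ω => (mem_filter.1 hx).2 a (mem_univ a))
  | succ n ih =>
    intro A g β hA hg
    wlog hβ : β ∉ A generalizing β
    · rw [not_not] at hβ
      obtain ⟨b, hb⟩ := card_pos.1 (show 0 < Aᶜ.card by omega)
      rw [insert_eq_of_mem hβ] at hg ⊢
      refine le_trans (Nat.mul_le_mul_right _ (img_le _ _ fun x _ y _ h => ?_))
        (this b (fun a ha => mem_insert_of_mem (hg a ha)) (mem_compl.1 hb))
      obtain ⟨l, hl, h⟩ := cl_eq_iff.1 h
      exact cl_eq_iff.2 ⟨l, fixingSubgroup_antitone G Ω (coe_subset.2 (subset_insert b A)) hl, h⟩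
    set K := fixingSubgroup G (A : Set Ω)
    set M := fixingSubgroup G ((insert β A : Finset Ω) : Set Ω)
    have hM : ∀ {m : G}, m ∈ M ↔ ∀ a ∈ insert β A, m • a = a := by
      simp only [M, mem_fixingSubgroup_iff, mem_coe, implies_true]
    have hK : ∀ {m : G}, m ∈ K ↔ ∀ a ∈ A, m • a = a := by
      simp only [K, mem_fixingSubgroup_iff, mem_coe, implies_true]
    set Γ := univ.filter fun a : Ω => orbit K (g⁻¹ • a) = orbit K β
    have h1 := img_add_le (fun a : Ω => orbit M a) (fun a => orbit K (g⁻¹ • a)) (fun a b h => by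
      obtain ⟨m, hm, rfl⟩ := ob_eq_iff.1 h
      exact ob_eq_iff.2 ⟨g⁻¹ * m * g, hK.2 fun a ha => by
        rw [mul_smul, mul_smul, hM.1 hm _ (hg a ha), inv_smul_smul], by simp [mul_smul]⟩)
      (orbit K β)
    have h2 : (univ.image fun a : Ω => orbit K a) ⊆ univ.image fun a => orbit K (g⁻¹ • a) :=
      image_subset_iff.2 fun a _ => mem_image.2 ⟨g • a, mem_univ _, by rw [inv_smul_smul]⟩
    have h3 : ∀ O ∈ Γ.image fun a => orbit M a, ∃ x : G, (∀ a ∈ A, x • a = g • a) ∧
        orbit M (x • β) = O := fun O hO => by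
      obtain ⟨c, hc, rfl⟩ := mem_image.1 hO
      obtain ⟨l, hl, h3⟩ := ob_eq_iff.1 (mem_filter.1 hc).2
      exact ⟨g * l, fun a ha => by rw [mul_smul, hK.1 hl a ha], by rw [mul_smul, h3, smul_inv_smul]⟩
    choose! x hx hxO using h3
    have h4 : (univ.filter fun y : G => ∀ a ∈ A, y • a = g • a).image (cl M) ⊆
        (Γ.image fun a => orbit M a).biUnion fun O => (univ.filter fun y : G =>
          ∀ a ∈ insert β A, y • a = x O • a).image (cl M) := image_subset_iff.2 fun y hy => by
      have h4 := (mem_filter.1 hy).2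
      have h5 : orbit M (y • β) ∈ Γ.image fun a => orbit M a :=
        mem_image_of_mem _ (mem_filter.2 ⟨mem_univ _, ob_eq_iff.2 ⟨g⁻¹ * y, hK.2 fun a ha => by
          rw [mul_smul, h4 a ha, inv_smul_smul], mul_smul ..⟩⟩)
      obtain ⟨m, hm, h6⟩ := ob_eq_iff.1 (hxO _ h5)
      have h7 : ∀ a ∈ insert β A, m⁻¹ • a = a := hM.1 (inv_mem hm)
      refine mem_biUnion.2 ⟨_, h5, mem_image.2 ⟨m * y * m⁻¹, mem_filter.2 ⟨mem_univ _, fun a ha => ?_⟩,
        (cl_eq_iff.2 ⟨m, hm, rfl⟩).symm⟩⟩
      rw [mul_smul, mul_smul, h7 a ha]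
      rcases mem_insert.1 ha with rfl | ha
      · exact h6
      · rw [h4 a ha, hx _ h5 a ha, hM.1 hm _ (hg a ha)]
    have h5 : ∀ O ∈ Γ.image fun a => orbit M a, ((univ.filter fun y : G =>
        ∀ a ∈ insert β A, y • a = x O • a).image (cl M)).card *
        2 ^ (univ.image fun a : Ω => orbit M a).card ≤ 2 ^ Fintype.card Ω := fun O hO => by
      refine le_trans (Nat.mul_le_mul_right _ (img_le _ _ fun y _ z _ h => ?_))
        (ih (insert β A) (x O) (x O • β) (by
          rw [compl_insert, card_erase_of_mem (mem_compl.2 hβ), hA]; rfl) fun a ha => ?_)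
      · obtain ⟨l, hl, h⟩ := cl_eq_iff.1 h
        exact cl_eq_iff.2 ⟨l, fixingSubgroup_antitone G Ω (coe_subset.2 (subset_insert _ _)) hl, h⟩
      · rcases mem_insert.1 ha with rfl | ha
        · exact mem_insert_self _ _
        · exact mem_insert_of_mem (hx O hO a ha ▸ hg a ha)
    have h6 := Nat.mul_le_mul_right (2 ^ (univ.image fun a : Ω => orbit M a).card)
      ((card_le_card h4).trans card_biUnion_le)
    rw [sum_mul] at h6
    replace h6 := h6.trans (sum_le_card_nsmul _ _ _ h5)
    have h7 := card_le_card h2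
    generalize (Γ.image fun a => orbit M a).card = r at h1 h6
    obtain _ | r := r
    · simp only [zero_smul, nonpos_iff_eq_zero, mul_eq_zero, pow_eq_zero_iff', two_ne_zero, false_and,
        or_false] at h6
      rw [h6, zero_mul]
      exact Nat.zero_le _
    refine Nat.le_of_mul_le_mul_right ?_ (Nat.two_pow_pos r)
    rw [mul_assoc, ← pow_add]
    refine ((Nat.mul_le_mul_left _ (Nat.pow_le_pow_right two_pos (by omega))).trans h6).trans ?_
    rw [smul_eq_mul, mul_comm]
    exact Nat.mul_le_mul_left _ Nat.lt_two_pow_self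

variable (G Ω) in
theorem card_conjClasses_le : Nat.card (ConjClasses G) ≤ 2 ^ (Fintype.card Ω - 1) := by
  classical
  have h1 : Nat.card (ConjClasses G) = (univ.image (ConjClasses.mk : G → _)).card := by
    rw [image_univ_of_surjective ConjClasses.mk_surjective, card_univ, Nat.card_eq_fintype_card]
  rcases isEmpty_or_nonempty Ω with h | ⟨⟨β⟩⟩
  · exact h1 ▸ (card_image_le.trans (card_le_one.2 fun x _ y _ =>
      eq_of_smul_eq_smul fun a : Ω => h.elim a)).trans Nat.one_le_two_pow
  have h2 := main (G := G) _ ∅ 1 β rfl (by simp)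
  have h3 := img_le (s := univ) (cl (fixingSubgroup G ((insert β ∅ : Finset Ω) : Set Ω)))
    (ConjClasses.mk : G → _) fun x _ y _ h =>
      let ⟨l, _, h⟩ := cl_eq_iff.1 h; ConjClasses.mk_eq_mk_iff_isConj.2 (isConj_iff.2 ⟨l, h⟩)
  have h4 : 1 ≤ (univ.image fun a : Ω => orbit (fixingSubgroup G ((∅ : Finset Ω) : Set Ω)) a).card :=
    card_pos.2 ⟨_, mem_image_of_mem _ (mem_univ β)⟩
  rw [filter_true_of_mem (by simp)] at h2
  have h5 := (Nat.mul_le_mul h3 (Nat.pow_le_pow_right two_pos h4)).trans (by convert h2)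
  obtain ⟨n, hn⟩ := Nat.exists_eq_succ_of_ne_zero (Fintype.card_pos_iff.2 ⟨β⟩).ne'
  rw [hn, pow_succ] at h5
  rw [hn, h1, Nat.succ_sub_one]
  omega

end CF.KC
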