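import Cfsg.Agent.Perm.Kf7

/-! Doubly transitive groups with two-point stabilizer `A₄`: the affine plane of order four. -/

set_option autoImplicit false
set_option linter.unusedSectionVars false

namespace CF.Kf

open MulAction Subgroup Cfsg CF.BG CF.GW CF.JR CF.Small

variable {G Ω : Type*} [Group G] [Finite G] [MulAction G Ω] [Finite Ω] {q i : ℕ} {a b x y : Ω}
  {t w c s σ τ g ζ : G} {N : Subgroup G}

theorem agl_card (F : Type*) [Field F] [Fintype F] (h : Fintype.card F = 4) :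
    Nat.card ((Fin 2 → F) ≃ᵃ[F] (Fin 2 → F)) ≤ 2880 := by
  have e := Nat.card_congr (Matrix.GeneralLinearGroup.toLin.trans
    (LinearMap.GeneralLinearGroup.generalLinearEquiv F (Fin 2 → F))).toEquiv
  rw [Matrix.card_GL_field, h] at e
  haveI : Finite ((Fin 2 → F) ≃ₗ[F] (Fin 2 → F)) := Nat.finite_of_card_ne_zero (by rw [← e]; decide)
  refine (Nat.card_le_card_of_injective (fun f => (f 0, f.linear)) fun f k r => AffineEquiv.ext fun v => ?_).trans ?_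
  · have := f.map_vadd 0 v
    rw [show f 0 = k 0 from (Prod.ext_iff.1 r).1, show f.linear = k.linear from (Prod.ext_iff.1 r).2,
      ← k.map_vadd] at this
    simpa using this
  · rw [Nat.card_prod, ← e, Nat.card_fun, Nat.card_eq_fintype_card, h, Nat.card_fin]; decide

theorem agl_hom {F V : Type*} [Field F] [AddCommGroup V] [Module F V] (θ : V → G) (a : Ω)
    (add : ∀ u v, θ (u + v) = θ u * θ v) (E : Function.Bijective fun v => θ v • a)
    (L : ∀ g : G, ∃ L : V →ₗ[F] V, ∀ v, g * θ v * g⁻¹ = θ (L v)) (faith : ∀ g : G, (∀ x : Ω, g • x = x) → g = 1) :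
    ∃ f : G →* (V ≃ᵃ[F] V), Function.Injective f := by
  choose L hL using L
  let e := Equiv.ofBijective _ E
  have he : ∀ v, e v = θ v • a := fun _ => rfl
  let π : G → V →ᵃ[F] V := fun g => ⟨fun v => e.symm (g • e v), L g, fun p v => e.injective (by
    rw [e.apply_symm_apply, vadd_eq_add, vadd_eq_add, he, he, add, add, mul_smul, mul_smul, ← he, ← hL,
      ← he (e.symm _), e.apply_symm_apply]
    exact (conj_fix rfl g).symm)⟩
  have hπ : ∀ g, Function.Bijective (π g) := fun g => e.symm.bijective.comp ((MulAction.bijective g).comp e.bijective)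
  have k : ∀ g v, AffineEquiv.ofBijective (hπ g) v = e.symm (g • e v) := fun _ _ => rfl
  refine ⟨MonoidHom.mk' (fun g => AffineEquiv.ofBijective (hπ g)) fun g h => AffineEquiv.ext fun v => by
    simp [k, mul_smul], (injective_iff_map_eq_one _).2 fun g r => faith g fun x => ?_⟩
  have := congrArg (fun f : V ≃ᵃ[F] V => e (f (e.symm x))) r
  simpa [k] using this

theorem agl (nN : N.Normal) (sq : ∀ n ∈ N, n * n = 1) (tr : ∀ x, ∃ n ∈ N, n • a = x)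
    (cN : ♯N = 16) (hζ : stabilizer G a ≤ 𝐂₁ ζ) (r : ∀ n ∈ N, ζ * (ζ * n * ζ⁻¹) * ζ⁻¹ = n * (ζ * n * ζ⁻¹))
    (faith : ∀ g : G, (∀ x : Ω, g • x = x) → g = 1) (cΩ : Nat.card Ω = 16) (cG : Nat.card G = 2880) :
    ∃ (F : Type) (_ : Field F) (_ : Fintype F), Fintype.card F = 4 ∧
      Nonempty (G ≃* ((Fin 2 → F) ≃ᵃ[F] (Fin 2 → F))) := by
  have com : ∀ m ∈ N, ∀ n ∈ N, m * n = n * m := fun m hm n hn =>
    Bender.comm_of_sq (sq m hm) (sq n hn) (sq _ (mul_mem hm hn))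
  haveI : Fact (∀ r : ZMod 2, r ^ 2 ≠ 1 + 1 * r) := ⟨by decide⟩
  let F := QuadraticAlgebra (ZMod 2) 1 1
  letI : Fintype F := Fintype.ofEquiv _ (QuadraticAlgebra.equivProd 1 1).symm
  have cF : Fintype.card F = 4 := by rw [Fintype.ofEquiv_card]; rfl
  letI : CommGroup N := { mul_comm := fun m n => Subtype.ext (com _ m.2 _ n.2) }
  letI : Module (ZMod 2) (Additive N) := AddCommGroup.zmodModule fun n => by
    rw [two_nsmul]; exact Subtype.ext (sq _ n.toMul.2)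
  let φ : G → Module.End (ZMod 2) (Additive N) := fun g =>
    (MonoidHom.toAdditive (MulAut.conjNormal g : MulAut N).toMonoidHom).toZModLinearMap 2
  have hφ : ∀ g n, ((φ g n).toMul : G) = g * n.toMul * g⁻¹ := fun _ _ => rfl
  let ψ := QuadraticAlgebra.lift (R := ZMod 2) (a := 1) (b := 1) ⟨φ ζ, LinearMap.ext fun n => by
    rw [one_smul, one_smul]; exact Subtype.ext (r _ n.toMul.2)⟩
  letI : Module F (Additive N) := Module.compHom _ ψ.toRingHom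
  have hs : ∀ (c : F) (n : Additive N), c • n = c.re • n + c.im • φ ζ n := fun _ _ => rfl
  have fr : Module.finrank F (Additive N) = 2 := by
    have := Module.natCard_eq_pow_finrank (K := F) (V := Additive N)
    rw [Nat.card_eq_fintype_card (α := F), cF] at this
    exact Nat.pow_right_injective (show 2 ≤ 4 by decide) (this.symm.trans cN)
  let e := (Module.finBasisOfFinrankEq F (Additive N) fr).equivFun
  obtain ⟨f, hf⟩ := agl_hom (F := F) (fun v => ((e.symm v).toMul : G)) a (fun u v => by rw [map_add]; rfl)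
    (Function.Surjective.bijective_of_nat_card_le (fun x => let ⟨n, hn, k⟩ := tr x
      ⟨e (.ofMul ⟨n, hn⟩), by simpa using k⟩) (by
        rw [cΩ, Nat.card_fun, Nat.card_eq_fintype_card, cF, Nat.card_fin]; decide)) (fun g => by
      have k : ∀ n, φ g (φ ζ n) = φ ζ (φ g n) := fun n => Subtype.ext (show ((φ g (φ ζ n)).toMul : G) =
          (φ ζ (φ g n)).toMul from by
        obtain ⟨m, hm, k⟩ := tr (g • a)
        obtain ⟨u, rfl⟩ : ∃ u, g = m * u := ⟨m⁻¹ * g, by simp⟩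
        have := mem_cent1.1 (hζ (show u • a = a from (smul_left_cancel m (by rw [← mul_smul, k]))))
        have k' : ∀ n ∈ N, m * u * n * (m * u)⁻¹ = u * n * u⁻¹ := fun n hn => by
          rw [← EqF.conj_mul_conj_aux, conj_eq_of_comm (com _ hm _ (nN.conj_mem n hn u))]
        rw [hφ, hφ, hφ, hφ, k' _ (nN.conj_mem _ n.toMul.2 ζ), k' _ n.toMul.2, EqF.conj_mul_conj_aux,
          EqF.conj_mul_conj_aux, this])
      let L : Additive N →ₗ[F] Additive N := ⟨(φ g).toAddHom, fun c n => by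
        change φ g (c • n) = c • φ g n
        rw [hs, hs, map_add, map_smul, map_smul, k]⟩
      exact ⟨e.toLinearMap ∘ₗ L ∘ₗ e.symm.toLinearMap, fun v => by simp [L, hφ]⟩) faith
  haveI : Finite ((Fin 2 → F) ≃ᵃ[F] (Fin 2 → F)) := Finite.of_injective _ AffineEquiv.coeFn_injective
  exact ⟨F, inferInstance, inferInstance, cF, ⟨MulEquiv.ofBijective f
    (hf.bijective_of_nat_card_le (cG ▸ agl_card F cF))⟩⟩

namespace C2

variable (h : C2 q 3 a b t w c s) (n : ¬ Gd Ω s) (cΩ : Nat.card Ω = 16) (m : (fixedBy Ω t).ncard = 4)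
  (f : (F2 Ω t w).ncard = 4)
include h cΩ m f

theorem zeta : ∃ ζ : G, orderOf ζ = 3 ∧ ζ • a = a ∧ stabilizer G a ≤ 𝐂₁ ζ := by
  have c1 := h.cardG.2
  have c2 := h.cardC
  have c3 := h.cardR
  rw [cΩ] at c1
  rw [m] at c2
  rw [f] at c3
  have e : 𝐂₁ t ⊓ 𝐍 (V4 t w) = 𝐂₁ t := eq_of_card_eq inf_le_left (by rw [c2.1, c2.2, c3.1, c3.2])
  have l4 : V4 t w ≤ stabilizer G a := h.vK.trans inf_le_left
  have y : Syl 2 (V4 t w) (stabilizer G a) := syl_mk Nat.prime_two l4 h.fp.pi fun d => by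
    have := card_mul_relIndex l4
    rw [h.fp.card, c1] at this
    omega
  have e1 : Ab2.cls (𝐍 (V4 t w) ⊓ stabilizer G a) t = {t, w, t * w} := Set.ext fun σ => ⟨fun ⟨g, hg, r⟩ =>
    (h.fp.mem.1 (r ▸ conj_mem_of_norm hg.1 (left_mem_V4 t w))).resolve_left (r ▸ (h.fp.l.conj g).ne_one), by
    rintro (rfl | rfl | rfl)
    exacts [⟨1, one_mem _, by simp⟩, ⟨c, ⟨h.cN, h.mc.1⟩, h.cy.l⟩,
      ⟨c⁻¹, inv_mem (mem_inf.2 ⟨h.cN, h.mc.1⟩), h.mul.cy.l⟩]⟩
  have e2 := card_inf_mul_relIndex (𝐂₁ t) (𝐍 (V4 t w) ⊓ stabilizer G a)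
  rw [← Ab2.ncard_cls, e1, Set.ncard_eq_three.2 ⟨_, _, _, h.fp.ne, h.fp.mul.ne, h.fp.mul'.ne, rfl⟩, ← inf_assoc,
    c3.2] at e2
  have e3 := card_inf_mul_relIndex (𝐍 (V4 t w)) (stabilizer G a)
  rw [← e2, c1] at e3
  have e4 := Invol.index_normalCore_dvd_factorial ((𝐍 (V4 t w)).subgroupOf (stabilizer G a))
  rw [show ((𝐍 (V4 t w)).subgroupOf (stabilizer G a)).index = 5 from show relIndex _ _ = 5 by omega] at e4
  obtain ⟨J, nJ, lJ, d⟩ : ∃ J, J ⊴ stabilizer G a ∧ J ≤ 𝐍 (V4 t w) ∧ J.relIndex (stabilizer G a) ∣ 120 := by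
    refine ⟨((𝐍 (V4 t w)).subgroupOf (stabilizer G a)).normalCore.map (stabilizer G a).subtype, ?_, ?_, ?_⟩
    · simpa only [map_top_subtype] using (normalIn_map_iff (subtype_injective _)).2
        (normalIn_top.2 (normalCore_normal ((𝐍 (V4 t w)).subgroupOf (stabilizer G a))))
    · rintro _ ⟨g, hg, rfl⟩
      exact normalCore_le ((𝐍 (V4 t w)).subgroupOf (stabilizer G a)) hg
    · rwa [relIndex, subgroupOf, comap_map_eq_self_of_injective (subtype_injective _)]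
  have k : ∀ σ ∈ J, ¬ Iv σ := fun σ hσ j => by
    have r := y.mem_of_norm (nJ.le hσ) (lJ hσ) j.piElt
    obtain ⟨g, hg, rfl⟩ := h.one (h.vK r) j
    have tJ : t ∈ J := by simpa [mul_assoc] using nJ.conj_mem' hg.1 hσ
    have := Set.ncard_le_ncard (show Ab2.cls (stabilizer G a) t ⊆ V4 t w from fun σ ⟨g, hg, r⟩ => r ▸
      y.mem_of_norm (nJ.le (nJ.conj_mem hg tJ)) (lJ (nJ.conj_mem hg tJ)) (h.fp.l.conj g).piElt)
    have e := card_inf_mul_relIndex (𝐂₁ t) (stabilizer G a)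
    rw [c2.2, c1, ← Ab2.ncard_cls] at e
    rw [← Nat.card_coe_set_eq (V4 t w : Set G), show Nat.card (V4 t w : Set G) = 4 from h.fp.card] at this
    omega
  have o : Odd (♯J) := by_contra fun r => let ⟨σ, hσ, j⟩ := exists_iv r; k σ hσ j
  have cJ : J ≤ 𝐂 (V4 t w) := cent_of_inf_eq_bot lJ (l4.trans nJ.norm)
    (BG.inf_eq_bot_of_coprime (h.fp.coprime o).symm)
  have c4 : ♯J = 3 := by
    have d1 := card_dvd (show J ≤ 𝐂₁ t ⊓ stabilizer G a from le_inf (cJ.trans (cent_le_cent1 (left_mem_V4 t w))) nJ.le)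
    have d2 := card_mul_relIndex nJ.le
    rw [c2.2] at d1
    rw [c1] at d2
    rw [Nat.odd_iff] at o
    have := Nat.le_of_dvd (by decide) d1
    have := Nat.le_of_dvd (by decide) d
    generalize ♯J = j at *
    interval_cases j <;> omega
  obtain ⟨ζ, hζ, o3⟩ := BG.exists_mem_orderOf_eq Nat.prime_three c4.symm.dvd
  refine ⟨ζ, o3, nJ.le hζ, le_trans (relIndex_eq_one.1 ?_) (cent_le_cent1 hζ)⟩
  have d1 := relIndex_cent_dvd_pred (X := J) (c4 ▸ Nat.prime_three) nJ.norm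
  rw [c4] at d1
  exact ((Nat.dvd_prime Nat.prime_two).1 d1).resolve_right fun r =>
    (piNat_compl_single Nat.prime_two).1 (y.idx_of_le (cent_symm cJ)) r.symm.dvd

include n

theorem aff : ∃ (F : Type) (_ : Field F) (_ : Fintype F), Fintype.card F = 4 ∧
    Nonempty (G ≃* ((Fin 2 → F) ≃ᵃ[F] (Fin 2 → F))) := by
  obtain ⟨ζ, o, za, hζ⟩ := h.zeta cΩ m f
  have z3 : ζ * ζ * ζ = 1 := by rw [← pow_three', ← o, pow_orderOf_eq_one]
  have fpf : ∀ x : Ω, s • x ≠ x := fun x e => by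
    have := par (Set.toFinite (Set.univ : Set Ω)) (s • ·) (fun _ _ => trivial)
      fun x _ => by rw [← mul_smul, h.si.sq, one_smul]
    rw [Set.ncard_univ, cΩ, Set.ncard_eq_one.2 ⟨x, Set.ext fun y => ⟨fun k => by_contra fun r =>
      n ⟨h.si, y, x, r, k.2, e⟩, fun k => k ▸ ⟨trivial, e⟩⟩⟩] at this
    omega
  have cK : ∀ g ∈ stab2 G a b, (∀ k ∈ stab2 G a b, k ∈ 𝐂₁ g) → g = 1 := fun g hg k => by
    rcases h.mem (mem_cent1_comm.1 (k t h.mt)) hg.1 hg.2 with r | rfl | rfl | rfl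
    exacts [r, absurd (k c h.mc) h.c_not, absurd (k c h.mc) h.rot.c_not, absurd (k c h.mc) h.rot.rot.c_not]
  have zb : ζ • b ≠ b := fun e => by
    rw [cK ζ ⟨za, e⟩ fun k hk => hζ hk.1, orderOf_one] at o
    omega
  have z3' : ∀ x : Ω, ζ • ζ • ζ • x = x := fun x => by rw [← mul_smul, ← mul_smul, z3, one_smul]
  have zF : ∀ x ∈ F2 Ω t w, ζ • x ∈ F2 Ω t w := fun x hx =>
    ⟨cent_fix (mem_cent1_comm.1 (hζ h.mt.1)) hx.1, cent_fix (mem_cent1_comm.1 (hζ h.mw.1)) hx.2⟩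
  have n1 : a ≠ ζ • b := za ▸ smul_ne h.ne ζ
  have n2 : a ≠ ζ • ζ • b := za ▸ smul_ne n1 ζ
  have n3 : b ≠ ζ • ζ • b := fun e => zb ((congrArg _ e).trans (z3' b))
  have eF : {a, b, ζ • b, ζ • ζ • b} = F2 Ω t w := Set.eq_of_subset_of_ncard_le (by
    rintro _ (rfl | rfl | rfl | rfl)
    exacts [h.aF, h.bF, zF b h.bF, zF _ (zF b h.bF)]) (by
    rw [f, Set.ncard_insert_of_notMem (by simp [h.ne, n1, n2]),
      Set.ncard_eq_three.2 ⟨_, _, _, zb.symm, n3, smul_ne zb.symm ζ, rfl⟩])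
  have sx : s • ζ • b = ζ • ζ • b := by
    rcases eF.ge (h.ttV.inv s ⟨h.st, cent_le_norm _ h.sV⟩ _ (zF b h.bF)) with r | r | r | r
    exacts [absurd (smul_left_cancel s (r.trans h.sb.symm)) zb, absurd (smul_left_cancel s (h.sa.trans r.symm)) n1,
      absurd r (fpf _), r]
  have sy := sw_of h.si sx
  have s1 : ∀ {x y : Ω}, s • x = y → (ζ * s * ζ⁻¹) • ζ • x = ζ • y := fun e => conj_fix e ζ
  have s2 : ∀ {x y : Ω}, s • x = y → (ζ * (ζ * s * ζ⁻¹) * ζ⁻¹) • ζ • ζ • x = ζ • ζ • y := fun e => conj_fix (s1 e) ζ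
  have key : ζ * (ζ * s * ζ⁻¹) * ζ⁻¹ = s * (ζ * s * ζ⁻¹) := by
    have kc : ∀ {σ}, stab2 G a b ≤ 𝐂₁ σ → stab2 G a b ≤ 𝐂₁ (ζ * σ * ζ⁻¹) := fun k g hg => by
      rw [← cj_cent1, ← conj_eq_of_comm (mem_cent1.1 (hζ hg.1)).symm]
      exact conj_mem_cj.2 (k hg)
    rw [← ((h.si.conj ζ).conj ζ).inv_eq]
    refine inv_eq_of_mul_eq_one_left (cK _ ⟨show _ • a = a from ?_, show _ • b = b from ?_⟩ fun k hk =>
      cent1_mul_of (cent1_mul_of (h.sK hk) (kc h.sK hk)) (kc (kc h.sK) hk))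
    · have := s2 h.sa
      rw [za, za] at this
      rw [mul_smul, this, mul_smul, s1 sx, z3', h.sb]
    · have := s2 sx
      simp only [z3'] at this
      rw [mul_smul, this, mul_smul, s1 h.sb, za, h.sa]
  have u1 : ∀ g : G, ∃ k ∈ stabilizer G a, k * s * k⁻¹ = g * s * g⁻¹ := fun g => by
    have r : a ≠ (g * s * g⁻¹) • a := fun e => fpf (g⁻¹ • a) (by simpa [mul_assoc] using conj_fix e.symm g⁻¹)
    obtain ⟨k, e1, e2⟩ := h.tr a _ a b r h.ne
    have := (h.iv_sw ((h.si.conj g).conj k) (e1 ▸ e2 ▸ conj_fix rfl k)).resolve_right fun r =>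
      n (gd_conj.1 (gd_conj.1 ((h.cls_sw r).2.2.2 (h.gd_or.resolve_left n))))
    exact ⟨k⁻¹, inv_mem e1, (congrArg (k⁻¹ * · * k⁻¹⁻¹) this.symm).trans (by group)⟩
  have u2 : ∀ g : G, g * ζ * g⁻¹ * ζ⁻¹ = 1 ∨ ∃ k, k * s * k⁻¹ = g * ζ * g⁻¹ * ζ⁻¹ := fun g => by
    by_cases r : a = g • a
    · exact .inl (by rw [conj_t (hζ r.symm), mul_inv_cancel])
    obtain ⟨k, e1, e2⟩ := h.tr a b a _ h.ne r
    obtain ⟨u, rfl⟩ : ∃ u, g = k * s * u := ⟨(k * s)⁻¹ * g, by group⟩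
    have : u • a = a := smul_left_cancel (k * s) (by rw [← mul_smul, ← e2, mul_smul, h.sa])
    refine .inr ⟨k * ζ * ζ, ?_⟩
    calc _ = k * (ζ * (ζ * s * ζ⁻¹) * ζ⁻¹) * k⁻¹ := by group
      _ = k * s * ζ * s * k⁻¹ * (k * ζ * k⁻¹)⁻¹ := by rw [key]; group
      _ = _ := by rw [← EqF.conj_mul_conj_aux _ u, conj_t (hζ this), conj_t (hζ e1), mul_inv_rev, h.si.inv_eq]; group
  have u3 : ∀ g : G, ∃ k, k * ζ * k⁻¹ * ζ⁻¹ = g * s * g⁻¹ := fun g => by
    obtain ⟨k, hk, e⟩ := u1 g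
    refine ⟨k * ζ * s, ?_⟩
    have zi : ζ⁻¹ = ζ * ζ := inv_eq_of_mul_eq_one_left z3
    calc _ = k * ζ * (s * (ζ * s⁻¹ * ζ⁻¹)) * (k⁻¹ * ζ * k)⁻¹ * k⁻¹ * (k * ζ * k⁻¹ * ζ⁻¹) := by
          rw [show k⁻¹ * ζ * k = ζ by simpa using conj_t (inv_mem (hζ hk))]; group
      _ = _ := by
          rw [conj_t (hζ hk), show k⁻¹ * ζ * k = ζ by simpa using conj_t (inv_mem (hζ hk)), h.si.inv_eq, ← key, ← e]
          calc _ = k * (ζ * ζ * ζ * s * (ζ * ζ * ζ)⁻¹) * k⁻¹ := by group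
            _ = _ := by rw [z3]; simp
  let N : Subgroup G :=
    { carrier := {z | z = 1 ∨ ∃ k, k * s * k⁻¹ = z}
      one_mem' := .inl rfl
      inv_mem' := by
        rintro _ (rfl | ⟨k, rfl⟩)
        exacts [.inl inv_one, .inr ⟨k, (h.si.conj k).inv_eq.symm⟩]
      mul_mem' := by
        rintro _ _ (rfl | ⟨k, rfl⟩) (rfl | ⟨l, rfl⟩)
        · exact .inl (one_mul _)
        · exact .inr ⟨l, (one_mul _).symm⟩
        · exact .inr ⟨k, (mul_one _).symm⟩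
        obtain ⟨k', e⟩ := u3 k
        obtain ⟨l', e'⟩ := u3 l
        rw [← (h.si.conj l).inv_eq, ← e, ← e', show k' * ζ * k'⁻¹ * ζ⁻¹ * (l' * ζ * l'⁻¹ * ζ⁻¹)⁻¹ =
          l' * (l'⁻¹ * k' * ζ * (l'⁻¹ * k')⁻¹ * ζ⁻¹) * l'⁻¹ by group]
        rcases u2 (l'⁻¹ * k') with r | ⟨u, r⟩
        · exact .inl (by rw [r]; simp)
        · exact .inr ⟨l' * u, by rw [← r, EqF.conj_mul_conj_aux]⟩ }
  have nN : N.Normal := ⟨by
    rintro _ (rfl | ⟨k, rfl⟩) g
    exacts [.inl (by simp), .inr ⟨g * k, (EqF.conj_mul_conj_aux _ _ _).symm⟩]⟩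
  have tr : ∀ x, ∃ z ∈ N, z • a = x := fun x =>
    let ⟨z, e⟩ := (h.ntr nN (ne_bot_of_mem (.inr ⟨1, by simp⟩) h.si.ne_one)).exists_smul_eq a x; ⟨z, z.2, e⟩
  refine agl nN ?_ tr ?_ hζ ?_ h.faith cΩ (by rw [h.cardG.1, h.cardG.2, cΩ])
  · rintro _ (rfl | ⟨k, rfl⟩)
    exacts [one_mul _, (h.si.conj k).sq]
  · haveI := h.ntr nN (ne_bot_of_mem (.inr ⟨1, by simp⟩) h.si.ne_one)
    refine (Perm.card_eq_of_regular N a ((Perm.stabilizer_subgroup_eq_bot_iff N a).2 ?_)).trans cΩ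
    rintro _ (rfl | ⟨k, rfl⟩) e
    exacts [rfl, absurd (by simpa [mul_assoc] using conj_fix e k⁻¹) (fpf (k⁻¹ • a))]
  · rintro _ (rfl | ⟨g, rfl⟩)
    · simp
    obtain ⟨k, hk, e⟩ := u1 g
    have k1 : ∀ y, ζ * (k * y * k⁻¹) * ζ⁻¹ = k * (ζ * y * ζ⁻¹) * k⁻¹ := fun y => by
      rw [EqF.conj_mul_conj_aux, EqF.conj_mul_conj_aux, mem_cent1.1 (hζ hk)]
    rw [← e, k1, k1, key, conj_mul]

end C2

theorem main3 (h : Hy G Ω 3 3) (n : a ≠ b) : (Nat.card Ω = 6 ∧ Nonempty (G ≃* alternatingGroup (Fin 6))) ∨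
    (Nat.card Ω = 15 ∧ Nonempty (G ≃* alternatingGroup (Fin 7))) ∨
    (Nat.card Ω = 16 ∧ ∃ (F : Type) (_ : Field F) (_ : Fintype F), Fintype.card F = 4 ∧
      Nonempty (G ≃* ((Fin 2 → F) ≃ᵃ[F] (Fin 2 → F)))) ∨ ∃ J : G, orderOf J = 2 ∧ 𝐂₁ J ⊔ oddCore G = ⊤ := by
  obtain ⟨t, w, c, d⟩ := h.ex0 n
  rcases d.cases with ⟨s, k⟩ | ⟨s, k⟩
  · exact (k.main3 rfl).imp_right .inl
  rcases Nat.even_or_odd (Nat.card Ω) with e | o
  · obtain ⟨-, n, e, m, f⟩ := k.even e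
    exact .inr (.inr (.inl ⟨e, k.aff n e m f⟩))
  obtain ⟨z, j, -, e⟩ := k.iso o (k.not_gd (k.oddm o))
  exact .inr (.inr (.inr ⟨z, j, e⟩))

end CF.Kf
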