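import Cfsg.Agent.Comp.Net

set_option autoImplicit false

/-! Kernel-checked certificates that a semi-invariant vector of a module for a small permutation group
vanishes, given that certain subgroups have no nonzero (semi-)invariant vectors. -/

namespace CF.Mc
open CF.Comp

noncomputable def ap (x i : ℕ) : ℕ := Nat.land (Nat.shiftRight x (Nat.mul 4 i)) 15
noncomputable def mu (n x y : ℕ) : ℕ :=
  Nat.rec (motive := fun _ => ℕ) 0
    (fun i ih => Nat.add ih (Nat.shiftLeft (ap x (ap y i)) (Nat.mul 4 i))) n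
noncomputable def m2 (n x y : ℕ) : ℕ := force x fun x => force y fun y => mu n x y
noncomputable def tb (T w j : ℕ) : ℕ := Nat.mod (Nat.shiftRight T (Nat.mul w j)) (Nat.pow 2 w)
noncomputable def wdg (n e : ℕ) (f : ℕ → ℕ) : ℕ → ℕ :=
  Nat.rec (motive := fun _ => ℕ → ℕ) (fun _ => e)
    (fun _ ih w => Bool.rec (force (Nat.div w 32) fun u => m2 n (f (Nat.mod w 32)) (ih u)) e (Nat.beq w 0)) 60
noncomputable def tx (T j : ℕ) : ℕ := Nat.mod (tb T 41 j) (Nat.pow 2 40)
noncomputable def ts (T j : ℕ) : Bool := Nat.ble (Nat.pow 2 40) (tb T 41 j)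
def cf (p : ℕ) (s : Bool) (c : ℕ) : ℕ := Bool.rec c (Nat.mul c (Nat.pred p)) s
def bx (a b : Bool) : Bool := Bool.rec b (Bool.rec true false b) a
def beqb (a b : Bool) : Bool := Bool.rec (Bool.rec true false b) b a
noncomputable def all2 {α β : Type} (f : α → β → Bool) (l : List α) : List β → Bool :=
  List.rec (motive := fun _ => List β → Bool) (fun _ => true)
    (fun a _ ih m => List.rec (motive := fun _ => Bool) false (fun b t _ => band (f a b) (ih t)) m) l

theorem m2_eq (n x y : ℕ) : m2 n x y = mu n x y := by simp [m2, force_eq]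
theorem bx_eq (a b : Bool) : bx a b = xor a b := by cases a <;> cases b <;> rfl
theorem beqb_iff {a b : Bool} : beqb a b = true ↔ a = b := by cases a <;> cases b <;> simp [beqb]
theorem band_iff {a b : Bool} : band a b = true ↔ a = true ∧ b = true := by rw [band_eq]; simp
theorem all2_spec {α β : Type} {f : α → β → Bool} {l : List α} {m : List β} (h : all2 f l m = true) :
    ∀ a ∈ l, ∃ b, f a b = true := by
  induction l generalizing m with
  | nil => simp
  | cons a l ih =>
    cases m with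
    | nil => exact absurd h (by simp [all2])
    | cons b t =>
      have e : all2 f (a :: l) (b :: t) = band (f a b) (all2 f l t) := rfl
      rw [e, band_iff] at h
      intro x hx
      rcases List.mem_cons.1 hx with rfl | hx
      · exact ⟨b, h.1⟩
      · exact ih h.2 x hx

/-- numeric parameters: degree, prime, identity, generator table -/
structure Pm where
  n : ℕ
  p : ℕ
  e : ℕ
  GT : ℕ

noncomputable def Pm.wd (c : Pm) (w : ℕ) : ℕ := wdg c.n c.e (tb c.GT 40) w
noncomputable def Pm.valL {α : Type} (c : Pm) (r : List (ℕ × α)) (W : List ℕ) : Bool :=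
  all2 (fun x w => Nat.beq x.1 (c.wd w)) r W
noncomputable def Pm.tabOK (c : Pm) (C : List (ℕ × Bool)) (T P m : ℕ) : Bool :=
  band (band (Nat.beq (tx T 0) c.e) (beqb (ts T 0) false))
    (allFrom (fun j => force (tb P 11 j) fun q => force (Nat.div q 8) fun i =>
      band (Nat.ble (Nat.succ i) j) (band (Nat.beq (tx T j) (m2 c.n (nth (c.e, false) C (Nat.mod q 8)).1 (tx T i)))
        (beqb (ts T j) (bx (nth (c.e, false) C (Nat.mod q 8)).2 (ts T i))))) 1 (Nat.pred m))
noncomputable def Pm.cloOK (c : Pm) (C : List (ℕ × Bool)) (T Cl m : ℕ) : Bool :=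
  band (Nat.ble 1 m) (allFrom (fun j => force (tx T j) fun x =>
    band (allFrom (fun k => force (tb Cl 8 (Nat.add (Nat.mul 8 j) k)) fun i =>
      band (Nat.ble (Nat.succ i) m) (Nat.beq (tx T i) (m2 c.n (nth (c.e, false) C k).1 x))) 0 C.length)
    (force (m2 c.n x x) fun y => force (m2 c.n y y) fun z => Nat.beq (m2 c.n z z) c.e)) 0 m)

/-- tables of a computation: left and right multipliers, representatives -/
structure Tb where
  TL : ℕ
  mL : ℕ
  TR : ℕ
  mR : ℕ
  R : ℕ
  N : ℕ

noncomputable def termOK (c : Pm) (t : Tb) (g x h : ℕ) : Bool :=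
  force (Nat.mod h 256) fun l => force (Nat.mod (Nat.div h 256) 256) fun r =>
    force (Nat.mod (Nat.div h 65536) 4096) fun i =>
    band (band (Nat.ble (Nat.succ l) t.mL) (band (Nat.ble (Nat.succ r) t.mR) (Nat.ble (Nat.succ i) t.N)))
      (Nat.beq (m2 c.n (m2 c.n (tx t.TL l) (m2 c.n g x)) (tx t.TR r)) (tb t.R 40 i))
noncomputable def termC (c : Pm) (t : Tb) (d a h : ℕ) : ℕ :=
  cf c.p (bx (ts t.TL (Nat.mod h 256)) (ts t.TR (Nat.mod (Nat.div h 256) 256))) (Nat.mul d a)
noncomputable def recOK (c : Pm) (t : Tb) (g : ℕ) (r : List (ℕ × ℕ)) : ℕ → Bool :=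
  List.rec (motive := fun _ => ℕ → Bool) (fun _ => true)
    (fun x _ ih H => band (force (Nat.mod H 268435456) fun h => termOK c t g x.1 h)
      (force (Nat.shiftRight H 28) ih)) r
noncomputable def recS (c : Pm) (t : Tb) (d : ℕ) (r : List (ℕ × ℕ)) : ℕ → ℕ :=
  List.rec (motive := fun _ => ℕ → ℕ) (fun _ => 0)
    (fun x _ ih H => Nat.add (force (Nat.mod H 268435456) fun h =>
      Nat.shiftLeft (termC c t d x.2 h) (Nat.mul 32 (Nat.mod (Nat.div h 65536) 4096)))
      (force (Nat.shiftRight H 28) ih)) r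
noncomputable def recT (c : Pm) (t : Tb) (d : ℕ) (r : List (ℕ × ℕ)) : ℕ → ℕ :=
  List.rec (motive := fun _ => ℕ → ℕ) (fun _ => 0)
    (fun x _ ih H => Nat.add (force (Nat.mod H 268435456) fun h => termC c t d x.2 h)
      (force (Nat.shiftRight H 28) ih)) r
noncomputable def fin (p S T N : ℕ) : Bool :=
  force S fun S => band (Nat.ble (Nat.succ T) 4294967296)
    (allFrom (fun i => Nat.beq (Nat.mod (tb S 32 i) p) 0) 0 N)
noncomputable def lsum {α : Type} (f : α → ℕ) (l : List α) : ℕ :=
  List.rec (motive := fun _ => ℕ) 0 (fun a _ ih => Nat.add (f a) ih) l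
noncomputable def idH (k : ℕ) : ℕ :=
  Nat.rec (motive := fun _ => ℕ) 0 (fun a ih => Nat.add ih (Nat.shiftLeft a (Nat.add (Nat.mul 28 a) 16))) k
noncomputable def pkL (r : List (ℕ × ℕ)) : ℕ :=
  List.rec (motive := fun _ => ℕ) 0 (fun x _ ih => Nat.add x.1 (Nat.shiftLeft ih 40)) r

/-- a base relation: the killed configuration, the formal sum, words for its elements, hints -/
structure Bs where
  K : List (ℕ × Bool)
  KW : List ℕ
  r : List (ℕ × ℕ)
  W : List ℕ
  H : List ℕ

noncomputable def baseOK (c : Pm) (T m : ℕ) (b : Bs) : Bool :=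
  force (pkL b.r) fun R => force b.r.length fun N => force (idH N) fun I =>
  band (band (c.valL b.K b.KW) (c.valL b.r b.W))
    (band (recOK c ⟨c.e, 1, T, m, R, N⟩ c.e b.r I) (all2 (fun g H =>
      band (recOK c ⟨c.e, 1, T, m, R, N⟩ g.1 b.r H)
        (fin c.p (Nat.add (recS c ⟨c.e, 1, T, m, R, N⟩ 1 b.r H) (recS c ⟨c.e, 1, T, m, R, N⟩ (cf c.p (bx g.2 true) 1) b.r I))
          (Nat.add (recT c ⟨c.e, 1, T, m, R, N⟩ 1 b.r H) (recT c ⟨c.e, 1, T, m, R, N⟩ (cf c.p (bx g.2 true) 1) b.r I)) N))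
      b.K b.H))

noncomputable def mainOK (c : Pm) (t : Tb) (B : List (List (ℕ × ℕ))) (L : List (List (ℕ × ℕ × ℕ × ℕ))) : Bool :=
  band (band (recOK c t c.e [(c.e, 1)] 0)
    (lall (lall fun x => force (c.wd x.2.1) fun g => recOK c t g (nth [] B x.1) x.2.2.2) L))
    (fin c.p (Nat.add (recS c t 1 [(c.e, 1)] 0) (lsum (lsum fun x => recS c t x.2.2.1 (nth [] B x.1) x.2.2.2) L))
      (Nat.add (recT c t 1 [(c.e, 1)] 0) (lsum (lsum fun x => recT c t x.2.2.1 (nth [] B x.1) x.2.2.2) L)) t.N)

noncomputable def basesL (c : Pm) (B : List Bs) : List (List (ℕ × ℕ)) :=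
  [] :: [(c.e, 1), (c.e, Nat.pred c.p)] :: List.rec (motive := fun _ => List (List (ℕ × ℕ))) [] (fun b _ ih => b.r :: ih) B

/-- a stage without (`TL = e`) or with (`TL = T`) averaging on the left -/
noncomputable def stageOK (c : Pm) (C : List (ℕ × Bool)) (T P m TL mL R N : ℕ) (B : List Bs)
    (L : List (List (ℕ × ℕ × ℕ × ℕ))) : Bool :=
  band (band (c.tabOK C T P m) (lall (baseOK c T m) B)) (mainOK c ⟨TL, mL, T, m, R, N⟩ (basesL c B) L)

noncomputable def perfOK (c : Pm) (K : List (ℕ × Bool)) (KW : List ℕ) (X : List (ℕ × ℕ)) : Bool :=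
  band (band (c.valL K KW) (lall (fun g => beqb g.2 false) K))
    (band (lany (fun g => Bool.rec true false (Nat.beq g.1 c.e)) K)
    (all2 (fun g x => force (wdg c.n c.e (fun j => (nth (c.e, false) ((c.e, false) :: K) j).1) x.1) fun a =>
      force (wdg c.n c.e (fun j => (nth (c.e, false) ((c.e, false) :: K) j).1) x.2) fun b =>
      Nat.beq (m2 c.n a b) (m2 c.n g.1 (m2 c.n b a))) K X))

end CF.Mc
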