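import Cfsg.Agent.Perm.Mc1

set_option autoImplicit false

/-! Soundness of the certificates of `Perm/Mc1`. -/

namespace CF.Mc
open CF.Comp Subgroup
open scoped commutatorElement

structure Cod (c : Pm) (Γ : Type*) [Group Γ] where
  pk : Γ → ℕ
  inj : Function.Injective pk
  mul : ∀ g h, pk (g * h) = mu c.n (pk g) (pk h)
  one : pk 1 = c.e
  gen : ∀ j < 32, ∃ g, pk g = tb c.GT 40 j
  e_lt : c.e < 2 ^ 40

def sg {V : Type*} [AddCommGroup V] (s : Bool) (w : V) : V := Bool.rec w (-w) s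

section
variable {V : Type*} [AddCommGroup V]
@[simp] theorem sg_false (w : V) : sg false w = w := rfl
@[simp] theorem sg_true (w : V) : sg true w = -w := rfl
theorem sg_xor (a b : Bool) (w : V) : sg (xor a b) w = sg a (sg b w) := by cases a <;> cases b <;> simp
theorem sg_sg (a : Bool) (w : V) : sg a (sg a w) = w := by cases a <;> simp
theorem map_sg {W : Type*} [AddCommGroup W] {F : Type*} [FunLike F V W] [AddMonoidHomClass F V W] (f : F)
    (a : Bool) (w : V) : f (sg a w) = sg a (f w) := by cases a <;> simp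
theorem cf_smul {p : ℕ} (h0 : 0 < p) (hp : ∀ w : V, p • w = 0) (s : Bool) (a : ℕ) (w : V) :
    cf p s a • w = a • sg s w := by
  cases s
  · rfl
  · show (a * (p - 1)) • w = a • (-w)
    rw [mul_smul]
    congr 1
    rw [eq_neg_iff_add_eq_zero, ← succ_nsmul, Nat.sub_add_cancel h0, hp]

/-- digit bookkeeping -/
def Q (f : ℕ → V) (N S T : ℕ) (w : V) : Prop :=
  ∃ a : ℕ → ℕ, S = ∑ i ∈ Finset.range N, a i * (2 ^ 32) ^ i ∧ T = ∑ i ∈ Finset.range N, a i ∧
    w = ∑ i ∈ Finset.range N, a i • f i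

theorem Q.zero (f : ℕ → V) (N : ℕ) : Q f N 0 0 0 := ⟨fun _ => 0, by simp⟩
theorem Q.add {f : ℕ → V} {N S T S' T' : ℕ} {w w' : V} (h : Q f N S T w) (h' : Q f N S' T' w') :
    Q f N (S + S') (T + T') (w + w') := by
  obtain ⟨a, rfl, rfl, rfl⟩ := h
  obtain ⟨b, rfl, rfl, rfl⟩ := h'
  exact ⟨fun i => a i + b i, by simp [add_mul, Finset.sum_add_distrib], by simp [Finset.sum_add_distrib],
    by simp [add_smul, Finset.sum_add_distrib]⟩
theorem Q.single (f : ℕ → V) {N i : ℕ} (hi : i < N) (k : ℕ) : Q f N (k * 2 ^ (32 * i)) k (k • f i) := by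
  refine ⟨fun j => if j = i then k else 0, ?_, ?_, ?_⟩
  · simp [pow_mul, hi]
  · simp [hi]
  · simp [hi]

theorem digit {B : ℕ} (hB : 0 < B) (k : ℕ) : ∀ (N : ℕ) (a : ℕ → ℕ), (∀ i < N, a i < B) → k < N →
    (∑ i ∈ Finset.range N, a i * B ^ i) / B ^ k % B = a k := by
  induction k with
  | zero =>
    intro N a ha hk
    obtain ⟨N, rfl⟩ := Nat.exists_eq_succ_of_ne_zero hk.ne'
    rw [Finset.sum_range_succ']
    simp only [pow_succ, ← mul_assoc, ← Finset.sum_mul, pow_zero, mul_one, Nat.div_one]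
    rw [add_comm, Nat.add_mul_mod_self_right, Nat.mod_eq_of_lt (ha 0 hk)]
  | succ k ih =>
    intro N a ha hk
    obtain ⟨N, rfl⟩ := Nat.exists_eq_succ_of_ne_zero (show N ≠ 0 by omega)
    rw [Finset.sum_range_succ']
    simp only [pow_succ, ← mul_assoc, ← Finset.sum_mul, pow_zero, mul_one]
    rw [mul_comm (B ^ k) B, ← Nat.div_div_eq_div_mul, add_comm, Nat.add_mul_div_right _ _ hB,
      Nat.div_eq_of_lt (ha 0 (by omega)), zero_add]
    exact ih N (fun i => a (i + 1)) (fun i hi => ha _ (by omega)) (by omega)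

theorem Q.fin {p : ℕ} (hp : ∀ w : V, p • w = 0) {f : ℕ → V} {N S T : ℕ} {w : V} (h : Q f N S T w)
    (hf : fin p S T N = true) : w = 0 := by
  obtain ⟨a, hS, hT, rfl⟩ := h
  rw [CF.Mc.fin, force_eq, band_iff, ble_iff, allFrom_iff] at hf
  have hlt : ∀ i < N, a i < 2 ^ 32 := fun i hi => by
    have := Finset.single_le_sum (f := a) (fun _ _ => Nat.zero_le _) (Finset.mem_range.2 hi)
    have h1 : T + 1 ≤ 4294967296 := hf.1
    omega
  refine Finset.sum_eq_zero fun i hi => ?_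
  have hi' := Finset.mem_range.1 hi
  have h1 := beq_iff.1 (hf.2 i hi')
  have h2 : tb S 32 (0 + i) = a i := by
    rw [zero_add, ← digit (by positivity) i N a hlt hi', ← hS, tb, shr_eq, ← pow_mul]
    rfl
  rw [h2] at h1
  obtain ⟨k, hk⟩ := Nat.dvd_of_mod_eq_zero h1
  rw [hk, mul_smul, hp]
end

namespace Cod
variable {c : Pm} {Γ : Type*} [Group Γ] (D : Cod c Γ)

theorem wdg_mem {H : Subgroup Γ} {f : ℕ → ℕ} (hf : ∀ j < 32, ∃ g ∈ H, D.pk g = f j) (w : ℕ) :
    ∃ g ∈ H, D.pk g = wdg c.n c.e f w := by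
  unfold wdg
  generalize 60 = k
  induction k generalizing w with
  | zero => exact ⟨1, H.one_mem, D.one⟩
  | succ k ih =>
    show ∃ g ∈ H, D.pk g = (Bool.rec (force (Nat.div w 32) fun u => m2 c.n (f (Nat.mod w 32)) _) c.e (Nat.beq w 0) : ℕ)
    cases Nat.beq w 0
    · obtain ⟨g, hg, e⟩ := ih (Nat.div w 32)
      obtain ⟨a, ha, e'⟩ := hf (Nat.mod w 32) (Nat.mod_lt _ (by norm_num))
      refine ⟨a * g, H.mul_mem ha hg, ?_⟩
      rw [D.mul, e, e']
      simp only [force_eq, m2_eq]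
    · exact ⟨1, H.one_mem, D.one⟩

def Val (x : ℕ) : Prop := ∃ g, D.pk g = x

theorem wd_val (w : ℕ) : D.Val (c.wd w) := by
  obtain ⟨g, -, h⟩ := D.wdg_mem (H := ⊤) (f := tb c.GT 40) (fun j hj => by simpa using D.gen j hj) w
  exact ⟨g, h⟩

theorem valL_spec {α : Type} {r : List (ℕ × α)} {W : List ℕ} (h : c.valL r W = true) : ∀ x ∈ r, D.Val x.1 := by
  intro x hx
  obtain ⟨w, hw⟩ := all2_spec h x hx
  exact beq_iff.1 hw ▸ D.wd_val w

def cl (C : List (ℕ × Bool)) : Subgroup Γ := closure {g | ∃ s, (D.pk g, s) ∈ C}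

theorem nth_cl {C : List (ℕ × Bool)} (hC : ∀ x ∈ C, D.Val x.1) (k : ℕ) :
    ∃ g ∈ D.cl C, D.pk g = (nth (c.e, false) C k).1 := by
  by_cases hk : k < C.length
  · have hm := nth_mem (c.e, false) hk
    obtain ⟨g, hg⟩ := hC _ hm
    exact ⟨g, subset_closure ⟨(nth (c.e, false) C k).2, by rw [hg]; exact hm⟩, hg⟩
  · rw [nth_of_le _ (not_lt.1 hk)]
    exact ⟨1, one_mem _, D.one⟩

theorem tab_rec {C : List (ℕ × Bool)} {T P m : ℕ} (h : c.tabOK C T P m = true) (M : Γ → Bool → Prop)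
    (h1 : M 1 false) (hg : ∀ k, ∃ g, D.pk g = (nth (c.e, false) C k).1 ∧ M g (nth (c.e, false) C k).2)
    (hm : ∀ g s g' s', M g s → M g' s' → M (g * g') (xor s s')) :
    ∀ j < m, ∃ g, D.pk g = tx T j ∧ M g (ts T j) := by
  rw [Pm.tabOK, band_iff, band_iff, beq_iff, beqb_iff, allFrom_iff] at h
  intro j
  induction j using Nat.strong_induction_on with
  | _ j ih =>
  intro hj
  rcases j with _ | j
  · exact ⟨1, D.one.trans h.1.1.symm, h.1.2 ▸ h1⟩
  · have := h.2 j (by show j < m - 1; omega)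
    rw [force_eq, force_eq, band_iff, band_iff, ble_iff, beq_iff, beqb_iff, bx_eq, m2_eq, add_comm 1 j] at this
    obtain ⟨h2, h3, h4⟩ := this
    obtain ⟨g', e', hg'⟩ := ih _ h2 (lt_trans h2 hj)
    obtain ⟨g, e, hg⟩ := hg (Nat.mod (tb P 11 (j + 1)) 8)
    exact ⟨g * g', by rw [D.mul, e, e', h3], h4 ▸ hm _ _ _ _ hg hg'⟩

theorem two_group [Finite Γ] {C : List (ℕ × Bool)} {T P Cl m : ℕ} (hC : ∀ x ∈ C, D.Val x.1)
    (h : c.tabOK C T P m = true) (h' : c.cloOK C T Cl m = true) : IsPGroup 2 (D.cl C) := by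
  rw [Pm.cloOK, band_iff, ble_iff, allFrom_iff] at h'
  have key : ∀ g ∈ D.cl C, ∃ j < m, D.pk g = tx T j := by
    intro g hg
    have hg' : g ∈ Submonoid.closure {g | ∃ s, (D.pk g, s) ∈ C} := by
      rwa [← Subgroup.closure_toSubmonoid_of_finite]
    clear hg
    induction hg' using Submonoid.closure_induction_left with
    | one =>
      rw [Pm.tabOK, band_iff, band_iff, beq_iff] at h
      exact ⟨0, h'.1, D.one.trans h.1.1.symm⟩
    | mul_left s hs g _ ih =>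
      obtain ⟨j, hj, e⟩ := ih
      obtain ⟨t, ht⟩ := hs
      obtain ⟨k, hk, e'⟩ := exists_nth_of_mem (c.e, false) ht
      have := h'.2 j hj
      rw [force_eq, band_iff, allFrom_iff] at this
      have h2 := this.1 k hk
      rw [force_eq, band_iff, ble_iff, beq_iff, m2_eq, zero_add, zero_add, e'] at h2
      exact ⟨_, h2.1, by rw [D.mul, e, h2.2]⟩
  intro g
  obtain ⟨j, hj, e⟩ := key g g.2
  have := h'.2 j hj
  rw [force_eq, band_iff, force_eq, force_eq, beq_iff, zero_add, ← e] at this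
  refine ⟨3, Subtype.ext (D.inj ?_)⟩
  have h2 := this.2
  simp only [m2_eq, ← D.mul] at h2
  rw [Subgroup.coe_pow, Subgroup.coe_one, D.one, ← h2]
  congr 1
  rw [show 2 ^ 3 = 8 from rfl]
  simp only [pow_succ, pow_zero, one_mul, mul_assoc]

theorem perf {K : List (ℕ × Bool)} {KW : List ℕ} {X : List (ℕ × ℕ)} (h : perfOK c K KW X = true) :
    ¬ Group.IsSolvable (D.cl K) ∧ ∀ x ∈ K, x.2 = false := by
  rw [perfOK, band_iff, band_iff, band_iff, lall_iff, lany_iff] at h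
  obtain ⟨⟨h1, h2⟩, ⟨x, hx, h3⟩, h4⟩ := h
  have hv := D.valL_spec h1
  refine ⟨fun hs => ?_, fun x hx => beqb_iff.1 (h2 x hx)⟩
  have hle : D.cl K ≤ ⁅D.cl K, D.cl K⁆ := by
    refine (closure_le _).2 ?_
    rintro g ⟨s, hg⟩
    obtain ⟨y, hy⟩ := all2_spec h4 _ hg
    have hf : ∀ j < 32, ∃ g ∈ D.cl K, D.pk g = (nth (c.e, false) ((c.e, false) :: K) j).1 := by
      intro j _
      rcases j with _ | j
      · exact ⟨1, one_mem _, D.one⟩
      · exact D.nth_cl hv j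
    obtain ⟨a, ha, ea⟩ := D.wdg_mem hf y.1
    obtain ⟨b, hb, eb⟩ := D.wdg_mem hf y.2
    rw [force_eq, force_eq, beq_iff, ← ea, ← eb] at hy
    simp only [m2_eq, ← D.mul] at hy
    have : g = ⁅a, b⁆ := by
      rw [commutatorElement_def, D.inj hy]; group
    rw [this]
    exact commutator_mem_commutator ha hb
  have hne : D.cl K ≠ ⊥ := by
    intro hb
    obtain ⟨g, hg⟩ := hv x hx
    have : g ∈ D.cl K := subset_closure ⟨x.2, by rw [hg]; exact hx⟩
    rw [hb, mem_bot] at this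
    rw [← hg, this, D.one] at h3
    simp at h3
  have hlt : ⁅D.cl K, D.cl K⁆ < D.cl K := by
    have := (nontrivial_iff_ne_bot _).2 hne
    rw [← (D.cl K).range_subtype, MonoidHom.range_eq_map, ← map_commutator,
      map_subtype_lt_map_subtype]
    exact Group.IsSolvable.commutator_lt_top_of_nontrivial (D.cl K)
  exact hlt.not_ge hle

variable {V : Type*} [AddCommGroup V] (ρ : Γ →* AddMonoid.End V)

open Classical in
noncomputable def act (x : ℕ) (w : V) : V := if h : D.Val x then ρ h.choose w else 0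

theorem act_pk (g : Γ) (w : V) : D.act ρ (D.pk g) w = ρ g w := by
  have h : D.Val (D.pk g) := ⟨g, rfl⟩
  rw [act, dif_pos h, D.inj h.choose_spec]

def Sat (C : List (ℕ × Bool)) (v : V) : Prop := ∀ x ∈ C, ∃ g, D.pk g = x.1 ∧ ρ g v = sg x.2 v
def Kill (C : List (ℕ × Bool)) : Prop := ∀ v, D.Sat ρ C v → v = 0
noncomputable def val (r : List (ℕ × ℕ)) (v : V) : V := (r.map fun x => x.2 • D.act ρ x.1 v).sum

theorem rho_mul (g h : Γ) (w : V) : ρ (g * h) w = ρ g (ρ h w) := by rw [map_mul]; rfl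

/-- what is needed of the tables -/
structure Gd (t : Tb) (E : V →+ V) (v : V) : Prop where
  L : ∀ l < t.mL, ∃ g, D.pk g = tx t.TL l ∧ ∀ w, E (ρ g w) = sg (ts t.TL l) (E w)
  R : ∀ r < t.mR, ∃ g, D.pk g = tx t.TR r ∧ ρ g v = sg (ts t.TR r) v

variable {D ρ} (h0 : 0 < c.p) (hp : ∀ w : V, c.p • w = 0)
include h0 hp

theorem rec_Q {t : Tb} {E : V →+ V} {v : V} (G : D.Gd ρ t E v) (g : Γ) (d : ℕ) (r : List (ℕ × ℕ))
    (hr : ∀ x ∈ r, D.Val x.1) (H : ℕ) (h : recOK c t (D.pk g) r H = true) :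
    Q (fun i => E (D.act ρ (tb t.R 40 i) v)) t.N (recS c t d r H) (recT c t d r H) (d • E (ρ g (D.val ρ r v))) := by
  induction r generalizing H with
  | nil =>
    have : d • E (ρ g (D.val ρ [] v)) = 0 := by simp [val]
    rw [this]
    exact Q.zero _ _
  | cons x r ih =>
    have e1 : recOK c t (D.pk g) (x :: r) H = band (force (Nat.mod H 268435456) fun h => termOK c t (D.pk g) x.1 h)
      (force (Nat.shiftRight H 28) (recOK c t (D.pk g) r)) := rfl
    have e2 : recS c t d (x :: r) H = (force (Nat.mod H 268435456) fun h =>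
      Nat.shiftLeft (termC c t d x.2 h) (Nat.mul 32 (Nat.mod (Nat.div h 65536) 4096))) +
      (force (Nat.shiftRight H 28) (recS c t d r)) := rfl
    have e3 : recT c t d (x :: r) H = (force (Nat.mod H 268435456) fun h => termC c t d x.2 h) +
      (force (Nat.shiftRight H 28) (recT c t d r)) := rfl
    have e4 : d • E (ρ g (D.val ρ (x :: r) v)) = d • E (ρ g (x.2 • D.act ρ x.1 v)) + d • E (ρ g (D.val ρ r v)) := by
      simp [val]
    rw [e1, band_iff, force_eq, force_eq] at h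
    rw [e2, e3, e4, force_eq, force_eq, force_eq, force_eq]
    refine Q.add ?_ (ih (fun y hy => hr y (List.mem_cons_of_mem _ hy)) _ h.2)
    have h1 := h.1
    generalize Nat.mod H 268435456 = u at h1
    rw [termOK, force_eq, force_eq, force_eq, band_iff, band_iff, band_iff, ble_iff, ble_iff, ble_iff, beq_iff] at h1
    obtain ⟨⟨hl, hr', hi⟩, he⟩ := h1
    obtain ⟨y, hy⟩ := hr x List.mem_cons_self
    obtain ⟨a, ea, ha⟩ := G.L _ hl
    obtain ⟨b, eb, hb⟩ := G.R _ hr'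
    rw [← hy, ← ea, ← eb] at he
    simp only [m2_eq, ← D.mul] at he
    rw [shl_eq]
    convert Q.single (fun i => E (D.act ρ (tb t.R 40 i) v)) hi (termC c t d x.2 u) using 1
    · rfl
    rw [termC, cf_smul h0 hp, ← he, act_pk, ← hy, act_pk, bx_eq, rho_mul, rho_mul, hb, map_sg, map_sg, map_sg, ha,
      sg_xor, rho_mul, map_nsmul, map_nsmul]
    show _ = (d * x.2) • _
    rw [mul_smul]
    congr 2
    cases ts t.TL (Nat.mod u 256) <;> cases ts t.TR (Nat.mod (Nat.div u 256) 256) <;> simp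

omit h0 hp in
theorem gd_id {T m R N : ℕ} {v : V} (hR : ∀ r < m, ∃ g, D.pk g = tx T r ∧ ρ g v = sg (ts T r) v) :
    D.Gd ρ ⟨c.e, 1, T, m, R, N⟩ (AddMonoidHom.id V) v := by
  refine ⟨fun l hl => ?_, hR⟩
  obtain rfl : l = 0 := Nat.lt_one_iff.1 hl
  have h1 : tb c.e 41 0 = c.e := Nat.mod_eq_of_lt (D.e_lt.trans (by norm_num : 2 ^ 40 < 2 ^ 41))
  refine ⟨1, ?_, fun w => ?_⟩
  · show _ = tb c.e 41 0 % 2 ^ 40
    rw [h1, Nat.mod_eq_of_lt D.e_lt, D.one]
  · have : ts c.e 0 = false := by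
      rw [ts, h1, ble_false_iff]; exact D.e_lt
    show ρ 1 w = sg (ts c.e 0) w
    rw [this, map_one]; rfl

theorem base_zero {T m : ℕ} {v : V} (hR : ∀ r < m, ∃ g, D.pk g = tx T r ∧ ρ g v = sg (ts T r) v) {b : Bs}
    (hK : D.Kill ρ b.K) (h : baseOK c T m b = true) : (∀ x ∈ b.r, D.Val x.1) ∧ D.val ρ b.r v = 0 := by
  rw [baseOK, force_eq, force_eq, force_eq, band_iff, band_iff, band_iff] at h
  obtain ⟨⟨h1, h2⟩, h3, h4⟩ := h
  have hv := D.valL_spec h2
  refine ⟨hv, hK _ fun x hx => ?_⟩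
  obtain ⟨g, hg⟩ := D.valL_spec h1 x hx
  obtain ⟨H, hH⟩ := all2_spec h4 x hx
  rw [band_iff, ← hg] at hH
  rw [← D.one] at h3
  nth_rewrite 1 [D.one] at h3
  have := ((rec_Q h0 hp (gd_id hR) g 1 _ hv H hH.1).add
    (rec_Q h0 hp (gd_id hR) 1 (cf c.p (bx x.2 true) 1) _ hv _ h3)).fin hp hH.2
  refine ⟨g, hg, ?_⟩
  rw [cf_smul h0 hp, one_smul, one_smul, map_one] at this
  have h5 : ρ g (D.val ρ b.r v) + sg (bx x.2 true) (D.val ρ b.r v) = 0 := this
  rw [add_eq_zero_iff_eq_neg] at h5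
  rw [h5]
  cases x.2 <;> simp [bx]

theorem main_zero {t : Tb} {E : V →+ V} {v : V} (G : D.Gd ρ t E v) {B : List (List (ℕ × ℕ))}
    (hB : ∀ r ∈ B, (∀ x ∈ r, D.Val x.1) ∧ D.val ρ r v = 0) {L : List (List (ℕ × ℕ × ℕ × ℕ))}
    (h : mainOK c t B L = true) : E v = 0 := by
  rw [mainOK, band_iff, band_iff, lall_iff] at h
  obtain ⟨⟨h1, h2⟩, h3⟩ := h
  have hB' : ∀ k, (∀ x ∈ nth [] B k, D.Val x.1) ∧ D.val ρ (nth [] B k) v = 0 := by
    intro k
    by_cases hk : k < B.length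
    · exact hB _ (nth_mem _ hk)
    · rw [nth_of_le _ (not_lt.1 hk)]; simp [val]
  have k1 : ∀ l : List (ℕ × ℕ × ℕ × ℕ), (lall (fun x => force (c.wd x.2.1) fun g => recOK c t g (nth [] B x.1) x.2.2.2) l = true) →
      Q (fun i => E (D.act ρ (tb t.R 40 i) v)) t.N (lsum (fun x => recS c t x.2.2.1 (nth [] B x.1) x.2.2.2) l)
        (lsum (fun x => recT c t x.2.2.1 (nth [] B x.1) x.2.2.2) l) 0 := by
    intro l hl
    rw [lall_iff] at hl
    induction l with
    | nil => exact Q.zero _ _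
    | cons x l ih =>
      have hx := hl x List.mem_cons_self
      obtain ⟨g, hg⟩ := D.wd_val x.2.1
      rw [force_eq, ← hg] at hx
      have := (rec_Q h0 hp G g x.2.2.1 _ (hB' x.1).1 _ hx).add (ih fun y hy => hl y (List.mem_cons_of_mem _ hy))
      rwa [(hB' x.1).2, map_zero, map_zero, smul_zero, zero_add] at this
  have k2 : Q (fun i => E (D.act ρ (tb t.R 40 i) v)) t.N
      (lsum (lsum fun x => recS c t x.2.2.1 (nth [] B x.1) x.2.2.2) L)
      (lsum (lsum fun x => recT c t x.2.2.1 (nth [] B x.1) x.2.2.2) L) 0 := by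
    clear h3
    induction L with
    | nil => exact Q.zero _ _
    | cons l L ih =>
      have := (k1 l (h2 l List.mem_cons_self)).add (ih fun y hy => h2 y (List.mem_cons_of_mem _ hy))
      rwa [zero_add] at this
  rw [← D.one] at h1
  nth_rewrite 2 [D.one] at h1
  have := ((rec_Q h0 hp G 1 1 _ (by simpa using ⟨1, D.one⟩) 0 h1).add k2).fin hp h3
  simpa [val, ← D.one, act_pk] using this

omit h0 hp in
theorem tab_sat {C : List (ℕ × Bool)} {T P m : ℕ} (h : c.tabOK C T P m = true) {v : V} (hv : D.Sat ρ C v) :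
    ∀ j < m, ∃ g, D.pk g = tx T j ∧ (g ∈ D.cl C ∧ ρ g v = sg (ts T j) v) := by
  refine D.tab_rec h (fun g s => g ∈ D.cl C ∧ ρ g v = sg s v) ⟨one_mem _, by rw [map_one]; rfl⟩ (fun k => ?_) ?_
  · by_cases hk : k < C.length
    · have hm := nth_mem (c.e, false) hk
      obtain ⟨g, hg, hg'⟩ := hv _ hm
      exact ⟨g, hg, subset_closure ⟨(nth (c.e, false) C k).2, by rw [hg]; exact hm⟩, hg'⟩
    · rw [nth_of_le _ (not_lt.1 hk)]
      exact ⟨1, D.one, one_mem _, by rw [map_one]; rfl⟩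
  · rintro g s g' s' ⟨h1, h2⟩ ⟨h3, h4⟩
    exact ⟨mul_mem h1 h3, by rw [rho_mul, h4, map_sg, h2, Bool.xor_comm, sg_xor]⟩

theorem stage_zero {C : List (ℕ × Bool)} {T P m TL mL R N : ℕ} {B : List Bs} {L : List (List (ℕ × ℕ × ℕ × ℕ))}
    (h : stageOK c C T P m TL mL R N B L = true) (hB : ∀ b ∈ B, D.Kill ρ b.K) {v : V} (hv : D.Sat ρ C v)
    {E : V →+ V} (G : D.Gd ρ ⟨TL, mL, T, m, R, N⟩ E v) : E v = 0 := by
  rw [stageOK, band_iff, band_iff, lall_iff] at h
  refine main_zero h0 hp G (fun r hr => ?_) h.2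
  replace hr := List.mem_cons.1 hr
  rcases hr with rfl | hr
  · simp [val]
  replace hr := List.mem_cons.1 hr
  rcases hr with rfl | hr
  · refine ⟨by simpa using ⟨1, D.one⟩, ?_⟩
    simp only [val, List.map_cons, List.map_nil, List.sum_cons, List.sum_nil, add_zero, ← add_smul]
    rw [show 1 + Nat.pred c.p = c.p by rw [add_comm]; exact Nat.succ_pred_eq_of_pos h0, hp]
  have : ∃ b ∈ B, r = b.r := by
    clear h hB
    induction B with
    | nil => exact absurd hr List.not_mem_nil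
    | cons b B ih =>
      replace hr := List.mem_cons.1 hr
      rcases hr with rfl | hr
      · exact ⟨b, List.mem_cons_self, rfl⟩
      · obtain ⟨b', hb, e⟩ := ih hr
        exact ⟨b', List.mem_cons_of_mem _ hb, e⟩
  obtain ⟨b, hb, rfl⟩ := this
  exact base_zero h0 hp G.R (hB b hb) (h.1.2 b hb)

theorem stage0 {C : List (ℕ × Bool)} {T P m R N : ℕ} {B : List Bs} {L : List (List (ℕ × ℕ × ℕ × ℕ))}
    (h : stageOK c C T P m c.e 1 R N B L = true) (hB : ∀ b ∈ B, D.Kill ρ b.K) : D.Kill ρ C := by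
  intro v hv
  have h' := h
  rw [stageOK, band_iff, band_iff] at h'
  exact stage_zero h0 hp h hB hv (gd_id fun r hr => by
    obtain ⟨g, h1, -, h2⟩ := tab_sat h'.1.1 hv r hr
    exact ⟨g, h1, h2⟩)

theorem stage1 [Finite Γ] (hodd : c.p.Coprime 2) {C : List (ℕ × Bool)} {T P Cl m R N : ℕ} {B : List Bs}
    {L : List (List (ℕ × ℕ × ℕ × ℕ))} (h : stageOK c C T P m T m R N B L = true)
    (hc : c.cloOK C T Cl m = true) (hB : ∀ b ∈ B, D.Kill ρ b.K) : D.Kill ρ C := by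
  classical
  intro v hv
  have h' := h
  rw [stageOK, band_iff, band_iff] at h'
  have canc : ∀ (k : ℕ) (w : V), 2 ^ k • w = 0 → w = 0 := fun k w hw => by
    have h1 : addOrderOf w ∣ 1 := by
      rw [← (hodd.pow_right k : c.p.Coprime (2 ^ k))]
      exact Nat.dvd_gcd (addOrderOf_dvd_of_nsmul_eq_zero (hp w)) (addOrderOf_dvd_of_nsmul_eq_zero hw)
    exact AddMonoid.addOrderOf_eq_one_iff.1 (Nat.dvd_one.1 h1)
  by_contra hne
  have hneg : -v ≠ v := fun e => hne (canc 1 v (by rw [pow_one, two_nsmul]; exact neg_eq_iff_add_eq_zero.1 e))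
  obtain ⟨k, hk⟩ := (IsPGroup.iff_card (p := 2)).1
    (D.two_group (fun x hx => let ⟨g, hg, _⟩ := hv x hx; ⟨g, hg⟩) h'.1.1 hc)
  have hpm : ∀ g ∈ D.cl C, ∃ s, ρ g v = sg s v := by
    intro g hg
    induction hg using Subgroup.closure_induction with
    | mem g hg =>
      obtain ⟨s, hs⟩ := hg
      obtain ⟨g', e, h1⟩ := hv _ hs
      exact ⟨s, D.inj e ▸ h1⟩
    | one => exact ⟨false, by rw [map_one]; rfl⟩
    | mul a b _ _ ha hb =>
      obtain ⟨s, hs⟩ := ha
      obtain ⟨s', hs'⟩ := hb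
      exact ⟨xor s' s, by rw [rho_mul, hs', map_sg, hs, sg_xor]⟩
    | inv a _ ha =>
      obtain ⟨s, hs⟩ := ha
      refine ⟨s, ?_⟩
      have : ρ a⁻¹ (ρ a v) = v := by rw [← rho_mul, inv_mul_cancel, map_one]; rfl
      rw [hs, map_sg] at this
      conv_rhs => rw [← this, sg_sg]
  have sinj : ∀ s s' : Bool, sg s v = sg s' v → s = s' := by
    intro s s' e
    cases s <;> cases s'
    exacts [rfl, absurd e.symm hneg, absurd e hneg, rfl]
  choose ε hε using fun g : D.cl C => hpm g g.2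
  have := Fintype.ofFinite (D.cl C)
  let E : V →+ V := AddMonoidHom.mk' (fun w => ∑ g : D.cl C, sg (ε g) (ρ g w)) (by
    intro a b
    rw [← Finset.sum_add_distrib]
    refine Finset.sum_congr rfl fun g _ => ?_
    cases ε g <;> simp [add_comm])
  have hE : ∀ w, E w = ∑ g : D.cl C, sg (ε g) (ρ g w) := fun _ => rfl
  have := stage_zero h0 hp h hB hv (E := E) ⟨fun l hl => ?_, fun r hr => ?_⟩
  · rw [hE] at this
    simp only [hε, sg_sg, Finset.sum_const, Finset.card_univ, ← Nat.card_eq_fintype_card, hk] at this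
    exact hne (canc k v this)
  · obtain ⟨g, h1, h2, h3⟩ := tab_sat h'.1.1 hv l hl
    refine ⟨g, h1, fun w => ?_⟩
    have hs : ∀ x : D.cl C, ε x = xor (ts T l) (ε (x * ⟨g, h2⟩)) := fun x => sinj _ _ (by
      rw [sg_xor, ← hε (x * ⟨g, h2⟩), Subgroup.coe_mul, rho_mul, h3, map_sg, sg_sg, hε])
    have e1 : E w = ∑ x : D.cl C, sg (ε (x * ⟨g, h2⟩)) (ρ x (ρ g w)) :=
      (Fintype.sum_equiv (Equiv.mulRight (⟨g, h2⟩ : D.cl C)) _ _ (fun x => by simp [rho_mul])).symm
    have e2 : E (ρ g w) = ∑ x : D.cl C, sg (ts T l) (sg (ε (x * ⟨g, h2⟩)) (ρ x (ρ g w))) :=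
      Finset.sum_congr rfl fun x _ => by rw [← sg_xor, ← hs x]
    show _ = sg (ts T l) _
    rw [e1, e2]
    cases ts T l <;> simp
  · obtain ⟨g, h1, -, h2⟩ := tab_sat h'.1.1 hv r hr
    exact ⟨g, h1, h2⟩

omit h0 hp in
theorem kill_perf (hL : ∀ L : Subgroup Γ, ¬ Group.IsSolvable L → ∀ w : V, (∀ g ∈ L, ρ g w = w) → w = 0)
    {K : List (ℕ × Bool)} {KW : List ℕ} {X : List (ℕ × ℕ)} (h : perfOK c K KW X = true) : D.Kill ρ K := by
  obtain ⟨h1, h2⟩ := D.perf h
  intro v hv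
  refine hL _ h1 v fun g hg => ?_
  induction hg using Subgroup.closure_induction with
  | mem g hg =>
    obtain ⟨s, hs⟩ := hg
    obtain ⟨g', e, h3⟩ := hv _ hs
    rw [h2 _ hs] at h3
    exact D.inj e ▸ h3
  | one => rw [map_one]; rfl
  | mul a b _ _ ha hb => rw [rho_mul, hb, ha]
  | inv a _ ha => conv_lhs => rw [← ha, ← rho_mul, inv_mul_cancel, map_one]
                  rfl

end Cod
end CF.Mc
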