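import Cfsg.Agent.Perm.Mc2
import Cfsg.Agent.Perm.McD2
import Cfsg.Agent.Perm.McD5

set_option autoImplicit false

/-! Every nonzero module for `A₉` in characteristic `2`, and for `A₁₀` in characteristic `5`, has a nonzero
vector fixed by a non-solvable subgroup. -/

namespace CF.Mc
open CF.Comp Equiv

def dg {n : ℕ} (g : Perm (Fin n)) (i : ℕ) : ℕ := if h : i < n then g ⟨i, h⟩ else 0
def pkP {n : ℕ} (g : Perm (Fin n)) : ℕ := ∑ i ∈ Finset.range n, dg g i * 16 ^ i

theorem ap_pkP {n : ℕ} (hn : n ≤ 16) (g : Perm (Fin n)) (i : Fin n) : ap (pkP g) i = g i := by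
  have := digit (B := 16) (by norm_num) i n (dg g) (fun j hj => by
    rw [dg, dif_pos hj]; exact (g ⟨j, hj⟩).2.trans_le hn) i.2
  rw [dg, dif_pos i.2] at this
  rw [← this, ap, shr_eq]
  show (pkP g / 2 ^ (4 * (i : ℕ))) &&& (2 ^ 4 - 1) = _
  rw [Nat.and_two_pow_sub_one_eq_mod, pow_mul]
  rfl

theorem mu_eq (n x y : ℕ) : mu n x y = ∑ i ∈ Finset.range n, ap x (ap y i) * 16 ^ i := by
  induction n with
  | zero => rfl
  | succ n ih =>
    rw [Finset.sum_range_succ, ← ih]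
    show mu n x y + Nat.shiftLeft _ (4 * n) = _
    rw [shl_eq, pow_mul]
    rfl

def cod (c : Pm) [NeZero c.n] (hn : c.n ≤ 16) (h1 : pkP (1 : Perm (Fin c.n)) = c.e) (h2 : c.e < 2 ^ 40)
    (h3 : ∀ j < 32, ∃ a : Fin c.n, a ≠ 0 ∧ ∃ b : Fin c.n, b ≠ 0 ∧ pkP (swap 0 a * swap 0 b) = tb c.GT 40 j) :
    Cod c (alternatingGroup (Fin c.n)) where
  pk g := pkP g.1
  inj g h e := Subtype.ext (Equiv.ext fun i => Fin.ext (by
    rw [← ap_pkP hn, ← ap_pkP hn]; exact congrArg (ap · i) e))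
  mul g h := by
    rw [mu_eq, pkP]
    refine Finset.sum_congr rfl fun i hi => ?_
    have hi' := Finset.mem_range.1 hi
    rw [dg, dif_pos hi', show ap (pkP h.1) i = h.1 ⟨i, hi'⟩ from ap_pkP hn h.1 ⟨i, hi'⟩, ap_pkP hn]
    rfl
  one := h1
  gen j hj := by
    obtain ⟨a, ha, b, hb, e⟩ := h3 j hj
    exact ⟨⟨swap 0 a * swap 0 b, by simp [Perm.mem_alternatingGroup, ha.symm, hb.symm]⟩, e⟩
  e_lt := h2

instance : NeZero D2.pm.n := ⟨by decide⟩
instance : NeZero D5.pm.n := ⟨by decide⟩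

theorem mc5 {V : Type*} [AddCommGroup V] (ρ : alternatingGroup (Fin 10) →* AddMonoid.End V)
    (hp : ∀ w : V, 5 • w = 0)
    (hL : ∀ L : Subgroup (alternatingGroup (Fin 10)), ¬ Group.IsSolvable L → ∀ w : V, (∀ g ∈ L, ρ g w = w) → w = 0)
    (v : V) : v = 0 := by
  let D : Cod D5.pm (alternatingGroup (Fin 10)) :=
    cod D5.pm (by decide) (by decide +kernel) (by decide +kernel) (by decide +kernel)
  have h0 : 0 < D5.pm.p := by decide
  have kA : D.Kill ρ D5.kA := Cod.kill_perf hL D5.kA_ok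
  have kB : D.Kill ρ D5.kB := Cod.kill_perf hL D5.kB_ok
  have kC : D.Kill ρ D5.kC := Cod.kill_perf hL D5.kC_ok
  have kD : D.Kill ρ D5.kD := Cod.kill_perf hL D5.kD_ok
  have kE : D.Kill ρ D5.kE := Cod.kill_perf hL D5.kE_ok
  have cppp : D.Kill ρ D5.cppp := Cod.stage1 h0 hp (by decide) D5.sppp_ok D5.cppp_clo (by
    simp only [D5.spppB, List.forall_mem_cons, List.not_mem_nil, false_imp_iff, implies_true, and_true]
    exact ⟨kA, kA, kB, kB, kB, kC, kE⟩)
  have cppm : D.Kill ρ D5.cppm := Cod.stage1 h0 hp (by decide) D5.sppm_ok D5.cppm_clo (by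
    simp only [D5.sppmB, List.forall_mem_cons, List.not_mem_nil, false_imp_iff, implies_true, and_true]
    exact ⟨cppp, cppp, cppp, kA, kA, kB, kB⟩)
  have cmmp : D.Kill ρ D5.cmmp := Cod.stage1 h0 hp (by decide) D5.smmp_ok D5.cmmp_clo (by
    simp only [D5.smmpB, List.forall_mem_cons, List.not_mem_nil, false_imp_iff, implies_true, and_true]
    exact ⟨cppp, cppp, kA, kA, kA, kA, kB, kC, kC⟩)
  have cmmm : D.Kill ρ D5.cmmm := Cod.stage1 h0 hp (by decide) D5.smmm_ok D5.cmmm_clo (by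
    simp only [D5.smmmB, List.forall_mem_cons, List.not_mem_nil, false_imp_iff, implies_true, and_true]
    exact ⟨cppm, cmmp, kA, kA, kB⟩)
  have cpp : D.Kill ρ D5.cpp := Cod.stage0 h0 hp D5.spp_ok (by
    simp only [D5.sppB, List.forall_mem_cons, List.not_mem_nil, false_imp_iff, implies_true, and_true]
    exact ⟨cppp, cppm⟩)
  have cmm : D.Kill ρ D5.cmm := Cod.stage0 h0 hp D5.smm_ok (by
    simp only [D5.smmB, List.forall_mem_cons, List.not_mem_nil, false_imp_iff, implies_true, and_true]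
    exact ⟨cmmp, cmmm⟩)
  have cpm : D.Kill ρ D5.cpm := Cod.stage1 h0 hp (by decide) D5.spm_ok D5.cpm_clo (by
    simp only [D5.spmB, List.forall_mem_cons, List.not_mem_nil, false_imp_iff, implies_true, and_true]
    exact ⟨cpp, cmm, cmm, cppm, cmmp, cpp, cmm, cmm, cmmm, kA, kA⟩)
  have cQ : D.Kill ρ D5.cQ := Cod.stage0 h0 hp D5.sQ_ok (by
    simp only [D5.sQB, List.forall_mem_cons, List.not_mem_nil, false_imp_iff, implies_true, and_true]
    exact ⟨cpp, cmm, cpm, cpm⟩)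
  have cV : D.Kill ρ D5.cV := Cod.stage0 h0 hp D5.sV_ok (by
    simp only [D5.sVB, List.forall_mem_cons, List.not_mem_nil, false_imp_iff, implies_true, and_true]
    exact ⟨cQ, cQ, cQ, cQ, cQ, cQ, cQ, cQ, cQ, cQ⟩)
  have cE : D.Kill ρ D5.cE := Cod.stage0 h0 hp D5.sE_ok (by
    simp only [D5.sEB, List.forall_mem_cons, List.not_mem_nil, false_imp_iff, implies_true, and_true]
    exact ⟨cV, cV, cV, cV, cV, cV, cV, cV, cV, cV⟩)
  exact cE v (fun x hx => absurd hx List.not_mem_nil)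

theorem mc2 {V : Type*} [AddCommGroup V] [Finite V] (ρ : alternatingGroup (Fin 9) →* AddMonoid.End V)
    (hp : ∀ w : V, 2 • w = 0)
    (hL : ∀ L : Subgroup (alternatingGroup (Fin 9)), ¬ Group.IsSolvable L → ∀ w : V, (∀ g ∈ L, ρ g w = w) → w = 0)
    (v : V) : v = 0 := by
  let D : Cod D2.pm (alternatingGroup (Fin 9)) :=
    cod D2.pm (by decide) (by decide +kernel) (by decide +kernel) (by decide +kernel)
  have h0 : 0 < D2.pm.p := by decide
  have kA : D.Kill ρ D2.kA := Cod.kill_perf hL D2.kA_ok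
  have kB : D.Kill ρ D2.kB := Cod.kill_perf hL D2.kB_ok
  have kC : D.Kill ρ D2.kC := Cod.kill_perf hL D2.kC_ok
  have kD : D.Kill ρ D2.kD := Cod.kill_perf hL D2.kD_ok
  have kE : D.Kill ρ D2.kE := Cod.kill_perf hL D2.kE_ok
  have kF : D.Kill ρ D2.kF := Cod.kill_perf hL D2.kF_ok
  have kG : D.Kill ρ D2.kG := Cod.kill_perf hL D2.kG_ok
  have cP : D.Kill ρ D2.cP := Cod.stage0 h0 hp D2.sP_ok (by
    simp only [D2.sPB, List.forall_mem_cons, List.not_mem_nil, false_imp_iff, implies_true, and_true]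
    exact ⟨kB, kB, kC, kC, kA⟩)
  have cQ : D.Kill ρ D2.cQ := Cod.stage0 h0 hp D2.sQ_ok (by
    simp only [D2.sQB, List.forall_mem_cons, List.not_mem_nil, false_imp_iff, implies_true, and_true]
    exact ⟨cP, cP, cP, kD, kB, kB, kF⟩)
  have cR : D.Kill ρ D2.cR := Cod.stage0 h0 hp D2.sR_ok (by
    simp only [D2.sRB, List.forall_mem_cons, List.not_mem_nil, false_imp_iff, implies_true, and_true]
    exact ⟨cP, cQ, cQ, kD, cQ, kG⟩)
  have cT : D.Kill ρ D2.cT := Cod.stage0 h0 hp D2.sT_ok (by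
    simp only [D2.sTB, List.forall_mem_cons, List.not_mem_nil, false_imp_iff, implies_true, and_true]
    exact ⟨cQ, cP, cR, kA⟩)
  have hv := D.valL_spec D2.cT_val
  have ht := D2.sT_ok
  rw [stageOK, band_iff, band_iff] at ht
  have h2 := D.two_group hv ht.1.1 D2.cT_clo
  letI : MulAction (D.cl D2.cT) V :=
    { smul := fun g w => ρ g w
      one_smul := fun w => by show ρ 1 w = w; rw [map_one]; rfl
      mul_smul := fun a b w => Cod.rho_mul ρ _ _ w }
  by_contra hne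
  have hd : 2 ∣ Nat.card V := by
    rw [← addOrderOf_eq_prime (hp v) hne]; exact addOrderOf_dvd_natCard v
  obtain ⟨w, hw, hw0⟩ := h2.exists_fixed_point_of_prime_dvd_card_of_fixed_point (α := V) hd (a := 0)
    (fun g => map_zero (ρ g))
  refine hw0 (cT w fun x hx => ?_).symm
  obtain ⟨g, hg⟩ := hv x hx
  have hs : x.2 = false := (by decide : ∀ x ∈ D2.cT, x.2 = false) x hx
  exact ⟨g, hg, hs ▸ hw ⟨g, Subgroup.subset_closure ⟨x.2, by rw [hg]; exact hx⟩⟩⟩

end CF.Mc
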