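import Cfsg.Agent.Perm.Mc3
import Cfsg.Agent.Coprime.Basic

set_option autoImplicit false

/-! Solvable centralizers of non-central `p`-elements bound the alternating sections. -/

namespace CF.Mc
open Subgroup CF.Coprime Pointwise
universe u

def Hy (p : ℕ) (H : Type*) [Group H] : Prop :=
  ∀ x : H, x ∉ center H → (∃ k : ℕ, orderOf x = p ^ k) → Group.IsSolvable (centralizer ({x} : Set H))

section
variable {p : ℕ} {H Γ : Type*} [Group H] [Group Γ]

theorem Hy.sub (h : Hy p H) (K : Subgroup H) : Hy p K := by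
  intro x hx ⟨k, hk⟩
  have := h x (fun hc => hx (mem_center_iff.2 fun g => Subtype.ext (mem_center_iff.1 hc g)))
    ⟨k, (Subgroup.orderOf_coe x).trans hk⟩
  let f : centralizer ({x} : Set K) →* centralizer ({(x : H)} : Set H) :=
    (K.subtype.comp (centralizer ({x} : Set K)).subtype).codRestrict _ fun y =>
      mem_centralizer_singleton_iff.2 (congrArg Subtype.val (mem_centralizer_singleton_iff.1 y.2))
  exact Group.isSolvable_of_isSolvable_injective (f := f) fun a b e => by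
    have := congrArg Subtype.val e
    exact Subtype.ext (Subtype.ext this)

theorem csi {K : Subgroup H} {g : H} : MulAut.conj g • K = K ↔ g ∈ normalizer (K : Set H) :=
  mem_normalizer_iff_map_conj_eq.symm

theorem solv_of_comm {a : H} (ha : Group.IsSolvable (centralizer ({a} : Set H))) (L : Subgroup H)
    (h : ∀ l ∈ L, l * a * l⁻¹ * a⁻¹ ∈ center H) : Group.IsSolvable L := by
  let φ : L →* center H := MonoidHom.mk' (fun l => ⟨_, h l l.2⟩) fun x y => Subtype.ext (by
    have := mem_center_iff.1 (h y y.2) (x : H)⁻¹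
    show (x : H) * y * a * ((x : H) * y)⁻¹ * a⁻¹ = (x * a * (x : H)⁻¹ * a⁻¹) * (y * a * (y : H)⁻¹ * a⁻¹)
    have h2 := mem_center_iff.1 (h y y.2) ((x : H) * a * (x : H)⁻¹ * a⁻¹)
    have h3 := mem_center_iff.1 (h y y.2) (x : H)
    rw [h2]
    calc (x : H) * y * a * ((x : H) * y)⁻¹ * a⁻¹ = (x * (y * a * (y : H)⁻¹ * a⁻¹)) * (a * (x : H)⁻¹ * a⁻¹) := by group
      _ = _ := by rw [h3]; group)
  let f : φ.ker →* centralizer ({a} : Set H) := (L.subtype.comp φ.ker.subtype).codRestrict _ fun l => by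
    have : ((l : L) : H) * a * ((l : L) : H)⁻¹ * a⁻¹ = 1 := congrArg Subtype.val (MonoidHom.mem_ker.1 l.2)
    rw [mul_inv_eq_one, mul_inv_eq_iff_eq_mul] at this
    exact mem_centralizer_singleton_iff.2 this
  have : Group.IsSolvable φ.ker := Group.isSolvable_of_isSolvable_injective (f := f) fun a b e => by
    have := congrArg Subtype.val e
    exact Subtype.ext (Subtype.ext this)
  have : Group.IsSolvable (center H) :=
    Group.isSolvable_of_comm fun a b => Subtype.ext (mem_center_iff.1 b.2 a)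
  exact Group.isSolvable_of_ker_le_range φ.ker.subtype φ (by rw [range_subtype])

theorem solv_map (π : H →* Γ) (L : Subgroup H) [Group.IsSolvable L] : Group.IsSolvable (L.map π) :=
  Group.isSolvable_of_surjective (π.subgroupMap_surjective L)

theorem exists_min [Finite H] (π : H →* Γ) (M : Subgroup H) :
    ∃ M' ≤ M, M'.map π = M.map π ∧ ∀ X ≤ M', X.map π = M'.map π → X = M' := by
  obtain ⟨M', h1, h2⟩ := exists_minimal_of_wellFoundedLT (fun X : Subgroup H => X ≤ M ∧ X.map π = M.map π)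
    ⟨M, le_rfl, rfl⟩
  exact ⟨M', h1.1, h1.2, fun X hX e => le_antisymm hX (h2 ⟨hX.trans h1.1, e.trans h1.2⟩ hX)⟩

theorem min_norm [Finite H] [Fact p.Prime] (π : H →* Γ) {M S : Subgroup H}
    (hM : ∀ X ≤ M, X.map π = M.map π → X = M) (hS : IsSylowOf p S (M ⊓ π.ker)) :
    M ≤ normalizer (S : Set H) := by
  have := hM (M ⊓ normalizer (S : Set H)) inf_le_left (le_antisymm (map_mono inf_le_left) (by
    rintro _ ⟨l, hl, rfl⟩
    have hn : l ∈ normalizer ((M ⊓ π.ker : Subgroup H) : Set H) :=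
      le_normalizer_inf le_normalizer (le_normalizer_of_normal) hl
    obtain ⟨k, hk, e⟩ := hS.conj (hS.conj_smul hn)
    refine ⟨k⁻¹ * l, ⟨M.mul_mem (M.inv_mem hk.1) hl, ?_⟩, ?_⟩
    · apply csi.1
      rw [map_mul, mul_smul, ← e, ← mul_smul, ← map_mul, inv_mul_cancel, map_one, one_smul]
    · rw [map_mul, map_inv, MonoidHom.mem_ker.1 hk.2, inv_one, one_mul]))
  exact this ▸ inf_le_right

theorem exists_frat [Finite H] [hp : Fact p.Prime] (π : H →* Γ) (hπ : Function.Surjective π) {x : Γ}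
    (hx : orderOf x = p) (L : Subgroup Γ) (hL : L ≤ centralizer {x}) :
    ∃ (P M : Subgroup H) (y : H), IsPGroup p P ∧ y ∈ P ∧ π y = x ∧ M ≤ normalizer (P : Set H) ∧ M.map π = L := by
  obtain ⟨y0, rfl⟩ := hπ x
  have h0 : orderOf y0 ≠ 0 := (orderOf_pos y0).ne'
  obtain ⟨k, m, hm, e⟩ := Nat.exists_eq_pow_mul_and_not_dvd h0 p hp.out.ne_one
  obtain ⟨t, ht⟩ := exists_pow_eq_self_of_coprime (x := π y0) (n := m)
    (by rw [hx]; exact ((Nat.Prime.coprime_iff_not_dvd hp.out).2 hm).symm)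
  have hy : IsPGroup p (zpowers ((y0 ^ m) ^ t)) := by
    refine IsPGroup.of_card_dvd_pow (n := k) ?_
    rw [Nat.card_zpowers]
    apply orderOf_dvd_of_pow_eq_one
    rw [← pow_mul, ← pow_mul, show m * (t * p ^ k) = p ^ k * m * t by ring, ← e, pow_mul, pow_orderOf_eq_one, one_pow]
  have hπy : π ((y0 ^ m) ^ t) = π y0 := by rw [map_pow, map_pow, ht]
  obtain ⟨P, hP, hyP⟩ := exists_isSylowOf_ge (K := (zpowers (π y0)).comap π)
    (zpowers_le.2 (by rw [mem_comap, hπy]; exact mem_zpowers _)) hy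
  have hyP' := hyP (mem_zpowers _)
  refine ⟨P, normalizer (P : Set H) ⊓ L.comap π, _, hP.2.1, hyP', hπy, inf_le_left,
    le_antisymm ((map_mono inf_le_right).trans (map_comap_le _ _)) fun l hl => ?_⟩
  obtain ⟨l, rfl⟩ := hπ l
  have hc := mem_centralizer_singleton_iff.1 (hL hl)
  have hn : l ∈ normalizer (((zpowers (π y0)).comap π : Subgroup H) : Set H) := by
    refine mem_normalizer_fintype fun n hn => ?_
    obtain ⟨i, hi⟩ := mem_zpowers_iff.1 (mem_comap.1 hn)
    have : π (l * n * l⁻¹) = π n := by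
      rw [map_mul, map_mul, map_inv, ← hi, (Commute.zpow_right hc i).eq, mul_inv_cancel_right]
    show π (l * n * l⁻¹) ∈ zpowers (π y0)
    rw [this]; exact hn
  obtain ⟨k, hk, e⟩ := hP.conj (hP.conj_smul hn)
  obtain ⟨i, hi⟩ := mem_zpowers_iff.1 (mem_comap.1 hk)
  have h1 : π (((y0 ^ m) ^ t) ^ i * (k⁻¹ * l)) = π l := by
    rw [map_mul, map_zpow, hπy, hi, map_mul, map_inv, mul_inv_cancel_left]
  refine ⟨_, ⟨mul_mem (le_normalizer (zpow_mem hyP' i)) ?_, mem_comap.2 (h1 ▸ hl)⟩, h1⟩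
  apply csi.1
  rw [map_mul, mul_smul, ← e, ← mul_smul, ← map_mul, inv_mul_cancel, map_one, one_smul]

theorem comm_mem (π : H →* Γ) {P M : Subgroup H} {y : H} {L : Subgroup Γ} (hy : y ∈ P)
    (hM : M ≤ normalizer (P : Set H)) (hL : M.map π ≤ L) (hc : L ≤ centralizer {π y}) :
    ∀ l ∈ M, l * y * l⁻¹ * y⁻¹ ∈ P ⊓ π.ker := by
  intro l hl
  refine ⟨P.mul_mem ((mem_normalizer_iff.1 (hM hl) y).1 hy) (P.inv_mem hy), MonoidHom.mem_ker.2 ?_⟩
  have := mem_centralizer_singleton_iff.1 (hc (hL ⟨l, hl, rfl⟩))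
  rw [map_mul, map_mul, map_mul, map_inv, map_inv, this]
  group

theorem not_center (π : H →* Γ) (hπ : Function.Surjective π) {y : H} (hy : π y ∉ center Γ) : y ∉ center H :=
  fun h => hy (mem_center_iff.2 fun g => by
    obtain ⟨g, rfl⟩ := hπ g
    rw [← map_mul, ← map_mul, mem_center_iff.1 h g])

theorem pel [Fact p.Prime] {P : Subgroup H} (hP : IsPGroup p P) {y : H} (hy : y ∈ P) : ∃ k, orderOf y = p ^ k := by
  obtain ⟨k, hk⟩ := IsPGroup.iff_orderOf.1 hP ⟨y, hy⟩
  exact ⟨k, (Subgroup.orderOf_coe (⟨y, hy⟩ : P)).trans hk⟩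

theorem case_coprime [Finite H] [hp : Fact p.Prime] (h : Hy p H) (π : H →* Γ) (hπ : Function.Surjective π) {x : Γ}
    (hx : orderOf x = p) (hxc : x ∉ center Γ) (L : Subgroup Γ) (hL : L ≤ centralizer {x})
    (hcop : ¬ p ∣ Nat.card L) : Group.IsSolvable L := by
  obtain ⟨P, M, y, hP, hy, rfl, hM, e⟩ := exists_frat π hπ hx L hL
  obtain ⟨M', hle, e', hmin⟩ := exists_min π M
  obtain ⟨S, hS⟩ := exists_isSylowOf p (M' ⊓ π.ker)
  have hn := min_norm π hmin hS
  have hSM : S ≤ M' := hS.1.trans inf_le_left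
  haveI : (S.subgroupOf M').Normal := (normal_subgroupOf_iff_le_normalizer hSM).2 hn
  have hi : ¬ p ∣ S.relIndex M' := by
    rw [← relIndex_mul_relIndex S (M' ⊓ π.ker) M' hS.1 inf_le_left, inf_relIndex_left, relIndex_ker, e', e]
    exact fun hd => ((Nat.Prime.dvd_mul hp.out).1 hd).elim hS.2.2 hcop
  obtain ⟨n, hn'⟩ := IsPGroup.iff_card.1 (hS.2.1.comap_subtype (K := M'))
  obtain ⟨C, hC⟩ := exists_right_complement'_of_coprime (N := S.subgroupOf M') (by
    rw [subgroupOf, hn']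
    exact ((Nat.Prime.coprime_iff_not_dvd hp.out).2 hi).pow_left _)
  have hCM : C.map M'.subtype = M' := hmin _ (map_subtype_le _) (le_antisymm (map_mono (map_subtype_le _)) (by
    rintro _ ⟨m, hm, rfl⟩
    obtain ⟨⟨s, c⟩, hsc⟩ := hC.2 ⟨m, hm⟩
    refine ⟨c, ⟨c, c.2, rfl⟩, ?_⟩
    have h1 : ((s : M') : H) * c = m := congrArg Subtype.val hsc
    rw [← h1, map_mul, show π ((s : M') : H) = 1 from MonoidHom.mem_ker.1 (hS.1 s.2).2, one_mul]))
  have hcard : ¬ p ∣ Nat.card M' := by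
    rw [← hCM, card_map_of_injective M'.subtype_injective, ← hC.symm.index_eq_card]
    exact hi
  have hPN : IsPGroup p (P ⊓ π.ker : Subgroup H) := hP.to_inf_left
  obtain ⟨k, hk⟩ := IsPGroup.iff_card.1 hPN
  haveI := hPN.isNilpotent
  obtain ⟨z, hz, hc⟩ := exists_mul_mem_centralizer M' (P ⊓ π.ker)
    (le_normalizer_inf (hle.trans hM) le_normalizer_of_normal)
    (by rw [hk]; exact ((Nat.Prime.coprime_iff_not_dvd hp.out).2 hcard).symm.pow_right _)
    (Or.inr inferInstance) y (comm_mem π hy (hle.trans hM) (e'.trans e).le hL)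
  have := h (z * y) (not_center π hπ (by rwa [map_mul, MonoidHom.mem_ker.1 hz.2, one_mul]))
    (pel hP (P.mul_mem hz.1 hy))
  have : Group.IsSolvable M' := isSolvable_of_le (K := centralizer {z * y}) fun m hm =>
    mem_centralizer_singleton_iff.2 (hc m hm)
  rw [← e, ← e']
  exact solv_map π M'

/-- the module claim -/
def MC (p : ℕ) (Γ : Type*) [Group Γ] : Prop :=
  ∀ (V : Type u) [AddCommGroup V] [Finite V] (ρ : Γ →* AddMonoid.End V), (∀ w : V, p • w = 0) →
    (∀ L : Subgroup Γ, ¬ Group.IsSolvable L → ∀ w : V, (∀ g ∈ L, ρ g w = w) → w = 0) → ∀ v : V, v = 0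

end

theorem case_min {p : ℕ} {H : Type u} {Γ : Type*} [Group H] [Group Γ] [Finite H] [hp : Fact p.Prime] (h : Hy p H)
    (π : H →* Γ) (hπ : Function.Surjective π) (hmin : ∀ X : Subgroup H, X.map π = ⊤ → X = ⊤) {x : Γ}
    (hx : orderOf x = p) (hxc : x ∉ center Γ) (L : Subgroup Γ) (hL : L ≤ centralizer {x})
    (hmc : MC.{u} p Γ) : Group.IsSolvable L := by
  have hnorm : ∀ (q : ℕ) [Fact q.Prime] (S : Subgroup H), IsSylowOf q S π.ker → S.Normal := by
    intro q _ S hS
    rw [← normalizer_eq_top_iff, eq_top_iff]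
    exact min_norm (p := q) π (fun X _ e => hmin X (by rw [e, map_top_of_surjective π hπ])) (by rwa [top_inf_eq])
  obtain ⟨S, hS⟩ := exists_isSylowOf p π.ker
  haveI := hnorm p S hS
  by_cases hZ : S ≤ center H
  · obtain ⟨P, M, y, hP, hy, rfl, hM, e⟩ := exists_frat π hπ hx L hL
    have := solv_of_comm (h y (not_center π hπ hxc) (pel hP hy)) M fun l hl => hZ (by
      obtain ⟨R, hR, hle⟩ := exists_isSylowOf_ge (inf_le_right : P ⊓ π.ker ≤ π.ker) hP.to_inf_left
      obtain ⟨k, -, ek⟩ := hS.conj hR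
      rw [csi.2 (le_normalizer_of_normal (mem_top k))] at ek
      exact ek ▸ hle (comm_mem π hy hM e.le hL l hl))
    exact e ▸ solv_map π M
  exfalso
  let q := QuotientGroup.mk' (center H)
  have hq : Function.Surjective q := QuotientGroup.mk'_surjective _
  haveI : (S.map q).Normal := Normal.map inferInstance q hq
  let V : Subgroup (H ⧸ center H) :=
    { carrier := {y | y ∈ S.map q ∧ (∀ s ∈ S.map q, s * y = y * s) ∧ y ^ p = 1}
      one_mem' := ⟨one_mem _, by simp, one_pow _⟩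
      mul_mem' := fun {a b} ha hb => ⟨mul_mem ha.1 hb.1, fun s hs => by
        rw [← mul_assoc, ha.2.1 s hs, mul_assoc, hb.2.1 s hs, mul_assoc], by
        rw [(show Commute a b from hb.2.1 a ha.1).mul_pow, ha.2.2, hb.2.2, one_mul]⟩
      inv_mem' := fun {a} ha => ⟨inv_mem ha.1, fun s hs => (show Commute s a from ha.2.1 s hs).inv_right.eq, by
        rw [inv_pow, ha.2.2, inv_one]⟩ }
  haveI : V.Normal := ⟨fun a ha g => ⟨Normal.conj_mem inferInstance _ ha.1 g, fun s hs => by
    have := ha.2.1 (g⁻¹ * s * g⁻¹⁻¹) (Normal.conj_mem inferInstance _ hs g⁻¹)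
    calc s * (g * a * g⁻¹) = g * (g⁻¹ * s * g⁻¹⁻¹ * a) * g⁻¹ := by group
      _ = _ := by rw [this]; group, by rw [conj_pow, ha.2.2]; group⟩⟩
  letI : CommGroup V := { (inferInstance : Group V) with mul_comm := fun a b => Subtype.ext (b.2.2.1 a a.2.1) }
  let φ : H →* MulAut V := MulAut.conjNormal.comp q
  have hker : π.ker ≤ φ.ker := by
    refine le_of_forall_isSylowOf fun r hr _ => ?_
    haveI := Fact.mk hr
    obtain ⟨R, hR⟩ := exists_isSylowOf r π.ker
    haveI := hnorm r R hR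
    refine ⟨R, hR, fun a ha => ?_⟩
    rw [MonoidHom.mem_ker]
    refine MulEquiv.ext fun v => Subtype.ext ?_
    show q a * v * (q a)⁻¹ = v
    rw [mul_inv_eq_iff_eq_mul]
    by_cases hrp : r = p
    · subst hrp
      obtain ⟨k, -, ek⟩ := hS.conj hR
      rw [csi.2 (le_normalizer_of_normal (mem_top k))] at ek
      exact v.2.2.1 _ ⟨a, ek ▸ ha, rfl⟩
    · obtain ⟨s, hs, e⟩ := v.2.1
      rw [← e, ← map_mul, ← map_mul,
        (commute_of_normal_of_disjoint R S inferInstance inferInstance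
          (IsPGroup.disjoint_of_ne r p hrp R S hR.2.1 hS.2.1) a s ha hs).eq]
  let ψ : Γ →* MulAut V := π.liftOfSurjective hπ ⟨φ, hker⟩
  have hψ : ∀ g, ψ (π g) = φ g := fun g => π.liftOfRightInverse_comp_apply _ _ _ g
  let ρ : Γ →* AddMonoid.End (Additive V) :=
    { toFun := fun g => MonoidHom.toAdditive (ψ g).toMonoidHom
      map_one' := by rw [map_one]; rfl
      map_mul' := fun a b => by rw [map_mul]; rfl }
  have key := hmc (Additive V) ρ (fun w => by
      apply Additive.toMul.injective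
      exact Subtype.ext w.toMul.2.2.2) (fun L' hL' w hw => by
      by_contra hw0
      obtain ⟨a, ha, e⟩ := w.toMul.2.1
      have hac : a ∉ center H := fun hc => hw0 (by
        apply Additive.toMul.injective
        exact Subtype.ext (e.symm.trans ((QuotientGroup.eq_one_iff a).2 hc)))
      have := solv_of_comm (h a hac (pel hS.2.1 ha)) (L'.comap π) fun l hl => by
        rw [← QuotientGroup.eq_one_iff]
        have h1 : ψ (π l) w.toMul = w.toMul := congrArg Additive.toMul (hw _ hl)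
        rw [hψ] at h1
        have h2 : q l * w.toMul * (q l)⁻¹ = w.toMul := congrArg Subtype.val h1
        rw [← e] at h2
        show q _ = 1
        rw [map_mul, map_mul, map_mul, map_inv, map_inv, h2, mul_inv_cancel]
      exact hL' (map_comap_eq_self_of_surjective hπ L' ▸ solv_map π _))
  have hS' : IsPGroup p (S.map q) := hS.2.1.map q
  haveI : Nontrivial (S.map q) := (nontrivial_iff_ne_bot _).2 fun hb => hZ (by
    rwa [Subgroup.map_eq_bot_iff, QuotientGroup.ker_mk'] at hb)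
  haveI := hS'.center_nontrivial
  obtain ⟨z, hz⟩ := exists_prime_orderOf_dvd_card' (G := center (S.map q)) p
    (((hS'.to_subgroup _).card_eq_or_dvd).resolve_left Finite.one_lt_card.ne')
  have hzV : ((z : S.map q) : H ⧸ center H) ∈ V := ⟨z.1.2, fun s hs =>
    congrArg Subtype.val (mem_center_iff.1 z.2 ⟨s, hs⟩), by
      rw [← hz, ← Subgroup.coe_pow, ← Subgroup.coe_pow, pow_orderOf_eq_one]; rfl⟩
  have h0 : (⟨_, hzV⟩ : V) = 1 := congrArg Additive.toMul (key (Additive.ofMul ⟨_, hzV⟩))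
  have h1 : z = 1 := Subtype.ext (Subtype.ext (congrArg Subtype.val h0 :))
  rw [h1, orderOf_one] at hz
  exact hp.out.ne_one hz.symm

theorem case_mc {p : ℕ} {H : Type u} {Γ : Type*} [Group H] [Group Γ] [Finite H] [hp : Fact p.Prime] (h : Hy p H)
    (π : H →* Γ) (hπ : Function.Surjective π) {x : Γ}
    (hx : orderOf x = p) (hxc : x ∉ center Γ) (L : Subgroup Γ) (hL : L ≤ centralizer {x})
    (hmc : MC.{u} p Γ) : Group.IsSolvable L := by
  obtain ⟨M, -, e, hmin⟩ := exists_min π ⊤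
  rw [map_top_of_surjective π hπ] at e
  refine case_min (h.sub M) (π.comp M.subtype) (fun g => ?_) (fun X hX => ?_) hx hxc L hL hmc
  · obtain ⟨m, hm, rfl⟩ : g ∈ M.map π := e ▸ mem_top g
    exact ⟨⟨m, hm⟩, rfl⟩
  · rw [← map_map, ← e] at hX
    apply map_injective M.subtype_injective
    rw [hmin _ (map_subtype_le _) hX, ← MonoidHom.range_eq_map, range_subtype]

end CF.Mc
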