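import Cfsg.Agent.Perm.Mc4

set_option autoImplicit false

namespace CF.Mc
open Subgroup Equiv
universe u

theorem sign_via {α β : Type*} [Fintype α] [DecidableEq α] [Fintype β] [DecidableEq β] (ι : α ↪ β) (g : Perm α) :
    Perm.sign (Perm.viaEmbeddingHom ι g) = Perm.sign g := by
  classical
  rw [Perm.viaEmbeddingHom_apply, Perm.viaEmbedding]
  convert Perm.sign_extendDomain g (ofInjective ι.1 ι.2)

theorem alt5_not_solvable : ¬ Group.IsSolvable (alternatingGroup (Fin 5)) := by
  intro h
  haveI : IsSimpleGroup (alternatingGroup (Fin 5)) := alternatingGroup.isSimpleGroup (by simp)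
  have := (IsSimpleGroup.comm_iff_isSolvable (G := alternatingGroup (Fin 5))).2 h
    ⟨swap 0 1 * swap 0 2, Perm.mem_alternatingGroup.2 (by decide)⟩
    ⟨swap 0 3 * swap 0 4, Perm.mem_alternatingGroup.2 (by decide)⟩
  exact absurd (congrArg Subtype.val this) (by decide)

theorem alt_data {a d : ℕ} (had : a + 5 ≤ d) (σ : Perm (Fin a)) (hs : Perm.sign σ = 1) (h1 : σ ≠ 1) :
    ∃ x : alternatingGroup (Fin d), orderOf x = orderOf σ ∧ x ∉ center (alternatingGroup (Fin d)) ∧
      ∃ L : Subgroup (alternatingGroup (Fin d)), L ≤ centralizer {x} ∧ Nat.card L = 60 ∧ ¬ Group.IsSolvable L := by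
  let ι : Fin a ⊕ Fin 5 ↪ Fin d := finSumFinEquiv.toEmbedding.trans (Fin.castLEEmb had)
  let θ := (Perm.viaEmbeddingHom ι).comp (Perm.sumCongrHom (Fin a) (Fin 5))
  have hθ : Function.Injective θ := (Perm.viaEmbeddingHom_injective ι).comp Perm.sumCongrHom_injective
  have hsg : ∀ s t, Perm.sign (θ (s, t)) = Perm.sign s * Perm.sign t := fun s t => by
    show Perm.sign (Perm.viaEmbeddingHom ι (Perm.sumCongr s t)) = _
    rw [sign_via, Perm.sign_sumCongr]
  let κ : alternatingGroup (Fin 5) →* alternatingGroup (Fin d) :=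
    ((θ.comp (MonoidHom.inr _ _)).comp (alternatingGroup (Fin 5)).subtype).codRestrict _ fun t => by
      rw [Perm.mem_alternatingGroup]
      show Perm.sign (θ (1, t.1)) = 1
      rw [hsg, map_one, one_mul]; exact t.2
  have hκ : Function.Injective κ := fun s t e => by
    have : θ (1, s.1) = θ (1, t.1) := congrArg Subtype.val e
    exact Subtype.ext (congrArg Prod.snd (hθ this))
  have hns : ¬ Group.IsSolvable κ.range := fun h =>
    alt5_not_solvable (Group.isSolvable_of_isSolvable_injective (f := κ.rangeRestrict)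
      (κ.rangeRestrict_injective_iff.2 hκ))
  refine ⟨⟨θ (σ, 1), by rw [Perm.mem_alternatingGroup, hsg, hs, map_one, one_mul]⟩, ?_, fun hc => ?_, κ.range, ?_, ?_, hns⟩
  · rw [← Subgroup.orderOf_coe]
    exact orderOf_injective (θ.comp (MonoidHom.inl _ _)) (hθ.comp fun a b e => congrArg Prod.fst e) σ
  · haveI : IsSimpleGroup (alternatingGroup (Fin d)) := alternatingGroup.isSimpleGroup (by simp; omega)
    rcases (inferInstance : (center (alternatingGroup (Fin d))).Normal).eq_bot_or_eq_top with h | h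
    · rw [h, mem_bot] at hc
      have : θ (σ, 1) = θ 1 := (congrArg Subtype.val hc).trans (map_one θ).symm
      exact h1 (congrArg Prod.fst (hθ this))
    · exact hns (Group.isSolvable_of_comm fun a b => by
        have : b.1 ∈ center (alternatingGroup (Fin d)) := h ▸ mem_top _
        exact Subtype.ext (mem_center_iff.1 this a))
  · rintro _ ⟨t, rfl⟩
    rw [mem_centralizer_singleton_iff]
    apply Subtype.ext
    show θ (1, t.1) * θ (σ, 1) = θ (σ, 1) * θ (1, t.1)
    rw [← map_mul, ← map_mul]; simp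
  · rw [← Nat.card_congr (κ.ofInjective hκ).toEquiv]
    have := two_mul_nat_card_alternatingGroup (α := Fin 5)
    rw [Nat.card_perm, Nat.card_eq_fintype_card (α := Fin 5), Fintype.card_fin] at this
    have h5 : Nat.factorial 5 = 120 := rfl
    omega

theorem restrict {H : Type u} [Group H] {n d : ℕ} (h : n ≤ d) (π : H →* alternatingGroup (Fin d))
    (hπ : Function.Surjective π) : ∃ (K : Subgroup H) (π' : K →* alternatingGroup (Fin n)), Function.Surjective π' := by
  let κ : alternatingGroup (Fin n) →* alternatingGroup (Fin d) :=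
    ((Perm.viaEmbeddingHom (Fin.castLEEmb h)).comp (alternatingGroup (Fin n)).subtype).codRestrict _ fun t => by
      rw [Perm.mem_alternatingGroup]
      exact (sign_via _ _).trans t.2
  have hκ : Function.Injective κ := fun s t e =>
    Subtype.ext (Perm.viaEmbeddingHom_injective (Fin.castLEEmb h) (congrArg Subtype.val e))
  refine ⟨κ.range.comap π, (κ.ofInjective hκ).symm.toMonoidHom.comp
    ((π.comp (κ.range.comap π).subtype).codRestrict κ.range fun x => x.2),
    (κ.ofInjective hκ).symm.surjective.comp fun y => ?_⟩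
  obtain ⟨x, hx⟩ := hπ y
  exact ⟨⟨x, mem_comap.2 (hx ▸ y.2)⟩, Subtype.ext hx⟩

theorem rot (p : ℕ) [hp : Fact p.Prime] (h2 : p ≠ 2) :
    Perm.sign (finRotate p) = 1 ∧ finRotate p ≠ 1 ∧ orderOf (finRotate p) = p := by
  have hc := isCycle_finRotate_of_le hp.out.two_le
  refine ⟨?_, hc.ne_one, ?_⟩
  · rw [sign_finRotate]; exact (hp.out.even_sub_one h2).neg_one_pow
  · rw [hc.orderOf, support_finRotate_of_le hp.out.two_le]; simp

theorem main {H : Type u} [Group H] [Finite H] (p : ℕ) [hp : Fact p.Prime] (hp3 : p ≠ 3) (h : Hy p H) {d : ℕ}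
    (π : H →* alternatingGroup (Fin d)) (hπ : Function.Surjective π) : d ≤ p + 4 + (if p = 2 then 2 else 0) := by
  by_contra hd
  by_cases h2 : p = 2
  · subst h2
    obtain ⟨K, π', h'⟩ := restrict (n := 9) (by simp at hd; omega) π hπ
    obtain ⟨x, hx, hc, L, hL, -, hns⟩ := alt_data (a := 4) (d := 9) le_rfl (swap 0 1 * swap 2 3) (by decide) (by decide)
    exact hns (case_mc (h.sub K) π' h' (hx.trans (orderOf_eq_prime (by decide) (by decide))) hc L hL
      fun V _ _ ρ => mc2 ρ)
  rw [if_neg h2] at hd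
  obtain ⟨r1, r2, r3⟩ := rot p h2
  by_cases h5 : p = 5
  · subst h5
    obtain ⟨K, π', h'⟩ := restrict (n := 10) (by omega) π hπ
    obtain ⟨x, hx, hc, L, hL, -, hns⟩ := alt_data (a := 5) (d := 10) le_rfl _ r1 r2
    exact hns (case_mc (h.sub K) π' h' (hx.trans r3) hc L hL fun V _ _ ρ => mc5 ρ)
  obtain ⟨x, hx, hc, L, hL, h60, hns⟩ := alt_data (a := p) (d := d) (by omega) _ r1 r2
  refine hns (case_coprime h π hπ (hx.trans r3) hc L hL fun hdv => ?_)
  rw [h60, show 60 = 2 * (2 * (3 * 5)) from rfl] at hdv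
  simp only [hp.out.dvd_mul, Nat.prime_dvd_prime_iff_eq hp.out Nat.prime_two,
    Nat.prime_dvd_prime_iff_eq hp.out Nat.prime_three, Nat.prime_dvd_prime_iff_eq hp.out Nat.prime_five] at hdv
  tauto

end CF.Mc
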