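import Cfsg.Agent.Perm.SylP
import Cfsg.Agent.Perm.AbSub
import Cfsg.Agent.Solv.Nilpotent

/-! Nilpotent subgroups of largest order in symmetric and alternating groups. -/

set_option autoImplicit false

namespace CF.Perm

open Equiv Equiv.Perm Subgroup MulAction
open scoped Pointwise

section Coprime

variable {G Ω : Type*} [Group G] [MulAction G Ω] {P Q : Subgroup G}

theorem smul_mem_orbit_iff (g : G) {a b : Ω} : g • b ∈ orbit G a ↔ b ∈ orbit G a :=
  ⟨fun h => by simpa using mapsTo_smul_orbit g⁻¹ a h, fun h => mapsTo_smul_orbit g a h⟩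

theorem smul_eq_of_mem_orbit [Finite G] (hc : ∀ x ∈ P, ∀ y ∈ Q, Commute x y)
    (h : (Nat.card P).Coprime (Nat.card Q)) {x : G} (hx : x ∈ P) {a : Ω} (ha : x • a ∈ orbit Q a) :
    x • a = a := by
  obtain ⟨⟨y, hy⟩, e⟩ := ha
  have h1 : (y⁻¹ * x) ^ Nat.card Q ∈ stabilizer G a :=
    pow_mem (by rw [mem_stabilizer_iff, mul_smul, inv_smul_eq_iff]; exact e.symm) _
  rw [(hc x hx y hy).symm.inv_left.mul_pow, inv_pow,
    show y ^ Nat.card Q = 1 from congrArg Subtype.val (pow_card_eq_one' (x := (⟨y, hy⟩ : Q))),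
    inv_one, one_mul] at h1
  obtain ⟨m, hm⟩ := exists_pow_eq_self_of_coprime (x := x)
    (h.symm.coprime_dvd_right (orderOf_dvd_natCard P hx))
  exact hm ▸ pow_mem h1 m

/-- the action of a subgroup on the orbits of a subgroup commuting with it -/
abbrev commAction (Ω : Type*) [MulAction G Ω] (hc : ∀ x ∈ P, ∀ y ∈ Q, Commute x y) :
    MulAction P (orbitRel.Quotient Q Ω) where
  smul x := Quotient.map' (x • ·) fun a b ⟨y, e⟩ => ⟨y, by
    rw [← e]; exact (mul_smul _ _ _).symm.trans ((hc x x.2 y y.2).eq ▸ mul_smul _ _ _)⟩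
  one_smul := by rintro ⟨a⟩; exact congrArg Quotient.mk'' (one_smul P a)
  mul_smul x y := by rintro ⟨a⟩; exact congrArg Quotient.mk'' (mul_smul x y a)

theorem faithful_commAction [Finite G] [FaithfulSMul G Ω] (hc : ∀ x ∈ P, ∀ y ∈ Q, Commute x y)
    (h : (Nat.card P).Coprime (Nat.card Q)) :
    @FaithfulSMul P (orbitRel.Quotient Q Ω) (commAction Ω hc).toSMul := by
  let _ := commAction Ω hc
  refine faithfulSMul_iff.2 fun x hx => Subtype.ext (faithfulSMul_iff.1 ‹_› _ fun a => ?_)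
  exact smul_eq_of_mem_orbit hc h x.2 (Quotient.exact (hx (Quotient.mk'' a)))

theorem exists_nilpotent_split [Finite G] (N : Subgroup G) [Group.IsNilpotent N] (p : ℕ)
    [Fact p.Prime] : ∃ P ≤ N, ∃ Q ≤ N, IsPGroup p P ∧ ¬ p ∣ Nat.card Q ∧
      (∀ x ∈ P, ∀ y ∈ Q, Commute x y) ∧ (Nat.card P).Coprime (Nat.card Q) ∧
      Nat.card N = Nat.card P * Nat.card Q ∧ ∀ g ∈ N, ∃ x ∈ P, ∃ y ∈ Q, x * y = g := by
  have h1 : (Nat.card (Cfsg.pCore p N)).Coprime (Nat.card (Cfsg.pPrimeCore p N)) := by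
    obtain ⟨k, hk⟩ := IsPGroup.iff_card.1 (CF.Solv.pCore_isPGroup (p := p) (G := N))
    exact hk ▸ CF.Solv.pPrimeCore_coprime.symm.pow_left k
  have h2 : (Cfsg.pCore p N : Set N) * (Cfsg.pPrimeCore p N : Set N) = Set.univ := by
    rw [← mul_normal, CF.Solv.pCore_sup_pPrimeCore, coe_top]
  have h3 := card_map_of_injective (K := Cfsg.pCore p N) N.subtype_injective
  have h4 := card_map_of_injective (K := Cfsg.pPrimeCore p N) N.subtype_injective
  refine ⟨_, map_subtype_le (Cfsg.pCore p N), _, map_subtype_le (Cfsg.pPrimeCore p N),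
    CF.Solv.isPGroup_map_pCore N, h4 ▸ CF.Solv.not_dvd_card_pPrimeCore, fun x hx y hy =>
    (CF.Solv.le_centralizer_of_coprime_of_isNilpotent (map_subtype_le _) (map_subtype_le _)
      (h3 ▸ h4 ▸ h1) hx y hy).symm, h3 ▸ h4 ▸ h1, ?_, fun g hg => ?_⟩
  · rw [h3, h4, (isComplement'_of_disjoint_and_mul_eq_univ (disjoint_of_coprime_natCard h1)
      h2).card_mul_card]
  · obtain ⟨x, hx, y, hy, e⟩ := h2.ge (Set.mem_univ (⟨g, hg⟩ : N))
    exact ⟨x, ⟨x, hx, rfl⟩, y, ⟨y, hy, rfl⟩, congrArg Subtype.val e⟩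

theorem card_le_of_isPGroup {p : ℕ} [hp : Fact p.Prime] [Finite Ω] [FaithfulSMul G Ω]
    (hG : IsPGroup p G) : Nat.card G ≤ p ^ (Nat.card Ω).factorial.factorization p := by
  obtain ⟨S⟩ : Nonempty (Sylow p (Perm Ω)) := inferInstance
  obtain ⟨f, hf⟩ := exists_injective_sylow hG (f := toPermHom G Ω) toPerm_injective S
  exact card_sylow_perm S ▸ Nat.card_le_card_of_injective f hf

theorem exists_nilpotent_prod [Finite G] [Group.IsNilpotent P] [Group.IsNilpotent Q]
    (hc : ∀ x ∈ P, ∀ y ∈ Q, Commute x y) (h : (Nat.card P).Coprime (Nat.card Q)) :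
    ∃ N : Subgroup G, Group.IsNilpotent N ∧ Nat.card N = Nat.card P * Nat.card Q := by
  let f := P.subtype.noncommCoprod Q.subtype fun x y => hc x x.2 y y.2
  have hf : Function.Injective f := (injective_iff_map_eq_one _).2 fun ⟨x, y⟩ e => by
    have h1 : (x : G) = (y : G)⁻¹ := eq_inv_of_mul_eq_one_left e
    have h2 : (x : G) = 1 := (disjoint_def.1 (disjoint_of_coprime_natCard h)) x.2 (h1 ▸ inv_mem y.2)
    exact Prod.ext (Subtype.ext h2) (Subtype.ext (inv_eq_one.1 (h1.symm.trans h2)))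
  exact ⟨f.range, Group.nilpotent_of_mulEquiv (MonoidHom.ofInjective hf),
    by rw [← Nat.card_congr (MonoidHom.ofInjective hf).toEquiv, Nat.card_prod]⟩

end Coprime

universe v

theorem card_le_of_isNilpotent {s : ℕ → ℕ} {π : ℕ → Prop} {n₀ : ℕ} (h0 : 1 ≤ s 0) (h1 : 1 ≤ s 1)
    (hs : ∀ a b, a + b ≤ n₀ → s a * s b ≤ s (a + b))
    (hp : ∀ p k, p.Prime → π p → p ^ k ≤ n₀ → p ^ (p ^ k).factorial.factorization p ≤ s (p ^ k))
    (n : ℕ) : ∀ {Ω : Type v} [Finite Ω] (N : Subgroup (Perm Ω)) [Group.IsNilpotent N],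
      (∀ p, p.Prime → p ∣ Nat.card N → π p) → Nat.card Ω = n → n ≤ n₀ → Nat.card N ≤ s n := by
  have mono : ∀ a b, a ≤ b → b ≤ n₀ → s a ≤ s b := fun a b h => by
    induction b, h using Nat.le_induction with
    | base => exact fun _ => le_rfl
    | succ b h ih => exact fun hb => (ih (by omega)).trans ((Nat.le_mul_of_pos_right _ h1).trans (hs b 1 hb))
  induction' n using Nat.strong_induction_on with n ih
  intro Ω _ N _ hπ hn h
  have key : ∀ (H : Subgroup N) (X : Type v) [Finite X] [MulAction H X], Nat.card X < n →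
      Nat.card (toPermHom H X).range ≤ s (Nat.card X) := fun H X _ _ hX =>
    have := Group.nilpotent_of_surjective _ (toPermHom H X).rangeRestrict_surjective
    ih _ hX _ (fun p h1 h2 => hπ p h1 (h2.trans ((card_range_dvd _).trans (card_subgroup_dvd_card H))))
      rfl (by omega)
  have key' : ∀ (H : Subgroup N) (X : Type v) [Finite X] [MulAction H X] [FaithfulSMul H X],
      Nat.card X < n → Nat.card H ≤ s (Nat.card X) := fun H X _ _ _ hX =>
    (Nat.card_congr (MonoidHom.ofInjective (f := toPermHom H X) toPerm_injective).toEquiv).trans_le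
      (key H X hX)
  by_cases hN : Nat.card N = 1
  · exact hN ▸ h0.trans (mono 0 n n.zero_le h)
  obtain ⟨x⟩ : Nonempty Ω := by
    by_contra h
    rw [not_nonempty_iff] at h
    exact hN (by simp [Subsingleton.elim N ⊥])
  by_cases ht : orbit (⊤ : Subgroup N) x = Set.univ
  · obtain ⟨p, hp1, hp2⟩ := Nat.exists_prime_and_dvd hN
    have := Fact.mk hp1
    by_cases hP : IsPGroup p N
    · obtain ⟨k, hk⟩ := (hP.to_subgroup ⊤).card_orbit x
      rw [ht, Nat.card_univ, hn] at hk
      exact (card_le_of_isPGroup (Ω := Ω) hP).trans (by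
        rw [hn, hk]; exact hp p k hp1 (hπ p hp1 hp2) (hk ▸ h))
    obtain ⟨P, -, Q, -, h2, h3, hc, h4, h5, h6⟩ := exists_nilpotent_split (⊤ : Subgroup N) p
    rw [card_top] at h5
    let _ := commAction Ω hc
    let _ := commAction Ω fun x hx y hy => (hc y hy x hx).symm
    have := faithful_commAction (Ω := Ω) hc h4
    have := faithful_commAction (Ω := Ω) (fun x hx y hy => (hc y hy x hx).symm) h4.symm
    have h7 : ∀ (H : Subgroup N) (X : Type v) [Finite X] [MulAction H X] [FaithfulSMul H X],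
        Nat.card H ≠ 1 → 2 ≤ Nat.card X := fun H X _ _ _ hH => by
      by_contra! h
      have := Finite.card_le_one_iff_subsingleton.1 (Nat.lt_succ_iff.1 h)
      have : Subsingleton H := (toPerm_injective (α := H) (β := X)).subsingleton
      exact hH Nat.card_unique
    have ha := h7 P (orbitRel.Quotient Q Ω) fun e => h3 (by rwa [h5, e, one_mul] at hp2)
    have hb := h7 Q (orbitRel.Quotient P Ω) fun e => hP (by
      obtain ⟨k, hk⟩ := IsPGroup.iff_card.1 h2
      exact IsPGroup.of_card (by rw [h5, e, mul_one, hk]))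
    have h8 := Nat.card_le_card_of_surjective (fun a : Ω => ((Quotient.mk'' a, Quotient.mk'' a) :
      orbitRel.Quotient Q Ω × orbitRel.Quotient P Ω)) (by
        rintro ⟨⟨a⟩, ⟨b⟩⟩
        obtain ⟨g, hg⟩ := (orbit_eq_iff.2 (ht.ge (Set.mem_univ a))).trans ht |>.ge (Set.mem_univ b)
        obtain ⟨u, hu, w, hw, e⟩ := h6 g g.2
        refine ⟨w • a, Prod.ext (Quotient.sound' ⟨⟨w, hw⟩, rfl⟩) (Quotient.sound' ⟨⟨u, hu⟩⁻¹, ?_⟩)⟩
        rw [← hg]
        exact inv_smul_eq_iff.2 (show (g : N) • a = u • w • a by rw [← e, mul_smul]))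
    rw [Nat.card_prod, hn] at h8
    rw [h5]
    exact (Nat.mul_le_mul (key' P (orbitRel.Quotient Q Ω) (by nlinarith))
      (key' Q (orbitRel.Quotient P Ω) (by nlinarith))).trans
      ((hs _ _ (by nlinarith)).trans (mono _ _ (by nlinarith) h))
  · let f := toPermHom (⊤ : Subgroup N) (orbit (⊤ : Subgroup N) x)
    let S : SubMulAction (f.ker.map (⊤ : Subgroup N).subtype) Ω := ⟨(orbit (⊤ : Subgroup N) x)ᶜ,
      fun g y hy h => hy ((smul_mem_orbit_iff (⟨g, trivial⟩ : (⊤ : Subgroup N))).1 h)⟩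
    have : FaithfulSMul (f.ker.map (⊤ : Subgroup N).subtype) S := faithfulSMul_iff.2 fun g hg => by
      ext y
      by_cases hy : y ∈ orbit (⊤ : Subgroup N) x
      · obtain ⟨_, k, hk, rfl⟩ := g
        exact congrArg Subtype.val (DFunLike.congr_fun hk ⟨y, hy⟩)
      · exact congrArg Subtype.val (hg ⟨y, hy⟩)
    have h2 := Set.ncard_add_ncard_compl (orbit (⊤ : Subgroup N) x)
    have h3 := (Set.ncard_pos (s := orbit (⊤ : Subgroup N) x)).2 ⟨x, mem_orbit_self x⟩
    have h4 := (Set.ncard_pos (s := (orbit (⊤ : Subgroup N) x)ᶜ)).2 (Set.nonempty_compl.2 ht)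
    have h5 := key ⊤ (orbit (⊤ : Subgroup N) x) (by rw [Nat.card_coe_set_eq]; omega)
    have h6 := key' (f.ker.map (⊤ : Subgroup N).subtype) S (show (orbit (⊤ : Subgroup N) x)ᶜ.ncard < n by omega)
    rw [card_map_of_injective (subtype_injective _)] at h6
    rw [← card_top, ← f.ker.index_mul_card, index_ker, ← hn, ← h2]
    exact (Nat.mul_le_mul h5 h6).trans (hs _ _ (h2.trans_le (hn.trans_le h)))

/-- exponent of `2` in `n!` -/
noncomputable abbrev v2 (n : ℕ) : ℕ := n.factorial.factorization 2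

/-- the largest order of a nilpotent subgroup of `S_n` -/
noncomputable def nilB (n : ℕ) : ℕ := 2 ^ (v2 (n / 4) + 3 * (n / 4)) * [1, 1, 2, 3].getD (n % 4) 0

theorem v2_eq (n : ℕ) : v2 n = v2 (n / 4) + 3 * (n / 4) + n % 4 / 2 := by
  rw [v2, factorization_factorial_eq, factorization_factorial_eq (n / 2), Nat.div_div_eq_div_mul,
    v2, show 2 * 2 = 4 from rfl]
  omega

theorem v2_add (a b : ℕ) : v2 a + v2 b ≤ v2 (a + b) := by
  have := (Nat.factorization_le_iff_dvd (mul_ne_zero a.factorial_ne_zero b.factorial_ne_zero)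
    (a + b).factorial_ne_zero).2 (Nat.factorial_mul_factorial_dvd_factorial_add a b) 2
  rwa [Nat.factorization_mul a.factorial_ne_zero b.factorial_ne_zero] at this

theorem nilB_of_ne {n : ℕ} (h : n % 4 ≠ 3) : nilB n = 2 ^ v2 n := by
  have := Nat.mod_lt n (show 0 < 4 by simp)
  rw [nilB, v2_eq n, pow_add _ _ (n % 4 / 2)]
  interval_cases n % 4 <;> simp_all

theorem nilB_of_eq {n : ℕ} (h : n % 4 = 3) : nilB n = 3 * 2 ^ v2 (n - 3) := by
  rw [nilB, v2_eq (n - 3), h, show (n - 3) / 4 = n / 4 by omega, show (n - 3) % 4 = 0 by omega]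
  simp [mul_comm]

theorem nilB_mul_le (a b : ℕ) : nilB a * nilB b ≤ nilB (a + b) := by
  have h1 := v2_add (a / 4) (b / 4)
  have h2 := v2_add (a / 4 + b / 4) 1
  have h3 := Nat.mod_lt a (show 0 < 4 by simp)
  have h4 := Nat.mod_lt b (show 0 < 4 by simp)
  unfold nilB
  rw [mul_mul_mul_comm, ← pow_add, Nat.add_mod]
  by_cases h : a % 4 + b % 4 < 4
  · rw [show (a + b) / 4 = a / 4 + b / 4 by omega]
    refine Nat.mul_le_mul (Nat.pow_le_pow_right two_pos (by omega)) ?_
    interval_cases a % 4 <;> interval_cases b % 4 <;> simp_all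
  · rw [show (a + b) / 4 = a / 4 + b / 4 + 1 by omega, mul_add 3 _ 1, ← add_assoc _ _ (3 * 1),
      pow_add _ _ (3 * 1), mul_assoc]
    refine Nat.mul_le_mul (Nat.pow_le_pow_right two_pos (by omega)) ?_
    interval_cases a % 4 <;> interval_cases b % 4 <;> simp_all

theorem nilB_small {n : ℕ} (h : n < 24) : nilB n =
    2 ^ ([0, 0, 1, 1, 3, 3].getD (n / 4) 0 + 3 * (n / 4)) * [1, 1, 2, 3].getD (n % 4) 0 := by
  have h0 : v2 0 = 0 := by simp [v2]
  have h1 : v2 1 = 0 := by simp [v2]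
  have : n / 4 < 6 := by omega
  rw [nilB, v2_eq]
  interval_cases n / 4 <;> simp only [Nat.reduceDiv, h0, h1] <;> rfl

theorem three_pow_le_nilB (n : ℕ) : 16 ≤ n → 4 * 3 ^ (n - 1) ≤ nilB n * nilB n := by
  induction' n using Nat.strong_induction_on with n ih
  intro h
  by_cases h1 : n < 24
  · rw [nilB_small h1]
    interval_cases n <;> decide
  · obtain ⟨n, rfl⟩ : ∃ k, n = k + 8 := ⟨n - 8, by omega⟩
    have h2 := nilB_mul_le n 8
    have h3 := ih n (by omega) (by omega)
    rw [nilB_small (n := 8) (by simp)] at h2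
    rw [show n + 8 - 1 = n - 1 + 8 by omega, pow_add]
    simp at h2
    nlinarith

theorem sub_one_mul_factorization {p : ℕ} (hp : p.Prime) (k : ℕ) :
    (p - 1) * (p ^ k).factorial.factorization p + 1 = p ^ k := by
  have := Fact.mk hp
  induction k with
  | zero => simp
  | succ k ih =>
    rw [factorization_factorial_eq, pow_succ, Nat.mul_div_cancel _ hp.pos, mul_add, add_right_comm, ih]
    obtain ⟨q, rfl⟩ := Nat.exists_eq_add_of_le' hp.one_le
    simp; ring

theorem card_sq_le_of_odd {Ω : Type*} [Finite Ω] (N : Subgroup (Perm Ω)) [Group.IsNilpotent N]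
    (h : ¬ 2 ∣ Nat.card N) : Nat.card N * Nat.card N ≤ 3 ^ (Nat.card Ω - 1) := by
  refine Nat.le_sqrt.1 (card_le_of_isNilpotent (s := fun n => (3 ^ (n - 1)).sqrt) (π := (· ≠ 2))
    (by simp) (by simp) (fun a b _ => Nat.le_sqrt.2 ?_) (fun p k hp h2 _ => Nat.le_sqrt.2 ?_) _ N
    (fun p _ h1 e => h (e ▸ h1)) rfl le_rfl)
  · rw [mul_mul_mul_comm]
    refine (Nat.mul_le_mul (Nat.sqrt_le _) (Nat.sqrt_le _)).trans ?_
    rw [← pow_add]
    exact Nat.pow_le_pow_right (by simp) (by omega)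
  · rw [← mul_pow, show p ^ k - 1 = _ from Nat.sub_eq_of_eq_add (sub_one_mul_factorization hp k).symm,
      pow_mul]
    refine Nat.pow_le_pow_left ?_ _
    have h3 : 3 ≤ p := by have := hp.two_le; omega
    clear hp h2 ‹p ^ k ≤ _›
    induction p, h3 using Nat.le_induction with
    | base => simp
    | succ p h ih =>
      obtain ⟨q, rfl⟩ := Nat.exists_eq_add_of_le' (show 1 ≤ p by omega)
      simp only [Nat.add_sub_cancel, pow_succ] at *
      nlinarith

/-- the largest order of a nilpotent subgroup of odd order of `S_n`, `n ≤ 15` -/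
def oddB (n : ℕ) : ℕ := [1, 1, 1, 3, 3, 5, 9, 9, 15, 81, 81, 81, 243, 243, 405, 729].getD n 0

theorem pow_le_oddB {p k : ℕ} (hp : p.Prime) (h2 : p ≠ 2) (h : p ^ k ≤ 15) :
    p ^ (p ^ k).factorial.factorization p ≤ oddB (p ^ k) := by
  have h1 := sub_one_mul_factorization hp k
  have h3 := hp.two_le
  generalize (p ^ k).factorial.factorization p = v at *
  rcases k with _ | _ | _ | k
  · obtain rfl : v = 0 := by simp at h1; omega
    simp [oddB]
    decide
  · simp only [zero_add, pow_one] at *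
    obtain rfl : v = 1 := by
      obtain ⟨q, rfl⟩ := Nat.exists_eq_add_of_le' h3
      simpa using h1
    interval_cases p <;> simp_all (config := {decide := true})
  · obtain rfl : p = 3 := by
      have : p < 4 := by simp at h; nlinarith
      omega
    obtain rfl : v = 4 := by omega
    simp [oddB]
  · have := Nat.pow_le_pow_left (show 3 ≤ p by omega) 3
    have := Nat.pow_le_pow_right hp.pos (show 3 ≤ k + 1 + 1 + 1 by omega)
    omega

theorem card_le_oddB {Ω : Type*} [Finite Ω] (hΩ : Nat.card Ω ≤ 15) (N : Subgroup (Perm Ω))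
    [Group.IsNilpotent N] (h : ¬ 2 ∣ Nat.card N) : Nat.card N ≤ oddB (Nat.card Ω) :=
  card_le_of_isNilpotent (π := (· ≠ 2)) (by decide) (by decide)
    (fun a b h => (by decide : ∀ a ≤ 15, ∀ b ≤ 15, a + b ≤ 15 → oddB a * oddB b ≤ oddB (a + b))
      a (by omega) b (by omega) h) (fun _ _ => pow_le_oddB) _ N (fun p _ h1 e => h (e ▸ h1)) rfl hΩ

theorem card_le_nilB {Ω : Type*} [Finite Ω] (N : Subgroup (Perm Ω)) [Group.IsNilpotent N] :
    Nat.card N ≤ nilB (Nat.card Ω) := by
  refine card_le_of_isNilpotent (π := fun _ => True) (by rw [nilB_small (by simp)]; decide)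
    (by rw [nilB_small (by simp)]; decide) (fun a b _ => nilB_mul_le a b) (fun p k hp _ _ => ?_) _ N
    (fun _ _ _ => trivial) rfl le_rfl
  by_cases h2 : p = 2
  · subst h2
    rw [nilB_of_ne]
    rcases k with _ | _ | k <;> simp [pow_succ, mul_assoc]
  by_cases h : p ^ k ≤ 15
  · refine (pow_le_oddB hp h2 h).trans ?_
    rw [nilB_small (by omega)]
    generalize p ^ k = m at h
    interval_cases m <;> decide
  · have := Fact.mk hp
    obtain ⟨S⟩ : Nonempty (Sylow p (Perm (Fin (p ^ k)))) := inferInstance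
    have := S.isPGroup'.isNilpotent
    have h3 := card_sq_le_of_odd S.1 (by
      rw [card_sylow_perm]
      exact fun h => h2 ((Nat.prime_dvd_prime_iff_eq Nat.prime_two hp).1
        (Nat.prime_two.dvd_of_dvd_pow h)).symm)
    have h4 := three_pow_le_nilB (p ^ k) (by omega)
    rw [card_sylow_perm, Nat.card_fin] at h3
    exact Nat.mul_self_le_mul_self_iff.1 (by omega)

variable {Ω : Type*} [Fintype Ω] [DecidableEq Ω]

theorem exists_odd_centralizing {Q : Subgroup (Perm Ω)} (hQ : ¬ 2 ∣ Nat.card Q) {x : Perm Ω}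
    (hc : ∀ y ∈ Q, Commute x y) {a : Ω} (ha : x a ∉ orbit Q a) :
    ∃ t : Perm Ω, t ^ 2 = 1 ∧ sign t = -1 ∧ ∀ y ∈ Q, Commute t y := by
  classical
  have h0 : ∀ (y : Q) z, x (y • z) = y • x z := fun y z => DFunLike.congr_fun (hc y y.2).eq z
  have h0' : ∀ (y : Q) z, x⁻¹ (y • z) = y • x⁻¹ z := fun y z =>
    DFunLike.congr_fun (hc y y.2).inv_left.eq z
  have h1 : ∀ z ∈ orbit Q a, x z ∉ orbit Q a := by
    rintro _ ⟨y, rfl⟩ h
    exact ha (by simpa [h0, smul_mem_orbit_iff] using h)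
  let f : Ω → Ω := fun z => if z ∈ orbit Q a then x z else if x⁻¹ z ∈ orbit Q a then x⁻¹ z else z
  have hf : Function.Involutive f := fun z => by
    by_cases h2 : z ∈ orbit Q a
    · simp [f, h2, h1 z h2]
    · by_cases h3 : x⁻¹ z ∈ orbit Q a <;> simp only [f, h2, h3, if_true, if_false]
      simp
  have h2 : hf.toPerm f ^ 2 = 1 := Equiv.ext hf
  refine ⟨hf.toPerm f, h2, ?_, fun y hy => Equiv.ext fun z => ?_⟩
  · have h3 : ((hf.toPerm f).support : Set Ω) = orbit Q a ∪ x '' orbit Q a := by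
      ext z
      rw [Finset.mem_coe, mem_support, Set.mem_union, Set.mem_image_equiv]
      show f z ≠ z ↔ _ ∨ x⁻¹ z ∈ _
      by_cases h2 : z ∈ orbit Q a
      · exact iff_of_true (by simp only [f, h2, if_true]; exact fun e => h1 z h2 (e.symm ▸ h2)) (.inl h2)
      · by_cases h3 : x⁻¹ z ∈ orbit Q a
        · exact iff_of_true (by simp only [f, h2, h3, if_true, if_false]; exact fun e => h2 (e ▸ h3))
            (.inr h3)
        · simp only [f, h2, h3, if_false]; simp
    have h4 := congrArg Set.ncard h3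
    rw [Set.ncard_coe_finset, Set.ncard_union_eq (Set.disjoint_left.2 (by
      rintro _ h ⟨z, hz, rfl⟩; exact h1 z hz h)), Set.ncard_image_of_injective _ x.injective,
      ← sum_cycleType, cycleType_of_pow_prime_eq_one h2, ← index_stabilizer] at h4
    have h5 := fun h => hQ (Dvd.dvd.trans h (stabilizer Q a).index_dvd_card)
    have h5 : ¬ 2 ∣ (stabilizer Q a).index := h5
    rw [← Int.units_ne_iff_eq_neg, ne_eq, ← mem_alternatingGroup, mem_alt_iff_even,
      cycleType_of_pow_prime_eq_one h2, Nat.even_iff]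
    simp only [Multiset.sum_replicate, smul_eq_mul, Multiset.card_replicate] at h4 ⊢
    omega
  · show f ((⟨y, hy⟩ : Q) • z) = (⟨y, hy⟩ : Q) • f z
    simp only [f, h0, h0', smul_mem_orbit_iff, smul_ite]

theorem two_mul_card_le_nilB (h : Nat.card Ω ∉ [0, 1, 3, 5, 6, 9]) {N : Subgroup (Perm Ω)}
    [Group.IsNilpotent N] (hN : N ≤ alternatingGroup Ω) : 2 * Nat.card N ≤ nilB (Nat.card Ω) := by
  obtain ⟨P, h1, Q, h2, h3, h4, hc, h5, h6, -⟩ := exists_nilpotent_split N 2
  have : Group.IsNilpotent Q := Group.nilpotent_of_mulEquiv (subgroupOfEquivOfLe h2)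
  have h7 : P ≤ centralizer Q := fun x hx y hy => (hc x hx y hy).symm
  obtain ⟨S, hS⟩ := (h3.comap_subtype (K := centralizer (Q : Set (Perm Ω)))).exists_le_sylow
  replace hS : P ≤ S.1.map (Subgroup.subtype _) := by
    simpa [map_comap_eq, h7] using map_mono (f := Subgroup.subtype _) hS
  rcases hS.eq_or_lt with e | e
  · have h8 : P = ⊥ := (eq_bot_iff_forall _).2 fun x hx => Equiv.ext fun a => by
      refine smul_eq_of_mem_orbit hc h5 hx (by_contra fun ha => ?_)
      obtain ⟨t, h8, h9, h10⟩ := exists_odd_centralizing h4 (hc x hx) ha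
      obtain ⟨T, hT⟩ := (show IsPGroup 2 (zpowers (⟨t, fun y hy => (h10 y hy).symm⟩ :
        centralizer (Q : Set (Perm Ω)))) from IsPGroup.of_card_dvd_pow (n := 1) (by
          rw [Nat.card_zpowers]; exact orderOf_dvd_of_pow_eq_one (Subtype.ext h8))).exists_le_sylow
      obtain ⟨g, rfl⟩ := exists_smul_eq (centralizer (Q : Set (Perm Ω))) S T
      obtain ⟨u, hu, e'⟩ := hT (mem_zpowers _)
      have h11 := mem_alternatingGroup.1 (alternatingGroup.normal.conj_mem _
        (hN (h1 (e.ge ⟨u, hu, rfl⟩))) g)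
      rw [show (g : Perm Ω) * Subgroup.subtype _ u * (g : Perm Ω)⁻¹ = t from congrArg Subtype.val e', h9] at h11
      exact absurd h11 (by decide)
    rw [h6, h8, card_bot, one_mul]
    by_cases h9 : Nat.card Ω ≤ 15
    · refine (Nat.mul_le_mul_left 2 (card_le_oddB h9 Q h4)).trans ?_
      rw [nilB_small (by omega)]
      generalize Nat.card Ω = m at h h9
      interval_cases m <;> simp_all <;> decide
    · have := card_sq_le_of_odd Q h4
      have := three_pow_le_nilB (Nat.card Ω) (by omega)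
      exact Nat.mul_self_le_mul_self_iff.1 (by nlinarith)
  · have h8 := S.isPGroup'.map (Subgroup.subtype _)
    have := h8.isNilpotent
    obtain ⟨k, hk⟩ := IsPGroup.iff_card.1 h8
    obtain ⟨M, _, h9⟩ := exists_nilpotent_prod (P := S.1.map (Subgroup.subtype _)) (Q := Q)
      (fun x hx y hy => (map_subtype_le _ hx y hy).symm)
      (hk ▸ ((Nat.prime_two.coprime_iff_not_dvd).2 h4).pow_left k)
    have h10 := card_le_nilB M
    obtain ⟨d, hd⟩ := card_dvd_of_le e.le
    have h11 : d ≠ 1 := fun h => e.ne (eq_of_le_of_card_ge e.le (by rw [hd, h, mul_one]))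
    have h12 : d ≠ 0 := fun h => Nat.card_pos.ne' (by rw [hd, h, mul_zero])
    rw [h9, hd] at h10
    rw [h6]
    refine le_trans ?_ h10
    rw [← mul_assoc, mul_comm 2]
    gcongr
    omega

theorem exists_threeCycle_split {N : Subgroup (Perm Ω)} [Group.IsNilpotent N] {j : ℕ}
    (hN : Nat.card N = 3 * 2 ^ j) (hj : 6 ≤ Nat.card Ω → v2 (Nat.card Ω - 4) < j) :
    ∃ c : Perm Ω, c.IsThreeCycle ∧ ∃ P : Subgroup (Perm Ω), Nat.card P = 2 ^ j ∧
      P ≤ (ofSubtype (p := (· ∈ c.supportᶜ))).range ∧ N = P ⊔ zpowers c := by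
  obtain ⟨P, h1, Q, h2, h3, h4, hc, h5, h6, h7⟩ := exists_nilpotent_split N 2
  obtain ⟨k, hk⟩ := IsPGroup.iff_card.1 h3
  obtain ⟨rfl, hQ⟩ : k = j ∧ Nat.card Q = 3 := by
    have h8 := congrArg (·.factorization 2) (hN.symm.trans h6)
    simp only [hk] at h8
    rw [Nat.factorization_mul (by simp) (by simp), Nat.factorization_mul (by simp) Nat.card_pos.ne',
      Finsupp.add_apply, Finsupp.add_apply, Nat.factorization_eq_zero_of_not_dvd h4,
      Nat.factorization_eq_zero_of_not_dvd (by simp)] at h8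
    obtain rfl : k = j := by simpa [Nat.prime_two.factorization] using h8.symm
    rw [hN, hk, mul_comm] at h6
    exact ⟨rfl, (Nat.eq_of_mul_eq_mul_left (by simp) h6).symm⟩
  have : Fact (Nat.Prime 3) := ⟨Nat.prime_three⟩
  obtain ⟨⟨c, hcQ⟩, h8⟩ := exists_prime_orderOf_dvd_card' (G := Q) 3 hQ.symm.dvd
  replace h8 : orderOf c = 3 := (orderOf_mk _ _).symm.trans h8
  obtain rfl : zpowers c = Q := eq_of_le_of_card_ge (zpowers_le.2 hcQ) (by rw [hQ, Nat.card_zpowers, h8])
  have h9 : ∀ y, c y ≠ y → (orbit (zpowers c) y).ncard = 3 ∧ orbit (zpowers c) y ⊆ c.support := by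
    refine fun y hy => ⟨?_, ?_⟩
    · rw [← index_stabilizer]
      refine (Nat.prime_three.eq_one_or_self_of_dvd _ (hQ ▸ index_dvd_card _)).resolve_left fun e => ?_
      exact hy ((index_eq_one.1 e).ge (mem_top ⟨c, hcQ⟩))
    · rintro _ ⟨⟨_, i, rfl⟩, rfl⟩
      exact zpow_apply_mem_support.2 (mem_support.2 hy)
  obtain ⟨y, hy⟩ : ∃ y, c y ≠ y := by
    by_contra! h
    simp [show c = 1 from Equiv.ext h] at h8
  have h10 : orbit (zpowers c) y = c.support := by
    by_contra h
    obtain ⟨z, hz, hz'⟩ := Set.exists_of_ssubset ((h9 y hy).2.ssubset_of_ne h)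
    let _ := commAction Ω hc
    have := faithful_commAction (Ω := Ω) hc h5
    have h10 := card_le_of_isPGroup (Ω := orbitRel.Quotient (zpowers c) Ω) h3
    obtain ⟨m, hm⟩ := Multiset.le_iff_exists_add.1 ((Multiset.le_count_iff_replicate_le
      (s := orbLens (zpowers c) Ω) (a := 3) (n := 2)).1 (by
        rw [count_orbLens]
        exact Finite.one_lt_card_iff_nontrivial.2 ⟨⟨Quotient.mk'' z, (h9 z (mem_support.1 hz)).1⟩,
          ⟨Quotient.mk'' y, (h9 y hy).1⟩, fun e => hz' (Quotient.exact (congrArg Subtype.val e))⟩))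
    have h11 := sum_orbLens (G := zpowers c) (Ω := Ω)
    have h12 : (orbLens (zpowers c) Ω).card = Nat.card (orbitRel.Quotient (zpowers c) Ω) := by
      simp [orbLens, Finset.card_univ, ← Nat.card_eq_fintype_card]
    have h13 := Multiset.card_nsmul_le_sum (s := m) (a := 1) fun a ha => by
      obtain ⟨w, rfl⟩ := mem_orbLens.1 (hm ▸ Multiset.mem_add.2 (.inr ha))
      exact (Set.ncard_pos).2 ⟨w, mem_orbit_self w⟩
    rw [hm] at h11 h12
    simp at h11 h12 h13
    have h14 := v2_add (Nat.card (orbitRel.Quotient (zpowers c) Ω))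
      (Nat.card Ω - 4 - Nat.card (orbitRel.Quotient (zpowers c) Ω))
    rw [Nat.add_sub_cancel' (by rw [Nat.card_eq_fintype_card (α := Ω)]; omega)] at h14
    rw [hk, Nat.pow_le_pow_iff_right (by simp)] at h10
    have := hj (by rw [Nat.card_eq_fintype_card]; omega)
    unfold v2 at *
    omega
  refine ⟨c, card_support_eq_three_iff.1 (by rw [← Set.ncard_coe_finset, ← h10, (h9 y hy).1]), P, hk,
    fun x hx => mem_range_ofSubtype_iff.2 fun a ha => Finset.mem_compl.2 fun h => mem_support.1 ha ?_,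
    le_antisymm (fun g hg => ?_) (sup_le h1 h2)⟩
  · refine smul_eq_of_mem_orbit hc h5 hx ?_
    rw [orbit_eq_iff.2 (h10.ge h), h10, Finset.mem_coe, mem_support]
    exact fun e => mem_support.1 h (x.injective ((DFunLike.congr_fun (hc x hx c hcQ).eq a).trans e))
  · obtain ⟨u, hu, w, hw, rfl⟩ := h7 g hg
    exact mul_mem_sup hu hw

theorem conj_of_threeCycle_split {K : Subgroup (Perm Ω)} [K.Normal] {c d : Perm Ω} {g : Perm Ω}
    (hg : g ∈ K) (e : g * c * g⁻¹ = d) {P Q : Subgroup (Perm Ω)} (hP : P ≤ K) (hQ : Q ≤ K)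
    (h1 : P ≤ (ofSubtype (p := (· ∈ c.supportᶜ))).range)
    (h2 : Q ≤ (ofSubtype (p := (· ∈ d.supportᶜ))).range) (h3 : Nat.card P = Nat.card Q)
    (h4 : Nat.card Q = 2 ^ (Nat.card ↥((ofSubtype (p := (· ∈ d.supportᶜ))).range ⊓ K)).factorization 2) :
    ∃ k ∈ K, Q ⊔ zpowers d = (P ⊔ zpowers c).map (MulAut.conj k).toMonoidHom := by
  have h5 : P.map (MulAut.conj g).toMonoidHom ≤ (ofSubtype (p := (· ∈ d.supportᶜ))).range ⊓ K := by
    rintro _ ⟨x, hx, rfl⟩
    refine ⟨mem_range_ofSubtype_iff.2 fun a ha => ?_, ‹K.Normal›.conj_mem _ (hP hx) g⟩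
    obtain ⟨a, rfl⟩ := g.surjective a
    have h0 := mem_range_ofSubtype_iff.1 (h1 hx)
    have := @h0 a (by simpa using ha)
    simpa [← e] using this
  obtain ⟨k, hk⟩ := exists_smul_eq ↥((ofSubtype (p := (· ∈ d.supportᶜ))).range ⊓ K)
    (Sylow.ofCard ((P.map (MulAut.conj g).toMonoidHom).subgroupOf _) (by
      rw [Nat.card_congr (subgroupOfEquivOfLe h5).toEquiv,
        card_map_of_injective (MulAut.conj g).injective, h3, h4]))
    (Sylow.ofCard (Q.subgroupOf _) (by
      rw [Nat.card_congr (subgroupOfEquivOfLe (le_inf h2 hQ)).toEquiv, h4]))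
  have h6 : (k : Perm Ω) * d * (k : Perm Ω)⁻¹ = d := by
    rw [mul_inv_eq_iff_eq_mul]
    refine (disjoint_iff_disjoint_support.2 (Finset.disjoint_left.2 fun a ha => ?_)).commute.eq
    exact Finset.mem_compl.1 (mem_range_ofSubtype_iff.1 k.2.1 ha)
  refine ⟨k * g, mul_mem k.2.2 hg, ?_⟩
  rw [Subgroup.map_sup, MonoidHom.map_zpowers]
  congr 1
  · have h7 := congrArg (fun S : Sylow 2 _ => S.1.map (Subgroup.subtype _)) hk
    simp only [Sylow.coe_ofCard, map_subgroupOf_eq_of_le (le_inf h2 hQ)] at h7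
    rw [← h7]
    ext x
    constructor
    · rintro ⟨_, ⟨⟨_, h⟩, ⟨y, hy, rfl⟩, rfl⟩, rfl⟩
      exact ⟨y, hy, by simp [mul_assoc]⟩
    · rintro ⟨y, hy, rfl⟩
      exact ⟨_, ⟨⟨_, h5 ⟨y, hy, rfl⟩⟩, ⟨y, hy, rfl⟩, rfl⟩, by simp [mul_assoc]⟩
  · congr 1
    refine h6.symm.trans ?_
    generalize (k : Perm Ω) = k
    simp [← e, mul_assoc]

theorem exists_hom_prod_three {n : ℕ} (h : 3 ≤ n) : ∃ f : Perm (Fin (n - 3)) × Multiplicative (ZMod 3) →*
    Perm (Fin n), Function.Injective f ∧ ∀ x, sign (f x) = sign x.1 := by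
  obtain ⟨e⟩ : Nonempty (Fin (n - 3) ⊕ Multiplicative (ZMod 3) ≃ Fin n) :=
    Finite.card_eq.1 (by simp; omega)
  refine ⟨e.permCongrHom.toMonoidHom.comp ((sumCongrHom _ _).comp ((MonoidHom.id _).prodMap
    (toPermHom _ _))), e.permCongrHom.injective.comp (sumCongrHom_injective.comp
      (Function.injective_id.prodMap toPerm_injective)), fun x => ?_⟩
  have : sign (toPermHom _ (Multiplicative (ZMod 3)) x.2) = 1 := sign_eq_one_of_pow_odd (k := 3)
    (by decide) (by rw [← map_pow, show x.2 ^ 3 = 1 by generalize x.2 = y; revert y; decide, map_one])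
  simpa [permCongrHom] using this

theorem factorization_card_alt (h : 2 ≤ Nat.card Ω) :
    (Nat.card (alternatingGroup Ω)).factorization 2 + 1 = v2 (Nat.card Ω) := by
  have := Finite.one_lt_card_iff_nontrivial.1 h
  rw [v2, ← Nat.card_perm, ← two_mul_nat_card_alternatingGroup,
    Nat.factorization_mul (by simp) Nat.card_pos.ne', Finsupp.add_apply, add_comm]
  simp [Nat.prime_two.factorization]

theorem two_mul_card_sylow_alt (h : 2 ≤ Nat.card Ω) (P : Sylow 2 (alternatingGroup Ω)) :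
    2 * Nat.card P = 2 ^ v2 (Nat.card Ω) := by
  rw [P.card_eq_multiplicity, ← factorization_card_alt h, pow_succ']

theorem v2_sub_four {n : ℕ} (h : n % 4 = 3) (h6 : 6 ≤ n) : v2 (n - 4) + 2 ≤ v2 (n - 3) := by
  obtain ⟨m, hm, hm'⟩ : ∃ m, n - 3 = 4 * m ∧ n - 3 = n - 4 + 1 := ⟨(n - 3) / 4, by omega, by omega⟩
  have : m ≠ 0 := by omega
  rw [v2, v2, hm', Nat.factorial_succ, Nat.factorization_mul (by simp) (Nat.factorial_ne_zero _), ← hm',
    hm, Nat.factorization_mul (by simp) this, show 4 = 2 ^ 2 from rfl, Nat.factorization_pow]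
  simp [Nat.prime_two.factorization]
  omega

theorem card_compl_support {c : Perm Ω} (hc : c.IsThreeCycle) :
    Nat.card {x // x ∈ c.supportᶜ} = Nat.card Ω - 3 := by
  rw [Nat.card_eq_fintype_card, Fintype.card_coe, Finset.card_compl, hc.card_support,
    Nat.card_eq_fintype_card]

end CF.Perm
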