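import Cfsg.Agent.Perm.Isotyp
import Cfsg.Agent.Perm.Module
import Cfsg.Agent.Char.Galois

/-! The centraliser ring of a permutation representation, as matrices. -/

set_option autoImplicit false

namespace CF.Perm

open Cfsg CF.Char Module MulAction Matrix
open scoped ComplexConjugate

variable {G Ω : Type*} [Group G] [MulAction G Ω] {χ : G → ℂ}

/-- the permutation character -/
noncomputable abbrev pc (G Ω : Type*) [Group G] [MulAction G Ω] : G → ℂ :=
  fun g => (Nat.card (fixedBy Ω g) : ℂ)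

/-- invariant matrices -/
def Inv (G : Type*) [Group G] [MulAction G Ω] (M : Matrix Ω Ω ℂ) : Prop :=
  ∀ (g : G) a b, M (g • a) (g • b) = M a b

theorem Inv.transpose {M : Matrix Ω Ω ℂ} (h : Inv G M) : Inv G Mᵀ := fun g a b => h g b a

theorem Inv.sub {M N : Matrix Ω Ω ℂ} (h : Inv G M) (h' : Inv G N) : Inv G (M - N) :=
  fun g a b => by simp [h g, h' g]

theorem Inv.smul {M : Matrix Ω Ω ℂ} (h : Inv G M) (c : ℂ) : Inv G (c • M) :=
  fun g a b => by simp [h g]

theorem Inv.one [DecidableEq Ω] : Inv G (1 : Matrix Ω Ω ℂ) := fun g a b => by simp [one_apply]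

open Classical in
/-- the adjacency matrix of an orbital -/
noncomputable def orb (G : Type*) [Group G] [MulAction G Ω] (a b : Ω) : Matrix Ω Ω ℂ :=
  of fun x y => if ∃ g : G, g • a = x ∧ g • b = y then 1 else 0

theorem orb_inv (a b : Ω) : Inv G (orb G a b) := fun g x y => by
  simp only [orb, of_apply]
  congr 1
  exact propext ⟨fun ⟨k, h1, h2⟩ => ⟨g⁻¹ * k, by simp [mul_smul, h1], by simp [mul_smul, h2]⟩,
    fun ⟨k, h1, h2⟩ => ⟨g * k, by simp [mul_smul, h1], by simp [mul_smul, h2]⟩⟩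

theorem orb_self {a b : Ω} (h : b ≠ a) (x : Ω) : orb G a b x x = 0 :=
  if_neg fun ⟨g, h1, h2⟩ => h (MulAction.injective g (h2.trans h1.symm))

theorem orb_cases (a b x y : Ω) : (orb G a b x y = 0 ∧ ¬ ∃ g : G, g • a = x ∧ g • b = y) ∨
    (orb G a b x y = 1 ∧ ∃ g : G, g • a = x ∧ g • b = y) := by
  by_cases h : ∃ g : G, g • a = x ∧ g • b = y <;> simp [orb, h]

theorem orb_mul_self (a b x y : Ω) : orb G a b x y * orb G a b x y = orb G a b x y := by
  rcases orb_cases (G := G) a b x y with h | h <;> simp [h.1]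

theorem Inv.orb_mul {M : Matrix Ω Ω ℂ} (h : Inv G M) (a b x y : Ω) :
    orb G a b x y * M x y = orb G a b x y * M a b := by
  rcases orb_cases (G := G) a b x y with h1 | ⟨-, g, rfl, rfl⟩
  · simp [h1.1]
  · rw [h]

variable [Fintype Ω]

theorem Inv.mul {M N : Matrix Ω Ω ℂ} (h : Inv G M) (h' : Inv G N) : Inv G (M * N) :=
  fun g a b => by
    simp only [mul_apply]
    exact (Equiv.sum_comp (MulAction.toPerm g) _).symm.trans (by simp [h g, h' g])

theorem Inv.sum_row {M : Matrix Ω Ω ℂ} (h : Inv G M) [IsPretransitive G Ω] (a b : Ω) :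
    ∑ y, M a y = ∑ y, M b y := by
  obtain ⟨g, rfl⟩ := exists_smul_eq G b a
  exact (Equiv.sum_comp (MulAction.toPerm g) _).symm.trans (by simp [h g])

theorem sum_orb [IsPretransitive G Ω] (a b x : Ω) :
    ∑ y, orb G a b x y = Nat.card (orbit (stabilizer G a) b) := by
  classical
  rw [(orb_inv a b).sum_row x a, Nat.card_eq_fintype_card, Fintype.card_subtype, Finset.card_filter]
  simp [orb, mem_orbit_iff]

theorem isIntegral_orb [DecidableEq Ω] (a b : Ω) : IsIntegral ℤ (orb G a b) := by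
  classical
  have := (Algebra.IsIntegral.isIntegral (R := ℤ) (of fun x y =>
    if ∃ g : G, g • a = x ∧ g • b = y then (1 : ℤ) else 0)).map
    (Int.castRingHom ℂ).mapMatrix.toIntAlgHom
  convert this
  ext x y
  simp [orb]

theorem character_permRep : (permRep ℂ G Ω).character = pc G Ω := funext fun g => by
  classical
  rw [Representation.character, LinearMap.trace_eq_matrix_trace ℂ (Pi.basisFun ℂ Ω), Matrix.trace,
    pc, Nat.card_eq_fintype_card, Fintype.card_subtype, Finset.card_filter]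
  simp [Pi.single_apply, inv_smul_eq_iff, eq_comm (b := g • _)]

variable [DecidableEq Ω]

theorem Inv.commute {M : Matrix Ω Ω ℂ} (h : Inv G M) (g : G) :
    Commute (toLin' M) (permRep ℂ G Ω g) := LinearMap.ext fun v => funext fun a => by
  change ∑ b, M a b * v (g⁻¹ • b) = ∑ b, M (g⁻¹ • a) b * v b
  exact ((Equiv.sum_comp (MulAction.toPerm g⁻¹) _).symm.trans (by simp [h g⁻¹])).symm

theorem inv_of_commute {T : End ℂ (Ω → ℂ)} (h : ∀ g : G, Commute T (permRep ℂ G Ω g)) :
    Inv G (LinearMap.toMatrix' T) := fun g a b => by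
  simpa [permRep_single] using
    congrFun (DFunLike.congr_fun (h g) (Pi.single b 1)) (g • a)

variable [Fintype G]

/-- the isotypic projection as a matrix -/
noncomputable def isoM (Ω : Type*) [MulAction G Ω] [Fintype Ω] [DecidableEq Ω] (χ : G → ℂ) :
    Matrix Ω Ω ℂ := LinearMap.toMatrix' (iso (permRep ℂ G Ω) χ)

theorem isoM_apply (χ : G → ℂ) (a b : Ω) :
    isoM Ω χ a b = ∑ g, if g • b = a then χ 1 / Nat.card G * χ g⁻¹ else 0 := by
  simp [isoM, iso, permRep_single, Pi.single_apply, eq_comm, inv_smul_eq_iff]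

theorem isoM_inv (hχ : IsIrrCharacter G χ) : Inv G (isoM Ω χ) :=
  inv_of_commute (iso_comm_rho _ (irr_isClassFunction hχ))

theorem isoM_mul (hχ : IsIrrCharacter G χ) : isoM Ω χ * isoM Ω χ = isoM Ω χ := by
  rw [isoM, ← LinearMap.toMatrix'_mul, iso_mul_iso _ hχ]

theorem isoM_transpose (χ : G → ℂ) : (isoM Ω χ)ᵀ = isoM Ω fun g => χ g⁻¹ := by
  ext a b
  rw [transpose_apply, isoM_apply, isoM_apply, ← Equiv.sum_comp (Equiv.inv G)]
  simp [inv_smul_eq_iff, eq_comm (a := a)]

theorem sum_isoM (hχ : IsIrrCharacter G χ) (x : G) :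
    ∑ a, isoM Ω χ a (x • a) = classInner (pc G Ω) χ * χ x := by
  rw [← character_permRep, ← trace_iso_mul _ hχ, LinearMap.trace_eq_matrix_trace ℂ
    (Pi.basisFun ℂ Ω), Matrix.trace]
  simp [isoM, permRep_single]

theorem sum_irr_isoM : ∑ χ : IrrCharacter G, isoM Ω χ.1 = 1 := by
  simp only [isoM, ← map_sum, sum_iso, LinearMap.toMatrix'_one]

theorem isoM_eq_zero (hχ : IsIrrCharacter G χ) (h : classInner (pc G Ω) χ = 0) : isoM Ω χ = 0 := by
  rw [isoM, iso_eq_zero _ hχ (character_permRep (G := G) (Ω := Ω) ▸ h), map_zero]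

theorem Inv.comm_isoM {M : Matrix Ω Ω ℂ} (h : Inv G M) (χ : G → ℂ) :
    M * isoM Ω χ = isoM Ω χ * M := by
  simpa [isoM, LinearMap.toMatrix'_mul] using
    congrArg LinearMap.toMatrix' (iso_comm _ h.commute χ).eq

theorem Inv.exists_mul_isoM {M : Matrix Ω Ω ℂ} (h : Inv G M) (hχ : IsIrrCharacter G χ)
    (h1 : classInner (pc G Ω) χ = 1) : ∃ θ : ℂ, M * isoM Ω χ = θ • isoM Ω χ :=
  (exists_mul_iso _ hχ (character_permRep (G := G) (Ω := Ω) ▸ h1) h.commute).imp fun θ h2 => by
    simpa [isoM, LinearMap.toMatrix'_mul] using congrArg LinearMap.toMatrix' h2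

omit [DecidableEq Ω] in
theorem multFree_iff [DecidableEq Ω] : (∀ χ, IsIrrCharacter G χ → classInner (pc G Ω) χ = 0 ∨
    classInner (pc G Ω) χ = 1) ↔ ∀ M N : Matrix Ω Ω ℂ, Inv G M → Inv G N → M * N = N * M := by
  rw [← character_permRep]
  refine ⟨fun h M N hM hN => toLin'.injective ?_, fun h χ => multFree_of_comm _ fun S T hS hT =>
    LinearMap.toMatrix'.injective ?_⟩
  · rw [toLin'_mul, toLin'_mul]; exact comm_of_multFree _ h hM.commute hN.commute
  · simpa only [LinearMap.toMatrix'_mul] using h _ _ (inv_of_commute hS) (inv_of_commute hT)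

omit [DecidableEq Ω] in
theorem dvd_subdegree [IsPretransitive G Ω] {f : ℕ} (hf : ∀ χ, IsIrrCharacter G χ →
    χ ≠ (fun _ => 1) → classInner (pc G Ω) χ ≠ 0 → ∃ m : ℕ, χ 1 = f * m) {a b : Ω} (hab : b ≠ a) :
    f ∣ Nat.card (orbit (stabilizer G a) b) := by
  classical
  let ρ := permRep ℂ G Ω
  let A := toLin' (orb G a b)
  let e := iso ρ fun _ => 1
  have : Nonempty Ω := ⟨a⟩
  have h1 : classInner ρ.character (fun _ => 1) = 1 := by
    rw [character_permRep]; exact inner_fixedBy_one_of_pretransitive Ω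
  have h2 : ∀ v, (∀ g, ρ g v = v) → e v = v := fun v hv => by
    simp [e, iso, hv, ← Nat.cast_smul_eq_nsmul ℂ, smul_smul]
  have h3 : ∀ g, Commute (A * (1 - e)) (ρ g) := fun g => ((orb_inv a b).commute g).mul_left
    ((Commute.one_left _).sub_left (iso_comm_rho ρ (classFun_const 1) g))
  have h4 : e * e = e := iso_mul_iso ρ irr_one
  have h5 : Commute A e := iso_comm ρ (orb_inv a b).commute _
  obtain ⟨θ, hθ⟩ := exists_mul_iso ρ irr_one h1 (orb_inv a b).commute
  refine (exists_trace_eq (f := f) (T := A * (1 - e)) fun μ hμ h => ⟨?_, ?_⟩).elim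
    fun c ⟨hc, h6⟩ => ?_
  rotate_right
  · have h7 := trace_iso_mul ρ irr_one 1
    have h8 := congrFun (DFunLike.congr_fun hθ 1) a
    rw [End.mul_apply, LinearMap.smul_apply, h2 1 fun _ => rfl] at h8
    rw [h1, map_one, mul_one] at h7
    rw [mul_sub, mul_one, map_sub, hθ, map_smul, h7, trace_toLin'_eq] at h6
    simp only [toLin'_apply, mulVec_one, Pi.smul_apply, Pi.one_apply, smul_eq_mul, mul_one,
      mulVec, dotProduct, sum_orb] at h8
    simp only [trace, diag, orb_self hab, Finset.sum_const_zero, ← h8] at h6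
    rcases eq_or_ne f 0 with rfl | h0
    · simpa using h6
    · refine dvd_of_isIntegral_div h0 ?_
      convert hc.neg
      field_simp
      linear_combination -h6
  · obtain ⟨v, hv⟩ := h.exists_hasEigenvector
    have h7 : e v = 0 := (smul_eq_zero_iff_right hμ).1 (by
      rw [← map_smul, ← hv.apply_eq_smul, ← End.mul_apply, ← mul_assoc, ← h5.eq, mul_assoc,
        mul_sub, h4]; simp)
    obtain ⟨q, hq, h8⟩ := (isIntegral_orb (G := G) a b).map (toLinAlgEquiv' (R := ℂ)).toAlgHom.toRingHom.toIntAlgHom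
    have h9 := End.aeval_apply_of_hasEigenvector (f := A) (p := q.map (Int.castRingHom ℂ)) (μ := μ)
      ⟨End.mem_eigenspace_iff.2 (by simpa [h7] using hv.apply_eq_smul), hv.2⟩
    rw [← algebraMap_int_eq, Polynomial.aeval_map_algebraMap, Polynomial.eval_map_algebraMap] at h9
    exact ⟨q, hq, (smul_eq_zero_iff_left hv.2).1 (h9.symm.trans (DFunLike.congr_fun h8 v))⟩
  · refine dvd_finrank ρ (character_permRep (G := G) (Ω := Ω) ▸ hf) ⟨_, fun g v hv =>
      End.mapsTo_maxGenEigenspace_of_comm (h3 g) μ hv⟩ fun v hv h7 => ?_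
    refine (Submodule.disjoint_def.1 (End.disjoint_genEigenspace _ hμ ⊤ 1)) v hv ?_
    exact End.mem_eigenspace_iff.2 (by simp [h2 v h7])

end CF.Perm
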