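import Mathlib

set_option autoImplicit false

/-! Covering the `p`-elements of a finite group by proper subgroups. -/

namespace CF.Pv
open Subgroup Pointwise
universe u

def PE (p : ℕ) {G : Type*} [Group G] (g : G) : Prop := ∃ k : ℕ, orderOf g = p ^ k

theorem PE.conj {p : ℕ} {G : Type*} [Group G] {x : G} (h : PE p x) (g : G) : PE p (g * x * g⁻¹) := by
  obtain ⟨k, hk⟩ := h
  refine ⟨k, ?_⟩
  rw [← hk]
  exact (MulAut.conj g).orderOf_eq x

theorem pgroup_cover {P : Type*} [Group P] [Finite P] (p : ℕ) [hp : Fact p.Prime] (hP : IsPGroup p P)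
    {ι : Type*} (s : Finset ι) (K : ι → Subgroup P) (hs : s.card ≤ p)
    (hcov : ∀ x, ∃ i ∈ s, x ∈ K i) : ∃ i ∈ s, K i = ⊤ := by
  classical
  by_contra hne
  push Not at hne
  have hc : ⋃ i ∈ s, (fun _ => (1 : P)) i • (K i : Set P) = Set.univ := by
    ext x
    simp only [one_smul, Set.mem_iUnion, SetLike.mem_coe, Set.mem_univ, iff_true, exists_prop]
    exact hcov x
  have hp0 : (0 : ℚ) < p := by exact_mod_cast hp.out.pos
  have hle : ∀ i ∈ s, ((K i).index : ℚ)⁻¹ ≤ (p : ℚ)⁻¹ := by
    intro i hi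
    obtain ⟨n, hn⟩ := hP.index (K i)
    have hn0 : n ≠ 0 := by
      rintro rfl
      exact hne i hi (Subgroup.index_eq_one.mp (by simpa using hn))
    have : p ≤ (K i).index := by
      rw [hn]; exact Nat.le_self_pow hn0 p
    exact inv_anti₀ hp0 (by exact_mod_cast this)
  have h1 := Subgroup.one_le_sum_inv_index_of_leftCoset_cover hc
  have h2 : ∑ i ∈ s, ((K i).index : ℚ)⁻¹ ≤ s.card * (p : ℚ)⁻¹ := by
    simpa using Finset.sum_le_card_nsmul s _ _ hle
  have h3 : (s.card : ℚ) * (p : ℚ)⁻¹ ≤ 1 := by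
    rw [← div_eq_mul_inv, div_le_one hp0]; exact_mod_cast hs
  have h4 : p ≤ s.card := by
    have : (1 : ℚ) ≤ s.card * (p : ℚ)⁻¹ := h1.trans h2
    rw [← div_eq_mul_inv, one_le_div hp0] at this
    exact_mod_cast this
  have hd := Subgroup.pairwiseDisjoint_leftCoset_cover_of_sum_inv_index_eq_one hc
    (le_antisymm (h2.trans h3) h1)
  obtain ⟨a, ha, b, hb, hab⟩ := Finset.one_lt_card.mp (lt_of_lt_of_le hp.out.one_lt h4)
  have hfa : a ∈ s.filter (fun i => (K i).FiniteIndex) := Finset.mem_filter.mpr ⟨ha, inferInstance⟩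
  have hfb : b ∈ s.filter (fun i => (K i).FiniteIndex) := Finset.mem_filter.mpr ⟨hb, inferInstance⟩
  have := hd (Finset.mem_coe.mpr hfa) (Finset.mem_coe.mpr hfb) hab
  simp only [Function.onFun, one_smul] at this
  exact Set.disjoint_left.mp this (K a).one_mem (K b).one_mem

/-- The local structure at an irredundant member of the cover. -/
theorem index_bound {G : Type*} [Group G] [Finite G] (p : ℕ) [hp : Fact p.Prime]
    (hgen : closure {g : G | PE p g} = ⊤) (H : Subgroup G) (hH : H ≠ ⊤) (y : G) (hy : PE p y)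
    (P : Sylow p G) (hyP : y ∈ (P : Subgroup G)) (hPH : (P : Subgroup G) ≤ H)
    (key : ∀ L : Subgroup G, L ≠ ⊤ → y ∈ L → ∀ x ∈ L, PE p x → x ∈ H) :
    ∃ M : Subgroup G, p + 1 ≤ M.index ∧ ∀ g : G, g⁻¹ * y * g ∈ H → g ∈ M := by
  classical
  set S : Set G := {x | x ∈ H ∧ PE p x} with hS
  set M : Subgroup G := normalizer S with hM
  have hHM : H ≤ M := by
    intro h hh
    exact mem_normalizer_fintype fun n hn => ⟨H.mul_mem (H.mul_mem hh hn.1) (H.inv_mem hh), hn.2.conj h⟩
  have hMt : M ≠ ⊤ := by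
    intro hM'
    apply hH
    rw [eq_top_iff, ← hgen, closure_le]
    intro x hx
    have hz : IsPGroup p (zpowers x) := by
      obtain ⟨k, hk⟩ := hx
      exact IsPGroup.of_card (by rw [Nat.card_zpowers, hk])
    obtain ⟨Q, hQ⟩ := hz.exists_le_sylow
    obtain ⟨g, hg⟩ := MulAction.exists_smul_eq G Q P
    have h1 : g * x * g⁻¹ ∈ (P : Subgroup G) := by
      rw [← hg, Sylow.coe_subgroup_smul]
      exact Subgroup.smul_mem_pointwise_smul x (MulAut.conj g) _ (hQ (mem_zpowers x))
    have hgM : g ∈ normalizer S := by rw [← hM, hM']; trivial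
    exact ((mem_set_normalizer_iff.mp hgM x).mpr ⟨hPH h1, PE.conj hx g⟩).1
  have hfix : ∀ g : G, g⁻¹ * y * g ∈ M → g ∈ M := by
    intro g hg
    have hL : M.map (MulAut.conj g).toMonoidHom ≠ ⊤ := by
      intro h
      apply hMt
      rw [eq_top_iff]
      intro x _
      have : g * x * g⁻¹ ∈ M.map (MulAut.conj g).toMonoidHom := by rw [h]; trivial
      obtain ⟨z, hz, hz'⟩ := this
      have : z = x := by
        have h2 : g * z * g⁻¹ = g * x * g⁻¹ := hz'
        simpa using h2
      exact this ▸ hz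
    have hyL : y ∈ M.map (MulAut.conj g).toMonoidHom := ⟨_, hg, by simp [mul_assoc]⟩
    refine mem_normalizer_fintype fun n hn => ⟨?_, hn.2.conj g⟩
    exact key _ hL hyL _ ⟨n, hHM hn.1, rfl⟩ (hn.2.conj g)
  refine ⟨M, ?_, fun g hg => hfix g (hHM hg)⟩
  have hz : IsPGroup p (zpowers y) := by
    obtain ⟨k, hk⟩ := hy
    exact IsPGroup.of_card (by rw [Nat.card_zpowers, hk])
  have hmod := hz.card_modEq_card_fixedPoints (G ⧸ M)
  have hone : Nat.card (MulAction.fixedPoints (zpowers y) (G ⧸ M)) = 1 := by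
    rw [Nat.card_eq_one_iff_exists]
    refine ⟨⟨((1 : G) : G ⧸ M), ?_⟩, ?_⟩
    · intro z
      have hzM : (z : G) ∈ M := hHM (hPH ((zpowers_le.mpr hyP) z.2))
      show (z : G) • ((1 : G) : G ⧸ M) = _
      rw [MulAction.Quotient.smul_mk, QuotientGroup.eq]
      simpa using hzM
    · rintro ⟨q, hq⟩
      obtain ⟨g, rfl⟩ := QuotientGroup.mk_surjective q
      have h1 : y • ((g : G) : G ⧸ M) = (g : G ⧸ M) := hq ⟨y, mem_zpowers y⟩
      rw [MulAction.Quotient.smul_mk, QuotientGroup.eq] at h1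
      have h2 : g⁻¹ * y * g ∈ M := by
        have := M.inv_mem h1
        simpa [mul_assoc] using this
      have := hfix g h2
      apply Subtype.ext
      show ((g : G) : G ⧸ M) = ((1 : G) : G ⧸ M)
      rw [QuotientGroup.eq]
      simpa using this
  rw [hone] at hmod
  have hi : M.index ≡ 1 [MOD p] := hmod
  have h1 : M.index ≠ 1 := fun h => hMt (Subgroup.index_eq_one.mp h)
  have h0 : M.index ≠ 0 := FiniteIndex.index_ne_zero
  have hd : p ∣ M.index - 1 := (Nat.modEq_iff_dvd' (by omega)).mp hi.symm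
  have := Nat.le_of_dvd (by omega) hd
  omega

theorem main (p : ℕ) [hp : Fact p.Prime] {ι : Type*} (n : ℕ) :
    ∀ (G : Type u) [Group G] [Finite G], Nat.card G = n → closure {g : G | PE p g} = ⊤ →
      ∀ (K : ι → Subgroup G) (s : Finset ι), (∀ i ∈ s, K i ≠ ⊤) → (∀ g : G, PE p g → ∃ i ∈ s, g ∈ K i) →
        p + 1 ≤ s.card := by
  classical
  induction n using Nat.strong_induction_on with
  | _ n ih =>
  intro G _ _ hn hgen K s
  induction s using Finset.strongInduction with
  | H s ihs =>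
  intro hK hcov
  by_contra hlt
  have hs : s.card ≤ p := by omega
  have hirr : ∀ i ∈ s, ∃ y : G, PE p y ∧ ∀ j ∈ s, y ∈ K j → j = i := by
    intro i hi
    by_contra hno
    push Not at hno
    have := ihs (s.erase i) (Finset.erase_ssubset hi) (fun j hj => hK j (Finset.mem_of_mem_erase hj))
      (fun g hg => by
        obtain ⟨j, hj, hg', hji⟩ := hno g hg
        exact ⟨j, Finset.mem_erase.mpr ⟨hji, hj⟩, hg'⟩)
    have h2 := Finset.card_erase_le (s := s) (a := i)
    omega
  have hsyl : ∀ Q : Sylow p G, ∃ j ∈ s, (Q : Subgroup G) ≤ K j := by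
    intro Q
    obtain ⟨j, hj, h⟩ := pgroup_cover p Q.isPGroup' s (fun j => (K j).subgroupOf Q) hs (fun x => by
      obtain ⟨k, hk⟩ := IsPGroup.iff_orderOf.mp Q.isPGroup' x
      obtain ⟨j, hj, hx⟩ := hcov (x : G) ⟨k, by rw [← hk]; exact Subgroup.orderOf_coe x⟩
      exact ⟨j, hj, hx⟩)
    exact ⟨j, hj, subgroupOf_eq_top.mp h⟩
  obtain ⟨P⟩ : Nonempty (Sylow p G) := inferInstance
  have hM : ∀ i ∈ s, ∃ (M : Subgroup G) (c : G), p + 1 ≤ M.index ∧
      ∀ g : G, ((g⁻¹ • P : Sylow p G) : Subgroup G) ≤ K i → g ∈ c • (M : Set G) := by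
    intro i hi
    obtain ⟨y, hy, hyi⟩ := hirr i hi
    have hz : IsPGroup p (zpowers y) := by
      obtain ⟨k, hk⟩ := hy
      exact IsPGroup.of_card (by rw [Nat.card_zpowers, hk])
    obtain ⟨Q, hQ⟩ := hz.exists_le_sylow
    obtain ⟨j, hj, hQj⟩ := hsyl Q
    have hji : j = i := hyi j hj (hQj (hQ (mem_zpowers y)))
    subst hji
    obtain ⟨M, hM1, hM2⟩ := index_bound p hgen (K j) (hK j hj) y hy Q (hQ (mem_zpowers y)) hQj (by
      intro L hL hyL x hxL hx
      by_contra hxK
      set L0 : Subgroup G := closure {x, y} with hL0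
      have hle : L0 ≤ L := by
        rw [hL0, closure_le]
        rintro z (rfl | rfl)
        exacts [hxL, hyL]
      have hL0t : L0 ≠ ⊤ := fun h => hL (top_le_iff.mp (h ▸ hle))
      have hcard : Nat.card L0 < n := by
        rw [← hn]
        refine lt_of_le_of_ne (Nat.le_of_dvd Nat.card_pos (Subgroup.card_subgroup_dvd_card L0)) ?_
        exact fun h => hL0t (Subgroup.eq_top_of_card_eq L0 h)
      have hxL0 : x ∈ L0 := subset_closure (by simp)
      have hyL0 : y ∈ L0 := subset_closure (by simp)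
      have := ih _ hcard L0 rfl (by
          rw [eq_top_iff, ← Subgroup.closure_closure_coe_preimage (k := ({x, y} : Set G))]
          apply Subgroup.closure_mono
          rintro z hz
          have hz' : PE p (z : G) := by
            rcases hz with h | h
            · rw [h]; exact hx
            · rw [Set.mem_singleton_iff.mp h]; exact hy
          obtain ⟨k, hk⟩ := hz'
          exact ⟨k, by rw [← hk]; exact (Subgroup.orderOf_coe z).symm⟩)
        (fun i => (K i).subgroupOf L0) s (by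
          intro i hi h
          have h' := subgroupOf_eq_top.mp h
          have := hyi i hi (h' hyL0)
          subst this
          exact hxK (h' hxL0))
        (by
          intro g ⟨k, hk⟩
          exact hcov (g : G) ⟨k, by rw [← hk]; exact Subgroup.orderOf_coe g⟩)
      omega)
    obtain ⟨c, hc⟩ := MulAction.exists_smul_eq G Q P
    refine ⟨M, c, hM1, fun g hg => ?_⟩
    rw [mem_leftCoset_iff]
    apply hM2
    apply hg
    rw [← hc, ← mul_smul, Sylow.coe_subgroup_smul]
    have := Subgroup.smul_mem_pointwise_smul y (MulAut.conj (g⁻¹ * c)) _ (hQ (mem_zpowers y))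
    simpa [mul_assoc] using this
  choose! M c hM1 hM2 using hM
  have hc : ⋃ i ∈ s, c i • (M i : Set G) = Set.univ := by
    ext g
    simp only [Set.mem_iUnion, Set.mem_univ, iff_true, exists_prop]
    obtain ⟨j, hj, h⟩ := hsyl (g⁻¹ • P)
    exact ⟨j, hj, hM2 j hj g h⟩
  obtain ⟨i, hi, -, h⟩ := Subgroup.exists_index_le_card_of_leftCoset_cover hc
  have := hM1 i hi
  omega

end CF.Pv
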