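import Cfsg.Agent.S3773
import Cfsg.Agent.S0119
import Cfsg.Agent.S0094
import Cfsg.Agent.S0827
import Cfsg.Agent.Fgs1.Extra

/-! 2-groups without normal `E₈` and with an odd group of automorphisms: basics and the special case. -/

set_option autoImplicit false

namespace CF.Sc
open Subgroup

theorem orb {A Q : Type*} [Group A] [Finite A] [MulAction A Q] [Finite Q] (hA : Odd (Nat.card A)) (S : Set Q)
    (hS : ∀ a : A, ∀ x ∈ S, a • x ∈ S) (hf : ∀ x ∈ S, ∃ a : A, a • x ≠ x) :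
    S.ncard = 0 ∨ S.ncard = 3 ∨ 5 ≤ S.ncard := by
  have o : ∀ x ∈ S, Odd (MulAction.orbit A x).ncard ∧ 3 ≤ (MulAction.orbit A x).ncard := fun x hx => by
    have h1 : Odd (MulAction.orbit A x).ncard := by
      rw [← MulAction.index_stabilizer]; exact hA.of_dvd_nat (index_dvd_card _)
    obtain ⟨a, ha⟩ := hf x hx
    have h2 : 1 < (MulAction.orbit A x).ncard :=
      (Set.one_lt_ncard (Set.toFinite _)).2 ⟨_, MulAction.mem_orbit x a, x, MulAction.mem_orbit_self x, ha⟩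
    exact ⟨h1, by obtain ⟨k, hk⟩ := h1; omega⟩
  rcases S.eq_empty_or_nonempty with rfl | ⟨x, hx⟩
  · simp
  have sub : MulAction.orbit A x ⊆ S := by rintro _ ⟨a, rfl⟩; exact hS a x hx
  have e := Set.ncard_sdiff_add_ncard_of_subset sub
  obtain ⟨⟨k, hk⟩, h3⟩ := o x hx
  rcases (S \ MulAction.orbit A x).eq_empty_or_nonempty with e0 | ⟨y, hy⟩
  · rw [e0, Set.ncard_empty] at e; omega
  have : MulAction.orbit A y ⊆ S \ MulAction.orbit A x := by
    rintro _ ⟨a, rfl⟩
    refine ⟨hS a y hy.1, fun ⟨b, hb⟩ => hy.2 ⟨a⁻¹ * b, ?_⟩⟩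
    simp only at hb ⊢
    rw [mul_smul, hb, inv_smul_smul]
  have := Set.ncard_le_ncard this
  have := (o y hy.1).2
  omega

variable {X : Type*} [Group X]

def om (Q : Type*) [Group Q] : Subgroup Q where
  carrier := {z | z * z = 1 ∧ z ∈ center Q}
  one_mem' := ⟨mul_one 1, one_mem _⟩
  mul_mem' := fun {a b} ha hb => ⟨by
    rw [mul_assoc, ← mul_assoc b, mem_center_iff.1 ha.2 b, mul_assoc a, hb.1, mul_one, ha.1], mul_mem ha.2 hb.2⟩
  inv_mem' := fun {a} ha => ⟨by rw [← mul_inv_rev, ha.1, inv_one], inv_mem ha.2⟩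

instance (Q : Type*) [Group Q] : (om Q).Normal := ⟨fun n hn g => by
  rwa [mem_center_iff.1 hn.2 g, mul_inv_cancel_right]⟩

/-- preimage of `Ω₁(Z(X/M))` -/
def up (M : Subgroup X) [M.Normal] : Subgroup X := (om (X ⧸ M)).comap (QuotientGroup.mk' M)

instance (M : Subgroup X) [M.Normal] : (up M).Normal := normal_comap _

theorem mem_up {M : Subgroup X} [M.Normal] {x : X} :
    x ∈ up M ↔ x * x ∈ M ∧ ∀ g, x⁻¹ * (g * x * g⁻¹) ∈ M := by
  change ((x : X ⧸ M) * x = 1 ∧ (x : X ⧸ M) ∈ center _) ↔ _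
  rw [← QuotientGroup.mk_mul, QuotientGroup.eq_one_iff, mem_center_iff]
  refine and_congr_right fun _ => ⟨fun h g => ?_, fun h g => ?_⟩
  · rw [← QuotientGroup.eq, QuotientGroup.mk_mul, QuotientGroup.mk_mul, h]; simp
  · obtain ⟨g, rfl⟩ := QuotientGroup.mk_surjective g
    have := QuotientGroup.eq.2 (h g)
    rw [QuotientGroup.mk_mul, QuotientGroup.mk_mul, QuotientGroup.mk_inv, eq_mul_inv_iff_mul_eq] at this
    exact this.symm

theorem le_up (M : Subgroup X) [hM : M.Normal] : M ≤ up M := fun _ hx =>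
  mem_up.2 ⟨mul_mem hx hx, fun g => mul_mem (inv_mem hx) (hM.conj_mem _ hx g)⟩

theorem aut_mem_up {M : Subgroup X} [M.Normal] {α : MulAut X} (h : ∀ x ∈ M, α x ∈ M) {x : X} (hx : x ∈ up M) :
    α x ∈ up M := by
  rw [mem_up] at hx ⊢
  refine ⟨by rw [← map_mul]; exact h _ hx.1, fun g => ?_⟩
  obtain ⟨g, rfl⟩ := α.surjective g
  simpa using h _ (hx.2 g)

theorem up_eq_top {M : Subgroup X} [M.Normal] (h : ∀ x : X, x * x ∈ M) : up M = ⊤ :=
  eq_top_iff.2 fun x _ => mem_up.2 ⟨h x, fun g => by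
    have := mul_mem (mul_mem (h x⁻¹) (h (x * g))) (h g⁻¹)
    rw [show x⁻¹ * x⁻¹ * (x * g * (x * g)) * (g⁻¹ * g⁻¹) = x⁻¹ * (g * x * g⁻¹) by group] at this
    exact this⟩

theorem odd_sq {α : MulAut X} (hα : Odd (orderOf α)) {x : X} (h : α (α x) = x) : α x = x := by
  obtain ⟨k, hk⟩ := hα
  have : ∀ n, (α ^ (2 * n)) x = x := fun n => by
    induction n with
    | zero => rfl
    | succ n ih => rw [mul_add, pow_add, MulAut.mul_apply, mul_one, sq, MulAut.mul_apply, h, ih]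
  have e := congrArg (· x) (pow_orderOf_eq_one α)
  simp only [hk, pow_succ', MulAut.mul_apply, this, MulAut.one_apply] at e
  exact e

theorem ext_elem {V : Subgroup X} [hV : V.Normal] (e2 : ∀ v ∈ V, v * v = 1) {t : X} (ht : t * t = 1)
    (hc : ∀ v ∈ V, v * t = t * v) (hn : ∀ g, t⁻¹ * (g * t * g⁻¹) ∈ V) :
    ∃ E : Subgroup X, E.Normal ∧ (∀ e ∈ E, e * e = 1) ∧ V ≤ E ∧ t ∈ E ∧ ∀ e ∈ E, e ∈ V ∨ t⁻¹ * e ∈ V := by
  have ti : t⁻¹ = t := inv_eq_of_mul_eq_one_right ht
  let E : Subgroup X :=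
    { carrier := {e | e ∈ V ∨ t⁻¹ * e ∈ V}
      one_mem' := .inl (one_mem _)
      mul_mem' := by
        rintro a b (ha | ha) (hb | hb)
        · exact .inl (mul_mem ha hb)
        · exact .inr (by simpa [mul_assoc] using mul_mem (hV.conj_mem _ ha t⁻¹) hb)
        · exact .inr (by simpa [mul_assoc] using mul_mem ha hb)
        · refine .inl ?_
          have := mul_mem (hV.conj_mem _ ha t⁻¹) hb
          rwa [show t⁻¹ * (t⁻¹ * a) * t⁻¹⁻¹ * (t⁻¹ * b) = (t * t)⁻¹ * (a * b) by group, ht, inv_one, one_mul] at this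
      inv_mem' := by
        rintro a (ha | ha)
        · exact .inl (inv_mem ha)
        · refine .inr ?_
          have := hV.conj_mem _ (inv_mem ha) t⁻¹
          rwa [show t⁻¹ * (t⁻¹ * a)⁻¹ * t⁻¹⁻¹ = t⁻¹ * a⁻¹ * (t * t) by group, ht, mul_one] at this }
  refine ⟨E, ⟨?_⟩, ?_, fun _ h => .inl h, .inr (by simp), fun _ h => h⟩
  · rintro a (ha | ha) g
    · exact .inl (hV.conj_mem _ ha g)
    · refine .inr ?_
      have := mul_mem (hn g) (hV.conj_mem _ ha g)
      rwa [show t⁻¹ * (g * t * g⁻¹) * (g * (t⁻¹ * a) * g⁻¹) = t⁻¹ * (g * a * g⁻¹) by group] at this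
  · rintro a (ha | ha)
    · exact e2 a ha
    · calc a * a = t * (t⁻¹ * a * t) * (t⁻¹ * a) := by group
        _ = 1 := by rw [hc _ ha, ← mul_assoc t t, ht, one_mul, e2 _ ha]

variable [Finite X]

theorem exists_step (hX : IsPGroup 2 X) {M N : Subgroup X} [M.Normal] [N.Normal] (h : ¬ N ≤ M) :
    ∃ x ∈ N, x ∉ M ∧ x ∈ up M := by
  have : (N.map (QuotientGroup.mk' M)).Normal := Normal.map inferInstance _ (QuotientGroup.mk'_surjective M)
  obtain ⟨_, ⟨x, hx, rfl⟩, h1, h2⟩ := CF.Fgs1.exists_center_orderOf (hX.to_quotient M) (N := N.map (QuotientGroup.mk' M))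
    (by rwa [Ne, Subgroup.map_eq_bot_iff, QuotientGroup.ker_mk'])
  refine ⟨x, hx, fun m => ?_, by rw [← sq, ← h2, pow_orderOf_eq_one], h1⟩
  rw [QuotientGroup.mk'_apply, (QuotientGroup.eq_one_iff x).2 m] at h2
  simp at h2

theorem stab (hX : IsPGroup 2 X) {α : MulAut X} (hα : Odd (orderOf α)) {x z : X} (hz : α z = z) (h : α x = x * z) :
    z = 1 := by
  have : ∀ n, (α ^ n) x = x * z ^ n := fun n => by
    induction n with
    | zero => simp
    | succ n ih => rw [pow_succ', MulAut.mul_apply, ih, map_mul, map_pow, h, hz, pow_succ', mul_assoc]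
  have e := this (orderOf α)
  rw [pow_orderOf_eq_one, MulAut.one_apply, left_eq_mul] at e
  obtain ⟨k, hk⟩ := hX z
  rw [← orderOf_eq_one_iff]
  exact Nat.eq_one_of_dvd_coprimes ((Nat.coprime_two_left.2 hα).pow_left k) (orderOf_dvd_of_pow_eq_one hk)
    (orderOf_dvd_of_pow_eq_one e)

theorem fix_ab (hX : IsPGroup 2 X) {α : MulAut X} (hα : Odd (orderOf α)) {B : Subgroup X}
    (c : ∀ a ∈ B, ∀ b ∈ B, a * b = b * a) (i : ∀ b ∈ B, α b ∈ B) (h : ∀ b ∈ B, b * b = 1 → α b = b) :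
    ∀ b ∈ B, α b = b := by
  have : ∀ k, ∀ b ∈ B, b ^ 2 ^ k = 1 → α b = b := fun k => by
    induction k with
    | zero => intro b _ e; rw [pow_zero, pow_one] at e; simp [e]
    | succ k ih =>
      intro b hb e
      have e2 := ih (b * b) (mul_mem hb hb) (by rw [← sq, ← pow_mul, ← pow_succ', e])
      have m := mul_mem (inv_mem hb) (i b hb)
      have := stab hX hα (x := b) (h _ m (by
        rw [mul_assoc, ← mul_assoc (α b), c _ (i b hb) _ (inv_mem hb), mul_assoc, ← map_mul, e2]; group)) (by group)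
      rw [inv_mul_eq_one] at this
      exact this.symm
  exact fun b hb => (hX b).elim fun k hk => this k b hb hk

structure Hy (A : Subgroup (MulAut X)) : Prop where
  p : IsPGroup 2 X
  ne : ∀ E : Subgroup X, E.Normal → (∀ e ∈ E, e * e = 1) → Nat.card E ≤ 4
  odd : Odd (Nat.card A)
  gen : closure {g : X | ∃ φ ∈ A, ∃ x : X, g = x⁻¹ * φ x} = ⊤
  na : ¬ IsMulCommutative X

theorem Hy.of (hX : IsPGroup 2 X) (hna : ¬ IsMulCommutative X)
    (hscn : ¬ ∃ A : Subgroup X, A.Normal ∧ Subgroup.centralizer (A : Set X) = A ∧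
      ∃ E : Subgroup X, E ≤ A ∧ Cfsg.IsElementaryAbelian 2 E ∧ Nat.card E = 8)
    (A : Subgroup (MulAut X)) (hA : Odd (Nat.card A))
    (hXA : Subgroup.closure {g : X | ∃ φ ∈ A, ∃ x : X, g = x⁻¹ * φ x} = ⊤) : Hy A := by
  refine ⟨hX, fun E nE e2 => not_lt.1 fun lt => hscn ?_, hA, hXA, hna⟩
  have cE : E ≤ centralizer (E : Set X) := fun a ha b hb => by
    rw [← inv_eq_of_mul_eq_one_right (e2 _ (mul_mem hb ha)), mul_inv_rev, inv_eq_of_mul_eq_one_right (e2 _ ha),
      inv_eq_of_mul_eq_one_right (e2 _ hb)]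
  obtain ⟨B, ⟨nB, eB, cB⟩, mx⟩ := (Set.toFinite {B : Subgroup X | B.Normal ∧ E ≤ B ∧ B ≤ centralizer (B : Set X)}).exists_maximal
    ⟨E, nE, le_rfl, cE⟩
  obtain ⟨k, hk⟩ := IsPGroup.iff_card.1 (hX.to_subgroup E)
  have k3 : 3 ≤ k := by
    by_contra! c
    interval_cases k <;> omega
  obtain ⟨E', hE'⟩ := Sylow.exists_subgroup_card_pow_prime 2 (G := E) (n := 3) (hk ▸ pow_dvd_pow 2 k3)
  refine ⟨B, nB, le_antisymm (by_contra fun c => ?_) cB, E'.map E.subtype, (map_subtype_le _).trans eB,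
    ⟨⟨⟨fun a b => Subtype.ext (cE (map_subtype_le _ b.2) _ (map_subtype_le _ a.2))⟩⟩,
      fun a ha => by rw [sq, e2 a (map_subtype_le _ ha)]⟩, by rw [card_map_of_injective E.subtype_injective, hE']; rfl⟩
  obtain ⟨x, h1, h2, h3⟩ := exists_step hX c
  refine h2 (mx (y := B ⊔ zpowers x) ⟨⟨?_⟩, eB.trans le_sup_left, ?_⟩ le_sup_left (mem_sup_right (mem_zpowers x)))
  · intro n hn g
    refine (show B ⊔ zpowers x ≤ comap (MulAut.conj g).toMonoidHom (B ⊔ zpowers x) from sup_le (fun b hb =>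
      mem_sup_left (nB.conj_mem b hb g)) (zpowers_le.2 ?_)) hn
    have := mul_mem (mem_sup_right (S := B) (mem_zpowers x)) (mem_sup_left ((mem_up.1 h3).2 g))
    rwa [mul_inv_cancel_left] at this
  · have a1 : B ⊔ zpowers x ≤ centralizer (B : Set X) := sup_le cB (zpowers_le.2 h1)
    have a2 : B ⊔ zpowers x ≤ centralizer {x} := sup_le (fun b hb => mem_centralizer_singleton_iff.2 (h1 b hb))
      (zpowers_le.2 (mem_centralizer_singleton_iff.2 rfl))
    exact sup_le (le_centralizer_iff.1 a1) (zpowers_le.2 fun y hy => mem_centralizer_singleton_iff.1 (a2 hy))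

namespace Hy
variable {A : Subgroup (MulAut X)} (h : Hy A)
include h

theorem oo {α : MulAut X} (hα : α ∈ A) : Odd (orderOf α) :=
  h.odd.of_dvd_nat (A.orderOf_dvd_natCard hα)

theorem mem_of {V : Subgroup X} [V.Normal] (e2 : ∀ v ∈ V, v * v = 1) (c4 : Nat.card V = 4) {t : X} (ht : t * t = 1)
    (hc : ∀ v ∈ V, v * t = t * v) (hn : ∀ g, t⁻¹ * (g * t * g⁻¹) ∈ V) : t ∈ V := by
  obtain ⟨E, h1, h2, h3, h4, -⟩ := ext_elem e2 ht hc hn
  rwa [eq_of_le_of_card_ge h3 (c4 ▸ h.ne E h1 h2)]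

end Hy

theorem card_le_cube (hX : IsPGroup 2 X) {Z : Subgroup X} (Y : Subgroup X) (hZ : Z ≤ centralizer (Y : Set X))
    (e2 : ∀ z ∈ Z, z * z = 1) (sq2 : ∀ y ∈ Y, y * y ∈ Z) (inv : ∀ y ∈ Y, y * y = 1 → y ∈ Z) :
    Nat.card Y ≤ Nat.card Z ^ 3 := by
  have cm : ∀ x ∈ Y, ∀ y ∈ Y, x * y * x⁻¹ * y⁻¹ ∈ Z := fun x hx y hy => by
    have := mul_mem (mul_mem (sq2 x hx) (sq2 _ (mul_mem (inv_mem hx) hy))) (sq2 _ (inv_mem hy))
    rwa [show x * x * (x⁻¹ * y * (x⁻¹ * y)) * (y⁻¹ * y⁻¹) = x * y * x⁻¹ * y⁻¹ by group] at this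
  refine (Cfsg.Agent.S3773.result (hX.to_subgroup Y) ?_ (fun x => Subtype.ext ?_) fun x y hx hy => ?_).1.trans
    (Nat.pow_le_pow_left (Nat.card_le_card_of_injective
      (fun x : {x : Y // x ^ 2 = 1} => (⟨x.1, inv _ x.1.2 (by rw [← sq]; exact congrArg Subtype.val x.2)⟩ : Z)) fun x y e =>
        Subtype.ext (Subtype.ext (congrArg (fun z : Z => (z : X)) e))) 3)
  · change ⁅⁅(⊤ : Subgroup Y), ⊤⁆, ⊤⁆ = ⊥
    rw [commutator_eq_bot_iff_le_centralizer, commutator_le]
    exact fun a _ b _ c _ => Subtype.ext (hZ (cm a a.2 b b.2) c c.2)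
  · rw [show 4 = 2 * 2 from rfl, pow_mul, sq, sq]
    exact e2 _ (sq2 x x.2)
  · rw [sq, Subtype.ext_iff] at hx hy ⊢
    exact e2 _ (mul_mem (inv _ x.2 hx) (inv _ y.2 hy))

theorem comm_mem_of_sq {N : Subgroup X} (h : ∀ x : X, x * x ∈ N) : _root_.commutator X ≤ N :=
  commutator_le.2 fun x _ y _ => by
    have := mul_mem (mul_mem (h x) (h (x⁻¹ * y))) (h y⁻¹)
    rwa [show x * x * (x⁻¹ * y * (x⁻¹ * y)) * (y⁻¹ * y⁻¹) = x * y * x⁻¹ * y⁻¹ by group] at this

theorem card_inv {V : Subgroup X} (e2 : ∀ v ∈ V, v * v = 1) (inv : ∀ y, y * y = 1 → y ∈ V) :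
    Nat.card {x : X // orderOf x = 2} + 1 = Nat.card V := by
  have : {x : X | orderOf x = 2} = (V : Set X) \ {1} := Set.ext fun x => by
    simp only [Set.mem_ofPred_eq, orderOf_eq_prime_iff, sq, Set.mem_sdiff, SetLike.mem_coe, Set.mem_singleton_iff]
    exact and_congr_left fun _ => ⟨inv x, e2 x⟩
  change Nat.card {x : X | orderOf x = 2} + 1 = _
  rw [this, Nat.card_coe_set_eq, Set.ncard_sdiff_singleton_add_one V.one_mem]; rfl

namespace Hy
variable {A : Subgroup (MulAut X)} (h : Hy A)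
  (hc : ∀ H : Subgroup X, H.Characteristic → IsMulCommutative H → ∀ a ∈ A, ∀ x ∈ H, a x = x)
include h hc

theorem sp : Cfsg.IsSpecial 2 X ∧ ∀ g : X, g ∈ center X ↔ ∀ a ∈ A, a g = g :=
  Cfsg.Agent.S0119.result h.p A (Nat.coprime_two_right.2 h.odd) (h.gen ▸ by
    congr 1; ext; constructor
    · rintro ⟨g, a, ha, e⟩; exact ⟨a, ha, g, e⟩
    · rintro ⟨a, ha, g, e⟩; exact ⟨g, a, ha, e⟩) hc

theorem z2 {z : X} (hz : z ∈ center X) : z * z = 1 := by
  rw [← sq]; exact Cfsg.Agent.S0094.result (h.sp hc).1 z hz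

theorem sqz (x : X) : x * x ∈ center X := by
  rw [← sq, ← (h.sp hc).1.2.1]; exact CF.Fgs1.pow_mem_frattini h.p x

theorem cmz (g x : X) : x⁻¹ * (g * x * g⁻¹) ∈ center X :=
  (mem_up.1 (up_eq_top (h.sqz hc) ▸ mem_top x)).2 g

theorem const (i8 : (center X).index ≤ 8) {x y : X} (hx : x ∉ center X) (hy : y ∉ center X) : x * x = y * y := by
  have : MulAction.QuotientAction A (center X) := ⟨fun b a a' e => by
    change (b.1 a)⁻¹ * b.1 a' ∈ _
    rwa [← map_inv, ← map_mul, ((h.sp hc).2 _).1 e b.1 b.2]⟩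
  have sm : ∀ (a : A) (x : X), a • (x : X ⧸ center X) = (a.1 x : X) := fun _ _ => rfl
  have wd : ∀ x y : X, (x : X ⧸ center X) = y → x * x = y * y := fun x y e => by
    have m := QuotientGroup.eq.1 e
    obtain ⟨z, rfl⟩ : ∃ z, y = x * z := ⟨x⁻¹ * y, by simp⟩
    rw [inv_mul_cancel_left] at m
    rw [mul_assoc, ← mul_assoc z, ← mem_center_iff.1 m x, mul_assoc x z, h.z2 hc m, mul_one]
  have nf : ∀ y : X, y ∉ center X → ∃ a : A, a • (y : X ⧸ center X) ≠ y := fun y hy => by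
    by_contra! c
    refine hy (((h.sp hc).2 y).2 fun a ha => ?_)
    have m := QuotientGroup.eq.1 (c ⟨a, ha⟩).symm
    have := stab h.p (h.oo ha) (x := y) (((h.sp hc).2 _).1 m a ha) (by simp)
    exact (inv_mul_eq_one.1 this).symm
  have am : ∀ (a : A) (y : X), y ∉ center X → a.1 y ∉ center X := fun a y hy m =>
    hy (by rwa [a.1.injective (((h.sp hc).2 _).1 m a.1 a.2)] at m)
  have as : ∀ (a : A) (y : X), a.1 y * a.1 y = y * y := fun a y => by
    rw [← map_mul, ((h.sp hc).2 _).1 (h.sqz hc y) a.1 a.2]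
  let S : Set (X ⧸ center X) := {u | ∃ y : X, y ∉ center X ∧ y * y = x * x ∧ u = y}
  let T : Set (X ⧸ center X) := {u | ∃ y : X, y ∉ center X ∧ y * y ≠ x * x ∧ u = y}
  have hS := orb h.odd S (by rintro a _ ⟨y, h1, h2, rfl⟩; exact ⟨_, am a y h1, (as a y).trans h2, rfl⟩)
    (by rintro _ ⟨y, h1, -, rfl⟩; exact nf y h1)
  have hT := orb h.odd T (by rintro a _ ⟨y, h1, h2, rfl⟩; exact ⟨_, am a y h1, (as a y).trans_ne h2, rfl⟩)
    (by rintro _ ⟨y, h1, -, rfl⟩; exact nf y h1)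
  have u : S ∪ T = Set.univ \ {1} := Set.ext fun u => by
    obtain ⟨y, rfl⟩ := QuotientGroup.mk_surjective u
    simp only [Set.mem_sdiff, Set.mem_univ, true_and, Set.mem_singleton_iff, QuotientGroup.eq_one_iff]
    refine ⟨?_, fun hy => (em (y * y = x * x)).imp (fun e => ⟨y, hy, e, rfl⟩) fun e => ⟨y, hy, e, rfl⟩⟩
    rintro (⟨w, h1, -, e⟩ | ⟨w, h1, -, e⟩) m <;>
      exact h1 ((QuotientGroup.eq_one_iff w).1 (e ▸ (QuotientGroup.eq_one_iff y).2 m))
  have d : Disjoint S T := Set.disjoint_left.2 (by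
    rintro _ ⟨y, -, h2, rfl⟩ ⟨w, -, h4, e⟩; exact h4 ((wd _ _ e).symm.trans h2))
  have c := Set.ncard_union_eq d
  have c2 := Set.ncard_sdiff_singleton_add_one (Set.mem_univ (1 : X ⧸ center X))
  rw [← u, c, Set.ncard_univ, ← index_eq_card] at c2
  have s0 : S.ncard ≠ 0 := Set.ncard_ne_zero_of_mem ⟨x, hx, rfl, rfl⟩
  by_contra n
  have t0 : T.ncard ≠ 0 := Set.ncard_ne_zero_of_mem ⟨y, hy, Ne.symm n, rfl⟩
  obtain ⟨k, hk⟩ := IsPGroup.iff_card.1 (h.p.to_quotient (center X))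
  rw [← index_eq_card] at hk
  rcases k with _ | k
  · omega
  · omega

theorem idx (n : ∃ x y : X, x ∉ center X ∧ y ∉ center X ∧ x * x ≠ y * y) : 16 ≤ (center X).index := by
  obtain ⟨x, y, hx, hy, n⟩ := n
  obtain ⟨k, hk⟩ := IsPGroup.iff_card.1 (h.p.to_quotient (center X))
  rw [← index_eq_card] at hk
  have : 8 < (center X).index := not_le.1 fun c => n (h.const hc c hx hy)
  have : 4 ≤ k := by
    by_contra! c
    interval_cases k <;> omega
  exact hk ▸ Nat.pow_le_pow_right two_pos this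

theorem caseI : Nonempty (X ≃* QuaternionGroup 2) ∨
      (Cfsg.IsSpecial 2 X ∧ Nat.card X = 64 ∧ Nat.card {x : X // orderOf x = 2} = 3 ∧
        ∀ x : X, orderOf x = 2 → x ∈ Subgroup.center X) ∨
      (Cfsg.IsExtraspecial 2 X ∧ Nat.card X = 32 ∧ Nat.card {x : X // orderOf x = 2} = 11) := by
  have sp := (h.sp hc).1
  have ct : center X ≤ centralizer ((⊤ : Subgroup X) : Set X) := center_le_centralizer _
  have cx := (center X).card_mul_index
  have nz : ¬ center X ≤ ⊥ := fun e => h.na ⟨⟨fun a b => by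
    have := e (h.cmz hc a b)
    rw [mem_bot, inv_mul_eq_one, eq_mul_inv_iff_mul_eq] at this
    exact this.symm⟩⟩
  obtain ⟨x0, hx0⟩ : ∃ x, x ∉ center X := by
    by_contra! c
    exact h.na ⟨⟨fun a b => mem_center_iff.1 (c b) a⟩⟩
  obtain ⟨k, hk⟩ := IsPGroup.iff_card.1 (h.p.to_subgroup (center X))
  have le4 := h.ne (center X) inferInstance fun _ => h.z2 hc
  have : Nat.card (center X) = 2 ∨ Nat.card (center X) = 4 := by
    have : Nat.card (center X) ≠ 1 := fun e => nz (card_eq_one.1 e).le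
    have : k < 3 := by
      by_contra! c
      have := Nat.pow_le_pow_right two_pos c
      omega
    interval_cases k <;> omega
  rcases this with c2 | c4
  swap
  · have iv : ∀ y, y * y = 1 → y ∈ center X := fun y hy =>
      h.mem_of (fun _ => h.z2 hc) c4 hy (fun v hv => (mem_center_iff.1 hv y).symm) fun g => h.cmz hc g y
    have b := card_le_cube h.p ⊤ ct (fun _ => h.z2 hc) (fun y _ => h.sqz hc y) fun y _ => iv y
    have i := h.idx hc (by
      by_contra! c
      have : center X ≤ zpowers (x0 * x0) := sp.2.2 ▸ comm_mem_of_sq fun y => by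
        by_cases e : y ∈ center X
        · rw [h.z2 hc e]; exact one_mem _
        · rw [c y x0 e hx0]; exact mem_zpowers _
      have := card_le_of_le this
      rw [Nat.card_zpowers] at this
      have := Nat.le_of_dvd two_pos (orderOf_dvd_of_pow_eq_one (sq (x0 * x0) ▸ h.z2 hc (h.sqz hc x0)))
      omega)
    have := card_inv (fun _ => h.z2 hc) iv
    rw [card_top, c4] at b
    rw [c4] at cx
    exact .inr (.inl ⟨sp, by omega, by omega, fun x hx => iv x (by rw [← sq, ← hx, pow_orderOf_eq_one])⟩)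
  obtain ⟨z, hz, z1⟩ : ∃ z ∈ center X, z ≠ 1 := by simpa [SetLike.le_def] using nz
  have zz : ∀ w ∈ center X, w = 1 ∨ w = z := fun w hw => by
    obtain ⟨y, -, hy⟩ := (Nat.card_eq_two_iff' (1 : center X)).1 c2
    exact or_iff_not_imp_left.2 fun e => congrArg Subtype.val
      ((hy ⟨w, hw⟩ fun e' => e (congrArg Subtype.val e')).trans (hy ⟨z, hz⟩ fun e' => z1 (congrArg Subtype.val e')).symm)
  by_cases iv : ∀ y, y * y = 1 → y ∈ center X
  · left
    have b := card_le_cube h.p ⊤ ct (fun _ => h.z2 hc) (fun y _ => h.sqz hc y) fun y _ => iv y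
    rw [card_top, c2] at b
    obtain ⟨j, hj⟩ := IsPGroup.iff_card.1 (h.p.to_quotient (center X))
    rw [← index_eq_card] at hj
    have i1 : (center X).index ≠ 1 := fun e => hx0 (index_eq_one.1 e ▸ mem_top _)
    have i2 : (center X).index ≠ 2 := fun e => CF.Fgs1.center_index_ne_prime (e ▸ Nat.prime_two)
    refine Cfsg.Agent.S0827.q8_of ?_ (fun g => ?_) fun a b a1 a2 b1 b2 =>
      ((zz a (iv a a2)).resolve_left a1).trans ((zz b (iv b b2)).resolve_left b1).symm
    · rw [c2] at cx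
      have : j < 3 := by
        by_contra! c
        have := Nat.pow_le_pow_right two_pos c
        omega
      interval_cases j <;> omega
    · rw [show 4 = 2 * 2 from rfl, pow_mul, sq, sq]; exact h.z2 hc (h.sqz hc g)
  push Not at iv
  obtain ⟨t, tt, ht⟩ := iv
  have cj : ∀ g x : X, g * x = x * g ∨ g * x = x * g * z := fun g x => (zz _ (h.cmz hc g x)).imp
    (fun e => by rw [inv_mul_eq_one, eq_mul_inv_iff_mul_eq] at e; exact e.symm)
    fun e => by rw [inv_mul_eq_iff_eq_mul, mul_inv_eq_iff_eq_mul] at e; rw [e, mul_assoc, mul_assoc, mem_center_iff.1 hz g]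
  have ix : ∀ x : X, x ∉ center X → (centralizer {x}).index = 2 := fun x hx => by
    obtain ⟨a, ha⟩ : ∃ a, a * x ≠ x * a := by simpa [mem_center_iff] using hx
    have ha' := (cj a x).resolve_left ha
    refine index_eq_two_iff.2 ⟨a, fun b => ?_⟩
    simp only [mem_centralizer_singleton_iff]
    rcases em (b * x = x * b) with e | e
    · refine .inr ⟨e, fun e' => ha ?_⟩
      rw [mul_assoc, ← mul_assoc x, ← e, mul_assoc] at e'
      exact mul_left_cancel e'
    · refine .inl ⟨?_, e⟩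
      rw [mul_assoc, ha', ← mul_assoc, ← mul_assoc, (cj b x).resolve_left e, mul_assoc _ z, ← mem_center_iff.1 hz a,
        mul_assoc, mul_assoc a, h.z2 hc hz, mul_one, mul_assoc]
  obtain ⟨E, nE, E2, zE, tE, dE⟩ := ext_elem (fun _ => h.z2 hc) tt (fun v hv => (mem_center_iff.1 hv t).symm)
    fun g => h.cmz hc g t
  have cE : Nat.card E = 4 := by
    have := h.ne E nE E2
    have d := card_dvd_of_le zE
    have : Nat.card E ≠ 2 := fun e => ht (eq_of_le_of_card_ge zE (by omega) ▸ tE)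
    have := Nat.card_pos (α := E)
    rw [c2] at d
    omega
  have EC : E ≤ centralizer {t} := fun e he => mem_centralizer_singleton_iff.2 (by
    rcases dE e he with m | m
    · exact (mem_center_iff.1 m t).symm
    · have := mem_center_iff.1 m t
      rw [mul_inv_cancel_left, mul_assoc, eq_inv_mul_iff_mul_eq] at this
      exact this.symm)
  have ivE : ∀ y ∈ centralizer {t}, y * y = 1 → y ∈ E := fun y hy yy => h.mem_of E2 cE yy (fun e he => by
    rcases dE e he with m | m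
    · exact (mem_center_iff.1 m y).symm
    · obtain ⟨w, rfl⟩ : ∃ w, e = t * w := ⟨t⁻¹ * e, by simp⟩
      rw [inv_mul_cancel_left] at m
      rw [mul_assoc, ← mem_center_iff.1 m y, ← mul_assoc, ← mul_assoc, mem_centralizer_singleton_iff.1 hy])
    fun g => zE (h.cmz hc g y)
  obtain ⟨s, hs⟩ : ∃ a, a * t ≠ t * a := by simpa [mem_center_iff] using ht
  have i16 := h.idx hc (by
    by_contra! c
    have := comm_mem_of_sq (N := (⊥ : Subgroup X)) fun y => by
      by_cases e : y ∈ center X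
      · exact h.z2 hc e
      · exact (c y t e ht).trans tt
    exact nz (sp.2.2 ▸ this))
  have b := card_le_cube h.p (centralizer {t} ⊓ centralizer {s}) (center_le_centralizer _) (fun _ => h.z2 hc)
    (fun y _ => h.sqz hc y) fun y hy yy => (dE y (ivE y hy.1 yy)).resolve_right fun m => hs (by
      have e1 := mem_center_iff.1 m s
      rw [mul_assoc, mem_centralizer_singleton_iff.1 hy.2, ← mul_assoc, ← mul_assoc, mul_left_inj,
        mul_inv_eq_iff_eq_mul, mul_assoc, eq_inv_mul_iff_mul_eq] at e1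
      exact e1.symm)
  have i4 := index_inf_le (H := centralizer {t}) (K := centralizer {s})
  rw [ix t ht, ix s fun m => hs (mem_center_iff.1 m t).symm] at i4
  have cy := (centralizer {t} ⊓ centralizer {s}).card_mul_index
  rw [c2] at b cx
  have c32 : Nat.card X = 32 := by
    have := Nat.mul_le_mul b i4
    omega
  refine .inr (.inr ⟨⟨sp, c2⟩, c32, ?_⟩)
  have cC := (centralizer {t}).card_mul_index
  rw [ix t ht, c32] at cC
  let P : Set X := {x | x ∉ centralizer {t} ∧ x * x = 1}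
  let R : Set X := {x | x ∉ centralizer {t} ∧ x * x ≠ 1}
  have sqt : ∀ x, x ∉ centralizer {t} → x * t * (x * t) = x * x * z := fun x hx => by
    rw [mul_assoc, ← mul_assoc t, (cj t x).resolve_left fun e => hx (mem_centralizer_singleton_iff.2 e.symm),
      mul_assoc _ z, ← mem_center_iff.1 hz t, mul_assoc x t, ← mul_assoc t t, tt, one_mul, mul_assoc]
  have nt : ∀ x, x ∉ centralizer {t} → x * t ∉ centralizer {t} := fun x hx m =>
    hx ((mul_mem_cancel_right (mem_centralizer_singleton_iff.2 rfl)).1 m)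
  have im : (· * t) '' P = R := Set.ext fun x => ⟨by
      rintro ⟨y, ⟨h1, h2⟩, rfl⟩
      exact ⟨nt y h1, by rw [sqt y h1, h2, one_mul]; exact z1⟩, fun ⟨h1, h2⟩ =>
    ⟨x * t, ⟨nt x h1, by rw [sqt x h1, (zz _ (h.sqz hc x)).resolve_left h2, h.z2 hc hz]⟩, by
      simp only [mul_assoc, tt, mul_one]⟩⟩
  have c1 : R.ncard = P.ncard := by rw [← im, Set.ncard_image_of_injective _ (mul_left_injective t)]
  have u : P ∪ R = (centralizer {t} : Set X)ᶜ := Set.ext fun x =>
    ⟨fun m => m.elim And.left And.left, fun m => (em (x * x = 1)).imp (⟨m, ·⟩) (⟨m, ·⟩)⟩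
  have c3 := Set.ncard_union_eq (s := P) (t := R) (Set.disjoint_left.2 fun x h1 h2 => h2.2 h1.2)
  have c4 := Set.ncard_add_ncard_compl (centralizer {t} : Set X)
  have c5 : (centralizer {t} : Set X).ncard = Nat.card (centralizer {t}) := rfl
  have : {x : X | orderOf x = 2} = ((E : Set X) \ {1}) ∪ P := Set.ext fun x => by
    simp only [Set.mem_ofPred_eq, orderOf_eq_prime_iff, sq, Set.mem_union, Set.mem_sdiff, SetLike.mem_coe,
      Set.mem_singleton_iff]
    refine ⟨fun ⟨h1, h2⟩ => (em (x ∈ centralizer {t})).imp (fun m => ⟨ivE x m h1, h2⟩) (⟨·, h1⟩), ?_⟩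
    rintro (⟨h1, h2⟩ | ⟨h1, h2⟩)
    · exact ⟨E2 x h1, h2⟩
    · exact ⟨h2, fun e => h1 (e ▸ one_mem _)⟩
  change Nat.card {x : X | orderOf x = 2} = _
  have c6 := Set.ncard_sdiff_singleton_add_one (s := (E : Set X)) E.one_mem
  have c7 : (E : Set X).ncard = 4 := cE
  rw [this, Nat.card_coe_set_eq, Set.ncard_union_eq (Set.disjoint_left.2 fun x h1 h2 => h2.1 (EC h1.1))]
  rw [u] at c3
  omega

end Hy

end CF.Sc
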