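import Cfsg.Agent.Perm.Sc1

/-! 2-groups without normal `E₈` and with an odd group of automorphisms: a four-group acted on nontrivially. -/

set_option autoImplicit false

namespace CF.Sc
open Subgroup

variable {X : Type*} [Group X] [Finite X]

theorem four {V : Subgroup X} (e2 : ∀ v ∈ V, v * v = 1) (c4 : Nat.card V ≤ 4) {v w : X} (hv : v ∈ V) (hw : w ∈ V)
    (v1 : v ≠ 1) (w1 : w ≠ 1) (vw : v ≠ w) : Nat.card V = 4 ∧ ∀ u ∈ V, u = 1 ∨ u = v ∨ u = w ∨ u = v * w := by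
  have a1 : v * w ≠ 1 := fun e => vw (mul_left_cancel ((e2 v hv).trans e.symm))
  have c : ({1, v, w, v * w} : Set X).ncard = 4 := by
    rw [Set.ncard_insert_of_notMem (by simp [v1.symm, w1.symm, a1.symm]), Set.ncard_insert_of_notMem (by simp [vw, w1]),
      Set.ncard_pair (by simp [v1])]
  have s : ({1, v, w, v * w} : Set X) ⊆ V := by
    rintro _ (rfl | rfl | rfl | rfl)
    exacts [one_mem _, hv, hw, mul_mem hv hw]
  have e := Set.eq_of_subset_of_ncard_le s (c ▸ c4)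
  exact ⟨c ▸ e ▸ rfl, fun u hu => (e.ge hu :)⟩

theorem surj {a : MulAut X} {F : Subgroup X} (i : ∀ x ∈ F, a x ∈ F) (f : ∀ x ∈ F, a x = x → x = 1) :
    (∀ x ∈ F, ∀ y ∈ F, x⁻¹ * a x = y⁻¹ * a y → x = y) ∧ ∀ y ∈ F, ∃ x ∈ F, x⁻¹ * a x = y := by
  have inj : ∀ x ∈ F, ∀ y ∈ F, x⁻¹ * a x = y⁻¹ * a y → x = y := fun x hx y hy e =>
    (mul_inv_eq_one.1 (f _ (mul_mem hy (inv_mem hx)) (by
      rw [map_mul, map_inv, mul_inv_eq_iff_eq_mul, mul_assoc, e, mul_inv_cancel_left]))).symm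
  refine ⟨inj, fun y hy => ?_⟩
  obtain ⟨x, hx⟩ := Finite.surjective_of_injective (f := fun x : F => (⟨x⁻¹ * a x, mul_mem (inv_mem x.2) (i x x.2)⟩ : F))
    (fun x y e => Subtype.ext (inj x x.2 y y.2 (congrArg Subtype.val e))) ⟨y, hy⟩
  exact ⟨x, x.2, congrArg Subtype.val hx⟩

structure K4 (A : Subgroup (MulAut X)) (V : Subgroup X) (a : MulAut X) : Prop extends Hy A where
  aA : a ∈ A
  e2 : ∀ v ∈ V, v * v = 1
  c4 : Nat.card V = 4
  inv : ∀ α ∈ A, ∀ v ∈ V, α v ∈ V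
  fpf : ∀ v ∈ V, a v = v → v = 1
  cen : V ≤ center X

theorem Hy.exists_K4 {A : Subgroup (MulAut X)} (h : Hy A)
    (hc : ¬ ∀ H : Subgroup X, H.Characteristic → IsMulCommutative H → ∀ a ∈ A, ∀ x ∈ H, a x = x) :
    ∃ V a, V.Normal ∧ K4 A V a := by
  push Not at hc
  obtain ⟨H, cH, ab, a, ha, x, hx, n⟩ := hc
  have c : ∀ a ∈ H, ∀ b ∈ H, a * b = b * a := fun a ha b hb => congrArg Subtype.val (ab.is_comm.comm ⟨a, ha⟩ ⟨b, hb⟩)
  have iH : ∀ α : MulAut X, ∀ x ∈ H, α x ∈ H := fun α x hx => (characteristic_iff_le_comap.1 cH α hx :)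
  obtain ⟨v, hv, vv, av⟩ : ∃ v ∈ H, v * v = 1 ∧ a v ≠ v := by
    by_contra! e
    exact n (fix_ab h.p (h.oo ha) c (iH a) e x hx)
  let V : Subgroup X :=
    { carrier := {y | y ∈ H ∧ y * y = 1}
      one_mem' := ⟨one_mem _, mul_one 1⟩
      mul_mem' := fun {y z} hy hz => ⟨mul_mem hy.1 hz.1, by
        rw [mul_assoc, ← mul_assoc z, c z hz.1 y hy.1, mul_assoc y, hz.2, mul_one, hy.2]⟩
      inv_mem' := fun {y} hy => ⟨inv_mem hy.1, by rw [← mul_inv_rev, hy.2, inv_one]⟩ }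
  have iV : ∀ α : MulAut X, ∀ x ∈ V, α x ∈ V := fun α x hx => ⟨iH α x hx.1, by rw [← map_mul, hx.2, map_one]⟩
  have nV : V.Normal := ⟨fun x hx g => iV (MulAut.conj g) x hx⟩
  have e2 : ∀ y ∈ V, y * y = 1 := fun _ hy => hy.2
  have c4 := h.ne V nV e2
  have vV : v ∈ V := ⟨hv, vv⟩
  have v1 : v ≠ 1 := fun e => av (by simp [e])
  have fp : ∀ u ∈ V, a u = u → u = 1 := fun u hu au => by_contra fun u1 => by
    rcases (four e2 c4 vV hu v1 u1 fun e => av (e ▸ au)).2 _ (iV a v vV) with e | e | e | e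
    · exact v1 (by simpa using e)
    · exact av e
    · exact av (a.injective (e.trans au.symm) ▸ au)
    · exact u1 (stab h.p (h.oo ha) au e)
  have c4' := (four e2 c4 vV (iV a v vV) v1 (by simpa using v1) av.symm).1
  refine ⟨V, a, nV, h, ha, e2, c4', fun α _ => iV α, fp, fun u hu => ?_⟩
  obtain ⟨z, h1, z1, h2⟩ := CF.Fgs1.exists_center_of_normal h.p (N := V) fun e => v1 (by rwa [e] at vV)
  have h3 : a z ∈ center X := (characteristic_iff_le_comap.1 inferInstance a h2 :)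
  rcases (four e2 c4 h1 (iV a z h1) z1 (by simpa using z1) fun e => z1 (fp z h1 e.symm)).2 u hu with rfl | rfl | rfl | rfl
  exacts [one_mem _, h2, h3, mul_mem h2 h3]

namespace K4
variable {A : Subgroup (MulAut X)} {V : Subgroup X} {a : MulAut X} (h : K4 A V a)
include h

theorem cases {v : X} (hv : v ∈ V) (v1 : v ≠ 1) : ∀ u ∈ V, u = 1 ∨ u = v ∨ u = a v ∨ u = v * a v :=
  (four h.e2 h.c4.le hv (h.inv a h.aA v hv) v1 (by simpa using v1) fun e => v1 (h.fpf v hv e.symm)).2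

theorem aa {v : X} (hv : v ∈ V) (v1 : v ≠ 1) : a (a v) = v * a v := by
  rcases h.cases hv v1 _ (h.inv a h.aA _ (h.inv a h.aA v hv)) with e | e | e | e
  · exact absurd (by simpa using e) v1
  · exact absurd (h.fpf v hv (odd_sq (h.oo h.aA) e)) v1
  · exact absurd (h.fpf v hv (a.injective e)) v1
  · exact e

theorem irr {M : Subgroup X} (i : ∀ x ∈ M, a x ∈ M) {v : X} (hv : v ∈ V) (v1 : v ≠ 1) (m : v ∈ M) : V ≤ M := fun u hu => by
  rcases h.cases hv v1 u hu with rfl | rfl | rfl | rfl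
  exacts [one_mem _, m, i _ m, mul_mem m (i _ m)]

theorem exv : ∃ v ∈ V, v ≠ 1 := by
  by_contra! c
  have := h.c4
  rw [(eq_bot_iff_forall V).2 c, card_bot] at this
  omega

theorem cyc {M E : Subgroup X} (le : M ≤ E) (c : M ≤ centralizer (E : Set X)) (i4 : M.relIndex E ≤ 4)
    (cm : ∀ x ∈ E, ∀ y ∈ E, x⁻¹ * (y * x * y⁻¹) ∈ V) (i : ∀ x ∈ E, a x ∈ E) : E ≤ centralizer (E : Set X) := by
  have c1 : ∀ x ∈ E, ∀ y ∈ E, ∀ y' ∈ E, y * x ≠ x * y → y' * x ≠ x * y' →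
      x⁻¹ * (y * x * y⁻¹) = x⁻¹ * (y' * x * y'⁻¹) := fun x hx y hy y' hy' n n' => by
    have l : M ≤ E ⊓ centralizer {x} := le_inf le fun m hm => mem_centralizer_singleton_iff.2 (c hm x hx).symm
    have e := relIndex_mul_relIndex _ _ _ l (inf_le_left : E ⊓ centralizer {x} ≤ E)
    have a1 : M.relIndex (E ⊓ centralizer {x}) ≠ 1 := fun e => n
      (c (relIndex_eq_one.1 e (mem_inf.2 ⟨hx, mem_centralizer_singleton_iff.2 rfl⟩)) y hy)
    have a2 : (E ⊓ centralizer {x}).relIndex E ≠ 1 := fun e => n (mem_centralizer_singleton_iff.1 (relIndex_eq_one.1 e hy).2)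
    have a3 : M.relIndex E ≠ 0 := index_ne_zero_of_finite
    have i2 : (E ⊓ centralizer {x}).relIndex E = 2 := by
      rw [← e] at a3 i4
      have := left_ne_zero_of_mul a3
      have := right_ne_zero_of_mul a3
      by_contra
      nlinarith [show 2 ≤ M.relIndex (E ⊓ centralizer {x}) by omega, show 3 ≤ (E ⊓ centralizer {x}).relIndex E by omega]
    have := (mul_mem_iff_of_index_two i2 (a := ⟨y, hy⟩⁻¹) (b := ⟨y', hy'⟩)).2 (iff_of_false
      (fun m => n (mem_centralizer_singleton_iff.1 (inv_mem_iff.1 m).2)) fun m => n' (mem_centralizer_singleton_iff.1 m.2))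
    have k : y⁻¹ * y' * x = x * (y⁻¹ * y') := mem_centralizer_singleton_iff.1 this.2
    congr 1
    calc _ = y * (x * (y⁻¹ * y')) * y'⁻¹ := by group
      _ = _ := by rw [← k]; group
  have c2 : ∀ x ∈ E, ∀ y ∈ E, x⁻¹ * (y * x * y⁻¹) = y⁻¹ * (x * y * x⁻¹) := fun x hx y hy => by
    have m := cm x hx y hy
    rw [← inv_eq_of_mul_eq_one_right (h.e2 _ m)]
    calc _ = y⁻¹ * x * (x⁻¹ * (y * x * y⁻¹))⁻¹ * (y⁻¹ * x)⁻¹ := by
          rw [mem_center_iff.1 (inv_mem (h.cen m)) (y⁻¹ * x), mul_inv_cancel_right]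
      _ = _ := by group
  intro x hx y hy
  by_contra n
  have n' : a y * a x ≠ a x * a y := fun e => n (a.injective (by simpa using e))
  obtain ⟨w, hw, w1, w2⟩ : ∃ w ∈ E, w * x ≠ x * w ∧ w * a x ≠ a x * w := by
    by_cases e1 : y * a x = a x * y
    · by_cases e2 : a y * x = x * a y
      · refine ⟨y * a y, mul_mem hy (i y hy), fun e => n ?_, fun e => n' ?_⟩
        · rwa [mul_assoc, e2, ← mul_assoc, ← mul_assoc, mul_left_inj] at e
        · rwa [mul_assoc, ← mul_assoc (a x), ← e1, mul_assoc, mul_right_inj] at e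
      · exact ⟨a y, i y hy, e2, n'⟩
    · exact ⟨y, hy, n, e1⟩
  have := h.fpf _ (cm x hx y hy) (by
    simp only [map_mul, map_inv]
    rw [c1 x hx y hy w hw n w1, c2 x hx w hw, c1 w hw x hx (a x) (i x hx) w1.symm w2.symm, ← c2 _ (i x hx) w hw,
      c1 _ (i x hx) w hw (a y) (i y hy) w2 n'])
  rw [inv_mul_eq_one, eq_mul_inv_iff_mul_eq] at this
  exact n this.symm

variable [V.Normal]

theorem mem_V {t : X} (ht : t * t = 1) (hn : ∀ g, t⁻¹ * (g * t * g⁻¹) ∈ V) : t ∈ V :=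
  h.mem_of h.e2 h.c4 ht (fun v hv => (mem_center_iff.1 (h.cen hv) t).symm) hn

theorem sq_cent (g : X) : g * g ∈ centralizer (up V : Set X) := fun w hw => by
  have m := (mem_up.1 hw).2 g
  have e : g * w * g⁻¹ = w * (w⁻¹ * (g * w * g⁻¹)) := by group
  generalize w⁻¹ * (g * w * g⁻¹) = c at m e
  symm
  calc g * g * w = g * (g * w * g⁻¹) * g := by group
    _ = g * (w * c) * g := by rw [e]
    _ = g * w * g⁻¹ * (g * c) * g := by group
    _ = w * (c * c) * (g * g) := by rw [e, mem_center_iff.1 (h.cen m) g]; group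
    _ = _ := by rw [h.e2 c m, mul_one]

theorem caseA (hz : up V ⊓ centralizer (up V : Set X) ≤ V) :
    Cfsg.IsSpecial 2 X ∧ Nat.card X = 64 ∧ Nat.card {x : X // orderOf x = 2} = 3 ∧
      ∀ x : X, orderOf x = 2 → x ∈ Subgroup.center X := by
  have cW : centralizer (up V : Set X) ≤ V := by_contra fun c => by
    obtain ⟨x, h1, h2, h3⟩ := exists_step h.p c
    exact h2 (hz ⟨h3, h1⟩)
  have s2 : ∀ g, g * g ∈ V := fun g => cW (h.sq_cent g)
  have cm : ∀ x g, x⁻¹ * (g * x * g⁻¹) ∈ V := fun x => (mem_up.1 (up_eq_top s2 ▸ mem_top x)).2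
  have zV : center X = V := le_antisymm ((center_le_centralizer _).trans cW) h.cen
  have nab : ¬ ⊤ ≤ centralizer ((⊤ : Subgroup X) : Set X) := fun e =>
    h.na ⟨⟨fun a b => e (mem_top b) a (mem_top a)⟩⟩
  have cV : _root_.commutator X = V := le_antisymm (comm_mem_of_sq s2) (by
    obtain ⟨v, hv, v1⟩ : ∃ v ∈ _root_.commutator X, v ≠ 1 := by
      by_contra! c
      exact nab (commutator_eq_bot_iff_le_centralizer.1 ((eq_bot_iff_forall _).2 c))
    exact h.irr (fun x hx => (characteristic_iff_le_comap.1 inferInstance a hx :)) (comm_mem_of_sq s2 hv) v1 hv)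
  have iv : ∀ y, y * y = 1 → y ∈ V := fun y hy => h.mem_V hy (cm y)
  have b := card_le_cube h.p ⊤ (h.cen.trans (center_le_centralizer _)) h.e2 (fun y _ => s2 y) fun y _ => iv y
  have ci := card_inv h.e2 iv
  have c4 := h.c4
  rw [card_top, c4] at b
  refine ⟨⟨h.p, ?_, cV.trans zV.symm⟩, ?_, by omega, fun x hx => h.cen (iv x (by rw [← sq, ← hx, pow_orderOf_eq_one]))⟩
  · rw [zV]
    exact le_antisymm (CF.Fgs1.frattini_le_of (p := 2) cV.le fun x => by rw [sq]; exact s2 x)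
      (cV ▸ CF.Fgs1.commutator_le_frattini h.p)
  obtain ⟨v, hv, v1⟩ := h.exv
  let F : X → Set X := fun u => {x | x * x = u}
  have im : ∀ u, (F (a u)).ncard = (F u).ncard := fun u => by
    rw [← Set.ncard_image_of_injective (F u) a.injective]
    congr 1; ext x
    obtain ⟨x, rfl⟩ := a.surjective x
    rw [a.injective.mem_set_image]
    change _ = _ ↔ _ = _
    rw [← map_mul, a.injective.eq_iff]
  have d : ∀ {u w}, u ≠ w → Disjoint (F u) (F w) := fun n => Set.disjoint_left.2 fun x h1 h2 => n (h1.symm.trans h2)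
  have u : F 1 ∪ (F v ∪ (F (a v) ∪ F (a (a v)))) = Set.univ := Set.eq_univ_of_forall fun x => by
    rw [h.aa hv v1]; exact h.cases hv v1 _ (s2 x)
  have n1 : v ≠ a v := fun e => v1 (h.fpf v hv e.symm)
  have n2 : v ≠ a (a v) := fun e => n1 (odd_sq (h.oo h.aA) e.symm).symm
  have c := congrArg Set.ncard u
  have f1 : F 1 = V := Set.ext fun x => ⟨iv x, h.e2 x⟩
  rw [Set.ncard_union_eq (by
      simp only [Set.disjoint_union_right]
      exact ⟨d v1.symm, d (Ne.symm (by simpa using v1)), d (Ne.symm (by simpa using v1))⟩),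
    Set.ncard_union_eq (Set.disjoint_union_right.2 ⟨d n1, d n2⟩), Set.ncard_union_eq (d (a.injective.ne n1)),
    f1, Set.ncard_univ, show (V : Set X).ncard = 4 from c4] at c
  simp only [im] at c
  have i4 : 4 < V.index := not_le.1 fun c => nab (h.cyc le_top (h.cen.trans (center_le_centralizer _))
    (by rwa [relIndex_top_right]) (fun x _ y _ => cm x y) fun _ _ => mem_top _)
  have cx := V.card_mul_index
  obtain ⟨k, hk⟩ := IsPGroup.iff_card.1 h.p
  have : k < 7 := by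
    by_contra! c
    have := Nat.pow_le_pow_right two_pos c
    omega
  rw [c4] at cx
  interval_cases k <;> omega

end K4

structure MB (A : Subgroup (MulAut X)) (V : Subgroup X) (a : MulAut X) (B S : Subgroup X) : Prop extends K4 A V a where
  nB : B.Normal
  iB : ∀ α ∈ A, ∀ b ∈ B, α b ∈ B
  cB : B ≤ centralizer (B : Set X)
  vB : V ≤ B
  ex : ∃ b ∈ B, b ∉ V ∧ b * b ∈ V
  mx : ∀ F : Subgroup X, F.Normal → (∀ α ∈ A, ∀ b ∈ F, α b ∈ F) → F ≤ centralizer (F : Set X) → B ≤ F → F ≤ B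
  mS : ∀ x, x ∈ S ↔ ∃ b ∈ B, b * b = x

namespace MB
variable {A : Subgroup (MulAut X)} {V : Subgroup X} {a : MulAut X} {B S : Subgroup X} [V.Normal] (h : MB A V a B S)
include h

omit [V.Normal] in
theorem cm {x y : X} (hx : x ∈ B) (hy : y ∈ B) : x * y = y * x := h.cB hy x hx

omit [V.Normal] in
theorem sqm {x y : X} (hx : x ∈ B) (hy : y ∈ B) : x * y * (x * y) = x * x * (y * y) := by
  rw [mul_assoc, ← mul_assoc y, h.cm hy hx]; group

theorem iv {b : X} (hb : b ∈ B) (e : b * b = 1) : b ∈ V := by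
  let E : Subgroup X :=
    { carrier := {y | y ∈ B ∧ y * y = 1}
      one_mem' := ⟨one_mem _, mul_one 1⟩
      mul_mem' := fun {y z} hy hz => ⟨mul_mem hy.1 hz.1, by rw [h.sqm hy.1 hz.1, hy.2, hz.2, mul_one]⟩
      inv_mem' := fun {y} hy => ⟨inv_mem hy.1, by rw [← mul_inv_rev, hy.2, inv_one]⟩ }
  have nE : E.Normal := ⟨fun x hx g => ⟨h.nB.conj_mem x hx.1 g, by
    rw [show g * x * g⁻¹ * (g * x * g⁻¹) = g * (x * x) * g⁻¹ by group, hx.2]; group⟩⟩
  rw [eq_of_le_of_card_ge (show V ≤ E from fun v hv => ⟨h.vB hv, h.e2 v hv⟩) (h.c4 ▸ h.ne E nE fun _ h => h.2)]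
  exact ⟨hb, e⟩

theorem o2 {b : X} (hb : b ∈ B) (e : b * b ∈ V) : b ∈ up V := mem_up.2 ⟨e, fun g =>
  h.iv (mul_mem (inv_mem hb) (h.nB.conj_mem b hb g)) (by
    rw [h.sqm (inv_mem hb) (h.nB.conj_mem b hb g), show g * b * g⁻¹ * (g * b * g⁻¹) = g * (b * b) * g⁻¹ by group,
      mem_center_iff.1 (h.cen e) g]; group)⟩

theorem fixB : ∀ b ∈ B, a b = b → b = 1 := fun b hb e => by
  obtain ⟨k, hk⟩ := h.p b
  induction k with
  | zero => simpa using hk
  | succ k ih => exact ih (h.fpf _ (h.iv (pow_mem hb _) (by rw [← sq, ← pow_mul, ← pow_succ, hk])) (by rw [map_pow, e]))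

omit [V.Normal] in
theorem sB : S ≤ B := fun x hx => by
  obtain ⟨b, hb, rfl⟩ := (h.mS x).1 hx; exact mul_mem hb hb

omit [V.Normal] in
theorem iS : ∀ α ∈ A, ∀ x ∈ S, α x ∈ S := fun α hα x hx => by
  obtain ⟨b, hb, rfl⟩ := (h.mS x).1 hx; exact (h.mS _).2 ⟨α b, h.iB α hα b hb, by simp⟩

omit [V.Normal] in
theorem nS : S.Normal := ⟨fun x hx g => by
  obtain ⟨b, hb, rfl⟩ := (h.mS x).1 hx; exact (h.mS _).2 ⟨_, h.nB.conj_mem b hb g, by group⟩⟩

theorem vS : V ≤ S := by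
  obtain ⟨b, hb, n, e⟩ := h.ex
  exact h.irr (h.iS a h.aA) e (fun e => n (h.iv hb e)) ((h.mS _).2 ⟨b, hb, rfl⟩)

theorem idx : S.relIndex B = 4 := by
  let f : B →* X := MonoidHom.mk' (fun b => b * b) fun x y => h.sqm x.2 y.2
  have k : f.ker = V.subgroupOf B := Subgroup.ext fun x => ⟨h.iv x.2, h.e2 x⟩
  have r : f.range = S := Subgroup.ext fun x => by
    rw [h.mS]; exact ⟨fun ⟨b, e⟩ => ⟨b, b.2, e⟩, fun ⟨b, hb, e⟩ => ⟨⟨b, hb⟩, e⟩⟩
  have e := index_ker f
  have e1 := (V.subgroupOf B).card_mul_index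
  have e2 := (S.subgroupOf B).card_mul_index
  rw [Nat.card_congr (subgroupOfEquivOfLe h.vB).toEquiv, h.c4, ← k, e, r] at e1
  rw [Nat.card_congr (subgroupOfEquivOfLe h.sB).toEquiv, ← e1, mul_comm] at e2
  exact Nat.eq_of_mul_eq_mul_right Nat.card_pos e2

theorem irrB {M : Subgroup X} (i : ∀ x ∈ M, a x ∈ M) (l1 : S ≤ M) (l2 : M ≤ B) : M ≤ S ∨ B ≤ M := by
  by_contra! c
  have e := relIndex_mul_relIndex _ _ _ l1 l2
  rw [h.idx] at e
  have a1 : S.relIndex M ≠ 1 := fun e => c.1 (relIndex_eq_one.1 e)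
  have a2 : M.relIndex B ≠ 1 := fun e => c.2 (relIndex_eq_one.1 e)
  have i2 : S.relIndex M = 2 := by
    have := Nat.le_of_dvd four_pos (Dvd.intro _ e)
    generalize S.relIndex M = n at *
    interval_cases n <;> omega
  obtain ⟨m, hm, n⟩ := SetLike.not_le_iff_exists.1 c.1
  have := (mul_mem_iff_of_index_two i2 (a := ⟨m, hm⟩⁻¹) (b := ⟨a m, i m hm⟩)).2 (iff_of_false
    (fun e => n (inv_mem_iff.1 e)) fun e => n (by simpa using h.iS a⁻¹ (inv_mem h.aA) _ e))
  obtain ⟨b', hb', e⟩ := (h.mS _).1 this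
  obtain ⟨s1, s2⟩ := surj (h.iB a h.aA) h.fixB
  obtain ⟨b, hb, rfl⟩ := s2 b' hb'
  refine n ((h.mS _).2 ⟨b, hb, s1 _ (mul_mem hb hb) _ (l2 hm) ?_⟩)
  rw [h.sqm (inv_mem hb) (h.iB a h.aA b hb)] at e
  simpa using e

theorem self : centralizer (B : Set X) ≤ B := by
  have := h.nB
  have := h.nS
  let F := centralizer (B : Set X) ⊓ up B
  have bF : B ≤ F := le_inf h.cB (le_up B)
  have cm : ∀ x ∈ F, ∀ y ∈ F, x⁻¹ * (y * x * y⁻¹) ∈ V := fun x hx y hy => by
    have m := (mem_up.1 hx.2).2 y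
    refine h.iv m ?_
    have e : y * x * y⁻¹ = x * (x⁻¹ * (y * x * y⁻¹)) := by group
    generalize x⁻¹ * (y * x * y⁻¹) = c at m e
    refine mul_left_cancel (a := x * x) ?_
    calc _ = x * c * (x * c) := by rw [mul_assoc x c, ← mul_assoc c, hx.1 c m]; group
      _ = y * (x * x) * y⁻¹ := by rw [← e]; group
      _ = _ := by rw [← hy.1 _ (mem_up.1 hx.2).1]; group
  have kr : ∀ x ∈ F, x * x ∈ S → x ∈ B := fun x hx e => by
    obtain ⟨b, hb, e⟩ := (h.mS _).1 e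
    have tF := mul_mem hx (inv_mem (bF hb))
    have tt : x * b⁻¹ * (x * b⁻¹) = 1 := by
      rw [mul_assoc, ← mul_assoc b⁻¹, hx.1 _ (inv_mem hb), ← mul_assoc, ← mul_assoc, ← e]; group
    refine (mul_mem_cancel_right (inv_mem hb)).1 (h.vB (h.mem_V tt fun g => ?_))
    generalize x * b⁻¹ = t at tF tt
    have m := (mem_up.1 tF.2).2 g
    refine h.iv m ?_
    have e : g * t * g⁻¹ = t * (t⁻¹ * (g * t * g⁻¹)) := by group
    generalize t⁻¹ * (g * t * g⁻¹) = c at m e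
    calc _ = t * t * (c * c) := by rw [tt, one_mul]
      _ = t * c * (t * c) := by rw [mul_assoc t c, ← mul_assoc c, tF.1 c m]; group
      _ = g * (t * t) * g⁻¹ := by rw [← e]; group
      _ = _ := by rw [tt]; group
  let φ : F →* X ⧸ S := MonoidHom.mk' (fun x => ((x * x : X) : X ⧸ S)) fun x y => by
    rw [← QuotientGroup.mk_mul, eq_comm, QuotientGroup.eq]
    obtain ⟨x, hx⟩ := x
    obtain ⟨y, hy⟩ := y
    have m := cm x hx y hy
    have e : y * x = x * (x⁻¹ * (y * x * y⁻¹)) * y := by group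
    generalize x⁻¹ * (y * x * y⁻¹) = c at m e
    change (x * x * (y * y))⁻¹ * (x * y * (x * y)) ∈ S
    rw [mul_assoc x y, ← mul_assoc y x, e, mul_assoc x c, ← mem_center_iff.1 (h.cen m) y,
      mul_assoc (x : X) (y * c), mul_assoc y c, ← mem_center_iff.1 (h.cen m) y]
    convert h.vS m using 1
    group
  have i4 : B.relIndex F ≤ 4 := by
    have k : φ.ker = B.subgroupOf F := Subgroup.ext fun x =>
      ⟨fun e => kr x x.2 ((QuotientGroup.eq_one_iff _).1 e), fun e => (QuotientGroup.eq_one_iff _).2 ((h.mS _).2 ⟨x, e, rfl⟩)⟩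
    have := relIndex_ker B (QuotientGroup.mk' S)
    rw [QuotientGroup.ker_mk', h.idx] at this
    rw [relIndex, ← k, index_ker, this]
    refine card_le_of_le ?_
    rintro _ ⟨x, rfl⟩
    exact ⟨_, (mem_up.1 x.2.2).1, rfl⟩
  have iF : ∀ α ∈ A, ∀ x ∈ F, α x ∈ F := fun α hα x hx => ⟨fun b hb => by
    simpa using congrArg α (hx.1 _ (h.iB α⁻¹ (inv_mem hα) b hb)), aut_mem_up (h.iB α hα) hx.2⟩
  have le := h.mx F inferInstance iF (h.cyc bF (le_centralizer_iff.1 inf_le_left) i4 cm (iF a h.aA)) bF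
  by_contra c
  obtain ⟨x, h1, h2, h3⟩ := exists_step h.p c
  exact h2 (le ⟨h1, h3⟩)

theorem one {α : MulAut X} (hα : α ∈ A) {v : X} (hv : v ∈ V) (v1 : v ≠ 1) (e : α v = v) : α = 1 := by
  have e1 : α (a v) = a v := by
    rcases h.cases hv v1 _ (h.inv α hα _ (h.inv a h.aA v hv)) with e' | e' | e' | e'
    · exact absurd (by simpa using e') v1
    · exact absurd (h.fpf v hv (α.injective (e'.trans e.symm))) v1
    · exact e'
    · exact absurd (stab h.p (h.oo hα) e (e'.trans (mem_center_iff.1 (h.cen hv) _).symm)) v1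
  have fB := fix_ab h.p (h.oo hα) (fun _ hx _ hy => h.cm hx hy) (h.iB α hα) fun b hb bb => by
    rcases h.cases hv v1 b (h.iv hb bb) with rfl | rfl | rfl | rfl <;> simp [e, e1]
  ext x
  have m : x⁻¹ * α x ∈ B := h.self fun b hb => by
    have := fB _ (h.nB.conj_mem b hb x)
    rw [map_mul, map_mul, fB b hb, map_inv] at this
    calc _ = x⁻¹ * (x * b * x⁻¹) * α x := by group
      _ = _ := by rw [← this]; group
  have := stab h.p (h.oo hα) (x := x) (fB _ m) (by simp)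
  exact (inv_mul_eq_one.1 this).symm

theorem a3 (x : X) : a (a (a x)) = x := by
  obtain ⟨v, hv, v1⟩ := h.exv
  have := h.one (mul_mem h.aA (mul_mem h.aA h.aA)) hv v1 (by
    simp only [MulAut.mul_apply]
    rw [h.aa hv v1, map_mul, h.aa hv v1, ← mul_assoc, mem_center_iff.1 (h.cen hv), mul_assoc,
      h.e2 _ (h.inv a h.aA v hv), mul_one])
  exact congrArg (· x) this

theorem memA {α : MulAut X} (hα : α ∈ A) (x : X) : α x = x ∨ α x = a x ∨ α x = a (a x) := by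
  obtain ⟨v, hv, v1⟩ := h.exv
  rcases h.cases hv v1 _ (h.inv α hα v hv) with e | e | e | e
  · exact absurd (by simpa using e) v1
  · exact .inl (by rw [h.one hα hv v1 e]; rfl)
  · have := h.one (mul_mem (inv_mem h.aA) hα) hv v1 (by simp [e])
    exact .inr (.inl (by rw [← inv_mul_eq_one.1 this]))
  · have := h.one (mul_mem (inv_mem (mul_mem h.aA h.aA)) hα) hv v1 (by simp [e, ← h.aa hv v1])
    exact .inr (.inr (by rw [← inv_mul_eq_one.1 this]; rfl))

theorem fixed_cent {t : X} (e : a t = t) : t ∈ centralizer (up V : Set X) := by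
  set K := centralizer (up V : Set X)
  have s : ∀ g : X ⧸ K, g * g = 1 := fun g => by
    obtain ⟨g, rfl⟩ := QuotientGroup.mk_surjective g
    exact (QuotientGroup.eq_one_iff _).2 (h.sq_cent g)
  have c : ∀ x y : X ⧸ K, x * y = y * x := fun x y => by
    rw [← inv_eq_of_mul_eq_one_right (s (x * y)), mul_inv_rev, inv_eq_of_mul_eq_one_right (s x),
      inv_eq_of_mul_eq_one_right (s y)]
  letI : CommGroup (X ⧸ K) := { (inferInstance : Group (X ⧸ K)) with mul_comm := c }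
  let N : X →* X ⧸ K := MonoidHom.mk' (fun g => (g : X ⧸ K) * (a g : X) * (a (a g) : X)) fun x y => by
    simp only [map_mul, QuotientGroup.mk_mul]; ac_rfl
  have Na : ∀ g, N (a g) = N g := fun g => by
    change ((a g : X) : X ⧸ K) * _ * (a (a (a g)) : X) = (g : X ⧸ K) * _ * _
    rw [h.a3]; ac_rfl
  have : ⊤ ≤ N.ker := h.gen ▸ (closure_le _).2 (by
    rintro _ ⟨α, hα, x, rfl⟩
    change N _ = 1
    rcases h.memA hα x with e | e | e <;> simp [e, Na])
  have := this (mem_top t)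
  change (t : X ⧸ K) * _ * _ = 1 at this
  rwa [e, e, s, one_mul, QuotientGroup.eq_one_iff] at this

theorem inv_B (hB : B.Normal) {t : X} (tt : t * t = 1) (hu : t ∈ up B)
    (k : ∀ b ∈ B, t * b * (t * b) = 1 → b * b = 1) : t ∈ B :=
  h.vB (h.mem_V tt fun g => h.iv ((mem_up.1 hu).2 g) (k _ ((mem_up.1 hu).2 g) (by
    rw [mul_inv_cancel_left, show g * t * g⁻¹ * (g * t * g⁻¹) = g * (t * t) * g⁻¹ by group, tt]; group)))

theorem fpfF (hB : B.Normal) {t : X} (hu : t ∈ up B) (e : t⁻¹ * a t ∈ B) : t ∈ B := by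
  obtain ⟨s1, s2⟩ := surj (h.iB a h.aA) h.fixB
  have e0 := inv_mem e
  obtain ⟨b, hb, e⟩ := s2 _ e0
  have ft : a (t * b) = t * b := by
    rw [inv_mul_eq_iff_eq_mul, h.cm hb e0] at e
    rw [map_mul, e]; group
  have hu' := mul_mem hu (le_up B hb)
  refine (mul_mem_cancel_right hb).1 ?_
  generalize t * b = t at ft hu'
  have tt := h.fixB _ (mem_up.1 hu').1 (by rw [map_mul, ft])
  refine h.inv_B hB tt hu' fun b hb e => ?_
  have e' : ∀ n : ℕ, t * b ^ n * (t * b ^ n) = 1 := fun n => by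
    have : t * b * t⁻¹ = b⁻¹ := by
      rw [inv_eq_of_mul_eq_one_right tt, eq_inv_iff_mul_eq_one, ← e, mul_assoc]
    rw [← mul_assoc, ← inv_eq_of_mul_eq_one_right tt, inv_eq_of_mul_eq_one_right tt]
    nth_rewrite 2 [← inv_eq_of_mul_eq_one_right tt]
    rw [← conj_pow, this, inv_pow, inv_mul_cancel]
  obtain ⟨k, hk⟩ := h.p (b * b)
  induction k with
  | zero => simpa using hk
  | succ k ih =>
    refine ih ?_
    have m := pow_mem hb (2 ^ k)
    have c := h.fixed_cent ft _ (h.o2 m (h.iv (mul_mem m m) (by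
      rw [← hk, ← sq, ← sq, ← sq, ← pow_mul, ← pow_mul, ← pow_mul]; congr 1; ring)))
    have := e' (2 ^ k)
    rw [mul_assoc, ← mul_assoc (b ^ _), c, ← mul_assoc, ← mul_assoc, tt, one_mul] at this
    rw [(Commute.refl b).mul_pow, this]

theorem false (hz : up V ⊓ centralizer (up V : Set X) ≤ B) (nz : ¬ up V ⊓ centralizer (up V : Set X) ≤ V) : False := by
  have hB := h.nB
  have iF : ∀ x ∈ up B, a x ∈ up B := fun x => aut_mem_up (h.iB a h.aA)
  obtain ⟨-, s2⟩ := surj iF fun x hx e => h.fixB x (h.fpfF hB hx (by simp [e])) e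
  have N1 : ∀ x ∈ up B, x * a x * a (a x) = 1 := fun x hx => by
    obtain ⟨y, -, rfl⟩ := s2 x hx
    simp only [map_mul, map_inv, h.a3]; group
  have c1 : ∀ x ∈ up B, x * a x = a x * x := fun x hx => by
    have e1 := N1 x hx
    have e2 := N1 _ (inv_mem hx)
    simp only [map_inv] at e2
    rw [eq_inv_of_mul_eq_one_left e1, ← inv_inj, mul_inv_rev, eq_inv_of_mul_eq_one_left e2]
  have c2 : ∀ x ∈ up B, ∀ g ∈ up B, Commute x (g * a x * g⁻¹) := fun x hx g hg => by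
    obtain ⟨y, hy, rfl⟩ := s2 g hg
    have := c1 _ (mul_mem (mul_mem hy hx) (inv_mem hy))
    simp only [map_mul, map_inv] at this
    calc _ = y⁻¹ * (y * x * y⁻¹ * (a y * a x * (a y)⁻¹)) * y := by group
      _ = _ := by rw [this]; group
  have c3 : ∀ x ∈ up B, ∀ b ∈ B, x⁻¹ * (b * x * b⁻¹) ∈ V := fun x hx b hb => by
    have k1 := c2 x hx b (le_up B hb)
    have k2 := c2 _ (iF _ (iF _ hx)) _ (inv_mem (le_up B hb))
    rw [h.a3] at k2
    have k3 : Commute x (b * a (a x) * b⁻¹) := by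
      calc _ = b * (b⁻¹ * x * b⁻¹⁻¹ * a (a x)) * b⁻¹ := by group
        _ = _ := by rw [← k2]; group
    have k4 := (k1.mul_right k3).inv_right
    rw [show (b * a x * b⁻¹ * (b * a (a x) * b⁻¹))⁻¹ = b * (a x * a (a x))⁻¹ * b⁻¹ by group,
      ← eq_inv_of_mul_eq_one_left (mul_assoc x _ _ ▸ N1 x hx)] at k4
    have m : x⁻¹ * (b * x * b⁻¹) ∈ B := (mem_up.1 hx).2 b
    refine h.iv m (mul_left_cancel (a := x * x) ?_)
    calc _ = x * (x * (x⁻¹ * (b * x * b⁻¹))) * x⁻¹ * (b * x * b⁻¹) := by group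
      _ = b * (x * x) * b⁻¹ := by rw [mul_inv_cancel_left, k4]; group
      _ = _ := by rw [h.cm hb (mem_up.1 hx).1]; group
  have c4 : ∀ x ∈ up B, ∀ s ∈ S, s * x = x * s := fun x hx s hs => by
    obtain ⟨g, hg, rfl⟩ := (h.mS _).1 hs
    have m := c3 x hx g hg
    have e : g * x * g⁻¹ = x * (x⁻¹ * (g * x * g⁻¹)) := by group
    generalize x⁻¹ * (g * x * g⁻¹) = c at m e
    calc g * g * x = g * (g * x * g⁻¹) * g := by group
      _ = g * (x * c) * g := by rw [e]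
      _ = g * x * g⁻¹ * (g * c) * g := by group
      _ = x * (c * c) * (g * g) := by rw [e, mem_center_iff.1 (h.cen m) g]; group
      _ = _ := by rw [h.e2 c m, mul_one]
  have c5 : ∀ x ∈ up B, x ∉ B → x * x ∈ S := fun x hx n => by
    have := h.irrB (M := B ⊓ (centralizer {x} ⊓ centralizer {a x})) (fun m hm => by
      have k1 : Commute (a m) (a x) := by simpa [Commute, SemiconjBy] using congrArg a (mem_centralizer_singleton_iff.1 hm.2.1)
      have k2 : Commute (a m) (a (a x)) := by simpa [Commute, SemiconjBy] using congrArg a (mem_centralizer_singleton_iff.1 hm.2.2)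
      have k3 := (k1.mul_right k2).inv_right
      rw [← eq_inv_of_mul_eq_one_left (mul_assoc x _ _ ▸ N1 x hx)] at k3
      exact ⟨h.iB a h.aA m hm.1, mem_centralizer_singleton_iff.2 k3, mem_centralizer_singleton_iff.2 k1⟩)
      (fun s hs => ⟨h.sB hs, mem_centralizer_singleton_iff.2 (c4 x hx s hs),
        mem_centralizer_singleton_iff.2 (c4 _ (iF x hx) s hs)⟩) inf_le_left
    refine (this.resolve_right fun l => n (h.self fun b hb => mem_centralizer_singleton_iff.1 (l hb).2.1))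
      ⟨(mem_up.1 hx).1, mem_centralizer_singleton_iff.2 (mul_assoc _ _ _), mem_centralizer_singleton_iff.2 ?_⟩
    rw [mul_assoc, c1 x hx, ← mul_assoc, c1 x hx, mul_assoc]
  obtain ⟨x, -, xB, xF⟩ := exists_step h.p (N := ⊤) (M := B) fun l => h.na ⟨⟨fun a b => h.cm (l (mem_top a)) (l (mem_top b))⟩⟩
  by_cases e4 : ∀ b ∈ B, b * b ∈ V
  · have sV : S ≤ V := fun s hs => by obtain ⟨g, hg, rfl⟩ := (h.mS _).1 hs; exact e4 g hg
    have t1 : up B = ⊤ := up_eq_top fun g => h.self (centralizer_le (fun b hb => h.o2 hb (e4 b hb)) (h.sq_cent g))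
    have t2 : up V = ⊤ := up_eq_top fun g => (em (g ∈ B)).elim (e4 g) fun n => sV (c5 g (t1 ▸ mem_top g) n)
    rcases h.irrB (M := up V ⊓ centralizer (up V : Set X)) (fun m hm => ⟨aut_mem_up (h.inv a h.aA) hm.1, fun w _ => by
      simpa using congrArg a (hm.2 (a⁻¹ w) (t2 ▸ mem_top _))⟩)
      (sV.trans (le_inf (le_up V) (h.cen.trans (center_le_centralizer _)))) hz with l | l
    · exact nz (l.trans sV)
    · exact xB (h.self fun b hb => ((l hb).2 x (t2 ▸ mem_top _)).symm)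
  push Not at e4
  obtain ⟨s0, s1, s2, s3⟩ : ∃ s ∈ S, s * s ∈ V ∧ s * s ≠ 1 := by
    obtain ⟨b, hb, n⟩ := e4
    obtain ⟨k, hk⟩ := h.p b
    induction k generalizing b with
    | zero => rw [pow_zero, pow_one] at hk; simp [hk] at n
    | succ k ih =>
      by_cases e : b * b * (b * b) ∈ V
      · exact ⟨_, (h.mS _).2 ⟨b, hb, rfl⟩, e, fun e => n (h.iv (mul_mem hb hb) e)⟩
      · exact ih _ (mul_mem hb hb) e (by rw [← sq, ← pow_mul, ← pow_succ', hk])
  let T : Subgroup X :=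
    { carrier := {y | ∃ s ∈ S, s * s = y}
      one_mem' := ⟨1, one_mem _, mul_one 1⟩
      mul_mem' := by rintro _ _ ⟨y, hy, rfl⟩ ⟨z, hz, rfl⟩; exact ⟨_, mul_mem hy hz, h.sqm (h.sB hy) (h.sB hz)⟩
      inv_mem' := by rintro _ ⟨y, hy, rfl⟩; exact ⟨_, inv_mem hy, (mul_inv_rev _ _).symm⟩ }
  have vT : V ≤ T := h.irr (by rintro _ ⟨y, hy, rfl⟩; exact ⟨_, h.iS a h.aA y hy, by simp⟩) s2 s3 ⟨s0, s1, rfl⟩
  have oS : ∀ w ∈ B, w * w ∈ V → w ∈ S := fun w hw e => by
    obtain ⟨s, hs, e⟩ := vT e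
    refine (mul_mem_cancel_right (inv_mem hs)).1 (h.vS (h.iv (mul_mem hw (inv_mem (h.sB hs))) ?_))
    rw [h.sqm hw (inv_mem (h.sB hs)), ← e]; group
  have sq' : ∀ x ∈ up B, ∀ b ∈ B, ∃ c ∈ V, x * b * (x * b) = x * x * (b * b) * c := fun x hx b hb =>
    ⟨_, c3 x hx b hb, by rw [mul_assoc (x * x), mem_center_iff.1 (h.cen (c3 x hx b hb))]; group⟩
  obtain ⟨b, hb, e⟩ := (h.mS _).1 (c5 x xF xB)
  obtain ⟨c, hc, e'⟩ := sq' x xF _ (inv_mem hb)
  rw [← e, show b * b * (b⁻¹ * b⁻¹) = 1 by group, one_mul] at e'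
  obtain ⟨s, hs, rfl⟩ := vT hc
  have yF := mul_mem xF (le_up B (inv_mem hb))
  have tF := mul_mem yF (le_up B (inv_mem (h.sB hs)))
  have tt : x * b⁻¹ * s⁻¹ * (x * b⁻¹ * s⁻¹) = 1 := by
    rw [mul_assoc, ← mul_assoc s⁻¹, c4 _ yF _ (inv_mem hs), ← mul_assoc, ← mul_assoc, e']; group
  refine xB ((mul_mem_cancel_right (inv_mem hb)).1 ((mul_mem_cancel_right (inv_mem (h.sB hs))).1
    (h.inv_B hB tt tF fun w hw k => ?_)))
  generalize x * b⁻¹ * s⁻¹ = t at tF tt k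
  obtain ⟨c, hc, e'⟩ := sq' t tF w hw
  rw [k, tt, one_mul, eq_comm, mul_eq_one_iff_eq_inv] at e'
  rwa [mul_assoc, ← mul_assoc w, c4 t tF w (oS w hw (e' ▸ inv_mem hc)), ← mul_assoc, ← mul_assoc, tt, one_mul] at k

end MB

theorem K4.caseB {A : Subgroup (MulAut X)} {V : Subgroup X} {a : MulAut X} [V.Normal] (h : K4 A V a) :
    up V ⊓ centralizer (up V : Set X) ≤ V := by
  by_contra nz
  have iW : ∀ α ∈ A, ∀ x ∈ up V, α x ∈ up V := fun α hα x => aut_mem_up (h.inv α hα)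
  obtain ⟨B, ⟨nB, iB, cB, zB⟩, mx⟩ := (Set.toFinite {B : Subgroup X | B.Normal ∧ (∀ α ∈ A, ∀ b ∈ B, α b ∈ B) ∧
      B ≤ centralizer (B : Set X) ∧ up V ⊓ centralizer (up V : Set X) ≤ B}).exists_maximal
    ⟨up V ⊓ centralizer (up V : Set X), inferInstance, fun α hα x hx => ⟨iW α hα x hx.1, fun w hw => by
      simpa using congrArg α (hx.2 _ (iW α⁻¹ (inv_mem hα) w hw))⟩, fun x hx y hy => hx.2 y hy.1, le_rfl⟩
  have sq : ∀ x ∈ B, ∀ y ∈ B, x * y * (x * y) = x * x * (y * y) := fun x hx y hy => by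
    rw [mul_assoc, ← mul_assoc y, cB hx y hy]; group
  let S : Subgroup X :=
    { carrier := {y | ∃ s ∈ B, s * s = y}
      one_mem' := ⟨1, one_mem _, mul_one 1⟩
      mul_mem' := by rintro _ _ ⟨y, hy, rfl⟩ ⟨z, hz, rfl⟩; exact ⟨_, mul_mem hy hz, sq _ hy _ hz⟩
      inv_mem' := by rintro _ ⟨y, hy, rfl⟩; exact ⟨_, inv_mem hy, (mul_inv_rev _ _).symm⟩ }
  obtain ⟨b, hb, n⟩ := SetLike.not_le_iff_exists.1 nz
  exact MB.false (S := S) ⟨h, nB, iB, cB, (le_inf (le_up V) (h.cen.trans (center_le_centralizer _))).trans zB,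
    ⟨b, zB hb, n, (mem_up.1 hb.1).1⟩, fun F h1 h2 h3 h4 => mx ⟨h1, h2, h3, zB.trans h4⟩ h4, fun _ => Iff.rfl⟩ zB nz

theorem Hy.main {A : Subgroup (MulAut X)} (h : Hy A) : Nonempty (X ≃* QuaternionGroup 2) ∨
      (Cfsg.IsSpecial 2 X ∧ Nat.card X = 64 ∧ Nat.card {x : X // orderOf x = 2} = 3 ∧
        ∀ x : X, orderOf x = 2 → x ∈ Subgroup.center X) ∨
      (Cfsg.IsExtraspecial 2 X ∧ Nat.card X = 32 ∧ Nat.card {x : X // orderOf x = 2} = 11) := by
  by_cases hc : ∀ H : Subgroup X, H.Characteristic → IsMulCommutative H → ∀ a ∈ A, ∀ x ∈ H, a x = x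
  · exact h.caseI hc
  · obtain ⟨V, a, _, k⟩ := h.exists_K4 hc
    exact .inr (.inl (k.caseA k.caseB))

end CF.Sc
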