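import Cfsg.Agent.Perm.Orbital
import Cfsg.Agent.Recog.SRing
import Cfsg.Agent.Recog.Basic
import Cfsg.Agent.Char.Kernel

/-! Rational constituents of permutation characters; groups of degree `2p`. -/

set_option autoImplicit false

namespace CF.Perm

open Cfsg CF.Char CF.Recog Module MulAction Matrix Polynomial
open scoped ComplexConjugate ComplexOrder

theorem isIntegral_of_mul_eq {n : Type*} [Fintype n] [DecidableEq n] {A E : Matrix n n ℂ} {θ : ℂ}
    (hA : IsIntegral ℤ A) (h : A * E = θ • E) (hE : E ≠ 0) : IsIntegral ℤ θ := by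
  have h1 : ∀ k : ℕ, A ^ k * E = θ ^ k • E := fun k => by
    induction k with
    | zero => simp
    | succ k ih => rw [pow_succ, mul_assoc, h, Matrix.mul_smul, ih, smul_smul, pow_succ']
  have h2 : ∀ q : ℤ[X], aeval A q * E = aeval θ q • E := fun q => by
    induction q using Polynomial.induction_on' with
    | add q r hq hr => simp [add_mul, add_smul, hq, hr]
    | monomial k c => simp [aeval_monomial, mul_assoc, h1, mul_smul, ← zsmul_eq_mul,
        Int.cast_smul_eq_zsmul]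
  obtain ⟨q, hq, h3⟩ := hA
  refine ⟨q, hq, (smul_eq_zero_iff_left hE).1 ((h2 q).symm.trans ?_)⟩
  rw [aeval_def, h3, zero_mul]

theorem eq_trace_smul {R : Type*} [CommRing R] {E N : Matrix (Fin 2) (Fin 2) R} (h1 : E.trace = 1)
    (h2 : E * N = 0) (h3 : N * E = 0) : N = N.trace • (1 - E) := by
  have h4 := fun i j => congrFun (congrFun h2 i) j
  have h5 := fun i j => congrFun (congrFun h3 i) j
  simp only [mul_apply, Fin.sum_univ_two, Matrix.zero_apply, trace_fin_two] at h1 h4 h5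
  ext i j
  fin_cases i <;> fin_cases j <;> simp [trace_fin_two]
  · linear_combination N 1 1 * h1 + h5 0 0 - h4 1 1
  · linear_combination -N 0 1 * h1 + h4 0 1 + h5 0 1
  · linear_combination -N 1 0 * h1 + h4 1 0 + h5 1 0
  · linear_combination N 0 0 * h1 + h5 1 1 - h4 0 0

theorem eq_zero_of_ind_mul {P : Type*} [CommGroup P] [Fintype P] [DecidableEq P] {p : ℕ}
    (hp : p.Prime) (hP : ∀ y : P, y ^ p = 1) {S : Finset P} (hS : ¬ p ∣ S.card)
    {C D : MonoidAlgebra ℂ P} (hC : ∀ y, C.coeff y = if y ∈ S then 1 else 0) (h : C * D = 0)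
    (y : P) : D.coeff y = 0 := by
  refine congrFun (classFun_eq_zero_of_inner (f := D.coeff) (fun g x => by simp) fun χ hχ => ?_) y
  obtain ⟨l, rfl⟩ := exists_linear_of_one (irr_isCharacter hχ) (irr_one_eq_one_of_comm mul_comm hχ)
  have h1 : (∑ z ∈ S, (l z⁻¹ : ℂ)) * ∑ w, D.coeff w * l w⁻¹ = ∑ y, (C * D).coeff y * l y⁻¹ := by
    simp only [coeff_mul_sum, hC, Finset.sum_mul]
    rw [Finset.sum_comm]
    refine (Finset.sum_congr rfl fun z hz => ?_).trans
      (Finset.sum_subset (Finset.subset_univ S) fun z _ hz => by simp [hz])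
    rw [Finset.mul_sum, ← Equiv.sum_comp (Equiv.mulLeft z) fun y => _ * _ * (l y⁻¹ : ℂ)]
    simp [hz, mul_comm, mul_left_comm]
  have h2 : ∀ z, (l z : ℂ) ^ p = 1 := fun z => by
    rw [← Units.val_pow_eq_pow_val, ← map_pow, hP, map_one, Units.val_one]
  obtain ⟨c, hc, h3⟩ := exists_sum_pow_prime_pow hp 1 S (fun z => (l z⁻¹ : ℂ)) fun z _ =>
    .of_pow hp.pos (by rw [h2]; exact isIntegral_one)
  rw [h] at h1
  simp only [inner_def, ← irr_inv hχ]
  rw [(mul_eq_zero.1 (h1.trans (by simp))).resolve_left fun e => hS ?_, mul_zero]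
  have h4 : (p : ℂ) ≠ 0 := by exact_mod_cast hp.ne_zero
  refine dvd_of_isIntegral_div hp.ne_zero ?_
  convert hc.neg
  simp only [e, pow_one, h2, zero_pow hp.ne_zero, Finset.sum_const, nsmul_eq_mul, mul_one] at h3
  field_simp
  linear_combination -h3

variable {G Ω : Type*} [Group G] [MulAction G Ω] {χ : G → ℂ}

theorem prime_of_subdegree_one [Finite G] (h : IsPreprimitive G Ω) {a b : Ω} (hab : b ≠ a)
    (h1 : Nat.card (orbit (stabilizer G a) b) = 1) : (Nat.card Ω).Prime := by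
  have : Nontrivial Ω := ⟨_, _, hab⟩
  have h2 : stabilizer G a ≤ stabilizer G b := fun g hg => congrArg Subtype.val
    ((Nat.card_eq_one_iff_unique.1 h1).1.elim (⟨_, ⟨g, hg⟩, rfl⟩ : orbit (stabilizer G a) b)
      ⟨b, mem_orbit_self b⟩)
  have h3 := (prim_rel h (fun x y => stabilizer G x = stabilizer G y)
    ⟨fun _ => rfl, Eq.symm, Eq.trans⟩ fun g x y e => by
      ext z; rw [mem_stab_smul, mem_stab_smul, e]).resolve_left fun h => hab (h _ _ (stab_eq_of_le h2)).symm
  have : (stabilizer G a).Normal := ⟨fun n hn g => h3 (g • a) a ▸ conj_mem_stab.2 hn⟩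
  rw [← index_stabilizer_of_transitive G a]
  refine (prime_card_of_isCoatom_bot ⟨fun e => (isCoatom_stab h a).1 ?_, fun K hK => ?_⟩).2
  · simpa using congrArg (Subgroup.comap (QuotientGroup.mk' _)) e
  · refine Subgroup.comap_injective (QuotientGroup.mk'_surjective _) ((isCoatom_stab h a).2 _ ?_)
    simpa using (Subgroup.comap_lt_comap_of_surjective (QuotientGroup.mk'_surjective _)).2 hK

variable [Fintype Ω] [DecidableEq Ω]

section
variable {P : Type*} [CommGroup P] [Fintype P] (φ : P →* G) (a : Fin 2 → Ω)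

/-- an invariant matrix as a `2 × 2` matrix over the group ring of a semiregular subgroup -/
noncomputable def hat (M : Matrix Ω Ω ℂ) : Matrix (Fin 2) (Fin 2) (MonoidAlgebra ℂ P) :=
  of fun i j => ofFun fun y => M (a i) (φ y • a j)

variable {φ a}

omit [DecidableEq Ω] in
theorem hat_mul (h : Function.Bijective fun q : Fin 2 × P => φ q.2 • a q.1) (M : Matrix Ω Ω ℂ)
    {N : Matrix Ω Ω ℂ} (hN : Inv G N) : hat φ a (M * N) = hat φ a M * hat φ a N := by
  ext i j y
  simp only [hat, mul_apply, of_apply, coeff_ofFun, MonoidAlgebra.coeff_sum, Finsupp.coe_finsetSum,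
    Finset.sum_apply, coeff_mul_sum]
  rw [← h.sum_comp, Fintype.sum_prod_type]
  refine Finset.sum_congr rfl fun k _ => Finset.sum_congr rfl fun z _ => ?_
  rw [← hN (φ z) (a k), ← mul_smul, ← map_mul, mul_inv_cancel_left]

omit [DecidableEq Ω] [Fintype Ω] in
theorem hat_zero : hat φ a 0 = 0 := by
  ext i j y
  simp [hat]

omit [DecidableEq Ω] [Fintype Ω] in
theorem coeff_trace_hat (M : Matrix Ω Ω ℂ) (y : P) :
    (hat φ a M).trace.coeff y = ∑ i, M (a i) (φ y • a i) := by
  simp [hat, trace_fin_two]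

omit [DecidableEq Ω] in
theorem sum_mul_eq (h : Function.Bijective fun q : Fin 2 × P => φ q.2 • a q.1)
    {E N N' : Matrix Ω Ω ℂ} (hE : Inv G E) (hN : Inv G N) (hN' : Inv G N')
    (h1 : (hat φ a E).trace = 1) (h2 : E * N = 0) (h3 : N * E = 0) (h4 : E * N' = 0) :
    ∑ i, (N * N') (a i) (a i) =
      ∑ y, (∑ i, N (a i) (φ y • a i)) * ∑ i, N' (φ y • a i) (a i) := by
  have h5 := eq_trace_smul h1 (by rw [← hat_mul h _ hN, h2, hat_zero])
    (by rw [← hat_mul h _ hE, h3, hat_zero])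
  have h6 := coeff_trace_hat (φ := φ) (a := a) (N * N') 1
  rw [hat_mul h _ hN', h5, smul_mul_assoc, sub_mul, ← hat_mul h _ hN', h4, hat_zero, one_mul,
    sub_zero, trace_smul, smul_eq_mul, coeff_mul_sum] at h6
  simp only [coeff_trace_hat, map_one, one_smul, mul_one, map_inv] at h6
  rw [← h6]
  refine Finset.sum_congr rfl fun y _ => congrArg _ (Finset.sum_congr rfl fun i _ => ?_)
  rw [← hN' (φ y), smul_inv_smul]

end

variable [Fintype G]

theorem isoM_symm (hχ : IsIrrCharacter G χ) (hfix : ∀ (σ : ℂ →+* ℂ) g, σ (χ g) = χ g) :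
    (isoM Ω χ)ᵀ = isoM Ω χ := by
  simp only [isoM_transpose, irr_inv hχ, hfix]

theorem trace_isoM (hχ : IsIrrCharacter G χ) (h1 : classInner (pc G Ω) χ = 1) :
    (isoM Ω χ).trace = χ 1 := by
  simpa [h1, trace] using sum_isoM (Ω := Ω) hχ 1

theorem sum_isoM_col (χ : G → ℂ) (b : Ω) : ∑ a, isoM Ω χ a b = χ 1 / Nat.card G * ∑ g, χ g := by
  simp only [isoM_apply]
  rw [Finset.sum_comm, Finset.mul_sum, ← Equiv.sum_comp (Equiv.inv G)]
  simp

theorem exists_int_orb_mul (hχ : IsIrrCharacter G χ) (h1 : classInner (pc G Ω) χ = 1)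
    (hfix : ∀ (σ : ℂ →+* ℂ) g, σ (χ g) = χ g) (a b : Ω) :
    ∃ θ : ℤ, orb G a b * isoM Ω χ = (θ : ℂ) • isoM Ω χ := by
  obtain ⟨θ, hθ⟩ := (orb_inv a b).exists_mul_isoM hχ h1
  have h2 : isoM Ω χ ≠ 0 := fun e => irr_one_ne_zero hχ (by rw [← trace_isoM hχ h1, e, trace_zero])
  obtain ⟨n, rfl⟩ := int_of_fixed (isIntegral_of_mul_eq (isIntegral_orb a b) hθ h2) fun σ => by
    refine (smul_left_injective ℂ h2 (ext fun u v => ?_)).symm
    have h3 : ∀ u v, σ (isoM Ω χ u v) = isoM Ω χ u v := fun u v => by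
      simp [isoM_apply, apply_ite σ, show ∀ g, σ (χ g) = χ g from hfix σ]
    have h4 := congrFun (congrFun hθ u) v
    have h5 := congrArg σ h4
    have h6 : ∀ u v, σ (orb G a b u v) = orb G a b u v := fun u v => by
      rcases orb_cases (G := G) a b u v with e | e <;> simp [e.1]
    simp only [mul_apply, Matrix.smul_apply, smul_eq_mul, map_sum, map_mul, h3, h6] at h4 h5 ⊢
    exact h4.symm.trans h5
  exact ⟨n, hθ⟩

theorem twoP_core (hprim : IsPreprimitive G Ω) {P : Type*} [CommGroup P] [Fintype P]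
    [DecidableEq P] {φ : P →* G} {a : Fin 2 → Ω}
    (h : Function.Bijective fun q : Fin 2 × P => φ q.2 • a q.1) {p : ℕ} (hp : p.Prime)
    (hP : Fintype.card P = p) (hχ : IsIrrCharacter G χ) (h1 : classInner (pc G Ω) χ = 1)
    (hne : χ ≠ fun _ => 1) (hfix : ∀ (σ : ℂ →+* ℂ) g, σ (χ g) = χ g)
    (hx : ∀ y, χ (φ y) = if y = 1 then (p : ℂ) else 0) (a₀ : Ω) :
    Nat.card (orbitRel.Quotient (stabilizer G a₀) Ω) = 3 ∧ ∃ t : ℕ, 0 < t ∧
      p = 2 * t ^ 2 + 2 * t + 1 ∧ ∀ b : Ω, b ≠ a₀ →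
        Nat.card (orbit (stabilizer G a₀) b) = t * (2 * t + 1) ∨
        Nat.card (orbit (stabilizer G a₀) b) = (t + 1) * (2 * t + 1) := by
  have hE := isoM_inv (Ω := Ω) hχ
  have hs := isoM_symm (Ω := Ω) hχ hfix
  have hEE := isoM_mul (Ω := Ω) hχ
  have hc := fun {M : Matrix Ω Ω ℂ} (h : Inv G M) => h.comm_isoM χ
  have hθ := fun {M : Matrix Ω Ω ℂ} (h : Inv G M) => h.exists_mul_isoM hχ h1
  have hθ' := exists_int_orb_mul hχ h1 hfix
  have hJ := fun b : Ω => sum_isoM_col χ b
  have hτ := fun y => sum_isoM (Ω := Ω) hχ (φ y)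
  simp only [sum_irr_eq_zero hχ hne, mul_zero, h1, one_mul, hx] at hJ hτ
  generalize isoM Ω χ = E at *
  have hs' : ∀ u v, E v u = E u v := fun u v => congrFun (congrFun hs u) v
  have hn : Nat.card Ω = 2 * p := by simp [← Fintype.card_of_bijective h, hP]
  have hp0 : (p : ℂ) ≠ 0 := by exact_mod_cast hp.ne_zero
  have hf : ∀ y i, y ≠ 1 → φ y • a i ≠ a i := fun y i hy e =>
    hy (congrArg Prod.snd (h.1 (a₁ := (i, y)) (a₂ := (i, 1)) (by simpa using e)))
  replace hτ : ∀ y, E (a 0) (φ y • a 0) + E (a 1) (φ y • a 1) = if y = 1 then 1 else 0 := fun y => by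
    have h2 := hτ y
    rw [← h.sum_comp] at h2
    simp only [← mul_smul, ← map_mul, mul_comm y] at h2
    simp only [map_mul, mul_smul, hE _, Fintype.sum_prod_type, Finset.sum_const, Finset.card_univ,
      hP, Fin.sum_univ_two, nsmul_eq_mul, ← mul_add] at h2
    exact mul_left_cancel₀ hp0 (h2.trans (by simp))
  have hd : ∀ u, E u u = 1 / 2 := fun u => by
    have h2 : ∀ v, E v v = E u u := fun v => by
      obtain ⟨g, rfl⟩ := exists_smul_eq G u v
      exact hE _ _ _
    have h3 := hτ 1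
    simp only [map_one, one_smul, h2, if_true] at h3
    linear_combination h3 / 2
  have ht : (hat φ a E).trace = 1 := by
    ext y
    simp [coeff_trace_hat, hτ, MonoidAlgebra.one_def, Finsupp.single_apply, eq_comm]
  have K : ∀ u v, v ≠ u → E u v ≠ 0 → ∃ θ : ℤ, (Nat.card (orbit (stabilizer G u) v) : ℤ) =
      2 * θ ^ 2 + θ ∧ E u v * (2 * (2 * θ + 1)) = 1 ∧
      ∃ y i, y ≠ 1 ∧ E (a i) (φ y • a i) = -E u v := fun u v huv h0 => by
    obtain ⟨θ, h2⟩ := hθ' u v
    have hN := (orb_inv (G := G) u v).sub (Inv.one.smul (θ : ℂ))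
    have h3 : (orb G u v - (θ : ℂ) • 1) * E = 0 := by simp [sub_mul, h2]
    have h4 := sum_mul_eq h hE hN hN.transpose ht (hc hN ▸ h3) h3
      (by rw [← hs, ← transpose_mul, h3, transpose_zero])
    have h5 := sum_mul_eq (N' := of fun _ _ => 1) h hE hN (fun _ _ _ => rfl) ht (hc hN ▸ h3) h3
      (ext fun u v => by simpa [mul_apply, hs'] using hJ u)
    have h6 := congrFun (congrFun h2 u) u
    obtain ⟨T, hT⟩ : ∃ T : P → ℂ, ∀ y, T y = ∑ i, orb G u v (a i) (φ y • a i) := ⟨_, fun _ => rfl⟩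
    have h7 : ∀ y, ∑ i, (orb G u v - (θ : ℂ) • 1) (a i) (φ y • a i) =
        T y - if y = 1 then 2 * (θ : ℂ) else 0 := fun y => by
      by_cases hy : y = 1
      · simp [hT, hy, two_mul, Finset.sum_sub_distrib]
      · simp [hT, hy, one_apply_ne (hf y _ hy).symm]
    have h8 : T 1 = 0 := by simp [hT, orb_self huv]
    have h9 : ∀ y, T y * T y = T y := fun y => by
      by_cases hy : y = 1
      · simp [hy, h8]
      have h9 := hτ y
      rw [hT, Fin.sum_univ_two]
      rcases orb_cases (G := G) u v (a 0) (φ y • a 0) with e | ⟨e, g, e1, e2⟩ <;>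
        rcases orb_cases (G := G) u v (a 1) (φ y • a 1) with f | ⟨f, g', f1, f2⟩
      · simp [e.1, f.1]
      · simp [e.1, f]
      · simp [e, f.1]
      · rw [← e2, ← f2, ← e1, ← f1, hE, hE, if_neg hy] at h9
        exact absurd (by linear_combination h9 / 2) h0
    have h10 : ∀ w x, (orb G u v - (θ : ℂ) • 1) w x * (orb G u v - (θ : ℂ) • 1) w x =
        orb G u v w x + if w = x then (θ : ℂ) ^ 2 else 0 := fun w x => by
      by_cases e : w = x <;> simp [e, orb_self huv, orb_mul_self, sq]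
    have h11 : ∀ y, (T y - if y = 1 then 2 * (θ : ℂ) else 0) * (T y - if y = 1 then 2 * (θ : ℂ) else 0)
        = T y + if y = 1 then 4 * (θ : ℂ) ^ 2 else 0 := fun y => by
      by_cases e : y = 1
      · simp [e, h8]; ring
      · simp [e, h9]
    simp only [transpose_apply, h7, mul_apply, h10, h11, Finset.sum_add_distrib, sum_orb] at h4
    simp only [h7, mul_apply, of_apply, ← Finset.sum_mul, Finset.sum_sub_distrib] at h5
    simp only [mul_apply, hs' u, hE.orb_mul, ← Finset.sum_mul, sum_orb, Matrix.smul_apply, hd] at h6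
    simp [sum_orb, one_apply, -Nat.card_coe_set_eq] at h4 h5 h6
    set k := Nat.card (orbit (stabilizer G u) v)
    have hk : k ≠ 0 := Nat.card_ne_zero.2 ⟨⟨⟨v, mem_orbit_self v⟩⟩, inferInstance⟩
    have h12 : (k : ℤ) = 2 * θ ^ 2 + θ := by
      have : (k : ℂ) = 2 * θ ^ 2 + θ := by linear_combination h4 - h5 / 2
      exact_mod_cast this
    have h13 : (k : ℂ) = 2 * θ ^ 2 + θ := by exact_mod_cast h12
    have h14 : θ ≠ 0 := by rintro rfl; omega
    refine ⟨θ, h12, mul_left_cancel₀ (Int.cast_ne_zero.2 h14) (by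
      linear_combination 2 * h6 - 2 * E u v * h13), ?_⟩
    obtain ⟨y, -, hy⟩ := Finset.exists_ne_zero_of_sum_ne_zero (s := .univ) (f := T) fun e => by
      have h15 : ((θ * (θ + 1) : ℤ) : ℂ) = 0 := by push_cast; linear_combination e / 2 + h5 / 4 - h13 / 2
      have h16 : θ = -1 := by
        have := (mul_eq_zero.1 (Int.cast_eq_zero.1 h15)).resolve_left h14
        omega
      refine Nat.not_prime_mul (by simp) hp.ne_one (hn ▸ prime_of_subdegree_one hprim huv ?_)
      rw [h16] at h12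
      omega
    have hy1 : y ≠ 1 := fun e => hy (e ▸ h8)
    have h15 := hτ y
    rw [if_neg hy1] at h15
    rcases orb_cases (G := G) u v (a 0) (φ y • a 0) with e | ⟨-, g, e1, e2⟩
    · rcases orb_cases (G := G) u v (a 1) (φ y • a 1) with f | ⟨-, g, f1, f2⟩
      · simp [hT, e.1, f.1] at hy
      · exact ⟨y, 0, hy1, by rw [← hE g u, f1, f2]; linear_combination h15⟩
    · exact ⟨y, 1, hy1, by rw [← hE g u, e1, e2]; linear_combination h15⟩
  have hsq : ∑ x, E a₀ x ^ 2 = 1 / 2 := by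
    simpa [mul_apply, hs' a₀, hd, sq] using congrFun (congrFun hEE a₀) a₀
  obtain ⟨b₀, hb₀, hb₀'⟩ : ∃ b, b ≠ a₀ ∧ E a₀ b ≠ 0 := by
    by_contra! e
    rw [Finset.sum_eq_single a₀ (fun b _ hb => by simp [e b hb]) (by simp), hd] at hsq
    norm_num at hsq
  have Z : ∀ u v, E u v ≠ 0 := by
    have hB : Inv G (of fun u v => if E u v = 0 then (1 : ℂ) else 0) := fun g u v => by simp [hE g]
    obtain ⟨θ, h2⟩ := hθ hB
    have h3 := congrFun (congrFun h2 a₀) a₀
    rw [mul_apply, Finset.sum_eq_zero fun x _ => by simp [hs' a₀]] at h3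
    obtain rfl : θ = 0 := by simpa [hd] using h3
    rw [zero_smul] at h2
    have h4 := eq_trace_smul ht (by rw [← hat_mul h _ hB, ← hc hB, h2, hat_zero])
      (by rw [← hat_mul h _ hE, h2, hat_zero])
    generalize hC : hat φ a (of fun u v => if E u v = 0 then (1 : ℂ) else 0) = C at h4
    have h5 : C 1 1 = C 0 0 := by
      ext y
      by_cases hy : y = 1
      · simp [← hC, hat, hy, hd]
      · simp [← hC, hat, eq_neg_of_add_eq_zero_left ((hτ y).trans (if_neg hy))]
    have h6 := congrFun (congrFun h4 0) 0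
    simp only [trace_fin_two, h5, Matrix.smul_apply, Matrix.sub_apply, one_apply_eq,
      smul_eq_mul] at h6 ht
    obtain ⟨-, -, -, y, i, hy, h7⟩ := K _ _ hb₀ hb₀'
    have h8 : p ∣ (Finset.univ.filter fun y => E (a 0) (φ y • a 0) = 0).card := by_contra fun e => by
      have h8 := eq_zero_of_ind_mul (C := C 0 0) (D := hat φ a E 0 0 - hat φ a E 1 1) hp
        (fun y => hP ▸ pow_card_eq_one) e (fun y => by simp [← hC, hat])
        (by linear_combination h6 - C 0 0 * ht) y
      have h9 := (hτ y).trans (if_neg hy)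
      simp only [hat, of_apply, MonoidAlgebra.coeff_sub, Finsupp.sub_apply, coeff_ofFun] at h8
      refine hb₀' ?_
      fin_cases i <;> simp only [Fin.zero_eta, Fin.mk_one] at h7
      · linear_combination h7 - h8 / 2 - h9 / 2
      · linear_combination h7 + h8 / 2 - h9 / 2
    have h9 := Nat.eq_zero_of_dvd_of_lt h8 (hP ▸ Finset.card_lt_univ_of_notMem (x := 1) (by simp [hd]))
    have h10 : C 0 0 = 0 := by
      ext y
      simpa [← hC, hat] using Finset.filter_eq_empty_iff.1 (Finset.card_eq_zero.1 h9) (Finset.mem_univ y)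
    rw [trace_fin_two, h5, h10, add_zero, zero_smul] at h4
    intro u v
    obtain ⟨g, rfl⟩ := exists_smul_eq G (a 0) u
    obtain ⟨⟨j, z⟩, e⟩ := h.2 (g⁻¹ • v)
    have h11 := congrArg (fun M => (M 0 j).coeff z) (hC.trans h4)
    rw [← smul_inv_smul g v, hE]
    simpa [hat, show φ z • a j = _ from e] using h11
  obtain ⟨b, b', θ, h2, hb, hb', h3, h4, h5, h6⟩ : ∃ (b b' : Ω) (θ : ℤ), 0 ≤ θ ∧ b ≠ a₀ ∧ b' ≠ a₀ ∧
      (Nat.card (orbit (stabilizer G a₀) b) : ℤ) = θ * (2 * θ + 1) ∧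
      (Nat.card (orbit (stabilizer G a₀) b') : ℤ) = (θ + 1) * (2 * θ + 1) ∧
      E a₀ b * (2 * (2 * θ + 1)) = 1 ∧ E a₀ b' = -E a₀ b := by
    obtain ⟨θ, h2, h3, y, i, hy, h4⟩ := K _ _ hb₀ hb₀'
    obtain ⟨g, rfl⟩ := exists_smul_eq G (a i) a₀
    have h5 : g • φ y • a i ≠ g • a i := fun e => hf y i hy (MulAction.injective g e)
    rw [← hE g] at h4
    obtain ⟨θ', h6, h7, -⟩ := K _ _ h5 (Z _ _)
    obtain rfl : θ' = -1 - θ := by
      have : (θ' : ℂ) = -1 - θ := mul_left_cancel₀ hb₀' (by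
        rw [h4] at h7; linear_combination h3 / 4 - h7 / 4)
      exact_mod_cast this
    rcases le_or_gt 0 θ with h8 | h8
    · exact ⟨_, _, θ, h8, hb₀, h5, by rw [h2]; ring, by rw [h6]; ring, h3, h4⟩
    · exact ⟨_, _, -1 - θ, by omega, h5, hb₀, by rw [h6]; ring, by rw [h2]; ring, h7, by rw [h4]; ring⟩
  lift θ to ℕ using h2 with t
  norm_cast at h3 h4
  have h7 : ∀ c, (orb G a₀ b a₀ c = 0 ∨ orb G a₀ b' a₀ c = 0) := fun c => by
    rcases orb_cases (G := G) a₀ b a₀ c with e | ⟨-, g, e1, e2⟩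
    · exact .inl e.1
    rcases orb_cases (G := G) a₀ b' a₀ c with f | ⟨-, g', f1, f2⟩
    · exact .inr f.1
    have h7 := (hE g a₀ b).symm.trans ((congrArg₂ E (e1.trans f1.symm) (e2.trans f2.symm)).trans
      (hE g' a₀ b'))
    exact absurd (by linear_combination h7 / 2 + h6 / 2) (Z a₀ b)
  have h8 := (Finset.sum_eq_zero_iff_of_nonneg (s := .univ) (f := fun c =>
    (1 - (if c = a₀ then 1 else 0) - orb G a₀ b a₀ c - orb G a₀ b' a₀ c) * E a₀ c ^ 2) fun c _ => by
      by_cases hc : c = a₀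
      · simp [hc, orb_self hb, orb_self hb']
      obtain ⟨θ, -, e, -⟩ := K _ _ hc (Z _ _)
      refine mul_nonneg ?_ (by
        have := Complex.zero_le_real.2 (sq_nonneg (2 * (2 * θ + 1) : ℝ)⁻¹)
        push_cast at this
        rwa [eq_inv_of_mul_eq_one_left e])
      rcases h7 c with e | e
      · rcases orb_cases (G := G) a₀ b' a₀ c with f | f <;> simp [hc, e, f.1]
      · rcases orb_cases (G := G) a₀ b a₀ c with f | f <;> simp [hc, e, f.1]).1 (by
    have hE2 : Inv G (of fun u v => E u v ^ 2) := fun g u v => by simp [hE g]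
    have h8 := hE2.orb_mul a₀ b a₀
    have h9 := hE2.orb_mul a₀ b' a₀
    simp only [of_apply] at h8 h9
    simp only [sub_mul, Finset.sum_sub_distrib, h8, h9, ← Finset.sum_mul, sum_orb, h3, h4, h6, one_mul,
      hsq]
    simp [hd]
    push_cast at h5
    linear_combination (-(E a₀ b * (2 * (2 * t + 1)) + 1) / 4) * h5)
  simp only [Finset.mem_univ, mul_eq_zero, pow_eq_zero_iff two_ne_zero, Z, or_false,
    forall_const] at h8
  have h9 := Finset.sum_congr (s₁ := .univ) rfl fun c _ => h8 c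
  simp only [Finset.sum_sub_distrib, sum_orb, h3, h4] at h9
  simp [← Nat.card_eq_fintype_card, hn] at h9
  have h10 : ∀ c, c ≠ a₀ → c ∈ orbit (stabilizer G a₀) b ∨ c ∈ orbit (stabilizer G a₀) b' :=
    fun c hc => by
      rcases orb_cases (G := G) a₀ b a₀ c with e | ⟨-, e⟩
      · rcases orb_cases (G := G) a₀ b' a₀ c with f | ⟨-, f⟩
        · simpa [hc, e.1, f.1] using h8 c
        · exact .inr (mem_orbit_stab.2 f)
      · exact .inl (mem_orbit_stab.2 e)
  have h11 : ∀ c, c ≠ a₀ → Quotient.mk (orbitRel (stabilizer G a₀) Ω) a₀ ≠ Quotient.mk _ c :=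
    fun c hc e => by
      obtain ⟨g, rfl⟩ := Quotient.exact e.symm
      exact hc g.2
  refine ⟨?_, t, Nat.pos_of_ne_zero ?_, ?_, fun c hc => (h10 c hc).imp (fun e => ?_) fun e => ?_⟩
  · rw [← Set.ncard_univ, Set.ncard_eq_three]
    refine ⟨_, _, _, h11 b hb, h11 b' hb', fun e => ?_, (Set.eq_univ_of_forall ?_).symm⟩
    · rw [orbit_eq_iff.2 (Quotient.exact e), h4] at h3
      simp at h3
    · rintro ⟨c⟩
      by_cases hc : c = a₀
      · exact .inl (hc ▸ rfl)
      · exact .inr ((h10 c hc).imp Quotient.sound Quotient.sound)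
  · rintro rfl
    exact (Nat.card_ne_zero (α := orbit _ b)).2 ⟨⟨⟨b, mem_orbit_self b⟩⟩, inferInstance⟩ h3
  · have : (p : ℂ) = 2 * t ^ 2 + 2 * t + 1 := by linear_combination h9 / 2
    exact_mod_cast this
  · rw [orbit_eq_iff.2 e, h3]
  · rw [orbit_eq_iff.2 e, h4]

theorem twoP (hprim : IsPreprimitive G Ω) {P : Type*} [CommGroup P] [Fintype P] (φ : P →* G)
    {p : ℕ} (hp : p.Prime) (hP : Fintype.card P = p) (hn : Fintype.card Ω = 2 * p)
    (hf : ∀ y, y ≠ 1 → ∀ w : Ω, φ y • w ≠ w) (a₀ : Ω) : IsMultiplyPretransitive G Ω 2 ∨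
    Nat.card (orbitRel.Quotient (stabilizer G a₀) Ω) = 3 ∧ ∃ t : ℕ, 0 < t ∧
      p = 2 * t ^ 2 + 2 * t + 1 ∧ ∀ b : Ω, b ≠ a₀ →
        Nat.card (orbit (stabilizer G a₀) b) = t * (2 * t + 1) ∨
        Nat.card (orbit (stabilizer G a₀) b) = (t + 1) * (2 * t + 1) := by
  classical
  have := Fact.mk hp
  have h2 := hp.two_le
  have : Nontrivial Ω := Fintype.one_lt_card_iff_nontrivial.1 (by omega)
  have hp0 : (p : ℂ) ≠ 0 := by exact_mod_cast hp.ne_zero
  have hP' : Nat.card P = p := by simpa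
  obtain ⟨a₁, ha⟩ : ∃ a₁, ∀ y, φ y • a₀ ≠ a₁ := by
    by_contra! e
    have := Fintype.card_le_of_surjective (fun y => φ y • a₀) e
    omega
  have h : Function.Bijective fun q : Fin 2 × P => φ q.2 • ![a₀, a₁] q.1 := by
    refine (Fintype.bijective_iff_injective_and_card _).2 ⟨fun ⟨i, y⟩ ⟨j, z⟩ e => ?_, by simp [hP, hn]⟩
    have e1 : φ (z⁻¹ * y) • ![a₀, a₁] i = ![a₀, a₁] j := by simpa [mul_smul, inv_smul_eq_iff] using e
    obtain rfl : i = j := by
      fin_cases i <;> fin_cases j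
      exacts [rfl, (ha _ e1).elim, (ha (z⁻¹ * y)⁻¹ (by rw [map_inv, inv_smul_eq_iff]; exact e1.symm)).elim,
        rfl]
    rw [inv_mul_eq_one.1 (by_contra fun e => hf _ e _ e1)]
  have hπ := char_fixedBy (G := G) Ω
  have hπ1 : pc G Ω 1 = 2 * p := by simp [pc, hn]
  choose m hm using fun χ : IrrCharacter G => inner_char_eq_nat hπ (irr_isCharacter χ.2)
  choose c hc using fun χ : IrrCharacter G =>
    inner_char_eq_nat (char_comp (irr_isCharacter χ.2) φ) (irr_isCharacter irr_one)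
  have h3 : m (oneIrr G) = 1 := by
    exact_mod_cast (hm (oneIrr G)).symm.trans (inner_fixedBy_one_of_pretransitive Ω)
  have h4 : c (oneIrr G) = 1 := by exact_mod_cast (hc (oneIrr G)).symm.trans inner_one_one
  have hc' : ∀ χ : IrrCharacter G, ∑ y, χ.1 (φ y) = p * c χ := fun χ => by
    rw [← hc, inner_one_right, hP', mul_inv_cancel_left₀ hp0]
  have h5 : ∑ χ ∈ Finset.univ.erase (oneIrr G), m χ * c χ = 1 := by
    have h5 : ∑ y, pc G Ω (φ y) = 2 * p := by
      rw [Finset.sum_eq_single 1 (fun y _ hy => ?_) (by simp), map_one, hπ1]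
      simp [pc, Set.eq_empty_of_forall_notMem (s := fixedBy Ω (φ y)) (hf y hy)]
    rw [Finset.sum_congr rfl fun y _ => classFun_apply_eq_sum (char_isClassFunction hπ) (φ y),
      Finset.sum_comm, ← Finset.add_sum_erase _ _ (Finset.mem_univ (oneIrr G))] at h5
    simp only [← Finset.mul_sum, hm, hc', h3, h4, mul_left_comm _ (p : ℂ)] at h5
    exact_mod_cast mul_left_cancel₀ hp0 (show (p : ℂ) * ∑ χ ∈ Finset.univ.erase (oneIrr G),
      (m χ * c χ : ℂ) = p * 1 by push_cast at h5; linear_combination h5)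
  obtain ⟨χ, h6, h7⟩ := Finset.exists_ne_zero_of_sum_ne_zero (h5 ▸ one_ne_zero)
  have h8 := Finset.single_le_sum (f := fun χ => m χ * c χ) (fun _ _ => Nat.zero_le _) h6
  obtain ⟨h9, h10⟩ := mul_eq_one.1 (show m χ * c χ = 1 by omega)
  have hne : χ.1 ≠ fun _ => 1 := fun e => Finset.ne_of_mem_erase h6 (Subtype.ext e)
  have h1 : classInner (pc G Ω) χ.1 = 1 := by rw [hm, h9, Nat.cast_one]
  have hfix : ∀ (σ : ℂ →+* ℂ) g, σ (χ.1 g) = χ.1 g := fun σ => by
    let ψ : IrrCharacter G := ⟨_, irr_map χ.2 σ⟩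
    have h11 : m ψ = 1 := by
      have := inner_map_gen (gen_of_char hπ) (gen_of_irr χ.2) σ
      simp only [map_natCast] at this
      exact_mod_cast (hm ψ).symm.trans (this.trans h1)
    have h12 : c ψ = 1 := by
      have := congrArg σ (hc' χ)
      rw [map_sum, h10, map_mul, map_natCast, map_natCast] at this
      exact_mod_cast mul_left_cancel₀ hp0 ((hc' ψ).symm.trans this)
    refine congrFun (congrArg Subtype.val (by_contra fun e : ψ ≠ χ => ?_))
    have h13 := Finset.sum_le_sum_of_subset (f := fun χ => m χ * c χ) (show {ψ, χ} ⊆ Finset.univ.erase (oneIrr G) from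
      Finset.insert_subset (Finset.mem_erase.2 ⟨fun e => hne (funext fun g => σ.injective
        ((congrFun (congrArg Subtype.val e) g).trans (map_one σ).symm)), Finset.mem_univ _⟩)
        (Finset.singleton_subset_iff.2 h6))
    simp [Finset.sum_pair e, h5, h9, h10, h11, h12] at h13
  have : Nontrivial P := Fintype.one_lt_card_iff_nontrivial.1 (by omega)
  obtain ⟨x, hx⟩ := exists_ne (1 : P)
  obtain ⟨t, ht⟩ := int_of_fixed (gen_isIntegral (gen_of_irr χ.2) (φ x)) fun σ => hfix σ _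
  have h11 : ∀ y, y ≠ 1 → χ.1 (φ y) = t := fun y hy => by
    obtain ⟨k, rfl⟩ := mem_powers_of_prime_card hP' hx (g' := y)
    obtain ⟨σ, hσ⟩ := exists_aut_gen_pow (φ x) (m := k) (((Nat.coprime_comm.1
      (hp.coprime_iff_not_dvd.2 fun e => hy (orderOf_dvd_iff_pow_eq_one.1
        ((hP' ▸ orderOf_dvd_natCard x).trans e)))).coprime_dvd_right
      ((orderOf_map_dvd φ x).trans (hP' ▸ orderOf_dvd_natCard x))))
    rw [map_pow, ← hσ _ (gen_of_irr χ.2), ht, map_intCast]
  obtain ⟨n, hn0, hn1⟩ := irr_one_eq_nat χ.2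
  have hψ := char_sub_of_inner_ne_zero (char_fixedBy_sub_one (G := G) Ω) χ.2 (by
    rw [show (fun g => pc G Ω g - 1) = pc G Ω - fun _ => 1 from rfl, Char.inner_sub_left, h1,
      inner_irr_ne irr_one χ.2 hne.symm]; simp)
  obtain ⟨r, hr⟩ := char_one_eq_nat hψ
  have h12 : n + r + 1 = 2 * p := by
    have : (n + r + 1 : ℂ) = 2 * p := by
      rw [← hn1, ← hr, ← hπ1]; simp
    exact_mod_cast this
  have h13 : (n : ℤ) + (p - 1) * t = p := by
    have h13 := hc' χ
    rw [← Finset.add_sum_erase _ _ (Finset.mem_univ 1), Finset.sum_congr rfl fun y hy =>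
      h11 y (Finset.ne_of_mem_erase hy), map_one, hn1, h10] at h13
    simp [hP, hp.one_le] at h13
    exact_mod_cast h13
  obtain rfl | rfl | rfl : t = 1 ∨ t = -1 ∨ t = 0 := by
    have : t < 2 := by nlinarith
    have : -2 < t := by nlinarith
    omega
  · obtain rfl : n = 1 := by omega
    have := charKer_normal (irr_isClassFunction χ.2)
    have := normal_isPretransitive_of_prim hprim (charKer χ.1) ((mem_charKer_iff
      (irr_isCharacter χ.2)).2 (ht.trans (by simp [hn1]))) (hf x hx a₀)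
    obtain ⟨s, hs⟩ := inner_char_eq_nat (char_restrict hψ (charKer χ.1)) (irr_isCharacter irr_one)
    rw [show (fun x : charKer χ.1 => ((fun g => pc G Ω g - 1) - χ.1) x) =
      pc (charKer χ.1) Ω - (fun _ => 1) - fun _ => 1 from funext fun x => by
        simp [(mem_charKer_iff (irr_isCharacter χ.2)).1 x.2, hn1]; rfl, Char.inner_sub_left, Char.inner_sub_left,
      inner_one_one, inner_fixedBy_one_of_pretransitive] at hs
    norm_cast at hs
  · obtain rfl : r = 0 := by omega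
    exact .inl ((irr_fixedBy_sub_one_iff Ω).1
      (sub_eq_zero.1 (char_eq_zero_of_one_eq_zero hψ (by simpa using hr)) ▸ χ.2))
  · refine .inr (twoP_core hprim h hp hP χ.2 h1 hne hfix (fun y => ?_) a₀)
    split_ifs with hy
    · rw [hy, map_one, hn1, show n = p by omega]
    · simpa using h11 y hy

end CF.Perm
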