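import Cfsg.Agent.Perm.Sims3

/-! Sims' sequence of involutions for a primitive group with a suborbit of length three. -/

namespace CF.Perm.Wg

open Subgroup MulAction
open scoped Pointwise

variable {G : Type*} [Group G] [Finite G]

/-- the point stabiliser `A` is generated by `t + 1` consecutive conjugates of an involution -/
structure Sm' (A : Subgroup G) (σ : MulAut G) (x : ℤ → G) (t : ℕ) : Prop where
  mx : MaxCF A
  sq : Sq σ x 2 t
  pos : 1 ≤ t
  eq : seg x 1 (t + 1) = A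
  card : Nat.card A = 2 ^ t * 3
  ne : x 0 ∉ A
  cube : (x 1 * x (t + 1)) ^ 3 ∈ seg x 2 t
  cases : t = 1 ∨ (t = 2 ∧ Commute (x 1) (x 2)) ∨ (t = 3 ∧ Sh A (x 1) (x 2) 1 (x t) (x (t + 1))) ∨
    t = 4 ∧ Sh A (x 1) (x 2) (x 3) (x t) (x (t + 1))

/-- the same for an inner shift -/
abbrev Sm (A : Subgroup G) (g : G) := Sm' A (MulAut.conj g)

omit [Finite G] in
theorem sm_iff {A : Subgroup G} {g : G} : (∃ x t, Sm A g x t) ↔ ∃ x t, Sm' A (MulAut.conj g) x t := .rfl

theorem exists_sm {Ω : Type*} [MulAction G Ω] [FaithfulSMul G Ω] [IsPreprimitive G Ω] {a b : Ω}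
    (h3 : Nat.card (orbit (stabilizer G a) b) = 3) :
    MaxCF (stabilizer G a) ∧ Nat.card (stabilizer G a) = 3 ∨ ∃ g x t, Sm (stabilizer G a) g x t := by
  have : Nontrivial Ω := by
    have := Nat.finite_of_card_ne_zero (h3.trans_ne three_ne_zero)
    have := Finite.one_lt_card_iff_nontrivial.1 (h3.ge.trans_lt' (by norm_num))
    exact Subtype.val_injective.nontrivial (α := orbit (stabilizer G a) b)
  have hA := maxCF_stabilizer (G := G) a
  have h1 : (stabilizer G a ⊓ stabilizer G b).relIndex (stabilizer G a) = 3 :=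
    (inf_relIndex_left _ _).trans ((index_stabilizer (stabilizer G a) b).trans h3)
  obtain ⟨g, hg⟩ := exists_smul_eq G b a
  have h2 : ∀ h ∈ stabilizer G a, MulAut.conj (h * g) • stabilizer G b = stabilizer G a := fun h hh =>
    (stabilizer_smul_eq_stabilizer_map_conj _ b).symm.trans (by rw [mul_smul, hg, hh])
  generalize stabilizer G a = A, stabilizer G b = B at *
  have h4 : (A ⊓ B).relIndex B = 3 := Nat.eq_of_mul_eq_mul_left Nat.card_pos (by
    rw [CF.Fgs1.card_mul_relIndex inf_le_right, ← h1, CF.Fgs1.card_mul_relIndex inf_le_left,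
      ← h2 1 (one_mem _), card_smul])
  have h5 : ∀ R ≤ A, A ≤ normalizer (R : Set G) → B ≤ normalizer (R : Set G) → R = ⊥ :=
    fun R r1 r2 r3 => by_contra fun e => by
      rw [hA.normalizer_eq r2 r1 e] at r3
      simp [inf_eq_right.2 r3] at h4
  have h6 := h5 _ (((closure_le _).2 fun _ h => h.1).trans inf_le_left)
    (le_normalizer_odd inf_le_left h1) (le_normalizer_odd inf_le_right h4)
  have h7 : ∀ y ∈ A ⊓ B, Odd (orderOf y) → y = 1 := fun y h h' => h6.le (Subgroup.subset_closure ⟨h, h'⟩)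
  have hP : IsPGroup 2 (A ⊓ B :) := fun g => ⟨(orderOf (g : G)).factorization 2,
    Subtype.ext (h7 _ (pow_mem g.2 _) (by
      rw [coe_pow, orderOf_pow_of_dvd (pow_pos two_pos _).ne' (Nat.ordProj_dvd _ _)]
      exact Nat.coprime_two_left.1 (Nat.coprime_ordCompl Nat.prime_two (orderOf_pos _).ne')))⟩
  have hc := CF.Fgs1.card_mul_relIndex (inf_le_left (a := A) (b := B))
  rw [h1] at hc
  by_cases e : ∀ h ∈ A, MulAut.conj (h * g) • (A ⊓ B) = A ⊓ B
  · have h8 : MulAut.conj g • (A ⊓ B) = A ⊓ B := by simpa using e 1 (one_mem _)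
    have h9 : A ≤ normalizer ((A ⊓ B :) : Set G) := fun h hh =>
      CF.Sig.map_conj_eq_iff_mem_normalizer.1 (by
        have := e h hh; rwa [map_mul, mul_smul, h8] at this)
    rw [h5 _ inf_le_left h9 (by
      have := smul_le_normalizer (σ := (MulAut.conj g)⁻¹) h9
      rwa [inv_smul_eq_iff.2 h8.symm, inv_smul_eq_iff.2 (by simpa using (h2 1 (one_mem _)).symm)] at this),
      card_bot] at hc
    exact .inl ⟨hA, hc.symm⟩
  obtain ⟨h, hh, e⟩ := by simpa only [not_forall, exists_prop] using e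
  replace h2 := h2 h hh
  refine .inr ⟨h * g, ?_⟩
  rw [sm_iff]
  generalize MulAut.conj (h * g) = σ at e h2 ⊢
  have h8 : σ • (A ⊓ B) ≤ A := h2 ▸ pointwise_smul_le_pointwise_smul_iff.2 inf_le_right
  have h9 : ¬ σ • (A ⊓ B) ≤ A ⊓ B := fun e' => e (eq_of_le_of_card_ge e' (card_smul _).ge)
  obtain ⟨w, w1, w2⟩ := SetLike.not_le_iff_exists.1 h9
  have h10 : ∀ S, A ⊓ B ≤ S → σ • (A ⊓ B) ≤ S → A ≤ S := fun S s1 s2 =>
    le_of_relIndex_prime (h1 ▸ Nat.prime_three) s1 (s2 w1) (h8 w1) w2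
  obtain ⟨t, x, ht, h, hx⟩ := exists_sq (σ := σ) (P := A ⊓ B) (p := 2) (by
    rw [inf_relIndex_right]
    have h11 := relIndex_le_of_le_right (H := A ⊓ B) h8 (by omega)
    obtain ⟨k, hk⟩ : ∃ k, (A ⊓ B).relIndex (σ • (A ⊓ B)) = 2 ^ k :=
      (hP.map σ.toMonoidHom).index ((A ⊓ B).subgroupOf ((A ⊓ B).map σ.toMonoidHom))
    rcases k with _ | _ | k
    · exact (h9 (relIndex_eq_one.1 hk)).elim
    · exact hk
    · rw [h1, hk, pow_succ, pow_succ] at h11; have := Nat.two_pow_pos k; omega)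
    (by
      rintro _ ⟨y, hy, rfl⟩ h
      rw [h7 y hy (Nat.coprime_two_right.1 (σ.orderOf_eq y ▸ h))]; simp)
    fun R r1 r2 r3 => by
      have := h10 _ r2 (r3 ▸ smul_le_normalizer r2)
      refine h5 R (r1.trans inf_le_left) this ?_
      have := smul_le_normalizer (σ := σ⁻¹) this
      rwa [inv_smul_eq_iff.2 r3.symm, inv_smul_eq_iff.2 h2.symm] at this
  rw [hx, smul_seg h.shift] at h8 h10
  have h11 : seg x 1 (t + 1) = A := le_antisymm (seg_le.2 fun i _ _ => by
    by_cases e : i = 1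
    exacts [(hx.ge (mem_seg (by omega) (by omega))).1, h8 (mem_seg (by omega) (by omega))])
    (h10 _ (seg_mono le_rfl (by omega)) (seg_mono (by omega) le_rfl))
  have h12 : B = seg x 0 t := (smul_left_cancel_iff σ).1 (by rw [h2, smul_seg h.shift, zero_add, h11])
  have h13 := h.pow_mem_seg ht
  have h14 := h.two ht (fun R r1 r2 => h5 R (r1.trans (hx.ge.trans inf_le_left)) (h11.ge.trans
    ((seg_mono (by omega) le_rfl).trans r2)) (h12.le.trans ((seg_mono le_rfl (by omega)).trans r2)))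
    (by rw [h11, ← hx, h1]; decide)
  rw [h11, ← hx, h1] at h13
  rw [hx, h.card t le_rfl] at hc
  refine ⟨x, t, hA, h, ht, h11, hc.symm, fun e => ?_, h13, h11 ▸ h14⟩
  rw [inf_eq_right.2 (h12.le.trans (seg_le.2 fun i _ _ => by
    by_cases e' : i = 0
    exacts [e' ▸ e, h11.le (mem_seg (by omega) (by omega))]))] at h4
  simp at h4

end CF.Perm.Wg
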